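/-
Hm, chapter A: transvections in normal subgroups of the general linear group.
-/
import Mathlib

set_option autoImplicit false

namespace Cfsg.Agent.Hm

open Module Submodule

variable {k V : Type*} [Field k] [AddCommGroup V] [Module k V]

/-- `a` is the map `y ↦ y + l y • u`. -/
def Tv (a : V ≃ₗ[k] V) (l : Dual k V) (u : V) : Prop := ∀ y, a y = y + l y • u

/-- The map `y ↦ y + l y • u` lies in `A`. -/
def HasTv (A : Subgroup (V ≃ₗ[k] V)) (l : Dual k V) (u : V) : Prop := ∃ a ∈ A, Tv a l u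

theorem exists_tv (l : Dual k V) (u : V) (h : 1 + l u ≠ 0) : ∃ a : V ≃ₗ[k] V, Tv a l u :=
  ⟨LinearEquiv.dilatransvection (IsUnit.mk0 _ h), fun _ => LinearEquiv.dilatransvection.apply⟩

theorem exists_tv0 {l : Dual k V} {u : V} (h : l u = 0) : ∃ a : V ≃ₗ[k] V, Tv a l u :=
  exists_tv l u (by simp [h])

theorem exists_dual {p : Submodule k V} {v : V} (h : v ∉ p) :
    ∃ l : Dual k V, (∀ x ∈ p, l x = 0) ∧ l v = 1 := by
  obtain ⟨g, h1, h2⟩ := LinearMap.exists_extend_of_notMem (0 : p →ₗ[k] k) h 1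
  exact ⟨g, fun x hx => LinearMap.congr_fun h1 ⟨x, hx⟩, h2⟩

theorem exists_dual1 {u v : V} (h : v ∉ span k {u}) : ∃ l : Dual k V, l u = 0 ∧ l v = 1 :=
  (exists_dual h).imp fun _ a => ⟨a.1 u (subset_span rfl), a.2⟩

theorem exists_dual2 {u w v : V} (h : v ∉ span k {u, w}) :
    ∃ l : Dual k V, l u = 0 ∧ l w = 0 ∧ l v = 1 :=
  (exists_dual h).imp fun _ a =>
    ⟨a.1 u (subset_span (by simp)), a.1 w (subset_span (by simp)), a.2⟩

theorem notMem_span_of {l : Dual k V} {u x : V} (h1 : l u = 0) (h2 : l x = 1) (u0 : u ≠ 0) :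
    u ∉ span k {x} := fun h => by
  obtain ⟨c, rfl⟩ := mem_span_singleton.1 h
  rw [map_smul, h2, smul_eq_mul, mul_one] at h1
  exact u0 (by rw [h1, zero_smul])

theorem notMem_span_symm {u v : V} (h : v ∉ span k {u}) (u0 : u ≠ 0) : u ∉ span k {v} := by
  obtain ⟨l, h1, h2⟩ := exists_dual1 h
  exact notMem_span_of h1 h2 u0

theorem Tv.mul {a b : V ≃ₗ[k] V} {l : Dual k V} {u w : V} (ha : Tv a l u) (hb : Tv b l w)
    (h : l w = 0) : Tv (a * b) l (u + w) := fun y => by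
  rw [LinearEquiv.mul_apply, ha, hb, map_add, map_smul, h, smul_zero, add_zero, smul_add]
  abel

theorem Tv.inv {a : V ≃ₗ[k] V} {l : Dual k V} {u : V} (ha : Tv a l u) (h : l u = 0) :
    Tv a⁻¹ l (-u) := fun y => by
  rw [LinearEquiv.coe_inv, LinearEquiv.symm_apply_eq, ha]
  simp [h]

theorem Tv.conj {a : V ≃ₗ[k] V} {l l' : Dual k V} {u : V} (ha : Tv a l u) (γ : V ≃ₗ[k] V)
    (hl : ∀ y, l' (γ y) = l y) : Tv (γ * a * γ⁻¹) l' (γ u) := fun y => by
  obtain ⟨x, rfl⟩ := γ.surjective y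
  rw [LinearEquiv.mul_apply, LinearEquiv.mul_apply, LinearEquiv.coe_inv,
    LinearEquiv.symm_apply_apply, ha, map_add, map_smul, hl]

theorem Tv.ext {a b : V ≃ₗ[k] V} {l : Dual k V} {u : V} (ha : Tv a l u) (hb : Tv b l u) : a = b :=
  LinearEquiv.ext fun y => (ha y).trans (hb y).symm

theorem Tv.pow {a : V ≃ₗ[k] V} {l : Dual k V} {u : V} (ha : Tv a l u) (h : l u = 0) (n : ℕ) :
    Tv (a ^ n) l (n • u) := by
  induction n with
  | zero => intro y; simp
  | succ n ih => rw [pow_succ, succ_nsmul]; exact ih.mul ha h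

variable {A : Subgroup (V ≃ₗ[k] V)} (hN : A.Normal)
include hN

theorem HasTv.conj {l l' : Dual k V} {u : V} (h : HasTv A l u) (γ : V ≃ₗ[k] V)
    (hl : ∀ y, l' (γ y) = l y) : HasTv A l' (γ u) :=
  let ⟨a, ha, e⟩ := h
  ⟨_, hN.conj_mem a ha γ, e.conj γ hl⟩

theorem hasTv_comm {b : V ≃ₗ[k] V} (hb : b ∈ A) {l : Dual k V} {u : V} (h : l u = 0) {β : k}
    (hl : ∀ y, β * l (b y) = l y) : HasTv A l (β • b u - u) := by
  obtain ⟨τ, hτ⟩ := exists_tv0 h
  have h1 : Tv (b * τ * b⁻¹) l (β • b u) := fun y => by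
    rw [hτ.conj (l' := β • l) b (fun y => by simpa using hl y) y, LinearMap.smul_apply, smul_smul,
      smul_eq_mul, mul_comm]
  refine ⟨_, ?_, sub_eq_add_neg (β • b u) u ▸ h1.mul (hτ.inv h) (by simp [h])⟩
  rw [mul_assoc, mul_assoc, ← mul_assoc τ]
  exact mul_mem hb (hN.conj_mem _ (inv_mem hb) τ)

theorem exists_hasTv {a : V ≃ₗ[k] V} (ha : a ∈ A) {v x : V} (hv : a v ∉ span k {v})
    (hx : x ∉ span k {v, a v}) : ∃ (l : Dual k V) (u x : V), l u = 0 ∧ u ≠ 0 ∧ l x = 1 ∧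
      HasTv A l u := by
  obtain ⟨l, l1, l2, l3⟩ := exists_dual2 hx
  obtain ⟨τ, hτ⟩ := exists_tv0 l1
  have hb : a * τ * a⁻¹ * τ⁻¹ ∈ A := by
    rw [mul_assoc, mul_assoc, ← mul_assoc τ]
    exact mul_mem ha (hN.conj_mem _ (inv_mem ha) τ)
  have e : ∀ y, ∃ c : k, (a * τ * a⁻¹ * τ⁻¹) y = y + l y • -v + c • a v := fun y =>
    ⟨_, by rw [LinearEquiv.mul_apply, hτ.inv l1 y,
      hτ.conj (l' := l ∘ₗ a.symm.toLinearMap) a (by simp)]⟩
  generalize a * τ * a⁻¹ * τ⁻¹ = b at hb e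
  have e1 : ∀ y, l (b y) = l y := fun y => by
    obtain ⟨c, e⟩ := e y
    simp [e, l1, l2]
  by_cases c : ∃ w, l w = 0 ∧ b w ≠ w
  · obtain ⟨w, w1, w2⟩ := c
    exact ⟨l, _, x, by simp [e1], by simpa [sub_eq_zero] using w2, l3,
      hasTv_comm hN hb w1 (β := 1) (by simpa using e1)⟩
  · push Not at c
    refine ⟨l, b x - x, x, by simp [e1], fun h0 => ?_, l3, b, hb, fun y => ?_⟩
    · obtain ⟨c, e⟩ := e x
      rw [e, l3, one_smul] at h0
      have h1 : v = c • a v := by linear_combination (norm := module) -h0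
      have v0 : v ≠ 0 := by rintro rfl; simp at hv
      exact notMem_span_symm hv v0 (mem_span_singleton.2 ⟨c, h1.symm⟩)
    · have := c (y - l y • x) (by simp [l3])
      rw [map_sub, map_smul] at this
      rw [smul_sub]
      linear_combination (norm := module) this

theorem la3 {a : V ≃ₗ[k] V} (ha : a ∈ A) {v : V} (hv : a v ∉ span k {v})
    (h3 : ∀ x y : V, ∃ z, z ∉ span k {x, y}) : ∃ (l m n : Dual k V) (e1 e2 e3 : V),
      l e1 = 0 ∧ l e2 = 0 ∧ l e3 = 1 ∧ m e1 = 0 ∧ m e2 = 1 ∧ n e1 = 1 ∧ n e2 = 0 ∧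
      HasTv A l e2 ∧ HasTv A m e1 := by
  obtain ⟨x, hx⟩ := h3 v (a v)
  obtain ⟨l, e1, e3, l1, e0, l3, h⟩ := exists_hasTv hN ha hv hx
  obtain ⟨x, hx⟩ := h3 e1 e3
  obtain ⟨m, m1, m3, mx⟩ := exists_dual2 hx
  obtain ⟨e2, l2, m2⟩ : ∃ e2, l e2 = 0 ∧ m e2 = 1 := ⟨x - l x • e3, by simp [l3], by simp [m3, mx]⟩
  obtain ⟨n, n2, n1⟩ := exists_dual1 (notMem_span_of m1 m2 e0)
  obtain ⟨γ, hγ⟩ := exists_tv0 (l := n + m) (u := e2 - e1) (by simp [n1, n2, m1, m2])
  obtain ⟨δ, hδ⟩ := exists_tv0 (l := l - m) (u := e2 + e3) (by simp [l2, l3, m2, m3])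
  refine ⟨l, m, n, e1, e2, e3, l1, l2, l3, m1, m2, n1, n2, ?_, ?_⟩
  · have := h.conj hN (l' := l) γ fun y => by rw [hγ]; simp [l1, l2]
    rwa [hγ, show e1 + (n + m) e1 • (e2 - e1) = e2 by simp [n1, m1]] at this
  · have := h.conj hN (l' := m) δ fun y => by rw [hδ]; simp [m2, m3]
    rwa [hδ, show e1 + (l - m) e1 • (e2 + e3) = e1 by simp [l1, m1]] at this

omit hN in
theorem eq_of_rank_two [FiniteDimensional k V] (h2 : finrank k V ≤ 2) {l n : Dual k V} {u x : V}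
    (l1 : l u = 0) (l2 : l x = 1) (n1 : n u = 1) (n2 : n x = 0) (y : V) :
    y = n y • u + l y • x := by
  have u0 : u ≠ 0 := by rintro rfl; simp at n1
  have hi : LinearIndependent k ![u, x] := (LinearIndependent.pair_iff' u0).2 fun c e => by
    rw [← e] at l2; simp [l1] at l2
  have h3 := hi.span_eq_top_of_card_eq_finrank' (le_antisymm hi.fintype_card_le_finrank
    (by simpa using h2))
  rw [Matrix.range_cons_cons_empty] at h3
  obtain ⟨a, b, rfl⟩ := mem_span_pair.1 (h3.ge (mem_top (x := y)))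
  simp [l1, l2, n1, n2]

omit hN in
theorem exists_notMem_span [FiniteDimensional k V] (h3 : ¬ finrank k V ≤ 2) (x y : V) :
    ∃ z, z ∉ span k {x, y} := by
  classical
  by_contra c
  push Not at c
  have h1 := finrank_span_finset_le_card (R := k) ({x, y} : Finset V)
  rw [Set.finrank, Finset.coe_pair, eq_top_iff'.2 c, finrank_top] at h1
  exact h3 (h1.trans Finset.card_le_two)

/-- `A` contains a transvection. -/
def AnyTv (A : Subgroup (V ≃ₗ[k] V)) : Prop :=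
  ∃ (l : Dual k V) (u x : V), l u = 0 ∧ u ≠ 0 ∧ l x = 1 ∧ HasTv A l u

theorem la2 [FiniteDimensional k V] (h2 : finrank k V ≤ 2) (two : (2 : k) ≠ 0) (nt : ¬ AnyTv A)
    {a : V ≃ₗ[k] V} (ha : a ∈ A) {v : V} (hv : a v ∉ span k {v}) :
    (∀ c : k, c ≠ 0 → c * c = 1) ∧ (∀ y, a (a y) = -y) ∧ ∃ b ∈ A, a * b ≠ b * a := by
  have v0 : v ≠ 0 := by rintro rfl; simp at hv
  obtain ⟨l, l1, l2⟩ := exists_dual1 hv
  obtain ⟨n, n2, n1⟩ := exists_dual1 (notMem_span_symm hv v0)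
  have e := eq_of_rank_two h2 l1 l2 n1 n2
  have e0 := e (a (a v))
  generalize n (a (a v)) = β, l (a (a v)) = α at e0
  have key : ∀ c : k, c ≠ 0 → ∃ b ∈ A, b v = c⁻¹ • v ∧ b (a v) = c • a v + (α * (1 - c)) • v :=
    fun c c0 => by
      obtain ⟨d, hd⟩ := exists_tv n ((c - 1) • v) (by simpa [n1] using c0)
      have d1 : d v = c • v := by rw [hd, n1]; module
      have d2 : d (a v) = a v := by rw [hd, n2]; simp
      refine ⟨a⁻¹ * (d * a * d⁻¹), mul_mem (inv_mem ha) (hN.conj_mem a ha d), ?_, ?_⟩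
      · have : d⁻¹ v = c⁻¹ • v := by
          rw [LinearEquiv.coe_inv, LinearEquiv.symm_apply_eq, map_smul, d1, smul_smul,
            inv_mul_cancel₀ c0, one_smul]
        rw [LinearEquiv.mul_apply, LinearEquiv.mul_apply, LinearEquiv.mul_apply, this, map_smul,
          map_smul, d2, map_smul, LinearEquiv.coe_inv, LinearEquiv.symm_apply_apply]
      · have : d⁻¹ (a v) = a v := by rw [LinearEquiv.coe_inv, LinearEquiv.symm_apply_eq, d2]
        rw [LinearEquiv.mul_apply, LinearEquiv.mul_apply, LinearEquiv.mul_apply, this,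
          LinearEquiv.coe_inv, LinearEquiv.symm_apply_eq, map_add, map_smul, map_smul, e0, map_add,
          map_smul, map_smul, d1, d2]
        module
  have h1 : ∀ c : k, c ≠ 0 → c * c = 1 := fun c c0 => by
    obtain ⟨b, hb, b1, b2⟩ := key c c0
    by_contra hc
    refine nt ⟨l, _, a v, ?_, ?_, l2, hasTv_comm hN hb l1 (β := c⁻¹) fun y => ?_⟩
    · simp [b1, l1]
    · rw [b1, smul_smul]
      intro h0
      have := congrArg n h0
      simp [n1] at this
      field_simp at this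
      exact hc (by linear_combination -this)
    · rw [e y]
      simp [b1, b2, l1, l2]
      field_simp
  have h3 : α = 0 := by
    obtain ⟨b, hb, b1, b2⟩ := key (-1) (by simp)
    by_contra hα
    refine nt ⟨l, (-(2 * 2 * α)) • v, a v, by simp [l1], by simp [two, hα, v0], l2, b * b,
      mul_mem hb hb, fun y => ?_⟩
    rw [LinearEquiv.mul_apply]
    conv_lhs => rw [e y]
    conv_rhs => arg 1; rw [e y]
    simp only [map_add, map_smul, b1, b2, inv_neg, inv_one]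
    module
  rw [h3, zero_smul, add_zero] at e0
  have β0 : β ≠ 0 := by
    rintro rfl
    simp [v0] at e0
  have h4 : β = -1 := by
    refine (mul_self_eq_one_iff.1 (h1 β β0)).resolve_left fun hβ => ?_
    rw [hβ, one_smul] at e0
    refine nt ⟨n - l, _, v, ?_, ?_, by simp [n1, l1],
      hasTv_comm hN ha (u := v + a v) (by simp [n1, n2, l1, l2]) (β := -1) fun y => ?_⟩
    · simp [e0, n1, n2, l1, l2]
    · intro h0
      have := congrArg n h0
      simp [e0, n1, n2] at this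
      exact two (by linear_combination -this)
    · rw [e y]
      simp [e0, n1, n2, l1, l2]
  rw [h4] at e0
  refine ⟨h1, fun y => ?_, ?_⟩
  · rw [e y]
    simp [e0, add_comm]
  · obtain ⟨γ, hγ⟩ := exists_tv0 l1
    have g1 : γ v = v := by rw [hγ, l1]; simp
    have g2 : γ (a v) = a v + v := by rw [hγ, l2]; simp
    have g3 : γ⁻¹ v = v := by rw [LinearEquiv.coe_inv, LinearEquiv.symm_apply_eq, g1]
    have g4 : γ⁻¹ (a v) = a v - v := by
      rw [LinearEquiv.coe_inv, LinearEquiv.symm_apply_eq, map_sub, g1, g2]; simp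
    refine ⟨γ * a * γ⁻¹, hN.conj_mem a ha γ, fun h => ?_⟩
    have := congrArg n (LinearEquiv.congr_fun h v)
    simp only [LinearEquiv.mul_apply, g3, g4, g2, g1, map_add, map_sub, e0, map_smul, n1, n2] at this
    simp at this
    exact one_ne_zero (by linear_combination this : (1 : k) = 0)

theorem la_neg [FiniteDimensional k V] (h2 : finrank k V ≤ 2) {l : Dual k V} {u x : V}
    (l1 : l u = 0) (u0 : u ≠ 0) (l2 : l x = 1) (h : HasTv A l u) : ∃ b ∈ A, ∀ y, b y = -y := by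
  obtain ⟨n, n2, n1⟩ := exists_dual1 (notMem_span_of l1 l2 u0)
  have e := eq_of_rank_two h2 l1 l2 n1 n2
  obtain ⟨t, ht, h⟩ := h
  obtain ⟨t', h'⟩ := exists_tv0 (l := n) (u := -x) (by simp [n2])
  have g1 : (t * t' * t) u = -x := by simp [h u, h' u, h x, l1, l2, n1]
  have g2 : (t * t' * t) x = u := by simp [h u, h' u, h x, h' x, l1, l2, n1, n2]
  obtain ⟨γ, hγ⟩ : ∃ γ, γ = t * t' * t := ⟨_, rfl⟩
  rw [← hγ] at g1 g2
  have h1 := h.conj (l' := n) γ fun y => by rw [e y]; simp [g1, g2, l1, l2, n1, n2]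
  rw [g1] at h1
  have h3 : γ ∈ A := hγ ▸ mul_mem (mul_mem ht (h1.ext h' ▸ hN.conj_mem t ht γ)) ht
  exact ⟨γ * γ, mul_mem h3 h3, fun y => by rw [e y]; simp [g1, g2, add_comm]⟩

end Cfsg.Agent.Hm
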