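/-
Hm: finite homogeneous groups.  Interface (see plans/Hm.md).
-/
import Cfsg.Agent.H6.Cyc16

set_option autoImplicit false
set_option linter.unusedSectionVars false

namespace Cfsg.Agent.Hm

open Subgroup Cfsg Cfsg.Agent Cfsg.Agent.FT
open Cfsg.Agent.P4 (Max2)
open scoped commutatorElement

universe u

/-- Every isomorphism between subgroups extends to an automorphism. -/
def Hom (G : Type u) [Group G] : Prop :=
  ∀ (A B : Subgroup G) (e : A ≃* B), ∃ φ : G ≃* G, ∀ a : A, φ (a : G) = (e a : G)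

variable {G : Type u} [Group G]

/-- The normalizer of `Y` normalizes every subgroup of prime order of `Y`. -/
def Sc (Y : Subgroup G) : Prop :=
  ∀ g ∈ 𝐍(Y), ∀ y ∈ Y, (orderOf y).Prime → g * y * g⁻¹ ∈ zpowers y

/-- The exceptional case: `Y = 3²` is a Sylow subgroup with automizer `Q₈`. -/
structure Ex (Y : Subgroup G) : Prop where
  syl : IsSyl 3 Y ⊤
  card : 𝐨(Y) = 9
  four : ∀ g ∈ 𝐍(Y), g ^ 4 ∈ 𝐂(Y)
  na : ¬ ⁅𝐍(Y), 𝐍(Y)⁆ ≤ 𝐂(Y)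

/-- The odd local structure of a homogeneous group. -/
structure OL (G : Type u) [Group G] : Prop where
  ab : ∀ {p : ℕ}, p.Prime → p ≠ 2 → ∀ {Y : Subgroup G}, IsPGroup p Y → IsMulCommutative Y
  free : ∀ {p : ℕ}, p.Prime → p ≠ 2 → ∀ {Y : Subgroup G}, IsPGroup p Y →
    ∀ g ∈ 𝐍(Y), ∀ y ∈ Y, y ≠ 1 → Commute g y → g ∈ 𝐂(Y)
  sc : ∀ {p : ℕ}, p.Prime → p ≠ 2 → ∀ {Y : Subgroup G}, IsPGroup p Y → Sc Y ∨ Ex Y

/-- The odd local structure without exception. -/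
structure OS (G : Type u) [Group G] : Prop extends OL G where
  sc' : ∀ {p : ℕ}, p.Prime → p ≠ 2 → ∀ {Y : Subgroup G}, IsPGroup p Y → Sc Y

/-- Chapter A. -/
def AStmt : Prop := ∀ (G : Type u) [Group G] [Finite G], Hom G → OL G

/-- Chapter B, simple groups. -/
def BStmt : Prop := ∀ (G : Type u) [Group G] [Finite G], Hom G → OL G → IsSimpleGroup G →
  ¬ IsMulCommutative G → 8 ∣ Nat.card G →
  ∃ (S : Subgroup G) (a t s : G), Max2 S a t s ∧ a * a ≠ 1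

/-- Chapter B, perfect groups with a normal `2`-subgroup. -/
def BStmt' : Prop := ∀ (G : Type u) [Group G] [Finite G], Hom G →
  ⁅(⊤ : Subgroup G), (⊤ : Subgroup G)⁆ = ⊤ → pCoreOf 2 (⊤ : Subgroup G) ≠ ⊥ →
  ∃ z : G, z ≠ 1 ∧ z * z = 1 ∧ ∀ j : G, j * j = 1 → j = 1 ∨ j = z

/-- Chapter C, dihedral Sylow subgroups. -/
def CStmt : Prop := ∀ (G : Type u) [Group G] [Finite G], OS G → IsSimpleGroup G →
  ¬ IsMulCommutative G → ∀ (S : Subgroup G) (a t s : G), Max2 S a t s → a * a ≠ 1 →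
  s * a * s = a⁻¹ → ∀ ψ : G ≃* G, ψ a = a → ψ s = s * a →
  ∃ (K : Subgroup G) (t s : G), P3.BSW K t s

/-- Chapter D, the field is prime. -/
def PStmt : Prop := ∀ (G : Type u) [Group G] [Finite G], OS G → ¬ Group.IsSolvable G →
  ∀ (K : Subgroup G) (t s : G), P3.BSW K t s →
  ∃ (r : ℕ) (_ : Fact r.Prime), 5 ≤ r ∧ Nonempty (G ≃* P4.PSL (ZMod r))

/-- Chapter D, automorphisms of `SL₂(r)` and `PSL₂(r)`. -/
def DStmt : Prop := ∀ (G : Type u) [Group G] [Finite G] (r : ℕ) [Fact r.Prime]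
  (π : H4.SL2.SL (ZMod r) →* G) (L : Subgroup G) (d : ℕ), H6.Cyc.Cv r π L d →
  (∀ φ : G ≃* G, L.map φ.toMonoidHom = L → ∀ b ∈ L, b * b ≠ 1 → ¬ r ∣ orderOf b →
    φ b ∈ 𝐂[b] → φ b = b ∨ φ b = b⁻¹) ∧
  (∀ φ ψ : G ≃* G, L.map φ.toMonoidHom = L → L.map ψ.toMonoidHom = L → ∃ l ∈ L,
    (∀ x ∈ L, φ x = l * x * l⁻¹) ∨ (∀ x ∈ L, ψ x = l * x * l⁻¹) ∨
      (∀ x ∈ L, φ (ψ x) = l * x * l⁻¹)) ∧
  ∃ k l, H6.Cyc.LS L d r k l

/-- Chapter E, semidihedral Sylow subgroups. -/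
def EStmt : Prop := ∀ (G : Type u) [Group G] [Finite G], Hom G → OL G → IsSimpleGroup G →
  ¬ IsMulCommutative G → ∀ (S : Subgroup G) (a t s : G), Max2 S a t s → a * a ≠ 1 →
  s * a * s ≠ a⁻¹ → False

end Cfsg.Agent.Hm
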