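/-
Hm, chapters A and B: maximal elementary abelian subgroups of homogeneous groups.
-/
import Cfsg.Agent.Hm.Defs
import Cfsg.Agent.P17.Defs

set_option autoImplicit false
set_option linter.unusedSectionVars false

namespace Cfsg.Agent.Hm

open Subgroup Cfsg Cfsg.Agent Cfsg.Agent.FT
open scoped commutatorElement

universe u

variable {G : Type u} [Group G] [Finite G] {p : ℕ}

theorem exists_pow_p (hp : p.Prime) (x : G) : ∃ j : ℕ, ¬ p ∣ j ∧ IsPGroup p (zpowers (x ^ j)) := by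
  obtain ⟨k, j, hj, e⟩ := Nat.exists_eq_pow_mul_and_not_dvd (orderOf_pos x).ne' p hp.ne_one
  exact ⟨j, hj, H1.isPGroup_zpowers_of_pow_eq_one (k := k) (by
    rw [← pow_mul, mul_comm, ← e, pow_orderOf_eq_one])⟩

omit [Finite G] in
theorem conj_iter {x a c : G} (h1 : x * a * x⁻¹ = a * c) (h2 : x * c * x⁻¹ = c) (j : ℕ) :
    x ^ j * a * (x ^ j)⁻¹ = a * c ^ j := by
  induction j with
  | zero => simp
  | succ j ih =>
    rw [pow_succ', mul_inv_rev, show x * x ^ j * a * ((x ^ j)⁻¹ * x⁻¹) =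
      x * (x ^ j * a * (x ^ j)⁻¹) * x⁻¹ by group, ih, show x * (a * c ^ j) * x⁻¹ =
      (x * a * x⁻¹) * (x * c * x⁻¹) ^ j by rw [conj_pow]; group, h1, h2, pow_succ', mul_assoc]

omit [Finite G] in
theorem eq_one_of_pow {c : G} {j : ℕ} (hp : p.Prime) (h1 : c ^ p = 1) (h2 : c ^ j = 1)
    (hj : ¬ p ∣ j) : c = 1 := by
  rw [← orderOf_dvd_iff_pow_eq_one] at h1 h2
  exact orderOf_eq_one_iff.1 (Nat.eq_one_of_dvd_coprimes
    ((Nat.Prime.coprime_iff_not_dvd hp).2 hj) h1 h2)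

/-- The basic construction: extend `a ↦ a * f a` to `Φ` and take `Φ g * g⁻¹`. -/
theorem gpc (hG : Hom G) {E P : Subgroup G} (hP : E ≤ P) (hC : E ≤ 𝐂(P)) {f : G → G}
    (mul : ∀ a ∈ P, ∀ b ∈ P, f (a * b) = f a * f b) (mem : ∀ a ∈ P, f a ∈ E)
    (triv : ∀ a ∈ E, f a = 1) {g : G} (gP : g ∈ 𝐍(P)) (gE : g ∈ 𝐍(E)) :
    ∃ x ∈ 𝐍(P) ⊓ 𝐂(E), ∀ a ∈ P,
      x * a * x⁻¹ = a * (f a * (g * f (g⁻¹ * a * g) * g⁻¹)⁻¹) := by
  have cm : ∀ e ∈ E, ∀ a ∈ P, a * e = e * a := fun e he a ha => mem_cent.1 (hC he) a ha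
  let α : P →* G := MonoidHom.mk' (fun a => a * f a) fun a b => by
    rw [Subgroup.coe_mul, mul _ a.2 _ b.2, mul_assoc, mul_assoc, ← mul_assoc (b : G),
      cm _ (mem _ a.2) _ b.2, mul_assoc]
  have hα : Function.Injective α := (injective_iff_map_eq_one α).2 fun a e => by
    have e1 : (a : G) * f a = 1 := e
    have h1 : (a : G) ∈ E := by
      rw [eq_inv_of_mul_eq_one_left e1]
      exact inv_mem (mem _ a.2)
    exact Subtype.ext (by simpa [triv _ h1] using e1)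
  obtain ⟨Φ, hΦ⟩ := P17.Hg.ext hG α hα
  have h1 : ∀ a ∈ P, Φ a = a * f a := fun a ha => hΦ ⟨a, ha⟩
  have h2 : ∀ a ∈ E, Φ a = a := fun a ha => by rw [h1 a (hP ha), triv a ha, mul_one]
  have key : ∀ a ∈ P, Φ g * g⁻¹ * a * (Φ g * g⁻¹)⁻¹ =
      a * (f a * (g * f (g⁻¹ * a * g) * g⁻¹)⁻¹) := fun a ha => by
    have hb : g⁻¹ * a * g ∈ P := by simpa using (mem_normalizer_iff.1 (inv_mem gP) a).1 ha
    have hc := (mem_normalizer_iff.1 gE _).1 (mem _ hb)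
    have e1 : g⁻¹ * a * g = Φ (g⁻¹ * a * g * (f (g⁻¹ * a * g))⁻¹) := by
      rw [map_mul, map_inv, h1 _ hb, h2 _ (mem _ hb), mul_inv_cancel_right]
    calc Φ g * g⁻¹ * a * (Φ g * g⁻¹)⁻¹ = Φ g * (g⁻¹ * a * g) * (Φ g)⁻¹ := by group
      _ = Φ (a * (g * f (g⁻¹ * a * g) * g⁻¹)⁻¹) := by
        rw [e1, ← map_inv, ← map_mul, ← map_mul, ← e1]; congr 1; group
      _ = _ := by rw [map_mul, map_inv, h1 a ha, h2 _ hc, mul_assoc]
  refine ⟨Φ g * g⁻¹, mem_inf.2 ⟨mem_norm_of_conj_le fun y hy => ?_, mem_cent.2 fun e he => ?_⟩, key⟩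
  · obtain ⟨a, ha, rfl⟩ := mem_conj'.1 hy
    have hb : g⁻¹ * a * g ∈ P := by simpa using (mem_normalizer_iff.1 (inv_mem gP) a).1 ha
    rw [key a ha]
    exact mul_mem ha (hP (mul_mem (mem a ha) (inv_mem ((mem_normalizer_iff.1 gE _).1 (mem _ hb)))))
  · have hb : g⁻¹ * e * g ∈ E := by simpa using (mem_normalizer_iff.1 (inv_mem gE) e).1 he
    have := key e (hP he)
    rw [triv _ he, triv _ hb] at this
    simp only [mul_one, mul_inv_cancel, inv_one] at this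
    exact (mul_inv_eq_iff_eq_mul.1 this).symm

/-- A homomorphism of a `p`-group `K` onto `⟨e⟩` that is trivial on the proper subgroup `A`. -/
theorem exists_hom (hp : p.Prime) {A K : Subgroup G} (hK : IsPGroup p K) (h : A < K) {e : G}
    (he : orderOf e = p) : ∃ f : G → G, (∀ a ∈ K, ∀ b ∈ K, f (a * b) = f a * f b) ∧
      (∀ a, f a ∈ zpowers e) ∧ (∀ a ∈ A, f a = 1) ∧ ∃ a ∈ K, f a ≠ 1 := by
  classical
  haveI := Fact.mk hp
  haveI := hK.isNilpotent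
  have h1 : A.subgroupOf K ≠ ⊤ := fun e => h.not_ge (subgroupOf_eq_top.1 e)
  obtain ⟨Q, hQ, hAQ⟩ := (eq_top_or_exists_le_coatom (A.subgroupOf K)).resolve_left h1
  haveI := H3.normal_of_isCoatom hQ
  let ε : K ⧸ Q ≃* zpowers e := mulEquivOfPrimeCardEq (H3.index_eq_of_isCoatom hK hQ)
    (by rw [Nat.card_zpowers, he])
  obtain ⟨a, ha⟩ : ∃ a, a ∉ Q := by
    by_contra c
    push Not at c
    exact hQ.1 ((eq_top_iff' Q).2 c)
  refine ⟨fun a => if h : a ∈ K then ε (QuotientGroup.mk ⟨a, h⟩) else 1, fun a ha b hb => ?_,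
    fun a => ?_, fun a ha => ?_, a, a.2, ?_⟩
  · simp only [dif_pos ha, dif_pos hb, dif_pos (mul_mem ha hb)]
    rw [← Subgroup.coe_mul, ← map_mul, ← QuotientGroup.mk_mul]
    rfl
  · dsimp only
    split_ifs
    exacts [Subtype.prop _, one_mem _]
  · simp only [dif_pos (h.le ha)]
    rw [(QuotientGroup.eq_one_iff _).2 (hAQ (mem_subgroupOf.2 ha)), map_one, Subgroup.coe_one]
  · simpa using ha

/-- `E` is a maximal elementary abelian `p`-subgroup, `T` is a Sylow subgroup of `𝐂(E)`. -/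
structure Mx (p : ℕ) (E T : Subgroup G) : Prop where
  hp : p.Prime
  el : ∀ x ∈ E, x ^ p = 1
  cm : E ≤ 𝐂(E)
  syl : IsSyl p T 𝐂(E)
  om : ∀ x ∈ 𝐂(E), x ^ p = 1 → x ∈ E

theorem exists_mx_ge (hp : p.Prime) {F : Subgroup G} (h1 : ∀ x ∈ F, x ^ p = 1) (h2 : F ≤ 𝐂(F)) :
    ∃ E T : Subgroup G, Mx p E T ∧ F ≤ E := by
  obtain ⟨E, hF, hE⟩ := exists_maximal_ge_of_wellFoundedGT
    (fun E : Subgroup G => (∀ x ∈ E, x ^ p = 1) ∧ E ≤ 𝐂(E)) F ⟨h1, h2⟩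
  obtain ⟨T, hT⟩ := exists_isSyl hp 𝐂(E)
  refine ⟨E, T, ⟨hp, hE.1.1, hE.1.2, hT, fun x hx e => ?_⟩, hF⟩
  have hz : zpowers x ≤ 𝐂(E) := zpowers_le.2 hx
  refine hE.2 (y := E ⊔ zpowers x) ⟨fun y hy => ?_, ?_⟩ le_sup_left (mem_sup_right (mem_zpowers x))
  · obtain ⟨a, ha, _, ⟨k, rfl⟩, rfl⟩ := (mem_sup_of_norm (hz.trans (cent_le_norm E))).1 hy
    rw [Commute.mul_pow (mem_cent.1 (zpow_mem hx k) a ha), hE.1.1 a ha, one_mul, ← zpow_natCast,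
      ← zpow_mul, mul_comm, zpow_mul, zpow_natCast, e, one_zpow]
  · rw [cent_sup]
    exact le_inf (sup_le hE.1.2 hz) (sup_le (cent_comm.1 hz) (isMulComm_iff_le_cent.1 inferInstance))

theorem exists_mx (hp : p.Prime) : ∃ E T : Subgroup G, Mx p E T :=
  let ⟨E, T, h, _⟩ := exists_mx_ge (G := G) hp (F := ⊥) (by simp) bot_le
  ⟨E, T, h⟩

/-- The normalizer of `E` does not act by scalars. -/
def NS (E : Subgroup G) : Prop := ∃ g ∈ 𝐍(E), ∃ e ∈ E, g * e * g⁻¹ ∉ zpowers e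

namespace Mx

variable {E T : Subgroup G} (h : Mx p E T)
include h

theorem pE : IsPGroup p E := fun a => ⟨1, Subtype.ext (by simpa using h.el a a.2)⟩

theorem le : E ≤ T :=
  h.syl.le_of_le_norm h.hp h.pE h.cm (h.syl.le.trans (cent_le_norm E))

theorem le_cent : E ≤ 𝐂(T) := cent_comm.1 h.syl.le

theorem mem_iff {x : G} : x ∈ E ↔ x ∈ T ∧ x ^ p = 1 :=
  ⟨fun hx => ⟨h.le hx, h.el x hx⟩, fun hx => h.om x (h.syl.le hx.1) hx.2⟩

theorem norm_le_of {P : Subgroup G} (h1 : E ≤ P) (h2 : P ≤ 𝐂(E)) : 𝐍(P) ≤ 𝐍(E) :=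
  fun g hg => mem_norm_of_conj_le fun y hy => by
    obtain ⟨a, ha, rfl⟩ := mem_conj'.1 hy
    exact h.om _ (h2 ((mem_normalizer_iff.1 hg a).1 (h1 ha))) (by
      rw [conj_pow, h.el a ha, mul_one, mul_inv_cancel])

theorem norm_le : 𝐍(T) ≤ 𝐍(E) := h.norm_le_of h.le h.syl.le

theorem frattini {g : G} (hg : g ∈ 𝐍(E)) : ∃ c ∈ 𝐂(E), ∃ n ∈ 𝐍(T), c * n = g := by
  have h1 := h.syl.frattini h.hp (M := 𝐍(E)) ⟨cent_le_norm E, H1.le_normalizer_centralizer le_rfl⟩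
  obtain ⟨c, hc, n, hn, e⟩ := (mem_sup_of_norm (inf_le_left.trans
    (H1.le_normalizer_centralizer le_rfl))).1 (h1.ge hg)
  exact ⟨c, hc, n, hn.2, e⟩

theorem frattini' {g : G} (hg : g ∈ 𝐍(E)) : ∃ n ∈ 𝐍(T), ∀ e ∈ E, n * e * n⁻¹ = g * e * g⁻¹ := by
  obtain ⟨c, hc, n, hn, rfl⟩ := h.frattini hg
  refine ⟨n, hn, fun e he => ?_⟩
  have := mem_cent.1 hc _ ((mem_normalizer_iff.1 (h.norm_le hn) e).1 he)
  rw [mul_inv_rev, show c * n * e * (n⁻¹ * c⁻¹) = c * (n * e * n⁻¹) * c⁻¹ by group, ← this,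
    mul_inv_cancel_right]

/-- A `p`-element of `𝐂(E)` normalizing `T` lies in `T`. -/
theorem mem_of_p {x : G} (h1 : x ∈ 𝐂(E)) (h2 : x ∈ 𝐍(T)) (hx : IsPGroup p (zpowers x)) : x ∈ T :=
  zpowers_le.1 (h.syl.le_of_norm h.hp hx (zpowers_le.2 h1) (zpowers_le.2 h2))

theorem syl_top (hc : ∀ x ∈ 𝐍(T), IsPGroup p (zpowers x) → x ∈ 𝐂(E)) : IsSyl p T ⊤ := by
  refine IsSyl.of_norm h.hp (isSyl_of_maximal h.hp (le_inf le_top (le_norm_self T)) h.syl.pgrp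
    fun Q h1 h2 hQ => le_antisymm (fun x hx => ?_) h1)
  have h3 : IsPGroup p (zpowers x) := hQ.to_le (zpowers_le.2 hx)
  exact h.mem_of_p (hc x (h2 hx).2 h3) (h2 hx).2 h3

/-- **(Z)** -/
theorem center_le (hG : Hom G) (hn : NS E) : T ⊓ 𝐂(T) ≤ E := by
  by_contra hc
  have hZ : E ≤ T ⊓ 𝐂(T) := le_inf h.le h.le_cent
  obtain ⟨g', hg', e, he, hge⟩ := hn
  obtain ⟨g, hg, e1⟩ := h.frattini' hg'
  rw [← e1 e he] at hge
  have e0 : e ≠ 1 := by rintro rfl; simp at hge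
  haveI := Fact.mk h.hp
  have oe := orderOf_eq_prime (h.el e he) e0
  obtain ⟨f, mul, mem, triv, a, ha, fa⟩ := exists_hom h.hp (h.syl.pgrp.to_inf_left (K := 𝐂(T)))
    (lt_of_le_of_ne hZ fun e => hc e.ge) oe
  have hze := zpowers_le.2 he
  have gZ := norm_le_norm_center T hg
  obtain ⟨x, ⟨x1, x2⟩, hx⟩ := gpc hG hZ (h.le_cent.trans (cent_anti inf_le_left)) mul
    (fun a _ => hze (mem a)) triv gZ (h.norm_le hg)
  obtain ⟨j, hj, hxj⟩ := exists_pow_p h.hp x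
  have s1 : IsSyl p T (𝐂(E) ⊓ 𝐍(T ⊓ 𝐂(T))) :=
    h.syl.of_le (le_inf h.syl.le ((le_norm_self T).trans (norm_le_norm_center T))) inf_le_left
  obtain ⟨y, hy, hy'⟩ := s1.exists_conj_le h.hp hxj (zpowers_le.2 (pow_mem (mem_inf.2 ⟨x2, x1⟩) j))
  have h3 : x ^ j ∈ 𝐂(T ⊓ 𝐂(T)) := by
    have := (cent_comm.1 inf_le_right : T ≤ 𝐂(T ⊓ 𝐂(T))) (hy' (conj_mem_conj (mem_zpowers _) y))
    exact (mem_normalizer_iff.1 (H1.le_normalizer_centralizer le_rfl hy.2) _).2 this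
  have hc : f a * (g * f (g⁻¹ * a * g) * g⁻¹)⁻¹ ∈ E :=
    mul_mem (hze (mem a)) (inv_mem ((mem_normalizer_iff.1 (h.norm_le hg) _).1 (hze (mem _))))
  have h4 := conj_iter (hx a ha) (by rw [← mem_cent.1 x2 _ hc, mul_inv_cancel_right]) j
  rw [← mem_cent.1 h3 a ha, mul_inv_cancel_right, left_eq_mul] at h4
  have h5 := mul_inv_eq_one.1 (eq_one_of_pow h.hp (h.el _ hc) h4 hj)
  have h6 : (Nat.card (zpowers e)).Prime := by rw [Nat.card_zpowers, oe]; exact h.hp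
  have h7 : zpowers (f a) = zpowers (g * e * g⁻¹) := zpowers_eq_of_card_prime
    (by rwa [zpowers_conj, card_conj]) (by rw [zpowers_conj, h5]; exact conj_mem_conj (mem _) g) fa
  exact hge (by rw [← zpowers_eq_of_card_prime h6 (mem a) fa, h7]; exact mem_zpowers _)

end Mx

end Cfsg.Agent.Hm
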