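/-
Hm, chapter C: simple groups with a Sylow `2`-subgroup of maximal class, basic lemmas.
-/
import Cfsg.Agent.Hm.Defs

set_option autoImplicit false
set_option linter.unusedSectionVars false
set_option linter.style.haveILetI false

namespace Cfsg.Agent.Hm

open Subgroup Cfsg Cfsg.Agent Cfsg.Agent.FT
open Cfsg.Agent.P4 (odd_iff_not_dvd Max2)
open Cfsg.Agent.P5 (V4)
open Cfsg.Agent.H2 (pPrimeCoreOf)
open Cfsg.Agent.H6.Cyc
open scoped commutatorElement

universe u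

variable {G : Type u} [Group G] [Finite G]

/-- Transfer into an abelian Sylow subgroup. -/
theorem OS.tr (h : OS G) {H : Subgroup G} {x : G} (hp : (orderOf x).Prime) (h2 : orderOf x ≠ 2)
    (hx : x ∈ ⁅H, H⁆) (hN : H ⊓ 𝐍(zpowers x) ≤ 𝐂[x]) : False := by
  haveI := Fact.mk hp
  obtain ⟨y, hy, rfl⟩ := exists_of_mem_der hx
  have hi := H.subtype_injective
  have h1 : IsPGroup (orderOf (y : G)) (zpowers y) :=
    isPGroup_of_card_prime (by rw [Nat.card_zpowers, orderOf_coe])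
  obtain ⟨P, hP⟩ := h1.exists_le_sylow
  have hQ := P.isPGroup'.map H.subtype
  haveI := (isMulComm_map_iff hi).1 (h.ab hp h2 hQ)
  refine hp.one_lt.ne' ?_
  rw [eq_one_of_transfer P (hP (mem_zpowers y)) hy fun n hn => ?_, coe_one, orderOf_one]
  refine Subtype.ext (mem_cent1.1 (hN (mem_inf.2 ⟨n.2, mem_norm_zpowers (h.sc' hp h2 hQ n ?_ y
    (mem_map_of_mem _ (hP (mem_zpowers y))) hp)⟩)))
  rw [← zpowers_le, ← subtype_apply, ← MonoidHom.map_zpowers, map_le_norm_iff hi, zpowers_le]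
  exact hn

theorem OL.cent_of_mem (h : OL G) {p : ℕ} (hp : p.Prime) (h2 : p ≠ 2) {Y : Subgroup G}
    (hY : IsPGroup p Y) {g b : G} (hg : g ∈ 𝐍(Y)) (hb : b ∈ Y) (b1 : b ≠ 1) (hc : g ∈ 𝐂[b]) :
    g ∈ 𝐂(Y) := h.free hp h2 hY g hg b hb b1 (mem_cent1.1 hc).symm

theorem exists_prime_elt {p : ℕ} (hp : p.Prime) {Y : Subgroup G} (hY : IsPGroup p Y)
    (h1 : Y ≠ ⊥) : ∃ b ∈ Y, b ≠ 1 ∧ orderOf b = p := by
  obtain ⟨b, hb, ob⟩ := exists_mem_orderOf_eq_prime hp (prime_dvd_card_of_isPGroup hp hY h1)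
  exact ⟨b, hb, fun e => hp.one_lt.ne (by rw [← ob, e, orderOf_one]), ob⟩

theorem OL.der_cent (h : OL G) {p : ℕ} (hp : p.Prime) (h2 : p ≠ 2) {Y : Subgroup G}
    (hY : IsPGroup p Y) (hs : Sc Y) : ⁅𝐍(Y), 𝐍(Y)⁆ ≤ 𝐂(Y) := fun g hg => by
  by_cases h1 : Y = ⊥
  · rw [h1, cent_bot]; trivial
  obtain ⟨b, hb, b1, ob⟩ := exists_prime_elt hp hY h1
  refine h.cent_of_mem hp h2 hY (der_le _ hg) hb b1 ?_
  rw [← cent_zpowers]
  exact der_le_cent_of_cyclic inferInstance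
    (fun n hn => mem_norm_zpowers (hs n hn b hb (ob ▸ hp))) hg

theorem exists_inv_syl {W A : Subgroup G} (hW : Odd 𝐨(W)) (hA : A ≤ 𝐍(W)) (h2 : IsPGroup 2 A)
    {p : ℕ} (hp : p.Prime) : ∃ Y, IsSyl p Y W ∧ A ≤ 𝐍(Y) := by
  haveI := Fact.mk hp
  obtain ⟨Y, h1, h3, h4, h5⟩ := H1.exists_invariant_sylow hA (P4.coprime_of_odd h2 hW).symm
    (Or.inl (P4.solvable_of_two h2)) p
  exact ⟨Y, ⟨h1, h3, h4⟩, h5⟩

theorem ne_two_of_dvd {p n : ℕ} (hn : Odd n) (h : p ∣ n) : p ≠ 2 := fun e =>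
  odd_iff_not_dvd.1 hn (e ▸ h)

/-- Z-lemma. -/
theorem OS.zl (h : OS G) {W A : Subgroup G} (hW : Odd 𝐨(W)) (hA : A ≤ 𝐍(W)) (h2 : IsPGroup 2 A) :
    ⁅A, A⁆ ≤ 𝐂(W) := cent_comm.1 (le_of_forall_exists_isSyl_le fun p hp hd => by
  obtain ⟨Y, hY, hn⟩ := exists_inv_syl hW hA h2 hp
  have p2 := ne_two_of_dvd hW hd
  exact ⟨Y, hY, cent_comm.1 ((commutator_mono hn hn).trans
    (h.der_cent hp p2 hY.pgrp (h.sc' hp p2 hY.pgrp)))⟩)

/-- A simple group with a Sylow `2`-subgroup of maximal class and order at least eight. -/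
structure Sm (S : Subgroup G) (a t s : G) : Prop extends Max2 S a t s where
  simple : IsSimpleGroup G
  na : ¬ IsMulCommutative G
  aa : a * a ≠ 1

namespace Sm

variable {S : Subgroup G} {a t s : G} (h : Sm S a t s)
include h

theorem m : Max2 S a t s := h.toMax2

theorem conj {j : G} (j1 : j ≠ 1) (jj : j * j = 1) : ∃ g, g * t * g⁻¹ = j := by
  haveI := h.simple
  rcases h.m.isConj_or j1 jj with e | ⟨N, e, -⟩
  · exact isConj_iff.1 e
  · exact absurd e (index_ne_two h.na N)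

theorem tS : t ∈ S := h.m.X_le h.zx

theorem ct {g : G} (hg : g ∈ S) : Commute t g := mem_cent1.1 (h.m.le_cent hg)

theorem v4 : V4 t s := ⟨h.z1, fun e => h.sx (e ▸ one_mem _), fun e => h.sx (e ▸ h.zx), h.zz, h.ss,
  h.ct h.sS⟩

theorem inv_u {u : G} (hu : u ∈ zpowers a) (uu : u * u = t) : s * u * s = u⁻¹ := by
  have h1 : s * u * s ∈ zpowers a := by
    have := h.m.conj_mem h.sS hu; rwa [h.m.s_inv] at this
  have h2 : s * u * s * (s * u * s) = t := by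
    rw [show s * u * s * (s * u * s) = s * u * (s * s) * u * s by group, h.ss, mul_one,
      mul_assoc s, uu, ← h.v4.comm.eq, mul_assoc, h.ss, mul_one]
  have h3 := St.cT h1 hu
  rcases h.m.uniq (mul_mem h1 hu) (by rw [h3.symm.mul_mul_mul_comm, h2, uu, h.zz]) with e | e
  · exact eq_inv_of_mul_eq_one_left e
  · rw [← uu, mul_left_inj] at e
    have h4 : Commute s u := by
      rw [Commute, SemiconjBy]
      conv_rhs => rw [← e, mul_assoc, h.ss, mul_one]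
    exact absurd ((h.cs u hu h4).symm.trans uu).symm h.z1

theorem sq_out {g : G} (hg : g ∈ S) (hT : g ∉ zpowers a) : g * g = 1 ∨ g * g = t := by
  have h1 := (h.cover g hg).resolve_left hT
  have h2 := (h.m.mul_mem_iff hg hg).2 Iff.rfl
  refine h.m.uniq h2 (h.cs _ h2 ?_)
  have := (St.cT h1 h2).mul_left ((Commute.refl g).mul_right (Commute.refl g)).inv_left
  rwa [mul_inv_cancel_right] at this

theorem dih_out (hd : s * a * s = a⁻¹) {g : G} (hg : g ∈ S) (hT : g ∉ zpowers a) : g * g = 1 := by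
  have h1 := h.m.inv_of hd _ ((h.cover g hg).resolve_left hT)
  rw [← mul_assoc, h.ss, one_mul, mul_inv_rev, h.m.s_inv, mul_left_inj] at h1
  exact mul_eq_one_iff_eq_inv.2 h1

theorem norm_T : 𝐍(S) ≤ 𝐍(zpowers a) := fun g hg => by
  refine mem_norm_zpowers ?_
  by_contra h0
  have h1 := conj_mem hg h.xS
  have h2 : ∀ z, g * a * g⁻¹ * (g * a * g⁻¹) = z → a * a = g⁻¹ * z * g := fun z e => by
    rw [← e]; group
  have h3 : g * a * g⁻¹ * (g * a * g⁻¹) ≠ 1 := fun e => h.aa (by simpa using h2 1 e)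
  have h4 := h2 t ((h.sq_out h1 h0).resolve_left h3)
  have h5 := (h.m.uniq (mul_mem (mem_zpowers a) (mem_zpowers a)) (by
    rw [h4]; simpa using P4.conj_sq h.zz g⁻¹)).resolve_left h.aa
  exact h3 (h.dih_out (h.inv_u (mem_zpowers a) h5) h1 h0)

theorem norm_S {A : Subgroup G} (hA : Odd 𝐨(A)) (hn : A ≤ 𝐍(S)) : A ≤ 𝐂(S) := by
  refine H1.le_centralizer_of_commutator_le hn (P4.coprime_of_odd h.syl.pgrp hA)
    (H := zpowers a) (commutator_le.2 fun x hx g hg => ?_)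
    (cent_cyc2 inferInstance (h.syl.pgrp.to_le h.m.X_le) hA (hn.trans h.norm_T))
  rw [commutatorElement_def, mul_assoc, mul_assoc, ← mul_assoc g,
    h.m.mul_mem_iff hx (conj_mem (hn hg) (inv_mem hx)),
    ← mem_normalizer_iff.1 (h.norm_T (hn hg)), inv_mem_iff]

theorem syl_H : IsSyl 2 S 𝐂[t] := h.syl.of_le h.m.le_cent le_top

theorem sq_der : zpowers (a * a) ≤ ⁅S, S⁆ := by
  have h1 := inv_mem (commutator_mem_commutator h.sS h.xS)
  rw [commutatorElement_def, h.m.s_inv] at h1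
  refine zpowers_le_of_mem ?_
  by_cases hd : s * a * s = a⁻¹
  · simpa [hd] using h1
  rw [h.m.cases.resolve_left hd, mul_assoc, (h.ct h.xS).inv_right.eq, ← mul_assoc,
    mul_inv_rev, mul_inv_rev, inv_inv] at h1
  have h2 : Commute t (a * a) := h.ct (mul_mem h.xS h.xS)
  have h3 := mul_mem h1 h1
  rw [h2.inv_left.symm.mul_mul_mul_comm, ← mul_inv_rev, h.zz, inv_one, one_mul] at h3
  refine (mul_mem_cancel_left (inv_mem (zpowers_le_of_mem h3 (h.m.z_mem_zpowers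
    (mul_mem h.xS h.xS) fun e => hd (h.inv_u (mem_zpowers a) ?_))))).1 h1
  exact (h.m.uniq (mul_mem (mem_zpowers a) (mem_zpowers a)) e).resolve_left h.aa

theorem t_sq : t ∈ zpowers (a * a) := h.m.z_mem_zpowers h.xS h.aa

theorem syl_T {K : Subgroup G} (hT : a ∈ K) (hK : ∀ g, ¬ S ^ᵍ g ≤ K) : IsSyl 2 (zpowers a) K :=
  isSyl_of_maximal Nat.prime_two (zpowers_le_of_mem hT) (h.syl.pgrp.to_le h.m.X_le)
    fun Q h1 h2 h3 => by
    by_contra h0
    obtain ⟨g, -, h4⟩ := h.syl.exists_le_conj Nat.prime_two h3 le_top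
    refine hK g ((H1.eq_of_le_of_card_le h4 ?_).ge.trans h2)
    obtain ⟨c, hc⟩ := FT.card_dvd_of_le h1
    have h5 := H1.card_lt_of_lt (lt_of_le_of_ne h1 (Ne.symm h0))
    rw [card_conj, h.m.card, ← Nat.card_zpowers]
    rcases c with _ | _ | c
    · exact absurd hc (card_ne_zero Q)
    · omega
    · nlinarith

theorem norm_U : S ≤ 𝐍(pPrimeCoreOf 2 𝐂[t]) := h.m.le_cent.trans (pPrimeCoreOf_normal 2 _).2

theorem S_le {K : Subgroup G} (ha : a ∈ K) (hs : s ∈ K) : S ≤ K := fun x hx => by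
  have h1 := zpowers_le_of_mem ha
  rcases h.cover x hx with e | e
  · exact h1 e
  · exact (mul_mem_cancel_left hs).1 (h1 e)

theorem le_cent_S {g : G} (ha : g ∈ 𝐂[a]) (hs : g ∈ 𝐂[s]) : g ∈ 𝐂(S) :=
  mem_cent_iff_cent1.2 (h.S_le (mem_cent1_comm.1 ha) (mem_cent1_comm.1 hs))

theorem npc_H (hd : s * a * s = a⁻¹) : HasNPC 2 𝐂[t] := npc_frob h.syl_H fun X hX g hg ho => by
  have key : ∀ k ∈ 𝐂[t] ⊓ 𝐍(X), ∀ x ∈ X, x ∈ zpowers a → k * x * k⁻¹ ∈ zpowers a :=
    fun k hk x hx hT => by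
    by_contra h0
    have h1 := h.dih_out hd (hX (conj_mem hk.2 hx)) h0
    rw [conj_mul, conj_eq_one_iff] at h1
    rcases h.m.uniq hT h1 with rfl | rfl
    · exact h0 (by simp)
    · exact h0 ((mem_cent1_iff_conj.1 hk.1).symm ▸ hT)
  have hA := zpowers_le_of_mem hg
  refine zpowers_le.1 (H1.le_centralizer_of_commutator_le (hA.trans inf_le_right)
    (P4.coprime_of_odd (h.syl.pgrp.to_le hX) (by rwa [Nat.card_zpowers])) (H := X ⊓ zpowers a)
    (le_inf (comm_le_left_iff.2 (hA.trans inf_le_right)) (commutator_le.2 fun x hx k hk => ?_))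
    (cent_cyc2 (isCyclic_of_le inf_le_right inferInstance) (h.syl.pgrp.to_le (inf_le_left.trans hX))
      (by rwa [Nat.card_zpowers]) fun k hk => mem_norm_of_conj_le ?_))
  · have h1 := conj_mem (hA hk).2 (inv_mem hx)
    rw [commutatorElement_def, mul_assoc, mul_assoc, ← mul_assoc k, h.m.mul_mem_iff (hX hx) (hX h1)]
    refine ⟨fun e => key k (hA hk) _ (inv_mem hx) (inv_mem e), fun e => ?_⟩
    simpa [mul_assoc] using key _ (inv_mem (hA hk)) _ h1 e
  · rintro _ ⟨x, hx, rfl⟩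
    exact ⟨conj_mem (hA hk).2 hx.1, key k (hA hk) x hx.1 hx.2⟩

variable (os : OS G)
include os

theorem cent_S {p : ℕ} (hp : p.Prime) (h2 : p ≠ 2) {P : Subgroup G} (hP : 𝐨(P) = p) :
    ¬ S ≤ 𝐂(P) := by
  induction p using Nat.strong_induction_on generalizing P with
  | _ p ih =>
  intro hS
  haveI := h.simple
  have h1 : IsSyl 2 S 𝐂(P) := h.syl.of_le hS le_top
  have h3 := h1.frattini Nat.prime_two ⟨cent_le_norm P, H1.normalizer_le_normalizer_centralizer P⟩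
  have h4 : 𝐍(P) ≤ 𝐂(P) := by
    rw [← relIndex_eq_one]
    by_contra h0
    obtain ⟨l, hl, hd⟩ := Nat.exists_prime_and_dvd h0
    have h5 : l < p := by
      have := Nat.le_of_dvd (by have := hp.two_le; omega)
        (hd.trans (hP ▸ relIndex_cent_dvd_of_prime (hP ▸ hp) le_rfl))
      have := hp.two_le
      omega
    by_cases h6 : l = 2
    · subst h6
      exact (h.syl.of_le (hS.trans (cent_le_norm P)) le_top).ndvd
        (hd.trans (relIndex_dvd_of_le_left _ hS))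
    rw [← h3, relIndex_sup_of_norm (inf_le_left.trans
      (H1.normalizer_le_normalizer_centralizer P))] at hd
    obtain ⟨X, hX, cX⟩ := exists_le_card_eq_prime hl (hd.trans (relIndex_dvd_card' _ _))
    exact ih l h5 hl h6 cX (cent_comm.1 (h.norm_S (cX ▸ hl.odd_of_ne_two h6)
      (hX.trans inf_le_right)))
  obtain ⟨x, rfl, ox⟩ := exists_gen (hP ▸ hp : 𝐨(P).Prime)
  rw [hP] at ox
  refine os.tr (x := x) (ox ▸ hp) (ox ▸ h2) (H := ⊤) (by rw [der_top h.na]; trivial) ?_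
  rw [← cent_zpowers]
  exact inf_le_right.trans h4

theorem odd_cent_S {W : Subgroup G} (hW : Odd 𝐨(W)) : W ⊓ 𝐂(S) = ⊥ := by
  by_contra h0
  obtain ⟨X, hX, cX⟩ := exists_le_card_prime h0
  exact h.cent_S os cX (ne_two_of_le (hX.trans inf_le_left) hW) rfl
    (cent_comm.1 (hX.trans inf_le_right))

theorem zl_S {W : Subgroup G} (hW : Odd 𝐨(W)) (hS : S ≤ 𝐍(W)) : zpowers (a * a) ≤ 𝐂(W) :=
  h.sq_der.trans (os.zl hW hS h.syl.pgrp)

theorem not_le_cent {P : Subgroup G} (cP : 𝐨(P).Prime) (p2 : 𝐨(P) ≠ 2) (g : G) :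
    ¬ S ^ᵍ g ≤ 𝐂(P) := fun e => by
  rw [← conj_inv_conj P g, conj_le_cent_iff] at e
  exact h.cent_S os cP p2 (card_conj _ _) e

theorem cent_le {P : Subgroup G} (cP : 𝐨(P).Prime) (p2 : 𝐨(P) ≠ 2) (hS : S ≤ 𝐍(P))
    (hT : a ∈ 𝐂(P)) : 𝐂(P) ≤ 𝐂[t] := by
  have h1 := h.syl_T hT (h.not_le_cent os cP p2)
  rw [← ((npc_cyc h1 inferInstance).sdProd Nat.prime_two h1).sup]
  exact sup_le (mem_cent_iff_cent1.1 (h.zl_S os (odd_core _) ((H1.le_normalizer_centralizer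
    hS).trans (norm_core _)) h.t_sq)) (h.m.X_le.trans h.m.le_cent)

end Sm

end Cfsg.Agent.Hm
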