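/-
Hm, chapter B: interface of the `2`-local analysis.
-/
import Cfsg.Agent.Hm.C1

set_option autoImplicit false
set_option linter.unusedSectionVars false

namespace Cfsg.Agent.Hm

open Subgroup Cfsg Cfsg.Agent Cfsg.Agent.FT
open Cfsg.Agent.P5 (V4 Tri)
open Cfsg.Agent.P7 (V2)
open Cfsg.Agent.H2 (pPrimeCoreOf)

universe u

variable {G : Type u} [Group G]

/-- `E` consists of the identity and the involutions of `C(E)`. -/
def Om (E : Subgroup G) : Prop := ∀ j, j ∈ E ↔ j ∈ 𝐂(E) ∧ j * j = 1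

/-- Lemma L. -/
def LStmt : Prop := ∀ (G : Type u) [Group G] [Finite G], Hom G → ∀ E : Subgroup G, Om E →
  4 ≤ 𝐨(E) → HasNPC 2 𝐂(E)

/-- Rank at least three: (GL), (Z), (Q) for `p = 2`. -/
def BigStmt : Prop := ∀ (G : Type u) [Group G] [Finite G], Hom G → ∀ E : Subgroup G, Om E →
  8 ≤ 𝐨(E) → 𝐍(E) ≤ 𝐂(E)

/-- The configuration to be excluded in (b4); `E = ⟨x, y⟩`, `D = C(E) = O(D) × T`. -/
structure Bz (T : Subgroup G) (x y g : G) : Prop where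
  v : V4 x y
  tri : Tri g x y
  om : Om (V2 x y)
  syl : IsSyl 2 T ⊤
  le : T ≤ 𝐂(V2 x y)
  ne : ¬ T ≤ V2 x y
  cz : ∀ z ∈ V2 x y, z ≠ 1 → 𝐂[z] ≤ 𝐂(V2 x y)
  npc : HasNPC 2 𝐂(V2 x y)
  cO : T ≤ 𝐂(pPrimeCoreOf 2 𝐂(V2 x y))

/-- The endgame (b4). -/
def B4Stmt : Prop := ∀ (G : Type u) [Group G] [Finite G], Hom G → OL G → IsSimpleGroup G →
  ¬ IsMulCommutative G → ∀ (T : Subgroup G) (x y g : G), Bz T x y g → False

end Cfsg.Agent.Hm
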