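/-
Hm, chapters A and B: the automizer of a maximal elementary abelian subgroup as a linear group.
-/
import Cfsg.Agent.Hm.A1
import Cfsg.Agent.Hm.A2
import Cfsg.Agent.Hm.BDefs

set_option autoImplicit false
set_option linter.unusedSectionVars false

namespace Cfsg.Agent.Hm

open Subgroup Cfsg Cfsg.Agent Cfsg.Agent.FT Module
open scoped commutatorElement IsMulCommutative

universe u

variable {G : Type u} [Group G] [Finite G] {p : ℕ}

/-- `ι` identifies the additive group `V` with the subgroup `E`. -/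
structure Md {V : Type u} [AddCommGroup V] (E : Subgroup G) (ι : V → G) : Prop where
  add : ∀ v w, ι (v + w) = ι v * ι w
  inj : Function.Injective ι
  mem : ∀ v, ι v ∈ E
  surj : ∀ e ∈ E, ∃ v, ι v = e

theorem exists_md {E : Subgroup G} (h1 : ∀ x ∈ E, x ^ p = 1) (h2 : E ≤ 𝐂(E)) :
    ∃ (V : Type u) (_ : AddCommGroup V) (_ : Module (ZMod p) V) (_ : Finite V) (ι : V → G),
      Md E ι := by
  haveI := isMulComm_iff_le_cent.2 h2
  have h : ∀ v : E, v ^ p = 1 := fun v => Subtype.ext (h1 v v.2)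
  exact ⟨H1.EA E h, inferInstance, inferInstance, inferInstance,
    fun v => ((H1.eaOf h).symm v : E), fun _ _ => rfl,
    Subtype.val_injective.comp (H1.eaOf h).symm.injective, fun _ => Subtype.prop _,
    fun e he => ⟨H1.eaOf h ⟨e, he⟩, rfl⟩⟩

variable [hp : Fact p.Prime] {V : Type u} [AddCommGroup V] [Module (ZMod p) V] [Finite V]

/-- Conjugation by `g` induces `a`. -/
def Act (ι : V → G) (g : G) (a : V ≃ₗ[ZMod p] V) : Prop := ∀ v, ι (a v) = g * ι v * g⁻¹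

section
variable {ι : V → G} {g g' : G} {a a' : V ≃ₗ[ZMod p] V}

theorem Act.one : Act ι 1 (1 : V ≃ₗ[ZMod p] V) := fun v => by simp

theorem Act.mul (h : Act ι g a) (h' : Act ι g' a') : Act ι (g * g') (a * a') := fun v => by
  rw [LinearEquiv.mul_apply, h, h']; group

theorem Act.inv (h : Act ι g a) : Act ι g⁻¹ a⁻¹ := fun v => by
  obtain ⟨w, rfl⟩ := a.surjective v
  rw [LinearEquiv.coe_inv, LinearEquiv.symm_apply_apply, h]; group

theorem Act.pow (h : Act ι g a) (n : ℕ) : Act ι (g ^ n) (a ^ n) := by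
  induction n with
  | zero => simpa using Act.one
  | succ n ih => rw [pow_succ, pow_succ]; exact ih.mul h

end

variable (p) in
/-- The group of linear maps induced by conjugation. -/
def aut (ι : V → G) : Subgroup (V ≃ₗ[ZMod p] V) where
  carrier := {a | ∃ g, Act ι g a}
  one_mem' := ⟨1, Act.one⟩
  mul_mem' := fun ⟨_, h⟩ ⟨_, h'⟩ => ⟨_, h.mul h'⟩
  inv_mem' := fun ⟨_, h⟩ => ⟨_, h.inv⟩

/-- The elements inducing transvections with the axis `ker l`. -/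
def tvs (ι : V → G) (l : Dual (ZMod p) V) : Subgroup G where
  carrier := {g | ∃ a u, Act ι g a ∧ Tv a l u ∧ l u = 0}
  one_mem' := ⟨1, 0, Act.one, fun y => by simp, map_zero l⟩
  mul_mem' := fun ⟨_, _, h1, h2, h3⟩ ⟨_, _, h4, h5, h6⟩ =>
    ⟨_, _, h1.mul h4, h2.mul h5 h6, by rw [map_add, h3, h6, add_zero]⟩
  inv_mem' := fun ⟨_, _, h1, h2, h3⟩ => ⟨_, _, h1.inv, h2.inv h3, by rw [map_neg, h3, neg_zero]⟩

namespace Md

variable {E : Subgroup G} {ι : V → G} (m : Md E ι)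
include m

theorem zero : ι 0 = 1 := by simpa using m.add 0 0

theorem neg (v : V) : ι (-v) = (ι v)⁻¹ :=
  eq_inv_of_mul_eq_one_left (by rw [← m.add, neg_add_cancel, m.zero])

theorem nsmul (n : ℕ) (v : V) : ι (n • v) = ι v ^ n := by
  induction n with
  | zero => simp [m.zero]
  | succ n ih => rw [succ_nsmul, m.add, ih, pow_succ]

theorem eq_one {v : V} : ι v = 1 ↔ v = 0 := by rw [← m.zero, m.inj.eq_iff]

theorem mem_zpowers {v w : V} : ι w ∈ zpowers (ι v) ↔ w ∈ Submodule.span (ZMod p) {v} := by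
  rw [Submodule.mem_span_singleton, ← mem_powers_iff_mem_zpowers, Submonoid.mem_powers_iff]
  constructor
  · rintro ⟨n, e⟩
    exact ⟨n, by rw [Nat.cast_smul_eq_nsmul]; exact m.inj (by rw [m.nsmul, e])⟩
  · rintro ⟨c, rfl⟩
    exact ⟨c.val, by rw [← m.nsmul, ← Nat.cast_smul_eq_nsmul (ZMod p), ZMod.natCast_zmod_val]⟩

theorem card : 𝐨(E) = p ^ finrank (ZMod p) V := by
  have := Nat.card_congr (Equiv.ofBijective (fun v => (⟨ι v, m.mem v⟩ : E))
    ⟨fun _ _ e => m.inj (congrArg Subtype.val e), fun e => (m.surj e e.2).imp fun _ => Subtype.ext⟩)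
  rw [← this, Module.natCard_eq_pow_finrank (K := ZMod p), Nat.card_zmod]

theorem norm {g : G} {a : V ≃ₗ[ZMod p] V} (h : Act ι g a) : g ∈ 𝐍(E) :=
  mem_norm_of_conj_le fun y hy => by
    obtain ⟨e, he, rfl⟩ := mem_conj'.1 hy
    obtain ⟨v, rfl⟩ := m.surj e he
    exact h v ▸ m.mem _

theorem ext {g : G} {a b : V ≃ₗ[ZMod p] V} (h : Act ι g a) (h' : Act ι g b) : a = b :=
  LinearEquiv.ext fun v => m.inj ((h v).trans (h' v).symm)

theorem cent {g : G} : g ∈ 𝐂(E) ↔ Act ι g (1 : V ≃ₗ[ZMod p] V) := by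
  rw [mem_cent]
  refine ⟨fun h v => by rw [← h _ (m.mem v)]; simp, fun h e he => ?_⟩
  obtain ⟨v, rfl⟩ := m.surj e he
  exact eq_mul_inv_iff_mul_eq.1 (h v)

theorem exists_act {g : G} (hg : g ∈ 𝐍(E)) : ∃ a : V ≃ₗ[ZMod p] V, Act ι g a := by
  choose f hf using fun v => m.surj _ ((mem_normalizer_iff.1 hg _).1 (m.mem v))
  let φ : V →+ V := AddMonoidHom.mk' f fun v w => m.inj (by rw [m.add, hf, hf, hf, m.add]; group)
  have hi : Function.Injective (φ.toZModLinearMap p) := fun v w e => m.inj (by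
    have := congrArg ι (show f v = f w from e)
    simpa [hf] using this)
  exact ⟨LinearEquiv.ofBijective _ (Finite.injective_iff_bijective.1 hi), hf⟩

theorem exists_ext (hG : Hom G) (γ : V ≃ₗ[ZMod p] V) : ∃ φ : G ≃* G, ∀ v, φ (ι v) = ι (γ v) := by
  let X : Subgroup (G × G) :=
    { carrier := {q | ∃ v, q = (ι v, ι (γ v))}
      one_mem' := ⟨0, by simp [m.zero, Prod.ext_iff]⟩
      mul_mem' := by
        rintro _ _ ⟨v, rfl⟩ ⟨w, rfl⟩
        exact ⟨v + w, by simp [m.add]⟩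
      inv_mem' := by
        rintro _ ⟨v, rfl⟩
        exact ⟨-v, by simp [m.neg]⟩ }
  obtain ⟨φ, hφ⟩ := P17.Hg.graph hG X
    (by
      rintro _ ⟨v, e⟩
      obtain ⟨e1, rfl⟩ := Prod.mk.inj e
      rw [m.eq_one.1 e1.symm, map_zero, m.zero])
    (by
      rintro _ ⟨v, e⟩
      obtain ⟨rfl, e1⟩ := Prod.mk.inj e
      rw [γ.map_eq_zero_iff.1 (m.eq_one.1 e1.symm), m.zero])
  exact ⟨φ, fun v => hφ _ ⟨v, rfl⟩⟩

theorem aut_normal (hG : Hom G) : (aut p ι).Normal := ⟨by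
  rintro a ⟨g, h⟩ γ
  obtain ⟨φ, hφ⟩ := m.exists_ext hG γ
  refine ⟨φ g, fun v => ?_⟩
  obtain ⟨w, rfl⟩ := γ.surjective v
  rw [LinearEquiv.mul_apply, LinearEquiv.mul_apply, LinearEquiv.coe_inv,
    LinearEquiv.symm_apply_apply, ← hφ, ← hφ, h, map_mul, map_mul, map_inv]⟩

theorem ns (h : NS E) : ∃ a ∈ aut p ι, ∃ v, a v ∉ Submodule.span (ZMod p) {v} := by
  obtain ⟨g, hg, e, he, h⟩ := h
  obtain ⟨a, ha⟩ := m.exists_act (p := p) hg
  obtain ⟨v, rfl⟩ := m.surj e he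
  exact ⟨a, ⟨g, ha⟩, v, by rwa [← m.mem_zpowers, ha]⟩

theorem cent_le_tvs (l : Dual (ZMod p) V) : 𝐂(E) ≤ tvs ι l := fun _ hg =>
  ⟨1, 0, (m.cent (p := p)).1 hg, fun y => by simp, map_zero l⟩

theorem tvs_le_norm (l : Dual (ZMod p) V) : tvs ι l ≤ 𝐍(E) := fun _ ⟨_, _, h, _⟩ => m.norm h

omit m in
theorem mem_norm_tvs {l : Dual (ZMod p) V} {g : G} {γ : V ≃ₗ[ZMod p] V} (h : Act ι g γ)
    {c : ZMod p} (hl : ∀ y, c * l (γ y) = l y) : g ∈ 𝐍(tvs ι l) :=
  mem_norm_of_conj_le fun y hy => by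
    obtain ⟨_, ⟨a, u, h1, h2, h3⟩, rfl⟩ := mem_conj'.1 hy
    refine ⟨_, c • γ u, (h.mul h1).mul h.inv, fun y => ?_, by rw [map_smul, smul_eq_mul, hl, h3]⟩
    rw [h2.conj (l' := c • l) γ (by simpa using hl) y, LinearMap.smul_apply, smul_smul,
      smul_eq_mul, mul_comm]

/-- A Sylow subgroup of `tvs ι l` induces a transvection in every available direction. -/
theorem exists_tv_syl {l : Dual (ZMod p) V} {Q : Subgroup G} (hQ : IsSyl p Q (tvs ι l)) {u : V}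
    (l1 : l u = 0) (h : HasTv (aut p ι) l u) :
    ∃ t ∈ Q, ∃ j : ℕ, ¬ p ∣ j ∧ ∃ a, Act ι t a ∧ Tv a l (j • u) := by
  obtain ⟨a, ⟨g, hg⟩, ha⟩ := h
  obtain ⟨j, hj, h1⟩ := exists_pow_p hp.1 g
  obtain ⟨c, ⟨b, w, c1, c2, c3⟩, hc⟩ := hQ.exists_conj_le hp.1 h1
    (zpowers_le.2 (pow_mem (show g ∈ tvs ι l from ⟨a, u, hg, ha, l1⟩) j))
  refine ⟨_, hc (conj_mem_conj (Subgroup.mem_zpowers _) c), j, hj, _,
    (c1.mul (hg.pow j)).mul c1.inv, ?_⟩
  have := (ha.pow l1 j).conj (l' := l) b fun y => by rw [c2]; simp [c3]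
  rwa [c2, map_nsmul, l1, smul_zero, zero_smul, add_zero] at this

theorem frattini_tvs {l : Dual (ZMod p) V} {Q : Subgroup G} (hQ : IsSyl p Q (tvs ι l)) {g : G}
    {γ : V ≃ₗ[ZMod p] V} (h : Act ι g γ) (hg : g ∈ 𝐍(tvs ι l)) :
    ∃ n ∈ 𝐍(Q), ∃ b w, Tv b l w ∧ l w = 0 ∧ Act ι n (b * γ) := by
  have h1 := hQ.frattini hp.1 (M := 𝐍(tvs ι l)) ⟨le_norm_self _, le_rfl⟩
  obtain ⟨c, ⟨b, w, c1, c2, c3⟩, n, hn, rfl⟩ := (mem_sup_of_norm inf_le_left).1 (h1.ge hg)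
  exact ⟨n, hn.2, _, _, c2.inv c3, by rw [map_neg, c3, neg_zero], by simpa using c1.inv.mul h⟩

/-- **(Q)** -/
theorem rank_le {T : Subgroup G} (hG : Hom G) (h : Mx p E T) (hn : NS E) :
    finrank (ZMod p) V ≤ 2 := by
  by_contra h3
  obtain ⟨a, ha, v, hv⟩ := m.ns (p := p) hn
  obtain ⟨l, m', n, e1, e2, e3, l1, l2, l3, m1, m2, n1, n2, t1, γ, ⟨g', hg'⟩, hγ⟩ :=
    la3 (m.aut_normal hG) ha hv (exists_notMem_span h3)
  obtain ⟨Q, hQ, TQ⟩ := exists_isSyl_ge h.hp h.syl.pgrp (h.syl.le.trans (m.cent_le_tvs l))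
  obtain ⟨t, ht, j', hj', b, b1, b2⟩ := m.exists_tv_syl hQ l2 t1
  obtain ⟨g, hg, c, w, c1, c2, c3⟩ := m.frattini_tvs hQ hg'
    (mem_norm_tvs hg' (c := 1) fun y => by rw [hγ]; simp [l1])
  let τ : G → V := fun x => Function.invFun ι (x * ι e3 * x⁻¹) - e3
  have hτ : ∀ {x a u}, Act ι x a → Tv a l u → τ x = u := fun {x a u} h1 h2 => by
    simp only [τ]
    rw [← h1, Function.leftInverse_invFun m.inj, h2, l3, one_smul, add_sub_cancel_left]
  have hE : zpowers (ι e1) ≤ E := zpowers_le.2 (m.mem _)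
  have fix : ∀ {x} {a : V ≃ₗ[ZMod p] V}, Act ι x a → a e1 = e1 → x ∈ 𝐂(zpowers (ι e1)) := fun {x a} h1 h2 => by
    rw [cent_zpowers, mem_cent1_iff_conj, ← h1, h2]
  have g1 : (c * γ) e1 = e1 := by rw [LinearEquiv.mul_apply, hγ, c1]; simp [m1, l1]
  have mz : ∀ s : ZMod p, ι (s • e1) ∈ zpowers (ι e1) := fun s =>
    m.mem_zpowers.2 (Submodule.smul_mem _ _ (Submodule.subset_span rfl))
  obtain ⟨x, ⟨x1, x2⟩, hx⟩ := gpc hG (E := zpowers (ι e1)) (P := Q) (hE.trans (h.le.trans TQ))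
    (cent_comm.1 fun y hy => by
      obtain ⟨a, u, h1, h2, -⟩ := hQ.le hy
      exact fix h1 (by rw [h2, l1, zero_smul, add_zero]))
    (f := fun x => ι (n (τ x) • e1))
    (fun y hy z hz => by
      obtain ⟨a, u, h1, h2, -⟩ := hQ.le hy
      obtain ⟨a', u', h3, h4, h5⟩ := hQ.le hz
      rw [hτ (h1.mul h3) (h2.mul h4 h5), hτ h1 h2, hτ h3 h4, map_add, add_smul, m.add])
    (fun y _ => mz _)
    (fun y hy => by
      rw [hτ ((m.cent (p := p)).1 (h.cm (hE hy))) (u := 0) (fun y => by simp), map_zero, zero_smul,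
        m.zero])
    hg (cent_le_norm _ (fix c3 g1))
  have key : ∀ y ∈ Q, ∀ a u, Act ι y a → Tv a l u → l u = 0 →
      x * y * x⁻¹ = y * ι (m' u • e1) := fun y hy a u h1 h2 h4 => by
    have g2 : (c * γ)⁻¹ u = u - m' u • e1 := by
      rw [LinearEquiv.coe_inv, LinearEquiv.symm_apply_eq, LinearEquiv.mul_apply, hγ, c1]
      simp [m1, l1, h4]
    have h5 := h2.conj (l' := l) (c * γ)⁻¹ fun y => by
      obtain ⟨z, rfl⟩ := (c * γ).surjective y
      rw [LinearEquiv.coe_inv, LinearEquiv.symm_apply_apply, LinearEquiv.mul_apply, hγ, c1]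
      simp [l1, c2]
    have h6 := (c3.inv.mul h1).mul c3.inv.inv
    rw [inv_inv g] at h6
    rw [hx y hy, hτ h1 h2, hτ h6 h5, g2, ← c3, map_smul, g1, ← m.neg, ← m.add]
    congr 2
    simp [n1, sub_smul]
  have x3 : x ∈ 𝐂(T) := mem_cent.2 fun y hy => by
    have := key y (TQ hy) 1 0 ((m.cent (p := p)).1 (h.syl.le hy)) (fun y => by simp) (map_zero l)
    rw [map_zero, zero_smul, m.zero, mul_one] at this
    exact (mul_inv_eq_iff_eq_mul.1 this).symm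
  obtain ⟨j, hj, hxj⟩ := exists_pow_p h.hp x
  obtain ⟨z, hz⟩ := m.surj _ (h.center_le hG hn ⟨h.mem_of_p (cent_anti h.le (pow_mem x3 j))
    (cent_le_norm _ (pow_mem x3 j)) hxj, pow_mem x3 j⟩)
  have h4 := conj_iter (key t ht b _ b1 b2 (by rw [map_nsmul, l2, smul_zero]))
    (by rw [← mem_cent.1 x2 _ (mz _), mul_inv_cancel_right]) j
  rw [← hz, ← m.nsmul, ← m.neg, mul_assoc, eq_comm, ← inv_mul_eq_iff_eq_mul, ← m.neg] at h4
  have h5 : ι (-z) * t = t * ι (b⁻¹ (-z)) := by rw [b1.inv]; group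
  rw [← mul_assoc, h5, mul_assoc, mul_right_inj, ← m.add, b2.inv (by
    rw [map_nsmul, l2, smul_zero])] at h4
  have h6 := congrArg n (m.inj h4)
  simp [n1, n2, m2, ZMod.natCast_eq_zero_iff, hj, hj'] at h6

end Md

theorem Om.mx {E : Subgroup G} (h : Om E) : ∃ T, Mx 2 E T := by
  obtain ⟨T, hT⟩ := exists_isSyl Nat.prime_two 𝐂(E)
  exact ⟨T, Nat.prime_two, fun x hx => by rw [pow_two, ((h x).1 hx).2], fun x hx => ((h x).1 hx).1,
    hT, fun x hx e => (h x).2 ⟨hx, by rwa [← pow_two]⟩⟩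

theorem ns_of_two {E : Subgroup G} (h : ∀ x ∈ E, x ^ 2 = 1) (hn : ¬ 𝐍(E) ≤ 𝐂(E)) : NS E := by
  classical
  by_contra c
  refine hn fun g hg => mem_cent.2 fun e he => ?_
  have h1 : g * e * g⁻¹ ∈ zpowers e := by
    by_contra c'
    exact c ⟨g, hg, e, he, c'⟩
  rcases eq_or_ne e 1 with rfl | e0
  · simp
  · rw [mem_zpowers_iff_mem_range_orderOf, orderOf_eq_prime (h e he) e0] at h1
    simp only [Finset.mem_image, Finset.mem_range] at h1
    obtain ⟨i, hi, e1⟩ := h1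
    interval_cases i
    · exact absurd (by simpa using e1.symm) e0
    · exact eq_mul_inv_iff_mul_eq.1 (by simpa using e1)

theorem bigStmt : BigStmt.{u} := fun G _ _ hG E hE h8 => by
  by_contra hn
  obtain ⟨T, h⟩ := hE.mx
  obtain ⟨V, _, _, _, ι, m⟩ := exists_md h.el h.cm
  have h1 := m.rank_le hG h (ns_of_two h.el hn)
  have h2 := Nat.pow_le_pow_right (n := 2) two_pos h1
  rw [← m.card] at h2
  omega

end Cfsg.Agent.Hm
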