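/-
Hm, chapter A: Sylow subgroups of odd order of homogeneous groups are abelian; no transvections.
-/
import Cfsg.Agent.Hm.A3

set_option autoImplicit false
set_option linter.unusedSectionVars false

namespace Cfsg.Agent.Hm

open Subgroup Cfsg Cfsg.Agent Cfsg.Agent.FT Module
open scoped commutatorElement

universe u

variable {G : Type u} [Group G] [Finite G] {p : ℕ} [hp : Fact p.Prime] {V : Type u}
  [AddCommGroup V] [Module (ZMod p) V] [Finite V] {E T : Subgroup G} {ι : V → G}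

theorem Act.zpow {g : G} {a : V ≃ₗ[ZMod p] V} (h : Act ι g a) (k : ℤ) : Act ι (g ^ k) (a ^ k) := by
  cases k with
  | ofNat n => simpa using h.pow n
  | negSucc n => rw [zpow_negSucc, zpow_negSucc]; exact (h.pow _).inv

theorem two_ne_zero' (h2 : p ≠ 2) : (2 : ZMod p) ≠ 0 := fun h =>
  h2 ((Nat.prime_dvd_prime_iff_eq hp.1 Nat.prime_two).1 ((ZMod.natCast_eq_zero_iff 2 p).1 h))

/-- An automorphism inverting `E` yields a fixed-point-free involution of `T`. -/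
theorem Md.comm (m : Md E ι) (hG : Hom G) (h : Mx p E T) (h2 : p ≠ 2) : T ≤ 𝐂(T) := by
  obtain ⟨ψ, hψ⟩ := m.exists_ext hG (LinearEquiv.neg (ZMod p))
  have h1 : ∀ e ∈ E, ψ e = e⁻¹ := fun e he => by
    obtain ⟨v, rfl⟩ := m.surj e he
    rw [hψ, LinearEquiv.neg_apply, m.neg]
  have h3 : E.map ψ.toMonoidHom = E := le_antisymm
    (by rintro _ ⟨e, he, rfl⟩; exact (h1 e he).symm ▸ inv_mem he)
    fun e he => ⟨e⁻¹, inv_mem he, (h1 _ (inv_mem he)).trans (inv_inv e)⟩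
  have h4 : T.map ψ.toMonoidHom ≤ 𝐂(E) := by
    rw [← h3, map_le_cent_iff ψ.injective]; exact h.syl.le
  obtain ⟨c, hc, hT⟩ := h.syl.exists_conj_le h.hp (h.syl.pgrp.map _) h4
  let f : T →* T := (((MulAut.conj c).toMonoidHom.comp ψ.toMonoidHom).comp T.subtype).codRestrict T
    fun x => hT (conj_mem_conj (mem_map_of_mem _ x.2) c)
  have hf : Function.Injective f := fun x y e => Subtype.ext (ψ.injective
    ((MulAut.conj c).injective (congrArg Subtype.val e)))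
  let σ : MulAut T := MulEquiv.ofBijective f (Finite.injective_iff_bijective.1 hf)
  have s1 : ∀ x : T, x ^ p = 1 → σ x = x⁻¹ := fun x hx => Subtype.ext (by
    have he := h.mem_iff.2 ⟨x.2, congrArg Subtype.val hx⟩
    change c * ψ x * c⁻¹ = (x : G)⁻¹
    rw [h1 _ he, ← mem_cent.1 hc _ (inv_mem he), mul_inv_cancel_right])
  have s2 : ∀ x : T, x ^ p = 1 → ∀ n : ℕ, (σ ^ (2 * n)) x = x := fun x hx n => by
    induction n with
    | zero => rfl
    | succ n ih => rw [mul_add, pow_add, MulAut.mul_apply, mul_one, pow_two, MulAut.mul_apply,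
        s1 x hx, map_inv, s1 x hx, inv_inv, ih]
  obtain ⟨j, hj, hσ⟩ := exists_pow_p Nat.prime_two σ
  obtain ⟨i, rfl⟩ := Nat.odd_iff.2 (Nat.two_dvd_ne_zero.1 hj)
  obtain ⟨n, hn⟩ := IsPGroup.iff_card.1 (hσ.to_le (zpowers_le.2 (show σ ^ (2 * (2 * i + 1)) ∈
    zpowers (σ ^ (2 * i + 1)) from pow_mul' σ 2 _ ▸ pow_mem (Subgroup.mem_zpowers _) 2)))
  have s3 : ∀ x, (σ ^ (2 * (2 * i + 1))) x = x :=
    H1.aut_trivial_of_fixes_omega (φ := (zpowers (σ ^ (2 * (2 * i + 1)))).subtype) h2 h.syl.pgrp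
      (hn ▸ ((Nat.coprime_primes Nat.prime_two h.hp).2 (Ne.symm h2)).pow_left n)
      (fun x hx a => (show zpowers _ ≤ MulAction.stabilizer (MulAut T) x from
        zpowers_le.2 (s2 x hx _)) a.2) ⟨_, Subgroup.mem_zpowers _⟩
  have s4 : MonoidHom.FixedPointFree (σ ^ (2 * i + 1) : MulAut T) := fun x hx => by
    by_contra x0
    obtain ⟨k, hk⟩ := H3.exists_pow_orderOf_eq_prime h.syl.pgrp x0
    have h5 : (x ^ k) ^ p = 1 := hk ▸ pow_orderOf_eq_one _
    have h6 : (σ ^ (2 * i + 1)) (x ^ k) = x ^ k := by rw [map_pow, hx]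
    rw [pow_succ, MulAut.mul_apply, s1 _ h5, map_inv, s2 _ h5, inv_eq_iff_mul_eq_one,
      ← pow_two, ← orderOf_dvd_iff_pow_eq_one, hk] at h6
    exact h2 ((Nat.prime_dvd_prime_iff_eq h.hp Nat.prime_two).1 h6)
  exact fun x hx => mem_cent.2 fun y hy => congrArg Subtype.val (s4.commute_all_of_involutive
    (fun z => by rw [← MulAut.mul_apply, ← pow_add, ← two_mul, s3]) ⟨y, hy⟩ ⟨x, hx⟩).eq

theorem Md.no_tv (m : Md E ι) (hG : Hom G) (h : Mx p E E) (h2 : p ≠ 2)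
    (r : finrank (ZMod p) V ≤ 2) : ¬ AnyTv (aut p ι) := by
  rintro ⟨l, u, v, l1, u0, l2, t1⟩
  obtain ⟨Q, hQ, EQ⟩ := exists_isSyl_ge h.hp h.syl.pgrp (h.syl.le.trans (m.cent_le_tvs l))
  obtain ⟨t, ht, j', hj', b, b1, b2⟩ := m.exists_tv_syl hQ l1 t1
  obtain ⟨γ, ⟨g', hg'⟩, hγ⟩ := la_neg (m.aut_normal hG) r l1 u0 l2 t1
  obtain ⟨g, hg, c, w', c1, c2, c3⟩ := m.frattini_tvs hQ hg'
    (Md.mem_norm_tvs hg' (c := -1) fun y => by rw [hγ]; simp)
  have w0 : j' • u ≠ 0 := by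
    rw [← Nat.cast_smul_eq_nsmul (ZMod p)]
    exact smul_ne_zero (by rwa [Ne, ZMod.natCast_eq_zero_iff]) u0
  have w1 : l (j' • u) = 0 := by rw [map_nsmul, l1, smul_zero]
  generalize j' • u = w at w0 w1 b2
  have pz : ∀ y : V, p • y = 0 := fun y => by
    rw [← Nat.cast_smul_eq_nsmul (ZMod p), ZMod.natCast_self, zero_smul]
  have ob : orderOf b = p := orderOf_eq_prime
    ((b2.pow w1 p).ext fun y => by simp [pz]) fun e => w0 (by simpa [e, l2] using b2 v)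
  have dv : ∀ {s : G} {k : ℤ} {y : G}, Act ι s b → y ∈ E → s ^ k * y = 1 → (p : ℤ) ∣ k :=
    fun {s k y} hs hy e => by
      rw [← ob, orderOf_dvd_iff_zpow_eq_one]
      refine m.ext (hs.zpow k) ((m.cent (p := p)).1 (h.cm ?_))
      rw [eq_inv_of_mul_eq_one_left e]
      exact inv_mem hy
  have pw : ∀ n : ℕ, (ι v * t) ^ n = ι (n • v + n.choose 2 • w) * t ^ n := fun n => by
    induction n with
    | zero => simp [m.zero]
    | succ n ih =>
      have := b1.pow n v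
      rw [(b2.pow w1 n) v, l2, one_smul] at this
      rw [pow_succ, ih, Nat.choose_succ_succ' n 1, Nat.choose_one_right,
        show (n + 1) • v + (n + n.choose (1 + 1)) • w = n • v + n.choose 2 • w + (v + n • w) by
          rw [add_nsmul, add_nsmul]; simp only [one_nsmul]; abel, m.add _ (v + n • w), this]
      group
  have pw' : (ι v * t) ^ p = t ^ p := by
    obtain ⟨k, hk⟩ := h.hp.dvd_choose_self two_ne_zero (lt_of_le_of_ne h.hp.two_le (Ne.symm h2))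
    rw [pw, hk, mul_nsmul, pz, pz, smul_zero, add_zero, m.zero, one_mul]
  have cm : ∀ x ∈ E, ∀ y ∈ E, x * y = y * x := fun x hx y hy => mem_cent.1 (h.cm hy) x hx
  have b3 : Act ι (ι v * t) b := by simpa using ((m.cent (p := p)).1 (h.cm (m.mem v))).mul b1
  obtain ⟨Φ, Φ1, Φ2⟩ := P17.Hg.cyc_ext hG (U := E) (ψ := id) (b := t) (b' := ι v * t) (m.norm b1)
    (fun _ _ _ _ => rfl)
    (fun y hy => by
      obtain ⟨y, rfl⟩ := m.surj y hy
      rw [id, id, ← b1, ← b3])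
    (fun k y hy => ⟨fun e => by
      obtain ⟨i, rfl⟩ := dv b1 hy e
      rwa [zpow_mul, zpow_natCast, pw', ← zpow_natCast, ← zpow_mul], fun e => by
      obtain ⟨i, rfl⟩ := dv b3 hy e
      rwa [zpow_mul, zpow_natCast, pw', ← zpow_natCast, ← zpow_mul] at e⟩)
  have pe : ∀ y ∈ 𝐂(E), IsPGroup p (zpowers y) → y ∈ E := fun y hy =>
    h.mem_of_p hy (cent_le_norm _ hy)
  have g1 : g⁻¹ * t * g * t⁻¹ ∈ E := by
    have h3 : g⁻¹ * t * g * t⁻¹ ∈ Q :=
      mul_mem (by simpa using (mem_normalizer_iff.1 (inv_mem hg) t).1 ht) (inv_mem ht)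
    refine pe _ ((m.cent (p := p)).2 ?_) (hQ.pgrp.to_le (zpowers_le.2 h3))
    have h4 : b * (c * γ) = c * γ * b := LinearEquiv.ext fun y => by
      simp only [LinearEquiv.mul_apply, hγ, c1 _, b2 _, map_add, map_neg, map_smul, c2, w1]
      module
    have := ((c3.inv.mul b1).mul c3).mul b1.inv
    rwa [mul_assoc _ b, h4, inv_mul_cancel_left, mul_inv_cancel] at this
  have x2 : Φ g * g⁻¹ ∈ 𝐂(E) := mem_cent.2 fun y hy => by
    have h3 : g⁻¹ * y * g ∈ E := by simpa using (mem_normalizer_iff.1 (inv_mem (m.norm c3)) y).1 hy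
    have h4 := Φ1 _ h3
    rw [map_mul, map_mul, map_inv, Φ1 y hy, id, id] at h4
    rw [show y * (Φ g * g⁻¹) = Φ g * ((Φ g)⁻¹ * y * Φ g) * g⁻¹ by group, h4]
    group
  have x3 : Φ g * g⁻¹ * t⁻¹ * (Φ g * g⁻¹)⁻¹ = t⁻¹ * ι (-(v + w' + v)) := by
    have h3 : Φ ((ι v)⁻¹ * (g⁻¹ * t * g * t⁻¹) * t) = g⁻¹ * t * g := by
      rw [map_mul, Φ2, Φ1 _ (mul_mem (inv_mem (m.mem v)) g1), id, cm _ (inv_mem (m.mem v)) _ g1]
      group
    have h4 : ι (v + w') = g * (ι v)⁻¹ * g⁻¹ := by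
      rw [← m.neg, ← c3, LinearEquiv.mul_apply, hγ, neg_neg, c1, l2, one_smul]
    have h5 : Φ _ = ι (v + w') := Φ1 _ (m.mem (v + w'))
    rw [m.neg, m.add _ v, ← mul_inv_rev, eq_comm, inv_eq_iff_eq_inv, mul_assoc, ← Φ2,
      ← h5, ← map_mul, h4, show (Φ g * g⁻¹ * t⁻¹ * (Φ g * g⁻¹)⁻¹)⁻¹ =
        Φ g * (g⁻¹ * t * g) * (Φ g)⁻¹ by group, ← h3, ← map_inv, ← map_mul, ← map_mul]
    congr 1
    group
  obtain ⟨j, hj, hxj⟩ := exists_pow_p h.hp (Φ g * g⁻¹)
  obtain ⟨z, hz⟩ := m.surj _ (pe _ (pow_mem x2 j) hxj)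
  have h4 := conj_iter x3 (by rw [← mem_cent.1 x2 _ (m.mem _), mul_inv_cancel_right]) j
  rw [← hz, ← m.nsmul, show ι z * t⁻¹ = t⁻¹ * (t * ι z * t⁻¹) by group, ← b1, ← m.neg, mul_assoc,
    mul_right_inj, ← m.add, b2] at h4
  have h6 := congrArg l (m.inj h4)
  simp [l2, c2, w1] at h6
  exact mul_ne_zero (two_ne_zero' h2) (mt (ZMod.natCast_eq_zero_iff j p).1 hj)
    (by linear_combination h6)

end Cfsg.Agent.Hm
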