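/-
Hm, chapter A: the odd local structure of a homogeneous group.
-/
import Cfsg.Agent.Hm.A4

set_option autoImplicit false
set_option linter.unusedSectionVars false

namespace Cfsg.Agent.Hm

open Subgroup Cfsg Cfsg.Agent Cfsg.Agent.FT Module
open scoped commutatorElement

universe u

theorem scalar_fix {k V : Type*} [Field k] [AddCommGroup V] [Module k V] {a : V ≃ₗ[k] V}
    (h : ∀ w, a w ∈ Submodule.span k {w}) {v : V} (v0 : v ≠ 0) (hv : a v = v) : a = 1 := by
  refine LinearEquiv.ext fun w => ?_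
  by_cases hw : w ∈ Submodule.span k {v}
  · obtain ⟨c, rfl⟩ := Submodule.mem_span_singleton.1 hw
    simp [hv]
  · obtain ⟨l, l1, l2⟩ := exists_dual1 hw
    obtain ⟨n, n1, n2⟩ := exists_dual1 (notMem_span_symm hw v0)
    obtain ⟨c, hc⟩ := Submodule.mem_span_singleton.1 (h w)
    obtain ⟨d, hd⟩ := Submodule.mem_span_singleton.1 (h (v + w))
    rw [map_add, hv, ← hc] at hd
    have h1 := congrArg l hd
    have h2 := congrArg n hd
    simp [l1, l2, n1, n2] at h1 h2
    rw [← hc, ← h1, h2, one_smul, LinearEquiv.coe_one, id]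

variable {G : Type u} [Group G] [Finite G] {p : ℕ} {E T : Subgroup G}

omit [Finite G] in
theorem mem_of_pows {H : Subgroup G} {y : G} {m n : ℕ} (h : m.Coprime n)
    (h1 : y ^ m ∈ H) (h2 : y ^ n ∈ H) : y ∈ H := by
  have h3 := Nat.gcd_eq_gcd_ab m n
  rw [h.gcd_eq_one] at h3
  have h4 := mul_mem (zpow_mem h1 (m.gcdA n)) (zpow_mem h2 (m.gcdB n))
  rwa [← zpow_natCast, ← zpow_natCast, ← zpow_mul, ← zpow_mul, ← zpow_add, ← h3, Nat.cast_one,
    zpow_one] at h4

/-- The structure of the normalizer of a Sylow subgroup for an odd prime. -/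
structure Loc (p : ℕ) (E T : Subgroup G) : Prop where
  comm : T ≤ 𝐂(T)
  pw : ∃ N, p.Coprime N ∧ ∀ g ∈ 𝐍(E), g ^ N ∈ 𝐂(E)
  free : ∀ n ∈ 𝐍(E), ∀ e ∈ E, e ≠ 1 → n * e * n⁻¹ = e → n ∈ 𝐂(E)
  ex : NS E → p = 3 ∧ T = E ∧ 𝐨(E) = 9 ∧ (∀ g ∈ 𝐍(E), g ^ 4 ∈ 𝐂(E)) ∧ ¬ ⁅𝐍(E), 𝐍(E)⁆ ≤ 𝐂(E)

theorem Mx.loc (hG : Hom G) (h : Mx p E T) (h2 : p ≠ 2) : Loc p E T := by
  haveI := Fact.mk h.hp
  obtain ⟨V, _, _, _, ι, m⟩ := exists_md h.el h.cm
  have cm := m.comm hG h h2
  have two := two_ne_zero' h2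
  have hT : NS E → T = E := fun hn =>
    le_antisymm (fun x hx => h.center_le hG hn ⟨hx, cm hx⟩) h.le
  have la : ∀ {g : G} {a : V ≃ₗ[ZMod p] V} {v : V}, Act ι g a → a v ∉ Submodule.span (ZMod p) {v} →
      (∀ c : ZMod p, c ≠ 0 → c * c = 1) ∧ (∀ y, a (a y) = -y) ∧ ∃ b ∈ aut p ι, a * b ≠ b * a :=
    fun {g a v} ha hv => by
      have hn : NS E := ⟨g, m.norm ha, _, m.mem v, by rwa [← ha, m.mem_zpowers (p := p)]⟩
      exact la2 (m.aut_normal hG) (m.rank_le hG h hn) two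
        (m.no_tv hG (hT hn ▸ h) h2 (m.rank_le hG h hn)) ⟨g, ha⟩ hv
  have ex : NS E → p = 3 ∧ T = E ∧ 𝐨(E) = 9 ∧ (∀ g ∈ 𝐍(E), g ^ 4 ∈ 𝐂(E)) ∧
      ¬ ⁅𝐍(E), 𝐍(E)⁆ ≤ 𝐂(E) := fun hn => by
    obtain ⟨a, ⟨g, ha⟩, v, hv⟩ := m.ns (p := p) hn
    obtain ⟨h3, -, b, ⟨g', hb⟩, hab⟩ := la ha hv
    have p3 : p = 3 := (Nat.prime_dvd_prime_iff_eq h.hp Nat.prime_three).1
      ((ZMod.natCast_eq_zero_iff 3 p).1 (by push_cast; linear_combination h3 2 two))
    refine ⟨p3, hT hn, ?_, fun x hx => ?_, fun hc => hab ?_⟩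
    · have v0 : v ≠ 0 := by rintro rfl; simp at hv
      have hi : LinearIndependent (ZMod p) ![v, a v] := (LinearIndependent.pair_iff' v0).2
        fun c e => hv (Submodule.mem_span_singleton.2 ⟨c, e⟩)
      have := hi.fintype_card_le_finrank
      rw [m.card (p := p), le_antisymm (m.rank_le hG h hn) (by simpa using this), p3]
      rfl
    · obtain ⟨c, hc⟩ := m.exists_act (p := p) hx
      have e : ∀ y, (c ^ 4) y = c (c (c (c y))) := fun y => rfl
      refine (m.cent (p := p)).2 ((LinearEquiv.ext fun y => ?_ : c ^ 4 = 1) ▸ hc.pow 4)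
      rw [e, LinearEquiv.coe_one, id]
      by_cases hs : ∃ w, c w ∉ Submodule.span (ZMod p) {w}
      · obtain ⟨w, hw⟩ := hs
        rw [(la hc hw).2.1, (la hc hw).2.1, neg_neg]
      · push Not at hs
        obtain ⟨d, hd⟩ := Submodule.mem_span_singleton.1 (hs y)
        rcases eq_or_ne d 0 with rfl | d0
        · rw [zero_smul, eq_comm, c.map_eq_zero_iff] at hd
          simp [hd]
        · have : c (c y) = y := by rw [← hd, map_smul, ← hd, smul_smul, h3 d d0, one_smul]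
          rw [this, this]
    · have := m.ext (((ha.mul hb).mul ha.inv).mul hb.inv) ((m.cent (p := p)).1
        (hc (commutator_mem_commutator (m.norm ha) (m.norm hb))))
      rwa [mul_inv_eq_one, mul_inv_eq_iff_eq_mul] at this
  refine ⟨cm, ?_, fun n hn e he e0 hne => ?_, ex⟩
  · by_cases hn : NS E
    · exact ⟨4, by rw [(ex hn).1]; norm_num, (ex hn).2.2.2.1⟩
    · refine ⟨p - 1, (Nat.coprime_self_sub_right h.hp.one_le).2 (Nat.coprime_one_right p),
        fun g hg => ?_⟩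
      obtain ⟨c, hc⟩ := m.exists_act (p := p) hg
      refine (m.cent (p := p)).2 ((LinearEquiv.ext fun y => ?_ : c ^ (p - 1) = 1) ▸ hc.pow _)
      obtain ⟨d, hd⟩ := Submodule.mem_span_singleton.1 (not_not.1 fun hy : c y ∉ _ =>
        hn ⟨g, hg, _, m.mem y, by rwa [← hc, m.mem_zpowers (p := p)]⟩)
      have e : ∀ n : ℕ, (c ^ n) y = d ^ n • y := fun n => by
        induction n with
        | zero => simp
        | succ n ih => rw [pow_succ', LinearEquiv.mul_apply, ih, map_smul, ← hd, smul_smul, pow_succ]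
      rcases eq_or_ne d 0 with rfl | d0
      · rw [zero_smul, eq_comm, c.map_eq_zero_iff] at hd
        simp [hd]
      · rw [e, ZMod.pow_card_sub_one_eq_one d0, one_smul, LinearEquiv.coe_one, id]
  · obtain ⟨c, hc⟩ := m.exists_act (p := p) hn
    obtain ⟨v, rfl⟩ := m.surj e he
    have v0 : v ≠ 0 := mt m.eq_one.2 e0
    have hv : c v = v := m.inj (by rw [hc, hne])
    refine (m.cent (p := p)).2 (scalar_fix (fun w => not_not.1 fun hw => ?_) v0 hv ▸ hc)
    have := (la hc hw).2.1 v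
    rw [hv, hv] at this
    exact smul_ne_zero two v0 (by linear_combination (norm := module) this)

theorem Mx.conj (h : Mx p E T) (g : G) : Mx p (E ^ᵍ g) (T ^ᵍ g) where
  hp := h.hp
  el := fun x hx => by
    obtain ⟨y, hy, rfl⟩ := mem_conj'.1 hx
    rw [conj_pow, h.el y hy, mul_one, mul_inv_cancel]
  cm := conj_le_cent_iff.2 h.cm
  syl := cent_conj E g ▸ h.syl.conj g
  om := fun x hx e => by
    rw [cent_conj] at hx
    obtain ⟨y, hy, rfl⟩ := mem_conj'.1 hx
    exact conj_mem_conj (h.om y hy (by simpa [conj_pow] using e)) g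

theorem Mx.syl_odd (h : Mx p E T) (l : Loc p E T) : IsSyl p T ⊤ :=
  h.syl_top fun x hx hp => by
    haveI := Fact.mk h.hp
    obtain ⟨N, h1, h2⟩ := l.pw
    obtain ⟨n, hn⟩ := IsPGroup.iff_card.1 hp
    rw [Nat.card_zpowers] at hn
    exact H8.mem_of_pow_mem_of_coprime (hn ▸ h1.pow_left n) (h2 x (h.norm_le hx))

theorem exists_mx_le (hG : Hom G) (hp : p.Prime) (h2 : p ≠ 2) {Y : Subgroup G}
    (hY : IsPGroup p Y) : ∃ E T : Subgroup G, Mx p E T ∧ Loc p E T ∧ Y ≤ T := by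
  obtain ⟨E, T, h⟩ := exists_mx (G := G) hp
  obtain ⟨g, -, hg⟩ := (h.syl_odd (h.loc hG h2)).exists_le_conj hp hY le_top
  exact ⟨_, _, h.conj g, (h.conj g).loc hG h2, hg⟩

theorem Mx.frattini_le (h : Mx p E T) (l : Loc p E T) {Y : Subgroup G} (hY : Y ≤ T) {g : G}
    (hg : g ∈ 𝐍(Y)) : ∃ c ∈ 𝐂(Y), ∃ n ∈ 𝐍(Y) ⊓ 𝐍(T), c * n = g :=
  (mem_sup_of_norm (inf_le_left.trans (H1.le_normalizer_centralizer le_rfl))).1
    ((((h.syl_odd l).of_le (l.comm.trans (cent_anti hY)) le_top).frattini h.hp (M := 𝐍(Y))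
      ⟨cent_le_norm Y, H1.le_normalizer_centralizer le_rfl⟩).ge hg)

theorem aStmt : AStmt.{u} := fun G _ _ hG =>
  { ab := fun hp h2 _ hY => by
      obtain ⟨E, T, -, l, hT⟩ := exists_mx_le hG hp h2 hY
      exact isMulComm_iff_le_cent.2 (hT.trans (l.comm.trans (cent_anti hT)))
    free := fun {p} hp h2 Y hY g hg y hy y0 hc => by
      haveI := Fact.mk hp
      obtain ⟨E, T, h, l, hT⟩ := exists_mx_le hG hp h2 hY
      obtain ⟨c, c1, n, ⟨n1, n2⟩, rfl⟩ := h.frattini_le l hT hg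
      obtain ⟨k, hk⟩ := H3.exists_pow_orderOf_eq_prime hY (x := ⟨y, hy⟩) (mt Subtype.ext_iff.1 y0)
      rw [← orderOf_coe, Subgroup.coe_pow] at hk
      have h3 : Commute n (y ^ k) := by
        have := (Commute.inv_left (mem_cent.1 c1 y hy).symm).mul_left hc
        rw [inv_mul_cancel_left] at this
        exact this.pow_right k
      have h4 : n ∈ 𝐂(E) := l.free n (h.norm_le n2) (y ^ k)
        (h.mem_iff.2 ⟨pow_mem (hT hy) k, hk ▸ pow_orderOf_eq_one _⟩)
        (fun e => hp.ne_one (by rw [← hk, e, orderOf_one])) (by rw [h3.eq, mul_inv_cancel_right])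
      refine mul_mem c1 (cent_anti hT ?_)
      obtain ⟨i, j, hj, e⟩ := Nat.exists_eq_pow_mul_and_not_dvd (orderOf_pos n).ne' p hp.ne_one
      have co := (Nat.Prime.coprime_iff_not_dvd hp).2 hj
      haveI := isMulComm_iff_le_cent.2 l.comm
      refine mem_of_pows (co.pow_left i) (H5.mem_centralizer_of_omega h.syl.pgrp
        (pow_mem n2 _) (co.symm.coprime_dvd_left (orderOf_dvd_of_pow_eq_one ?_))
        fun z hz e => mem_cent.1 (pow_mem h4 _) z (h.mem_iff.2 ⟨hz, e⟩))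
        (l.comm (h.mem_of_p (pow_mem h4 j) (pow_mem n2 j)
          (H1.isPGroup_zpowers_of_pow_eq_one (k := i) ?_)))
      · rw [← pow_mul, ← e, pow_orderOf_eq_one]
      · rw [← pow_mul, mul_comm, ← e, pow_orderOf_eq_one]
    sc := fun {p} hp h2 Y hY => by
      haveI := Fact.mk hp
      obtain ⟨E, T, h, l, hT⟩ := exists_mx_le hG hp h2 hY
      by_cases hn : NS E
      · obtain ⟨rfl, rfl, h3, h4, h5⟩ := l.ex hn
        have := Subgroup.card_dvd_of_le hT
        rw [h3] at this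
        obtain ⟨i, hi, e⟩ := (Nat.dvd_prime_pow (m := 2) hp).1 this
        interval_cases i
        · refine .inl fun g _ y hy ho => ?_
          rw [mem_bot.1 ((Subgroup.card_eq_one.1 e).le hy), orderOf_one] at ho
          exact absurd ho Nat.not_prime_one
        · refine .inl fun g hg y hy ho => ?_
          rw [zpowers_eq_of_card_prime (by rw [e]; norm_num) hy (by
            rintro rfl; exact Nat.not_prime_one (by simpa using ho))]
          exact (mem_normalizer_iff.1 hg y).1 hy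
        · obtain rfl := H1.eq_of_le_of_card_le hT (by rw [h3, e]; rfl)
          exact .inr ⟨h.syl_odd l, h3, h4, h5⟩
      · refine .inl fun g hg y hy ho => ?_
        obtain ⟨c, c1, n, ⟨n1, n2⟩, rfl⟩ := h.frattini_le l hT hg
        obtain ⟨k, hk⟩ := IsPGroup.iff_orderOf.1 hY ⟨y, hy⟩
        rw [← orderOf_coe] at hk
        have h3 : orderOf y = p := ((Nat.prime_dvd_prime_iff_eq ho hp).1
          (ho.dvd_of_dvd_pow hk.dvd))
        rw [show c * n * y * (c * n)⁻¹ = c * (n * y * n⁻¹) * c⁻¹ by group,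
          ← mem_cent.1 c1 _ ((mem_normalizer_iff.1 n1 y).1 hy), mul_inv_cancel_right]
        exact not_not.1 fun hc => hn ⟨n, h.norm_le n2, y,
          h.mem_iff.2 ⟨hT hy, h3 ▸ pow_orderOf_eq_one y⟩, hc⟩ }

end Cfsg.Agent.Hm
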