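/-
Hm, chapter B, endgame: a strongly embedded normalizer of a four-group `E` with
`C(E) = O × T` does not occur.
-/
import Cfsg.Agent.Hm.C1
import Cfsg.Agent.P17.Defs
import Cfsg.Agent.H9.ZTB
import Cfsg.Agent.P2.Main

set_option autoImplicit false
set_option linter.unusedSectionVars false
set_option linter.style.haveILetI false

namespace Cfsg.Agent.Hm

open Subgroup Cfsg Cfsg.Agent Cfsg.Agent.FT
open Cfsg.Agent.P4 (odd_iff_not_dvd)
open Cfsg.Agent.H6.Cyc (conj_mem mem_norm_zpowers exists_of_mem_der eq_one_of_transfer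
  mem_zpowers_pow)
open scoped commutatorElement

universe u

variable {G : Type u} [Group G] [Finite G]

theorem pow_relIndex_mem {D M : Subgroup G} (hn : M ≤ 𝐍(D)) {x : G} (hx : x ∈ M) :
    x ^ D.relIndex M ∈ D := by
  haveI := H1.normal_subgroupOf_of_le hn
  exact (D.subgroupOf M).pow_index_mem ⟨x, hx⟩

/-- An element centralizing a Sylow `2`-subgroup and inverted by an involution is its own
inverse. -/
theorem sq_of_inv {T : Subgroup G} (hT : IsSyl 2 T ⊤) {y u : G} (hy : y ∈ 𝐂(T)) (uu : u * u = 1)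
    (e : u * y * u = y⁻¹) : y * y = 1 := by
  have ui := P5.inv_eq_of_sq uu
  have h1 : T ≤ 𝐂(zpowers y) := cent_comm.1 (zpowers_le_of_mem hy)
  obtain ⟨n, hn, h2⟩ := (hT.of_le (h1.trans (cent_le_norm _)) le_top).exists_conj_le Nat.prime_two
    (P4.isPGroup_zpowers_of_sq uu) (zpowers_le_of_mem (mem_norm_zpowers
      (by rw [ui, e]; exact inv_mem (mem_zpowers y))))
  have h3 := (mem_normalizer_iff.1 (H1.normalizer_le_normalizer_centralizer _ hn) u).2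
    (h1 (h2 (conj_mem_conj (mem_zpowers u) n)))
  rw [← mem_cent.1 h3 y (mem_zpowers y), mul_assoc, uu, mul_one] at e
  exact mul_eq_one_iff_eq_inv.2 e

/-- The hypotheses of the endgame. -/
structure B4 (E T : Subgroup G) : Prop where
  syl : IsSyl 2 T ⊤
  le : T ≤ 𝐂(E)
  card : 𝐨(E) = 4
  el : ∀ x ∈ E, x * x = 1
  cm : E ≤ 𝐂(E)
  om : ∀ j ∈ T, j * j = 1 → j ∈ E
  cz : ∀ z ∈ E, z ≠ 1 → 𝐂[z] ≤ 𝐂(E)
  odd : ∀ x ∈ 𝐂(E), Odd (orderOf x) → x ∈ 𝐂(T)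

namespace B4

variable {E T : Subgroup G} (h : B4 E T)
include h

theorem MD : 𝐍(E) ≤ 𝐍(𝐂(E)) := H1.normalizer_le_normalizer_centralizer E

theorem DT : 𝐂(E) ≤ 𝐍(T) := le_of_forall_exists_isSyl_le fun p hp _ => by
  by_cases p2 : p = 2
  · subst p2; exact ⟨T, h.syl.of_le h.le le_top, le_norm_self T⟩
  obtain ⟨P, hP⟩ := exists_isSyl hp 𝐂(E)
  refine ⟨P, hP, fun x hx => cent_le_norm T (h.odd x (hP.le hx) ?_)⟩
  exact Nat.coprime_two_left.1 (H6.Cyc.coprime_ord hp hP.pgrp hx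
    ((Nat.coprime_primes Nat.prime_two hp).2 (Ne.symm p2)))

theorem MT : 𝐍(E) ≤ 𝐍(T) := by
  rw [← (h.syl.of_le h.le le_top).pCoreOf_eq Nat.prime_two h.DT]
  exact h.MD.trans (H2.normalizer_le_normalizer_pCoreOf 2 _)

theorem TM : T ≤ 𝐍(E) := h.le.trans (cent_le_norm E)

theorem inv {j : G} (hj : j ∈ 𝐍(E)) (jj : j * j = 1) : j ∈ E :=
  h.om j ((h.syl.of_le h.TM le_top).le_of_normal Nat.prime_two h.MT
    (P4.isPGroup_zpowers_of_sq jj) (zpowers_le_of_mem hj) (mem_zpowers j)) jj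

theorem ET : E ≤ T := fun j hj => (h.syl.of_le h.TM le_top).le_of_normal Nat.prime_two h.MT
    (P4.isPGroup_zpowers_of_sq (h.el j hj)) (zpowers_le_of_mem (le_norm_self E hj)) (mem_zpowers j)

theorem cent {z : G} (hz : z ∈ E) (z1 : z ≠ 1) : 𝐂[z] = 𝐂(E) :=
  le_antisymm (h.cz z hz z1) (cent_le_cent1 hz)

theorem NT : 𝐍(T) ≤ 𝐍(E) := fun g hg => mem_norm_of_conj_le (by
  rintro _ ⟨x, hx, rfl⟩
  exact h.om _ (conj_mem hg (h.ET hx)) (P4.conj_sq (h.el x hx) g))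

/-- Strong embedding. -/
theorem se {z g : G} (hz : z ∈ E) (z1 : z ≠ 1) (hg : g * z * g⁻¹ ∈ 𝐍(E)) : g ∈ 𝐍(E) := by
  have h1 := h.inv hg (P4.conj_sq (h.el z hz) g)
  have h2 := h.cent h1 (P4.conj_ne_one z1 g)
  rw [cent1_conj, h.cent hz z1] at h2
  refine mem_norm_of_conj_le ?_
  rintro _ ⟨x, hx, rfl⟩
  exact h.inv (cent_le_norm E (h2 ▸ conj_mem_conj (h.cm hx) g)) (P4.conj_sq (h.el x hx) g)

theorem rel3 : 𝐂(E).relIndex 𝐍(E) ∣ 3 := by
  have h1 := (H6.relIndex_centralizer_dvd_card_mulAut (le_refl 𝐍(E))).trans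
    (H6.Half.card_mulAut_dvd_six h.card)
  have h2 : ¬ 2 ∣ 𝐂(E).relIndex 𝐍(E) := fun e =>
    (h.syl.of_le h.TM le_top).ndvd (e.trans (relIndex_dvd_of_le_left _ h.le))
  exact ((Nat.prime_two.coprime_iff_not_dvd.2 h2).symm).dvd_of_dvd_mul_left h1

theorem cube {x : G} (hx : x ∈ 𝐍(E)) : x ^ 3 ∈ 𝐂(E) := by
  obtain ⟨c, hc⟩ := h.rel3
  rw [hc, pow_mul]
  exact pow_mem (pow_relIndex_mem h.MD hx) c

theorem two : ∃ a ∈ E, ∃ b ∈ E, a ≠ 1 ∧ b ≠ 1 ∧ a ≠ b := by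
  obtain ⟨a, ha, a1⟩ := (bot_or_exists_ne_one E).resolve_left fun e => by
    have := h.card
    rw [e, card_bot] at this
    omega
  by_contra! h0
  have h1 : E ≤ zpowers a := fun b hb => by
    by_cases b1 : b = 1
    · rw [b1]; exact one_mem _
    · rw [← h0 a ha b hb a1 b1]; exact mem_zpowers a
  have h2 := card_le_of_le h1
  rw [Nat.card_zpowers, P4.orderOf_two a1 (h.el a ha), h.card] at h2
  omega

/-- An involution outside `N(E)` inverts an element of `N(E) ∖ C(E)`. -/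
theorem exists_inverted {L : Subgroup G} (hT : T ≤ L) {u : G} (hu : u ∈ L) (uM : u ∉ 𝐍(E))
    (uu : u * u = 1) : ∃ d ∈ L ⊓ 𝐍(E), d ∉ 𝐂(E) ∧ u * d * u = d⁻¹ := by
  obtain ⟨a, ha, b, hb, a1, b1, ab⟩ := h.two
  have ui := P5.inv_eq_of_sq uu
  have h1 : u * b * u⁻¹ ∉ 𝐍(E) := fun e => uM (h.se hb b1 e)
  have h2 := P4.conj_sq (h.el b hb) u
  have aL := hT (h.ET ha)
  have bL := mul_mem (mul_mem hu (hT (h.ET hb))) (inv_mem hu)
  rcases Nat.even_or_odd (orderOf (a * (u * b * u⁻¹))) with he | ho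
  · obtain ⟨k, k1, kk, c1, c2⟩ := Agent.L.exists_invol_commute_of_even (h.el a ha) h2 he
    exact absurd (cent_le_norm E (h.cz _ (h.inv (cent_le_norm E (h.cz a ha a1
      (mem_cent1.2 c1.symm))) kk) k1 (mem_cent1.2 c2))) h1
  obtain ⟨k, ww, e⟩ := Agent.L.exists_invol_conj_of_odd (h.el a ha) h2 ho
  have wL := mul_mem aL (pow_mem (mul_mem aL bL) k)
  generalize a * (a * (u * b * u⁻¹)) ^ k = w at ww e wL
  have wi := P5.inv_eq_of_sq ww
  have h3 : u * w * a * (u * w)⁻¹ = b := by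
    calc u * w * a * (u * w)⁻¹ = u * (w * a * w⁻¹) * u⁻¹ := by group
      _ = u⁻¹ * (u * b * u⁻¹) * u := by rw [wi, e, ui]
      _ = b := by group
  refine ⟨u * w, ⟨mul_mem hu wL, h.se ha a1 (h3 ▸ le_norm_self E hb)⟩, fun e => ab ?_,
    by rw [← mul_assoc, uu, one_mul, mul_inv_rev, ui, wi]⟩
  rw [← h3, ← mem_cent.1 e a ha, mul_inv_cancel_right]

omit h in
theorem inv_pow' {u d : G} (uu : u * u = 1) (e : u * d * u = d⁻¹) (n : ℕ) :
    u * d ^ n * u = (d ^ n)⁻¹ := by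
  have ui := P5.inv_eq_of_sq uu
  nth_rewrite 2 [← ui] at e ⊢
  rw [← conj_pow, e, inv_pow]

theorem not_three (hom : Hom G) {u d : G} (uu : u * u = 1) (hd : d ∈ 𝐍(E)) (dD : d ∉ 𝐂(E))
    (e : u * d * u = d⁻¹) : ¬ 3 ∣ 𝐨(𝐂(E)) := fun h3 => by
  obtain ⟨y, hy, oy⟩ := exists_mem_orderOf_eq_prime Nat.prime_three h3
  have h1 : 3 ∣ orderOf d := by
    by_contra h0
    exact dD (zpowers_le_of_mem (h.cube hd)
      (mem_zpowers_pow (Nat.prime_three.coprime_iff_not_dvd.2 h0)))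
  have h2 := orderOf_pow_orderOf_div (orderOf_pos d).ne' h1
  obtain ⟨φ, hφ⟩ := P17.Hg.order hom (oy.trans h2.symm)
  have hi : Function.Injective φ.toMonoidHom := φ.injective
  have h4 := (isSyl_map_iff hi).2 h.syl
  rw [map_top_of_surjective _ φ.surjective] at h4
  have h5 := (map_le_cent_iff hi).2 (zpowers_le_of_mem (h.odd y hy (by rw [oy]; decide)))
  have h6 := sq_of_inv h4 (hφ ▸ h5 (mem_map_of_mem _ (mem_zpowers y))) uu (inv_pow' uu e _)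
  have h7 := orderOf_dvd_of_pow_eq_one ((pow_two _).trans h6)
  rw [h2] at h7
  omega

theorem third (h3 : ¬ 3 ∣ 𝐨(𝐂(E))) {d : G} (hd : d ∈ 𝐍(E)) (dD : d ∉ 𝐂(E)) :
    d ^ 𝐨(𝐂(E)) ∉ 𝐂(E) ∧ orderOf (d ^ 𝐨(𝐂(E))) = 3 := by
  have h1 : (d ^ 𝐨(𝐂(E))) ^ 3 = 1 := by
    rw [← pow_mul, mul_comm, pow_mul]
    exact orderOf_dvd_iff_pow_eq_one.1 (orderOf_dvd_card_of_mem (h.cube hd))
  have h2 : d ^ 𝐨(𝐂(E)) ∉ 𝐂(E) := fun e => dD (by
    obtain ⟨i, j, hij⟩ := Nat.isCoprime_iff_coprime.2 (Nat.prime_three.coprime_iff_not_dvd.2 h3)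
    have := mul_mem (zpow_mem (h.cube hd) i) (zpow_mem e j)
    rwa [← zpow_natCast, ← zpow_natCast, ← zpow_mul, ← zpow_mul, ← zpow_add, mul_comm, mul_comm _ j,
      hij, zpow_one] at this)
  haveI := Fact.mk Nat.prime_three
  exact ⟨h2, orderOf_eq_prime h1 fun e => h2 (e ▸ one_mem _)⟩

section min

variable (ol : OL G) {L : Subgroup G} (hT : T ≤ L) (hL : ¬ L ≤ 𝐍(E))
  (hm : ∀ K, T ≤ K → K ≤ L → ¬ K ≤ 𝐍(E) → L ≤ K)
include ol hT hL hm

theorem cent_M {x : G} (hx : x ∈ L ⊓ 𝐂(E)) (hp : (orderOf x).Prime) (p2 : orderOf x ≠ 2) :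
    L ⊓ 𝐂[x] ≤ 𝐍(E) := by
  by_contra h0
  have h1 := (hm _ (le_inf hT (mem_cent_iff_cent1.1 (h.odd x hx.2 (hp.odd_of_ne_two p2))))
    inf_le_left h0).trans inf_le_right
  have h2 : ⁅L, L⁆ ⊔ T ≤ L := sup_le (der_le L) hT
  have h3 := hm _ le_sup_right h2 fun e => hL (by
    rw [← (h.syl.of_le le_sup_right le_top).frattini Nat.prime_two
      ⟨h2, le_norm_of_der_le le_sup_left h2⟩]
    exact sup_le e (inf_le_right.trans h.NT))
  have h4 := pow_relIndex_mem (der_normal L).2 hx.1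
  rw [show ⁅L, L⁆.relIndex L = ⁅L, L⁆.relIndex T by
    rw [← relIndex_sup_of_norm (hT.trans (der_normal L).2), le_antisymm h2 h3]] at h4
  obtain ⟨k, hk⟩ := exists_card_eq_pow Nat.prime_two h.syl.pgrp
  have h5 := zpowers_le_of_mem h4 (mem_zpowers_pow ((((Nat.coprime_primes Nat.prime_two hp).2
    p2.symm).pow_left k).coprime_dvd_left (hk ▸ relIndex_dvd_card' _ _)))
  haveI := Fact.mk hp
  obtain ⟨y, hy, rfl⟩ := exists_of_mem_der h5
  have h6 : IsPGroup (orderOf (y : G)) (zpowers y) := isPGroup_of_card_prime (by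
    rw [Nat.card_zpowers, orderOf_coe])
  obtain ⟨P, hP⟩ := h6.exists_le_sylow
  haveI : IsMulCommutative P := (isMulComm_map_iff L.subtype_injective).1
    (ol.ab hp p2 (P.isPGroup'.map L.subtype))
  rw [eq_one_of_transfer P (hP (mem_zpowers y)) hy fun n _ =>
    Subtype.ext (mem_cent1.1 (h1 n.2)), coe_one, orderOf_one] at hp
  exact Nat.not_prime_one hp

theorem cent_D (hom : Hom G) {x : G} (hx : x ∈ L ⊓ 𝐂(E)) (x1 : x ≠ 1) : L ⊓ 𝐂[x] ≤ 𝐂(E) := by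
  wlog hp : (orderOf x).Prime generalizing x
  · obtain ⟨P, hP, cP⟩ := exists_le_card_prime (zpowers_ne_bot.2 x1)
    obtain ⟨y, rfl, oy⟩ := H6.Cyc.exists_gen cP
    refine (inf_le_inf_left _ ?_).trans (this (zpowers_le_of_mem hx (hP (mem_zpowers y)))
      (zpowers_ne_bot.1 (ne_bot_of_card_prime cP)) (oy ▸ cP))
    rw [← cent_zpowers, ← cent_zpowers]
    exact cent_anti hP
  by_cases p2 : orderOf x = 2
  · exact inf_le_right.trans (h.cz x (h.inv (cent_le_norm E hx.2) (P4.invol_of_orderOf p2).2) x1)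
  have hM := h.cent_M ol hT hL hm hx hp p2
  intro g hg
  by_contra gD
  obtain ⟨a, ha, -, -, a1, -⟩ := h.two
  obtain ⟨g0, g0L, g0M⟩ := not_forall₂.1 hL
  have uu := P4.conj_sq (h.el a ha) g0
  have uL := mul_mem (mul_mem g0L (hT (h.ET ha))) (inv_mem g0L)
  obtain ⟨d, hd, dD, e⟩ := h.exists_inverted hT uL (fun e => g0M (h.se ha a1 e)) uu
  generalize g0 * a * g0⁻¹ = u at uu uL e
  have h3 := h.not_three hom uu hd.2 dD e
  obtain ⟨-, o0⟩ := h.third h3 hd.2 dD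
  obtain ⟨-, ok⟩ := h.third h3 (hM hg) gD
  have e0 := inv_pow' uu e 𝐨(𝐂(E))
  have m0 := pow_mem hd 𝐨(𝐂(E))
  have mk := pow_mem hg 𝐨(𝐂(E))
  generalize d ^ 𝐨(𝐂(E)) = k0 at o0 e0 m0
  generalize g ^ 𝐨(𝐂(E)) = k at ok mk
  have s3 : IsSyl 3 (zpowers k0) (L ⊓ 𝐍(E)) := ⟨zpowers_le_of_mem m0,
    isPGroup_of_card_prime (by rw [Nat.card_zpowers, o0]), fun e => h3 (by
      have h4 := H1.card_mul_relIndex (zpowers_le_of_mem m0)
      have h5 : 3 * 3 ∣ 𝐨(𝐍(E)) := by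
        refine Dvd.dvd.trans ?_ (FT.card_dvd_of_le (inf_le_right : L ⊓ 𝐍(E) ≤ _))
        rw [← h4, Nat.card_zpowers, o0]
        exact mul_dvd_mul_left 3 e
      rw [← H1.card_mul_relIndex (cent_le_norm E)] at h5
      exact Nat.dvd_of_mul_dvd_mul_right three_pos (h5.trans (mul_dvd_mul_left _ h.rel3)))⟩
  obtain ⟨c, hc, h4⟩ := s3.exists_conj_le Nat.prime_three (Q := zpowers k)
    (isPGroup_of_card_prime (by rw [Nat.card_zpowers, ok])) (zpowers_le_of_mem ⟨mk.1, hM mk⟩)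
  have e1 : c⁻¹ * u * c * k * (c⁻¹ * u * c) = k⁻¹ := by
    obtain ⟨n, hn⟩ := (Submonoid.mem_powers_iff _ _).1 (mem_powers_iff_mem_zpowers.2
      (h4 (conj_mem_conj (mem_zpowers k) c)))
    have := inv_pow' uu e0 n
    rw [hn] at this
    calc _ = c⁻¹ * (u * (c * k * c⁻¹) * u) * c := by group
      _ = _ := by rw [this]; group
  have vv : c⁻¹ * u * c * (c⁻¹ * u * c) = 1 := by simpa using P4.conj_sq uu c⁻¹
  have vL := mul_mem (mul_mem (L.inv_mem hc.1) uL) hc.1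
  generalize c⁻¹ * u * c = v at e1 vv vL
  have vi := P5.inv_eq_of_sq vv
  have hW : Odd 𝐨((L ⊓ 𝐂[k] : Subgroup G)) := odd_iff_not_dvd.2 fun e => by
    obtain ⟨j, hj, j1, jj⟩ := P4.exists_invol_of_even e
    obtain ⟨y, -, h5⟩ := h.syl.exists_conj_le Nat.prime_two (P4.isPGroup_zpowers_of_sq jj) le_top
    have h6 := h.cz _ (h.om _ (h5 (conj_mem_conj (mem_zpowers j) y)) (P4.conj_sq jj y))
      (P4.conj_ne_one j1 y) (cent1_conj j y ▸ conj_mem_conj (mem_cent1_comm.1 hj.2) y)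
    exact h3 (((MulAut.conj y).orderOf_eq k).trans ok ▸ orderOf_dvd_card_of_mem h6)
  have hv : zpowers v ≤ 𝐍(L ⊓ 𝐂[k]) := H1.le_normalizer_inf
    ((zpowers_le_of_mem vL).trans (le_norm_self L)) (cent_zpowers k ▸
      H1.le_normalizer_centralizer (zpowers_le_of_mem (mem_norm_zpowers
        (by rw [vi, e1]; exact inv_mem (mem_zpowers k)))))
  obtain ⟨X, hX, h5⟩ := exists_inv_syl hW hv (P4.isPGroup_zpowers_of_sq vv) hp
  obtain ⟨b, hb, h6⟩ := hX.exists_conj_le hp (Q := zpowers x)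
    (isPGroup_of_card_prime (Nat.card_zpowers x))
    (zpowers_le_of_mem ⟨hx.1, mem_cent1_comm.1 mk.2⟩)
  replace h6 := h6 (conj_mem_conj (mem_zpowers x) b)
  have h7 : v ∈ 𝐂(X) := by
    by_contra h0
    have h7 := sq_of_inv (h.syl.conj_of_mem_norm (g := b) (by rw [norm_top]; trivial))
      (cent_conj T b ▸ conj_mem_conj (h.odd x hx.2 (hp.odd_of_ne_two p2)) b) vv
      (Agent.L.inverts_of_fpf vv (h5 (mem_zpowers v)) (fun y hy e => by_contra fun y1 =>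
        h0 (ol.free hp p2 hX.pgrp v (h5 (mem_zpowers v)) y hy y1 e)) _ h6)
    rw [conj_mul, conj_eq_one_iff] at h7
    exact p2 (P4.orderOf_two x1 h7)
  have h8 : b⁻¹ * v * b ∈ E := h.inv (hM (mem_inf.2 ⟨mul_mem (mul_mem (L.inv_mem hb.1) vL) hb.1, by
    rw [← mem_conj, ← cent1_conj]
    exact cent_le_cent1 h6 h7⟩)) (by simpa using P4.conj_sq vv b⁻¹)
  have h9 := h.el _ (mul_mem (conj_mem (hM mk) h8) h8)
  have c1 := mem_cent1_iff_conj.1 hb.2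
  have c2 : k * (b⁻¹ * v * b) * k⁻¹ * (b⁻¹ * v * b) = k * k := by
    calc _ = k * b⁻¹ * (v * (b * k * b⁻¹) * v⁻¹)⁻¹ * b := by nth_rewrite 2 [← vi]; group
      _ = k * (b⁻¹ * (b * k * b⁻¹) * b) := by rw [c1, vi, e1]; group
      _ = _ := by group
  rw [c2] at h9
  have := orderOf_dvd_of_pow_eq_one (n := 4) (x := k) (by rw [← h9]; simp [pow_succ, mul_assoc])
  rw [ok] at this
  omega

theorem le_E (hom : Hom G) : T ≤ E := by
  obtain ⟨a, ha, b, hb, a1, b1, ab⟩ := h.two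
  have aL := hT (h.ET ha)
  have bL := hT (h.ET hb)
  have c : ∀ x : L, x ∈ 𝐂(E).subgroupOf L → x ≠ 1 → ∀ y : L, Commute x y →
      (y : G) ∈ 𝐂(E) := fun x hx x1 y e =>
    h.cent_D ol hT hL hm hom ⟨x.2, hx⟩ (fun e => x1 (Subtype.ext e))
      ⟨y.2, mem_cent1.2 (congrArg Subtype.val e)⟩
  have n : ∀ g : L, (g : G) ∈ 𝐍(E) → g ∈ 𝐍(𝐂(E).subgroupOf L) := fun g hg =>
    mem_normalizer_iff.2 fun x => mem_normalizer_iff.1 (h.MD hg) x
  have cti : H9.CTI (𝐂(E).subgroupOf L) := ⟨fun x hx x1 y hy => c x hx x1 y (mem_cent1.1 hy),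
    fun x hx x1 g hg => n g (h.se ha a1 (cent_le_norm E (c _ hg (P4.conj_ne_one x1 g)
      (g * ⟨a, aL⟩ * g⁻¹) (P5.commute_cj g (show Commute x ⟨a, aL⟩ from
        Subtype.ext (mem_cent.1 hx a ha).symm))))),
    even_iff_two_dvd.2 (by
      have := orderOf_dvd_card_of_mem (H := 𝐂(E).subgroupOf L) (x := ⟨a, aL⟩) (h.cm ha)
      rwa [P4.orderOf_two (fun e => a1 (congrArg Subtype.val e))
        (Subtype.ext (h.el a ha))] at this)⟩
  obtain ⟨H, t, z, -⟩ := cti.exists_ZT (fun e => hL fun g hg => h.se ha a1 (cent_le_norm E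
    (e.conj_mem ⟨a, aL⟩ (h.cm ha) ⟨g, hg⟩))) (a := ⟨a, aL⟩) (b := ⟨b, bL⟩) (h.cm ha)
    (fun e => a1 (congrArg Subtype.val e)) (Subtype.ext (h.el a ha)) (h.cm hb)
    (fun e => b1 (congrArg Subtype.val e)) (Subtype.ext (h.el b hb))
    fun e => ab (congrArg Subtype.val e)
  rcases z.main with ⟨-, -, -, -, e, -⟩ | ⟨m, hm1, -, e, -⟩
  · exact fun x hx => h.om x hx (congrArg Subtype.val
      (z.mem_Z.1 (e.le (show (⟨x, hT hx⟩ : L) ∈ 𝐂(E).subgroupOf L from h.le hx))).2)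
  · have h1 : z.Z.map L.subtype ≤ E := by
      rintro _ ⟨x, hx, rfl⟩
      exact h.inv (cent_le_norm E (z.mem_Z.1 hx).1) (congrArg Subtype.val (z.mem_Z.1 hx).2)
    have h2 := card_le_of_le h1
    rw [card_map_inj L.subtype_injective, z.card_Z, e, h.card] at h2
    have h3 : 2 ^ 3 ≤ 2 ^ (2 * m + 1) := Nat.pow_le_pow_right two_pos (by omega)
    omega

end min

theorem norm_eq (hom : Hom G) (ol : OL G) (ne : ¬ T ≤ E) : 𝐍(E) = ⊤ := by
  by_contra h0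
  obtain ⟨L, -, hL⟩ := (Set.toFinite {K : Subgroup G | T ≤ K ∧ ¬ K ≤ 𝐍(E)}).exists_le_minimal
    (a := ⊤) ⟨le_top, fun e => h0 (top_le_iff.1 e)⟩
  exact ne (h.le_E ol hL.prop.1 hL.prop.2 (fun K h1 h2 h3 => hL.le_of_le ⟨h1, h3⟩ h2) hom)

end B4

/-- **Endgame of chapter B**. -/
theorem b4 (hom : Hom G) (ol : OL G) {E T : Subgroup G} (syl : IsSyl 2 T ⊤) (le : T ≤ 𝐂(E))
    (card : 𝐨(E) = 4) (el : ∀ x ∈ E, x * x = 1) (cm : E ≤ 𝐂(E))
    (om : ∀ j ∈ T, j * j = 1 → j ∈ E) (cz : ∀ z ∈ E, z ≠ 1 → 𝐂[z] ≤ 𝐂(E))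
    (odd : ∀ x ∈ 𝐂(E), Odd (orderOf x) → x ∈ 𝐂(T)) (ne : ¬ T ≤ E) : 𝐍(E) = ⊤ :=
  B4.norm_eq ⟨syl, le, card, el, cm, om, cz, odd⟩ hom ol ne

end Cfsg.Agent.Hm
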