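/-
Hm, chapter B: central automorphisms and Lemma L.
-/
import Cfsg.Agent.Hm.BDefs
import Cfsg.Agent.P17.Defs
import Cfsg.Agent.P4.Mart2

set_option autoImplicit false
set_option linter.unusedSectionVars false
set_option linter.style.haveILetI false

namespace Cfsg.Agent.Hm.BB

open Subgroup Cfsg Cfsg.Agent Cfsg.Agent.FT
open Cfsg.Agent.P4 (odd_iff_not_dvd)
open Cfsg.Agent.H2 (pPrimeCoreOf)
open Cfsg.Agent.H6.Cyc
open scoped commutatorElement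

universe u

variable {G : Type u} [Group G] [Finite G]

theorem gpc (h : Hom G) {P E : Subgroup G} (hE : E ≤ P) (hC : E ≤ 𝐂(P)) {f : G → G}
    (mul : ∀ a ∈ P, ∀ b ∈ P, f (a * b) = f a * f b) (mem : ∀ a, f a ∈ E) (one : ∀ e ∈ E, f e = 1)
    {g : G} (hg : g ∈ 𝐍(P)) (hg' : g ∈ 𝐍(E)) : ∃ x, ∀ a ∈ P,
      x * a * x⁻¹ = a * (f a * (g * f (g⁻¹ * a * g) * g⁻¹)⁻¹) := by
  obtain ⟨φ, hφ⟩ := P17.Hg.ext h (A := P) (MonoidHom.mk' (fun a => a * f a) fun a b => by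
    rw [coe_mul, mul a a.2 b b.2, mul_assoc, mul_assoc, ← mul_assoc (b : G),
      mem_cent.1 (hC (mem a)) b b.2, mul_assoc]) ((injective_iff_map_eq_one _).2 fun a e => by
    have h1 : (a : G) * f a = 1 := e
    rwa [one a (eq_inv_of_mul_eq_one_left h1 ▸ inv_mem (mem a)), mul_one,
      OneMemClass.coe_eq_one] at h1)
  replace hφ : ∀ a ∈ P, φ a = a * f a := fun a ha => hφ ⟨a, ha⟩
  refine ⟨φ g * g⁻¹, fun a ha => ?_⟩
  have h1 : g⁻¹ * a * g ∈ P := by simpa using conj_mem (inv_mem hg) ha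
  have h2 := inv_mem (mem (g⁻¹ * a * g))
  have h3 := conj_mem hg' h2
  have h4 : φ (g⁻¹ * a * g * (f (g⁻¹ * a * g))⁻¹) = g⁻¹ * a * g := by
    rw [map_mul, hφ _ h1, hφ _ (hE h2), one _ h2, mul_one, mul_inv_cancel_right]
  calc φ g * g⁻¹ * a * (φ g * g⁻¹)⁻¹ = φ g * (g⁻¹ * a * g) * (φ g)⁻¹ := by group
    _ = φ (a * (g * (f (g⁻¹ * a * g))⁻¹ * g⁻¹)) := by
      nth_rewrite 1 [← h4]
      rw [← map_inv, ← map_mul, ← map_mul]
      congr 1
      group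
    _ = _ := by
      rw [map_mul, hφ _ ha, hφ _ (hE h3), one _ h3, mul_one, mul_assoc, conj_inv]

open scoped Classical in
/-- The character of `P / M` with values in `⟨e⟩`. -/
noncomputable def ch (M : Subgroup G) (e a : G) : G := if a ∈ M then 1 else e

theorem ch_pos {M : Subgroup G} {e a : G} (h : a ∈ M) : ch M e a = 1 := if_pos h

theorem ch_neg {M : Subgroup G} {e a : G} (h : a ∉ M) : ch M e a = e := if_neg h

theorem ch_mem (M : Subgroup G) (e a : G) : ch M e a ∈ zpowers e := by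
  by_cases h : a ∈ M
  · rw [ch_pos h]; exact one_mem _
  · rw [ch_neg h]; exact mem_zpowers e

theorem tv (h : Hom G) {P E M : Subgroup G} (hE : E ≤ M) (hM : M ≤ P) (h2 : M.relIndex P = 2)
    (hC : E ≤ 𝐂(P)) {e : G} (he : e ∈ E) (ee : e * e = 1) {g : G} (hg : g ∈ 𝐍(P))
    (hg' : g ∈ 𝐍(E)) : ∃ x ∈ 𝐂(E) ⊓ 𝐍(P), ∀ a ∈ P,
      x * a * x⁻¹ = a * (ch M e a * (g * ch M e (g⁻¹ * a * g) * g⁻¹)⁻¹) := by
  have mem : ∀ a, ch M e a ∈ E := fun a => zpowers_le_of_mem he (ch_mem M e a)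
  obtain ⟨x, hx⟩ := gpc h (hE.trans hM) hC (f := ch M e) (fun a ha b hb => by
    have := mul2 h2 ha hb
    by_cases h3 : a ∈ M <;> by_cases h4 : b ∈ M
    · rw [ch_pos h3, ch_pos h4, ch_pos (by tauto), one_mul]
    · rw [ch_pos h3, ch_neg h4, ch_neg (by tauto), one_mul]
    · rw [ch_neg h3, ch_pos h4, ch_neg (by tauto), mul_one]
    · rw [ch_neg h3, ch_neg h4, ch_pos (by tauto), ee]) mem (fun e he => ch_pos (hE he)) hg hg'
  refine ⟨x, mem_inf.2 ⟨mem_cent_iff_cent1.2 fun y hy => mem_cent1_comm.1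
    (mem_cent1_iff_conj.2 ?_), mem_norm_of_conj_le ?_⟩, hx⟩
  · rw [hx y (hM (hE hy)), ch_pos (hE hy), ch_pos (hE (by simpa using conj_mem (inv_mem hg') hy))]
    simp
  · rintro _ ⟨a, ha, rfl⟩
    exact (hx a ha ▸ mul_mem ha (hM (hE (mul_mem (mem a) (inv_mem (conj_mem hg' (mem _)))))) :
      x * a * x⁻¹ ∈ P)

theorem split (x : G) : ∃ u ∈ zpowers x, ∃ v ∈ zpowers x, IsPGroup 2 (zpowers u) ∧
    Odd (orderOf v) ∧ u * v = x := by
  refine ⟨_, piPt_mem_zpowers {2} x, _, piPt_mem_zpowers {2}ᶜ x, (isPiElt_singleton_iff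
    Nat.prime_two).1 (isPiElt_piPt _ x), ?_, piPt_mul_piPt_compl _ x⟩
  rw [odd_iff_not_dvd, ← Nat.card_zpowers, ← isPi_compl_singleton_iff' Nat.prime_two, isPi_zpowers]
  exact isPiElt_piPt _ x

theorem exists_hyp {C K : Subgroup G} {e : G} (he : e ∈ C) (hs : sq C ≤ K) (hK : K ≤ C)
    (h : e ∉ K) : ∃ M : Subgroup G, K ≤ M ∧ M ≤ C ∧ M.relIndex C = 2 ∧ e ∉ M := by
  obtain ⟨M, ⟨h1, h2, h3⟩, hm⟩ := Set.Finite.exists_maximal (Set.toFinite
    {M : Subgroup G | K ≤ M ∧ M ≤ C ∧ e ∉ M}) ⟨K, le_rfl, hK, h⟩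
  refine ⟨M, h1, h2, relIndex_eq_two_iff_exists_notMem_and'.2 ⟨e, he, h3, fun g hg => ?_⟩, h3⟩
  by_contra! h0
  have h1' := hs.trans h1
  have hn : C ≤ 𝐍(M) := le_norm_of_der_le (commutator_le.2 fun x hx y hy => h1' (by
    have := mul_mem (mul_mem (sq_mem hx) (sq_mem (mul_mem (inv_mem hx) hy)))
      (sq_mem (inv_mem hy))
    rwa [show x * x * (x⁻¹ * y * (x⁻¹ * y)) * (y⁻¹ * y⁻¹) = ⁅x, y⁆ by
      rw [commutatorElement_def]; group] at this)) h2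
  have h4 : e ∈ M ⊔ zpowers g := by
    by_contra h5
    exact h0.2 (hm ⟨h1.trans le_sup_left, sup_le h2 (zpowers_le_of_mem hg), h5⟩ le_sup_left
      (mem_sup_right (mem_zpowers g)))
  obtain ⟨m, hm', y, hy, rfl⟩ := (mem_sup_of_norm ((zpowers_le_of_mem hg).trans hn)).1 h4
  have h6 : zpowers (g * g) ≤ M := zpowers_le_of_mem (h1' (sq_mem hg))
  rcases mem_sq_or g hy with h5 | h5
  · exact h3 (mul_mem hm' (h6 h5))
  · refine h0.1 ?_
    have h7 : Commute g y := St.cT (mem_zpowers g) hy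
    rw [mul_assoc, ← h7.eq]
    exact mul_mem hm' (h6 h5)

theorem pow_mul_mem {Y : Subgroup G} {y n : G} (hy : y ∈ Y) (hn : n ∈ 𝐍(Y)) (k : ℕ) :
    (y * n) ^ k * (n ^ k)⁻¹ ∈ Y := by
  induction k with
  | zero => simp
  | succ k ih =>
    have := mul_mem hy (conj_mem hn ih)
    rwa [show y * (n * ((y * n) ^ k * (n ^ k)⁻¹) * n⁻¹) = (y * n) ^ (k + 1) * (n ^ (k + 1))⁻¹ by
      rw [pow_succ', pow_succ']; group] at this

theorem cent_of_odd {X H : Subgroup G} (hX : IsPGroup 2 X) {x : G} (ho : Odd (orderOf x))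
    (hn : x ∈ 𝐍(X)) (hH : x ∈ 𝐂(H)) (h : ∀ a ∈ X, ⁅a, x⁆ ∈ H) : x ∈ 𝐂(X) :=
  zpowers_le.1 (H1.le_centralizer_of_commutator_le (zpowers_le_of_mem hn)
    (P4.coprime_of_odd hX (by rwa [Nat.card_zpowers]))
    (H1.commutator_zpowers_le (cent_le_norm H hH) h) (zpowers_le_of_mem hH))

theorem Om.le {E : Subgroup G} (h : Om E) : E ≤ 𝐂(E) := fun j hj => ((h j).1 hj).1

theorem Om.sq {E : Subgroup G} (h : Om E) {j : G} (hj : j ∈ E) : j * j = 1 := ((h j).1 hj).2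

theorem Om.two {E : Subgroup G} (h : Om E) : IsPGroup 2 E := fun j =>
  ⟨1, Subtype.ext (by simpa [pow_two] using Om.sq h j.2)⟩

theorem exists_v4 {E : Subgroup G} (h : Om E) (h4 : 4 ≤ 𝐨(E)) :
    ∃ x ∈ E, ∃ y ∈ E, P5.V4 x y := by
  obtain ⟨⟨x, hx⟩, x1⟩ := ne_bot_iff_exists_ne_one.1 (fun e => by simp [e] at h4 : E ≠ ⊥)
  replace x1 : x ≠ 1 := fun e => x1 (Subtype.ext e)
  obtain ⟨y, hy, h1⟩ := not_forall₂.1 fun e : E ≤ zpowers x => by
    have := Subgroup.card_le_of_le e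
    rw [Nat.card_zpowers, P4.orderOf_two x1 (Om.sq h hx)] at this
    omega
  exact ⟨x, hx, y, hy, x1, fun e => h1 (e ▸ one_mem _), fun e => h1 (e ▸ mem_zpowers x),
    Om.sq h hx, Om.sq h hy, mem_cent.1 (Om.le h hy) x hx⟩

theorem v4_inf {x y a : G} (v : P5.V4 x y) (hx : a ∈ zpowers x) (hy : a ∈ zpowers y) : a = 1 := by
  by_contra h
  have h1 : a * a = 1 := v.sq (zpowers_le_of_mem P5.V4.t_mem hx)
  exact v.ts ((P4.uniq_invol inferInstance (mem_zpowers x) v.t1 v.tt hx h h1).trans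
    (P4.uniq_invol inferInstance hy h h1 (mem_zpowers y) v.s1 v.ss))

theorem l_step {E X : Subgroup G} (hE : Om E) (h4 : 4 ≤ 𝐨(E)) (hEX : E ≤ X) (hX : X ≤ 𝐂(E))
    (h2 : IsPGroup 2 X) {x : G} (hx : x ∈ 𝐂(E) ⊓ 𝐍(X)) (ho : Odd (orderOf x))
    (h : ∀ M, E ≤ M → M ≤ X → M.relIndex X = 2 → ∀ e ∈ E, ∃ r ∈ X, ∀ a ∈ X,
      r * a * r⁻¹ = a * (ch M e a * (ch M e (x⁻¹ * a * x))⁻¹)) : x ∈ 𝐂(X) := by
  obtain ⟨e1, he1, e2, he2, v⟩ := exists_v4 hE h4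
  have hA := zpowers_le_of_mem hx.2
  have hc := P4.coprime_of_odd h2 (Nat.card_zpowers x ▸ ho)
  have hs := H1.commutator_sup_centralizer hA hc (Or.inr (P4.solvable_of_two h2))
  have cj : ∀ a ∈ X, x⁻¹ * a * x ∈ X := fun a ha => by simpa using conj_mem (inv_mem hx.2) ha
  have key : ∀ K, x ∈ 𝐍(K) → (∀ a ∈ X, a * (x⁻¹ * a * x) ∈ K) → sq X ≤ K → X ⊓ 𝐂[x] ≤ K →
      X ≤ K := fun K hn h1 h3 h5 => by
    rw [← hs, cent_zpowers]
    refine sup_le (H1.commutator_zpowers_le hn fun a ha => ?_) h5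
    have := mul_mem (h3 (sq_mem ha)) (inv_mem (conj_mem hn (h1 a ha)))
    rwa [show a * a * (x * (a * (x⁻¹ * a * x)) * x⁻¹)⁻¹ = ⁅a, x⁆ by
      rw [commutatorElement_def]; group] at this
  by_contra h0
  have hEC : E ≤ X ⊓ 𝐂[x] := le_inf hEX (mem_cent_iff_cent1.1 hx.1)
  obtain ⟨M, hM1, hM2, hM3⟩ := P4.exists_relIndex_two h2 (D := X ⊓ 𝐂[x])
    (lt_of_le_of_ne inf_le_left fun e => h0 (mem_cent_iff_cent1.2 (e.ge.trans inf_le_right)))
  obtain ⟨r, hr, h1⟩ := h M (hEC.trans hM1) hM2 hM3 e1 he1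
  have mz : ∀ (M : Subgroup G) e a b, ch M e a * (ch M e b)⁻¹ ∈ zpowers e := fun M e a b =>
    mul_mem (ch_mem M e a) (inv_mem (ch_mem M e b))
  have nE : X ≤ 𝐍(E) := hX.trans (cent_le_norm E)
  have hV : X ⊓ 𝐂(E ⊔ sq X) ⊓ (E ⊔ sq X) ≤ 𝐂[x] := by
    rw [← cent_zpowers, cent_comm]
    have h3 : zpowers x ≤ 𝐍(E ⊔ sq X) := H1.le_normalizer_sup
      (zpowers_le_of_mem (cent_le_norm E hx.1)) (hA.trans (norm_le_norm_sq X))
    refine cent_of_primes (isMulComm_iff_le_cent.2 ((inf_le_left.trans inf_le_right).trans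
      (cent_anti inf_le_right))) (H1.le_normalizer_inf (H1.le_normalizer_inf hA
        (H1.le_normalizer_centralizer h3)) h3) (hc.coprime_dvd_right
          (FT.card_dvd_of_le (inf_le_left.trans inf_le_left))) fun P hP cP => ?_
    replace hP := hP.trans (inf_le_left.trans inf_le_left)
    obtain ⟨z, -, zz, rfl⟩ := exists_invol_of_card (eq_of_prime_dvd_card_of_isPGroup
      Nat.prime_two cP h2 (FT.card_dvd_of_le hP))
    exact zpowers_le_of_mem (cent_anti (zpowers_le_of_mem ((hE z).2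
      ⟨hX (hP (mem_zpowers z)), zz⟩)) hx.1)
  have sc : sq X ≤ 𝐂[r] := sq_le_iff.2 fun a ha => mem_cent1_comm.1 (mem_cent1_iff_conj.2 (by
    have h3 := zpowers_le_of_mem he1 (mz M e1 a (x⁻¹ * a * x))
    rw [← conj_mul, h1 a ha, mul_assoc, ← mul_assoc _ a, mem_cent.1 (hX ha) _ h3, mul_assoc a,
      Om.sq hE h3, mul_one]))
  have rc : r ∈ 𝐂(E ⊔ sq X) := by
    rw [cent_sup]
    exact mem_inf.2 ⟨hX hr, mem_cent_iff_cent1.2 sc⟩
  have h5 : r * (x⁻¹ * r * x) ∈ E ⊔ sq X := by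
    by_contra h5
    obtain ⟨M', a1, a2, a3, a4⟩ := exists_hyp (mul_mem hr (cj r hr)) le_sup_right
      (sup_le hEX (sq_le X)) h5
    obtain ⟨r', hr', h6⟩ := h M' (le_sup_left.trans a1) a2 a3 e2 he2
    have h7 := h1 r' hr'
    have h8 := h6 r hr
    have h9 := mz M e1 r' (x⁻¹ * r' * x)
    generalize ch M e1 r' * (ch M e1 (x⁻¹ * r' * x))⁻¹ = c at h7 h9
    have h10 : ch M' e2 r * (ch M' e2 (x⁻¹ * r * x))⁻¹ = c⁻¹ := by
      have h11 := mem_cent.1 (hX hr) c (zpowers_le_of_mem he1 h9)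
      have h12 := mem_cent.1 (hX hr') c (zpowers_le_of_mem he1 h9)
      rw [mul_inv_eq_iff_eq_mul, mul_assoc, h11, ← mul_assoc] at h7
      rw [← mul_right_inj r, ← h8, eq_mul_inv_iff_mul_eq, mul_assoc, ← Commute.inv_right h12,
        ← mul_assoc, ← h7, mul_inv_cancel_right]
    rw [mul2 a3 hr (cj r hr)] at a4
    have h11 := v4_inf v (h10 ▸ inv_mem h9) (mz M' e2 r (x⁻¹ * r * x))
    by_cases h12 : r ∈ M'
    · rw [ch_pos h12, ch_neg (by tauto), one_mul, inv_eq_one] at h11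
      exact v.s1 h11
    · rw [ch_neg h12, ch_pos (by tauto), inv_one, mul_one] at h11
      exact v.s1 h11
  have rc' : x⁻¹ * r * x ∈ 𝐂(E ⊔ sq X) := by
    simpa using conj_mem (inv_mem (H1.normalizer_le_normalizer_centralizer _ (H1.le_normalizer_sup
      (zpowers_le_of_mem (cent_le_norm E hx.1)) (hA.trans (norm_le_norm_sq X)) (mem_zpowers x)))) rc
  have h6 : (r * r)⁻¹ * (r * (x⁻¹ * r * x)) ∈ X ⊓ 𝐂[x] := mem_inf.2
    ⟨mul_mem (inv_mem (mul_mem hr hr)) (mul_mem hr (cj r hr)), mul_mem (inv_mem (hV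
      ⟨⟨mul_mem hr hr, mul_mem rc rc⟩, mem_sup_right (sq_mem hr)⟩))
      (hV ⟨⟨mul_mem hr (cj r hr), mul_mem rc rc'⟩, h5⟩)⟩
  have h7 : x⁻¹ * r * x = r * ((r * r)⁻¹ * (r * (x⁻¹ * r * x))) := by group
  generalize (r * r)⁻¹ * (r * (x⁻¹ * r * x)) = c at h6 h7
  have h8 : ∀ k : ℕ, (x ^ k)⁻¹ * r * x ^ k = r * c ^ k := fun k => by
    induction k with
    | zero => simp
    | succ k ih =>
      rw [pow_succ, mul_inv_rev, mul_assoc, mul_assoc, ← mul_assoc r, ← mul_assoc (x ^ k)⁻¹,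
        ← mul_assoc (x ^ k)⁻¹, ih, mul_assoc, ← (Commute.pow_right (mem_cent1.1 h6.2) k).eq,
        ← mul_assoc, ← mul_assoc, h7, mul_assoc, pow_succ']
  have h9 := h8 (orderOf x)
  rw [pow_orderOf_eq_one, inv_one, one_mul, mul_one, left_eq_mul] at h9
  rw [P4.eq_one_of_odd_of_mem h2 (ho.of_dvd_nat (orderOf_dvd_of_pow_eq_one h9)) h6.1, mul_one,
    mul_assoc, inv_mul_eq_iff_eq_mul] at h7
  have h10 := key 𝐂[r] (le_norm_self _ (mem_cent1.2 h7)) (fun a ha => mem_cent1_comm.1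
    (mem_cent1_iff_conj.2 ?_)) sc fun a ha => mem_cent1_comm.1 (mem_cent1_iff_conj.2 ?_)
  · have h11 : ∀ a ∈ X, a ∈ M ↔ x⁻¹ * a * x ∈ M := fun a ha => by
      have h12 := h1 a ha
      rw [mem_cent1_iff_conj.1 (mem_cent1_comm.1 (h10 ha)), left_eq_mul, mul_inv_eq_one] at h12
      refine ⟨fun e => by_contra fun e' => v.t1 ?_, fun e => by_contra fun e' => v.t1 ?_⟩
      · rw [← ch_neg (e := e1) e', ← h12, ch_pos e]
      · rw [← ch_neg (e := e1) e', h12, ch_pos e]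
    have h12 := key M (inv_mem_iff.1 (mem_norm_of_conj_le ?_))
      (fun a ha => (mul2 hM3 ha (cj a ha)).2 (h11 a ha))
      (sq_le_iff.2 fun a ha => (mul2 hM3 ha ha).2 Iff.rfl) hM1
    · rw [relIndex_eq_one.2 h12] at hM3
      omega
    · rintro _ ⟨a, ha, rfl⟩
      simpa using (h11 a (hM2 ha)).1 ha
  · have h3 := zpowers_le_of_mem he1 (mz M e1 a (x⁻¹ * a * x))
    have h11 := h1 a ha
    generalize ch M e1 a * (ch M e1 (x⁻¹ * a * x))⁻¹ = c at h3 h11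
    have h12 : r * (x⁻¹ * a * x) * r⁻¹ = x⁻¹ * a * x * c := by
      have h13 := mem_cent1_iff_conj.1 (mem_cent1.2 h7.symm)
      rw [← conj_mul, ← conj_mul, ← conj_inv, h13, h11, mul_assoc _ x, ← mem_cent.1 hx.1 c h3]
      group
    rw [← conj_mul, h11, h12, mul_assoc, ← mul_assoc c, mem_cent.1 (hX (cj a ha)) c h3,
      mul_assoc _ c, Om.sq hE h3, mul_one]
  · rw [h1 a ha.1, mul_assoc x⁻¹, ← mem_cent1.1 ha.2, inv_mul_cancel_left, mul_inv_cancel, mul_one]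

theorem l_main (h : Hom G) {E : Subgroup G} (hE : Om E) (h4 : 4 ≤ 𝐨(E)) (X : Subgroup G) :
    E ≤ X → X ≤ 𝐂(E) → IsPGroup 2 X → ∀ x ∈ 𝐂(E) ⊓ 𝐍(X), Odd (orderOf x) → x ∈ 𝐂(X) := by
  induction X using WellFoundedGT.induction with
  | ind X ih =>
  intro hEX hX h2 x hx ho
  by_contra h0
  have hY : 𝐂(E) ⊓ 𝐍(X) ⊓ centMod X E ⊲ 𝐂(E) ⊓ 𝐍(X) := ⟨inf_le_left, H1.le_normalizer_inf
    (le_norm_self _) (norm_le_norm_centMod inf_le_right (inf_le_left.trans (cent_le_norm E)))⟩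
  have odd : ∀ y ∈ 𝐂(E) ⊓ 𝐍(X) ⊓ centMod X E, Odd (orderOf y) → y ∈ 𝐂(X) := fun y hy ho =>
    cent_of_odd h2 ho hy.1.2 hy.1.1 (mem_centMod.1 hy.2).2
  set Y := 𝐂(E) ⊓ 𝐍(X) ⊓ centMod X E with hYd
  have key : ∀ u ∈ Y, IsPGroup 2 (zpowers u) → u ∈ X := fun u hu h3 => by
    obtain ⟨R, hR, h5⟩ := exists_isSyl_ge Nat.prime_two h3 (zpowers_le_of_mem hu)
    have hRX : R ≤ 𝐍(X) := hR.le.trans (inf_le_left.trans inf_le_right)
    by_contra h6
    obtain ⟨y, hy, n, hn, rfl⟩ := (mem_sup_of_norm (inf_le_left.trans hY.2)).1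
      ((hR.frattini Nat.prime_two hY).ge hx)
    obtain ⟨a, ha, b, hb, h7, h8, rfl⟩ := split n
    replace hb := zpowers_le_of_mem (H := 𝐂(E) ⊓ 𝐍(X) ⊓ 𝐍(R) ⊓ 𝐂[a]) (mem_inf.2 ⟨hn,
      mem_cent1.2 (St.cT ha (mem_zpowers _))⟩) hb
    have h9 := cent_anti le_sup_right (ih (R ⊔ X) (lt_of_le_of_ne le_sup_right fun e =>
      h6 (e ▸ mem_sup_left (h5 (mem_zpowers u)))) (hEX.trans le_sup_right)
      (sup_le (hR.le.trans (inf_le_left.trans inf_le_left)) hX) (isPGroup_sup hR.pgrp h2 hRX) b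
      (mem_inf.2 ⟨hb.1.1.1, H1.le_normalizer_sup inf_le_right (inf_le_left.trans inf_le_right)
        hb.1⟩) h8)
    have h10 : b ∈ Y := mem_inf.2 ⟨hb.1.1, mem_centMod.2 ⟨cent_le_norm E hb.1.1.1, fun a ha => by
      rw [commutatorElement_eq_one_iff_mul_comm.2 (mem_cent.1 h9 a ha)]; exact one_mem _⟩⟩
    obtain ⟨k, hk⟩ := h7 ⟨a, mem_zpowers a⟩
    have h11 := mul_mem (pow_mul_mem hy (hY.2 hn.1) (2 ^ k)) (pow_mem h10 (2 ^ k))
    rw [Commute.mul_pow (mem_cent1.1 hb.2), show a ^ 2 ^ k = 1 from congrArg Subtype.val hk,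
      one_mul, inv_mul_cancel_right] at h11
    exact h0 (odd _ (zpowers_le_of_mem h11 (mem_zpowers_pow
      ((Nat.coprime_two_left.2 ho).pow_left k))) ho)
  refine h0 (l_step hE h4 hEX hX h2 hx ho fun M h1 h3 h5 e he => ?_)
  obtain ⟨w, hw, h6⟩ := tv h h1 h3 h5 (cent_comm.1 hX) he (Om.sq hE he) hx.2
    (cent_le_norm E hx.1)
  have mem : ∀ a, ch M e a ∈ E := fun a => zpowers_le_of_mem he (ch_mem M e a)
  simp only [fun a => mem_cent1_iff_conj.1 (cent_le_cent1 (mem a) hx.1)] at h6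
  obtain ⟨a, ha, b, hb, h7, h8, rfl⟩ := split w
  have h9 := zpowers_le_of_mem (H := Y) (mem_inf.2 ⟨hw, mem_centMod.2 ⟨cent_le_norm E hw.1,
    fun c hc => by
      rw [commutatorElement_def, mul_assoc, mul_assoc, ← mul_assoc _ c⁻¹, h6 _ (inv_mem hc),
        mul_inv_cancel_left]
      exact mul_mem (mem _) (inv_mem (mem _))⟩⟩)
  refine ⟨a, key a (h9 ha) h7, fun c hc => ?_⟩
  rw [← h6 c hc]
  nth_rewrite 1 [← mem_cent1_iff_conj.1 (cent_le_cent1 hc (odd b (h9 hb) h8))]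
  group

theorem lStmt : LStmt.{u} := fun G _ _ h E hE h4 => by
  obtain ⟨T, hT⟩ := exists_isSyl Nat.prime_two 𝐂(E)
  refine npc_frob hT fun X hX g hg ho => cent_anti le_sup_left (l_main h hE h4 (X ⊔ E) le_sup_right
    (sup_le (hX.trans hT.le) (Om.le hE)) (isPGroup_sup (hT.pgrp.to_le hX) (Om.two hE)
      ((hX.trans hT.le).trans (cent_le_norm E))) g (mem_inf.2 ⟨hg.1, zpowers_le.1
        (H1.le_normalizer_sup (zpowers_le_of_mem hg.2)
          (zpowers_le_of_mem (cent_le_norm E hg.1)))⟩) ho)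

end Cfsg.Agent.Hm.BB
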