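/-
Hm, chapter F, part 1: removing the exceptional case, central quotients, quaternion Sylow subgroups.
-/
import Cfsg.Agent.Hm.Defs
import Cfsg.Agent.P17.Defs
import Cfsg.Agent.P5.Final
import Cfsg.Agent.H5.Friend2

set_option autoImplicit false
set_option linter.unusedSectionVars false
set_option linter.style.haveILetI false

namespace Cfsg.Agent.Hm

open Subgroup Cfsg Cfsg.Agent Cfsg.Agent.FT
open Cfsg.Agent.P4 (Max2)
open Cfsg.Agent.H6.Cyc (conj_mem mem_zpowers_pow coprime_ord)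
open scoped commutatorElement

universe u

variable {G : Type u} [Group G] [Finite G]

theorem OL.f_pm (h : OL G) {p : ℕ} (hp : p.Prime) (p2 : p ≠ 2) {Y : Subgroup G}
    (hY : IsPGroup p Y) {g : G} (hg : g ∈ 𝐍(Y)) (h2 : g * g ∈ 𝐂(Y)) :
    g ∈ 𝐂(Y) ∨ ∀ y ∈ Y, g * y * g⁻¹ = y⁻¹ := by
  refine or_iff_not_imp_left.2 fun h0 y hy => ?_
  have h1 := conj_mem hg hy
  by_contra h3
  refine h0 (h.free hp p2 hY g hg _ (mul_mem hy h1) (fun e => h3 (eq_inv_of_mul_eq_one_right e)) ?_)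
  have h4 := mem_cent.1 (isMulComm_iff_le_cent.1 (h.ab hp p2 hY) hy) _ h1
  have h5 := mem_cent.1 h2 y hy
  change g * (y * (g * y * g⁻¹)) = y * (g * y * g⁻¹) * g
  rw [← h4]
  calc g * (g * y * g⁻¹ * y) = (g * g * y) * g⁻¹ * y := by group
    _ = y * g * y := by rw [← h5]; group
    _ = y * (g * y * g⁻¹) * g := by group
    _ = _ := by rw [h4]

/-- Two elements of a `2`-subgroup commute unless one has a central square. -/
def AQ (G : Type u) [Group G] : Prop := ∀ R : Subgroup G, IsPGroup 2 R → ∀ x ∈ R, ∀ y ∈ R,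
  Commute x y ∨ x * x ∈ center G ∨ y * y ∈ center G

theorem aq_of {S : Subgroup G} (hS : IsSyl 2 S ⊤) {a : G}
    (h : ∀ g ∈ S, g ∈ zpowers a ∨ g * g ∈ center G) : AQ G := fun R hR x hx y hy => by
  obtain ⟨g, -, hg⟩ := hS.exists_conj_le Nat.prime_two hR le_top
  have k : ∀ x : G, g * x * g⁻¹ * (g * x * g⁻¹) ∈ center G → x * x ∈ center G := fun x e => by
    have := (inferInstance : (center G).Normal).conj_mem _ e g⁻¹
    rwa [show g⁻¹ * (g * x * g⁻¹ * (g * x * g⁻¹)) * g⁻¹⁻¹ = x * x by group] at this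
  rcases h _ (hg (conj_mem_conj hx g)) with h1 | h1
  · rcases h _ (hg (conj_mem_conj hy g)) with h2 | h2
    · have := (H6.Cyc.St.cT h1 h2).eq
      left
      change x * y = y * x
      calc x * y = g⁻¹ * (g * x * g⁻¹ * (g * y * g⁻¹)) * g := by group
        _ = _ := by rw [this]; group
    · exact Or.inr (Or.inr (k y h2))
  · exact Or.inr (Or.inl (k x h1))

theorem OL.f_os (h : OL G) (hq : AQ G) : OS G where
  toOL := h
  sc' {p} hp p2 Y hY := (h.sc hp p2 hY).resolve_right fun ex => ex.na (by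
    obtain ⟨R, hR⟩ := exists_isSyl Nat.prime_two 𝐍(Y)
    have nC : 𝐍(Y) ≤ 𝐍(𝐂(Y)) := H1.le_normalizer_centralizer le_rfl
    have h1 : 𝐍(Y) ≤ 𝐂(Y) ⊔ R := le_of_forall_exists_isSyl_le fun q hq _ => by
      by_cases q2 : q = 2
      · exact ⟨R, q2 ▸ hR, le_sup_right⟩
      obtain ⟨P, hP⟩ := exists_isSyl hq 𝐍(Y)
      refine ⟨P, hP, fun g hg => mem_sup_left (zpowers_le_of_mem (ex.four g (hP.le hg))
        (mem_zpowers_pow (coprime_ord hq hP.pgrp hg ?_)))⟩
      exact ((Nat.coprime_primes Nat.prime_two hq).2 (Ne.symm q2)).pow_left 2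
    have key : ∀ x ∈ 𝐍(Y), ∀ y ∈ 𝐍(Y), x * x ∈ center G → ⁅x, y⁆ ∈ 𝐂(Y) := fun x hx y hy e => by
      rcases h.f_pm hp p2 hY hx (mem_cent.2 fun a _ => mem_center_iff.1 e a) with h2 | h2
      · rw [commutatorElement_def, mul_assoc, mul_assoc]
        exact mul_mem h2 (by simpa [mul_assoc] using conj_mem (nC hy) (inv_mem h2))
      · refine mem_cent.2 fun a ha => ?_
        have e1 := h2 _ (inv_mem (conj_mem (inv_mem hy) ha))
        have e2 := h2 _ (inv_mem ha)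
        rw [inv_inv] at e1 e2
        rw [commutatorElement_def]
        calc a * (x * y * x⁻¹ * y⁻¹) = x * a⁻¹ * x⁻¹ * (x * y * x⁻¹ * y⁻¹) := by rw [e2]
          _ = x * y * x⁻¹ * (x * (y⁻¹ * a * y)⁻¹ * x⁻¹)⁻¹⁻¹ * y⁻¹ := by group
          _ = _ := by rw [inv_inv, e1]; group
    refine (commutator_mono h1 h1).trans (der_sup_le (le_norm_self _) (hR.le.trans nC) (der_le _)
      (comm_le_left_iff.2 (hR.le.trans nC)) (commutator_le.2 fun x hx y hy => ?_))
    rcases hq R hR.pgrp x hx y hy with e | e | e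
    · rw [commutatorElement_eq_one_iff_commute.2 e]; exact one_mem _
    · exact key x (hR.le hx) y (hR.le hy) e
    · rw [← commutatorElement_inv]; exact inv_mem (key y (hR.le hy) x (hR.le hx) e))

section quot

variable {X : Type u} [Group X] [Finite X] {π : G →* X} {z : G} (d : Cj.DC π z)
include d

theorem dc_inj {p : ℕ} (hp : p.Prime) (p2 : p ≠ 2) {Y : Subgroup G} (hY : IsPGroup p Y) {y : G}
    (hy : y ∈ Y) (e : π y = 1) : y = 1 := (d.ker y e).resolve_right fun e' => by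
  subst e'
  have := coprime_ord hp hY hy ((Nat.coprime_primes Nat.prime_two hp).2 (Ne.symm p2))
  rw [P4.orderOf_two d.ne d.sq] at this
  exact absurd this (by norm_num)

theorem dc_lift {p : ℕ} (hp : p.Prime) (p2 : p ≠ 2) {W : Subgroup X} (hW : IsPGroup p W) :
    ∃ Y : Subgroup G, IsPGroup p Y ∧ Y.map π = W ∧ ∀ g, π g ∈ 𝐍(W) → g ∈ 𝐍(Y) := by
  obtain ⟨Y, hY⟩ := exists_isSyl hp (W.comap π)
  have h1 : Y.map π = W := by
    refine (IsSyl.eq_of_le hp (M := W) ⟨map_le_iff_le_comap.2 hY.le, hY.pgrp.map π, fun e =>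
      hY.ndvd ?_⟩ (map_le_iff_le_comap.2 hY.le) le_rfl hW).symm
    rw [← map_comap_eq_self_of_surjective d.surj W, ← relIndex_comap] at e
    exact e.trans (relIndex_dvd_of_le_left _ (le_comap_map π Y))
  have h2 : W.comap π ≤ 𝐍(Y) := fun w hw => by
    obtain ⟨y, hy, e⟩ : π w ∈ Y.map π := h1 ▸ hw
    rcases d.ker (y⁻¹ * w) (by rw [map_mul, map_inv, e, inv_mul_cancel]) with e' | e'
    · rw [← inv_mul_eq_one.1 e']; exact le_norm_self Y hy
    · rw [inv_mul_eq_iff_eq_mul.1 e']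
      exact mul_mem (le_norm_self Y hy) (cent_le_norm Y (mem_cent.2 fun a _ =>
        mul_inv_eq_iff_eq_mul.1 (d.comm a)))
  refine ⟨Y, hY.pgrp, h1, fun g hg => mem_norm_of_conj_le (hY.le_of_normal hp h2
    (hY.pgrp.map _) fun y hy => ?_)⟩
  obtain ⟨y', hy', rfl⟩ := mem_conj'.1 hy
  rw [mem_comap, map_mul, map_mul, map_inv]
  exact conj_mem hg (hY.le hy')

theorem OS.f_quot (h : OS G) : OS X := by
  have sc : ∀ {p : ℕ}, p.Prime → p ≠ 2 → ∀ {W : Subgroup X}, IsPGroup p W → Sc W :=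
    fun {p} hp p2 W hW g hg y hy ho => by
      obtain ⟨Y, hY, rfl, hn⟩ := dc_lift d hp p2 hW
      obtain ⟨g, rfl⟩ := d.surj g
      obtain ⟨y, hy, rfl⟩ := hy
      have h1 : orderOf y = orderOf (π y) := Nat.dvd_antisymm (orderOf_dvd_of_pow_eq_one
        (dc_inj d hp p2 hY (pow_mem hy _) (by rw [map_pow, pow_orderOf_eq_one])))
        (orderOf_map_dvd π y)
      have := mem_map_of_mem π (h.sc' hp p2 hY g (hn g hg) y hy (h1 ▸ ho))
      rwa [MonoidHom.map_zpowers, map_mul, map_mul, map_inv] at this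
  refine ⟨⟨fun {p} hp p2 W hW => ?_, fun {p} hp p2 W hW g hg y hy y1 hc => ?_,
    fun hp p2 W hW => Or.inl (sc hp p2 hW)⟩, sc⟩
  · obtain ⟨Y, hY, rfl, -⟩ := dc_lift d hp p2 hW
    haveI := h.ab hp p2 hY
    infer_instance
  · obtain ⟨Y, hY, rfl, hn⟩ := dc_lift d hp p2 hW
    obtain ⟨g, rfl⟩ := d.surj g
    obtain ⟨y, hy, rfl⟩ := hy
    have h1 := dc_inj d hp p2 hY (mul_mem (conj_mem (hn g hg) hy) (inv_mem hy)) (by
      rw [map_mul, map_mul, map_mul, map_inv, map_inv, hc.eq]; group)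
    have h2 := h.free hp p2 hY g (hn g hg) y hy (fun e => y1 (by rw [e, map_one]))
      (mul_inv_eq_iff_eq_mul.1 (mul_inv_eq_one.1 h1))
    refine mem_cent.2 ?_
    rintro _ ⟨a, ha, rfl⟩
    rw [← map_mul, ← map_mul, mem_cent.1 h2 a ha]

end quot

theorem f_swap (h : Hom G) {x y : G} (hy : y ∉ zpowers x) (iv : y * x * y⁻¹ = x⁻¹)
    (zx : y * y ∈ zpowers x) : ∃ ψ : G ≃* G, ψ x = x ∧ ψ y = y * x := by
  have k : ∀ {w : G}, w * w = y * y → w ∉ zpowers x → ∀ (k : ℤ), ∀ u ∈ zpowers x,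
      (w ^ k * u = 1 ↔ ∃ j, k = 2 * j ∧ (y * y) ^ j * u = 1) := fun {w} ww hw k u hu => by
    obtain ⟨j, rfl | rfl⟩ := Int.even_or_odd' k
    · rw [zpow_mul, zpow_two, ww]
      exact ⟨fun e => ⟨j, rfl, e⟩, fun ⟨i, e, e'⟩ => by rwa [show j = i by omega]⟩
    · refine iff_of_false (fun e => hw ?_) fun ⟨i, e, _⟩ => by omega
      rw [zpow_add_one, zpow_mul, zpow_two, ww, mul_assoc] at e
      rw [← mul_mem_cancel_right hu, eq_inv_of_mul_eq_one_right e]
      exact inv_mem (zpow_mem zx j)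
  have e : y * x * (y * x) = y * y := by
    calc _ = y * x * y⁻¹ * (y * y * x) := by group
      _ = _ := by rw [iv, (H6.Cyc.St.cT zx (mem_zpowers x)).eq, inv_mul_cancel_left]
  obtain ⟨ψ, h1, h2⟩ := P17.Hg.cyc_ext h (U := zpowers x) (ψ := id) (b := y) (b' := y * x)
    (H6.Cyc.mem_norm_zpowers (iv ▸ inv_mem (mem_zpowers x))) (fun _ _ _ _ => rfl)
    (fun u hu => by
      have := (H6.Cyc.St.cT (mem_zpowers x) hu).eq
      simp only [id, mul_assoc y, this]; group)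
    fun n u hu => (k rfl hy n u hu).trans
      (k e (mt (mul_mem_cancel_right (mem_zpowers x)).1 hy) n u hu).symm
  exact ⟨ψ, h1 x (mem_zpowers x), h2⟩

/-- A generalized quaternion Sylow subgroup. -/
structure Qt (S : Subgroup G) (x y z : G) : Prop where
  syl : IsSyl 2 S ⊤
  xS : x ∈ S
  yS : y ∈ S
  yx : y ∉ zpowers x
  zx : z ∈ zpowers (x * x)
  yy : y * y = z
  inv : y * x * y⁻¹ = x⁻¹
  cover : ∀ g ∈ S, g ∈ zpowers x ∨ y * g ∈ zpowers x
  z1 : z ≠ 1
  zz : z * z = 1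
  uniq : ∀ j : G, j * j = 1 → j = 1 ∨ j = z

theorem exists_qt (hs : ¬ Group.IsSolvable G) {z : G} (z1 : z ≠ 1) (zz : z * z = 1)
    (hz : ∀ j : G, j * j = 1 → j = 1 ∨ j = z) : ∃ (S : Subgroup G) (x y : G), Qt S x y z := by
  obtain ⟨S, hS⟩ := exists_isSyl Nat.prime_two (⊤ : Subgroup G)
  haveI := Fact.mk Nat.prime_two
  rcases H3.abelian_cyclic_cases hS.pgrp (H3.elementary_cyclic_of_unique fun A B hA hB => by
    have k : ∀ A : Subgroup S, Nat.card A = 2 → ∃ a : S, (a : G) = z ∧ zpowers a = A := fun A hA => by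
      obtain ⟨a, a1, aa, e⟩ := H6.Cyc.exists_invol_of_card hA
      exact ⟨a, (hz a (congrArg Subtype.val aa)).resolve_left fun e' => a1 (Subtype.ext e'), e⟩
    obtain ⟨a, ha, rfl⟩ := k A hA
    obtain ⟨b, hb, rfl⟩ := k B hB
    rw [Subtype.ext (ha.trans hb.symm : (a : G) = b)]) with h | ⟨-, n, x, y, hn, hx, hi, hy, yy, iv⟩
  · exact absurd (P4.solvable_of_cyclic hS h) hs
  obtain ⟨m, rfl⟩ : ∃ m, n = m + 2 := ⟨n - 2, by omega⟩
  have e1 : x ^ 2 ^ (m + 1) ≠ 1 := pow_ne_one_of_lt_orderOf (by positivity)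
    (hx ▸ Nat.pow_lt_pow_right one_lt_two (by omega))
  have e2 : (x : G) ^ 2 ^ (m + 1) = z := (hz _ (by
    rw [← pow_add, ← two_mul, ← pow_succ', ← hx]
    exact congrArg Subtype.val (pow_orderOf_eq_one x))).resolve_left fun e => e1 (Subtype.ext e)
  have mz : ∀ g : S, (g : G) ∈ zpowers (x : G) ↔ g ∈ zpowers x := fun g => by
    rw [← mem_map_iff_mem S.subtype_injective, MonoidHom.map_zpowers]; rfl
  refine ⟨S, x, y, hS, x.2, y.2, fun e => hy ((mz y).1 e), ?_, ?_, congrArg Subtype.val iv,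
    fun g hg => or_iff_not_imp_left.2 fun e => (mz (y * ⟨g, hg⟩)).2
      ((mul_mem_iff_of_index_two hi).2 (iff_of_false hy fun e' => e ((mz _).2 e'))),
    z1, zz, hz⟩
  · rw [← e2, pow_succ', pow_mul, sq]; exact npow_mem_zpowers _ _
  · rw [← e2, ← sq]; exact congrArg Subtype.val yy

namespace Qt

variable {S : Subgroup G} {x y z : G} (q : Qt S x y z)
include q

theorem inv' {u : G} (hu : u ∈ zpowers x) : y * u * y⁻¹ = u⁻¹ := by
  obtain ⟨k, rfl⟩ := hu
  simp only [← conj_zpow, q.inv, inv_zpow]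

theorem sq {g : G} (hg : g ∈ S) (h : g ∉ zpowers x) : g * g = z := by
  have h1 := q.inv' ((q.cover g hg).resolve_left h)
  calc g * g = (y * y)⁻¹ * (y * (y * g) * y⁻¹) * (y * g) := by group
    _ = z := by rw [h1, q.yy, inv_mul_cancel_right, inv_eq_of_mul_eq_one_right q.zz]

theorem cen : z ∈ center G := mem_center_iff.2 fun g => by
  haveI := Cj.normal_zpowers_of_uniq q.zz q.uniq
  exact mul_inv_eq_iff_eq_mul.1 ((Cj.DC.mk' q.z1 q.zz q.uniq).comm g)

theorem aq : AQ G := aq_of q.syl (a := x) fun g hg =>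
  or_iff_not_imp_left.2 fun e => q.sq hg e ▸ q.cen

theorem ord {g : G} (h : g * g = z) : orderOf g = 4 := by
  haveI := Fact.mk Nat.prime_two
  refine orderOf_eq_prime_pow (p := 2) (n := 1) (by rw [pow_one, pow_two, h]; exact q.z1) ?_
  rw [show 2 ^ (1 + 1) = 2 * 2 from rfl, pow_mul, pow_two g, h, pow_two, q.zz]

theorem zx' : z ∈ zpowers x := zpowers_le_of_mem (mul_mem (mem_zpowers x) (mem_zpowers x)) q.zx

variable {X : Type u} [Group X] [Finite X] {π : G →* X} (d : Cj.DC π z)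
include d

theorem mem_zp {g : G} : π g ∈ zpowers (π x) ↔ g ∈ zpowers x := by
  rw [← MonoidHom.map_zpowers]
  refine ⟨fun ⟨u, hu, e⟩ => ?_, mem_map_of_mem π⟩
  rw [← mul_mem_cancel_left (inv_mem hu)]
  rcases d.ker (u⁻¹ * g) (by rw [map_mul, map_inv, e, inv_mul_cancel]) with e' | e'
  · exact e' ▸ one_mem _
  · exact e' ▸ q.zx'

theorem max2 (h8 : 8 ∣ Nat.card X) : π x * π x ≠ 1 ∧ π y * π x * π y = (π x)⁻¹ ∧
    ∃ t, Max2 (S.map π) (π x) t (π y) := by
  have yy : π y * π y = 1 := by rw [← map_mul, q.yy, d.map]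
  have iv : ∀ u ∈ zpowers (π x), π y * u * π y = u⁻¹ := fun u hu => by
    rw [← MonoidHom.map_zpowers] at hu
    obtain ⟨u, hu, rfl⟩ := hu
    rw [← map_inv, ← q.inv' hu, map_mul, map_mul, map_inv, inv_eq_of_mul_eq_one_right yy]
  have hS : IsSyl 2 (S.map π) ⊤ := ⟨le_top, q.syl.pgrp.map π, fun h => q.syl.ndvd (by
    rw [relIndex_top_right] at h ⊢
    exact h.trans (index_map_dvd S d.surj))⟩
  have cv : ∀ g ∈ S.map π, g ∈ zpowers (π x) ∨ π y * g ∈ zpowers (π x) := by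
    rintro _ ⟨g, hg, rfl⟩
    rw [← map_mul, q.mem_zp d, q.mem_zp d]
    exact q.cover g hg
  have x1 : π x ≠ 1 := fun e => q.z1 (by simpa [d.sq_eq_one e] using q.zx)
  obtain ⟨t, ht, t1, tt⟩ := P4.exists_invol (hS.pgrp.to_le (zpowers_le_of_mem
    (mem_map_of_mem π q.xS))) (zpowers_ne_bot.2 x1)
  have m : Max2 (S.map π) (π x) t (π y) := ⟨hS, mem_map_of_mem π q.xS, ht, t1, tt,
    mem_map_of_mem π q.yS, mt (q.mem_zp d).1 q.yx, yy, cv, fun u hu e => by
      have := iv u hu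
      rw [e.eq, mul_assoc, yy, mul_one] at this
      exact mul_eq_one_iff_eq_inv.2 this⟩
  refine ⟨fun e => ?_, iv _ (mem_zpowers _), t, m⟩
  rw [← (S.map π).card_mul_index, m.card, P4.orderOf_two x1 e] at h8
  have := m.odd_index
  rw [Nat.odd_iff] at this
  omega

end Qt

end Cfsg.Agent.Hm
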