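/-
Hm, chapter B: the case of a four-group with a nonabelian Sylow subgroup of its centralizer.
-/
import Cfsg.Agent.Hm.BB1
import Cfsg.Agent.Hm.A3
import Cfsg.Agent.Hm.B4
import Cfsg.Agent.Hm.F1

set_option autoImplicit false
set_option linter.unusedSectionVars false
set_option linter.style.haveILetI false

namespace Cfsg.Agent.Hm.BB

open Subgroup Cfsg Cfsg.Agent Cfsg.Agent.FT
open Cfsg.Agent.P4 (odd_iff_not_dvd)
open Cfsg.Agent.P5 (V4 Tri)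
open Cfsg.Agent.P7 (V2)
open Cfsg.Agent.H2 (pPrimeCoreOf)
open Cfsg.Agent.H6.Cyc
open scoped commutatorElement

universe u

variable {G : Type u} [Group G] [Finite G]

theorem V2_rot (x y : G) : V2 y (x * y) = V2 x y :=
  le_antisymm (V4.le_iff.2 ⟨V4.s_mem, mul_mem V4.t_mem V4.s_mem⟩) (V4.le_iff.2 ⟨by
    have := mul_mem (V4.s_mem (t := y) (s := x * y)) (inv_mem V4.t_mem)
    rwa [mul_inv_cancel_right] at this, V4.t_mem⟩)

theorem mem_z {x a : G} (xx : x * x = 1) (h : a ∈ zpowers x) : a = 1 ∨ a = x := by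
  rcases mem_sq_or x h with e | e <;> rw [xx, zpowers_one_eq_bot, mem_bot] at e
  · exact Or.inl e
  · exact Or.inr (mul_left_cancel (e.trans xx.symm))

theorem tri_fix {g x y e : G} (h : Tri g x y) (v : V4 x y) (he : e ∈ V2 x y)
    (hc : g * e * g⁻¹ = e) : e = 1 := by
  rcases v.mem_iff.1 he with rfl | rfl | rfl | rfl
  · rfl
  · exact absurd (hc.symm.trans h.1) v.ts
  · exact absurd (h.2.symm.trans hc) v.ts_ne_s
  · exact absurd (hc.symm.trans (h.third v)) v.ts_ne_t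

theorem tri_cube {g x y : G} (h : Tri g x y) (v : V4 x y) : g ^ 3 ∈ 𝐂(V2 x y) := by
  have e : ∀ z, g ^ 3 * z * (g ^ 3)⁻¹ = g * (g * (g * z * g⁻¹) * g⁻¹) * g⁻¹ := fun z => by
    simp only [pow_succ, pow_zero, one_mul, mul_inv_rev, mul_assoc]
  exact P7.V4.le_cent_iff.2 ⟨mem_cent1_iff_conj.2 (by rw [e, h.1, h.2, h.third v]),
    mem_cent1_iff_conj.2 (by rw [e, h.2, h.third v, h.1])⟩

/-- The configuration. -/
structure Bq (T : Subgroup G) (x y g : G) : Prop where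
  hom : Hom G
  v : V4 x y
  tri : Tri g x y
  mx : Mx 2 (V2 x y) T
  gT : g ∈ 𝐍(T)
  odd : Odd (orderOf g)
  ne : ¬ T ≤ V2 x y

namespace Bq

variable {T : Subgroup G} {x y g : G} (h : Bq T x y g)
include h

theorem rot : Bq T y (x * y) g :=
  ⟨h.hom, h.v.rot, h.tri.rot h.v, (V2_rot x y).symm ▸ h.mx, h.gT, h.odd, (V2_rot x y).symm ▸ h.ne⟩

theorem at_z {z : G} (hz : z ∈ V2 x y) (z1 : z ≠ 1) : ∃ w, Bq T z w g ∧ V2 z w = V2 x y := by
  rcases h.v.mem_iff.1 hz with rfl | rfl | rfl | rfl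
  · exact absurd rfl z1
  · exact ⟨y, h, rfl⟩
  · exact ⟨_, h.rot, V2_rot _ _⟩
  · exact ⟨_, h.rot.rot, (V2_rot _ _).trans (V2_rot _ _)⟩

theorem om : Om (V2 x y) := fun _ =>
  ⟨fun hj => ⟨h.mx.cm hj, h.v.sq hj⟩, fun hj => h.mx.om _ hj.1 (by rw [pow_two, hj.2])⟩

theorem TD : T ≤ 𝐂(V2 x y) := h.mx.syl.le

theorem two : IsPGroup 2 T := h.mx.syl.pgrp

theorem gE : g ∈ 𝐍(V2 x y) := h.tri.mem_norm h.v

theorem npc : HasNPC 2 𝐂(V2 x y) := lStmt G h.hom _ h.om h.v.card.ge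

theorem zt : T ⊓ 𝐂(T) ≤ V2 x y := h.mx.center_le h.hom (ns_of_two h.mx.el fun e =>
  h.tri.not_mem_cent h.v (e h.gE))

theorem odd_cent {w : G} (hw : w ∈ 𝐂(V2 x y) ⊓ 𝐍(T)) (ho : Odd (orderOf w)) : w ∈ 𝐂(T) :=
  zpowers_le.1 (h.npc.le_cent Nat.prime_two h.two h.TD (zpowers_le_of_mem hw.1)
    (by rwa [Nat.card_zpowers, ← odd_iff_not_dvd]) (zpowers_le_of_mem hw.2))

theorem act {w : G} (hw : w ∈ 𝐂(V2 x y) ⊓ 𝐍(T)) :
    ∃ r ∈ T, ∀ a ∈ T, r * a * r⁻¹ = w * a * w⁻¹ := by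
  obtain ⟨a, ha, b, hb, h1, h2, rfl⟩ := split w
  have h3 := zpowers_le_of_mem hw
  refine ⟨a, h.mx.mem_of_p (h3 ha).1 (h3 ha).2 h1, fun c hc => ?_⟩
  nth_rewrite 1 [← mem_cent1_iff_conj.1 (cent_le_cent1 hc (h.odd_cent (h3 hb) h2))]
  group

theorem surj {r : G} (hr : r ∈ T) : ∃ a ∈ T, a⁻¹ * (g * a * g⁻¹) = r := by
  let f : T → T := fun a => ⟨a⁻¹ * (g * a * g⁻¹), mul_mem (inv_mem a.2) (conj_mem h.gT a.2)⟩
  have hf : Function.Injective f := fun a b e => by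
    have h1 : (a : G)⁻¹ * (g * a * g⁻¹) = (b : G)⁻¹ * (g * b * g⁻¹) := congrArg Subtype.val e
    have h2 : g ∈ 𝐂[(b : G) * (a : G)⁻¹] := mem_cent1_iff_conj.2 (by
      rw [← conj_mul, ← conj_inv, inv_mul_eq_iff_eq_mul.1 h1]; group)
    by_contra h3
    obtain ⟨j, hj, j1, jj⟩ := P4.exists_invol (h.two.to_le (zpowers_le_of_mem
      (mul_mem b.2 (inv_mem a.2)))) (zpowers_ne_bot.2 fun e =>
        h3 (Subtype.ext (mul_inv_eq_one.1 e).symm))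
    exact j1 (tri_fix h.tri h.v ((h.om j).2 ⟨h.TD (zpowers_le_of_mem (mul_mem b.2 (inv_mem a.2)) hj),
      jj⟩) (mem_cent1_iff_conj.1 (cent1_le_cent1_of_mem_zpowers hj h2)))
  obtain ⟨a, ha⟩ := Finite.surjective_of_injective hf ⟨r, hr⟩
  exact ⟨a, a.2, congrArg Subtype.val ha⟩

theorem prod {r : G} (hr : r ∈ T) : r * (g * r * g⁻¹) * (g * (g * r * g⁻¹) * g⁻¹) = 1 := by
  obtain ⟨a, ha, rfl⟩ := h.surj hr
  have h1 := mem_cent1_iff_conj.1 (cent_le_cent1 ha (h.odd_cent (mem_inf.2 ⟨tri_cube h.tri h.v,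
    pow_mem h.gT 3⟩) (h.odd.of_dvd_nat (orderOf_pow_dvd 3))))
  calc _ = a⁻¹ * (g ^ 3 * a * (g ^ 3)⁻¹) := by rw [pow_three]; group
    _ = 1 := by rw [h1, inv_mul_cancel]

theorem prod' {r : G} (hr : r ∈ T) (a : G) : r * (g * r * g⁻¹ * (g * (g * r * g⁻¹) * g⁻¹ * a *
    (g * (g * r * g⁻¹) * g⁻¹)⁻¹) * (g * r * g⁻¹)⁻¹) * r⁻¹ = a := by
  have := h.prod hr
  generalize g * (g * r * g⁻¹) * g⁻¹ = c at this ⊢
  generalize g * r * g⁻¹ = b at this ⊢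
  calc _ = r * b * c * a * (r * b * c)⁻¹ := by group
    _ = a := by rw [this]; group

theorem cjE {a e : G} (ha : a ∈ T) (he : e ∈ V2 x y) : a * e * a⁻¹ = e :=
  mem_cent1_iff_conj.1 (cent_le_cent1 he (h.TD ha))

theorem b0 {r : G} (hr : r ∈ T) (hc : ∀ a ∈ T, ∃ c ∈ zpowers x, r * a * r⁻¹ = a * c) :
    r ∈ V2 x y := by
  have v := h.v
  have cj : ∀ a ∈ T, g⁻¹ * a * g ∈ T := fun a ha => by simpa using conj_mem (inv_mem h.gT) ha
  have up : ∀ {r a c : G}, r * (g⁻¹ * a * g) * r⁻¹ = g⁻¹ * a * g * c →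
      g * r * g⁻¹ * a * (g * r * g⁻¹)⁻¹ = a * (g * c * g⁻¹) := fun {r a c} e => by
    calc _ = g * (r * (g⁻¹ * a * g) * r⁻¹) * g⁻¹ := by group
      _ = _ := by rw [e]; group
  have key : ∀ a ∈ T, ∀ c ∈ zpowers x, ∀ d ∈ zpowers x, r * a * r⁻¹ = a * c →
      r * (g⁻¹ * a * g) * r⁻¹ = g⁻¹ * a * g * d → c = d := fun a ha c h1 d h2 e1 e2 => by
    obtain ⟨f, h3, e3⟩ := hc _ (cj _ (cj a ha))
    have e4 := up e2
    have e5 := up (up e3)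
    have hz := zpowers_le_of_mem (V4.t_mem (t := x) (s := y))
    have h4 := conj_mem h.gE (hz h2)
    have h5 := conj_mem h.gE (conj_mem h.gE (hz h3))
    have h6 := (h.prod' hr a).symm
    rw [e5, ← conj_mul (b := g * r * g⁻¹), e4, h.cjE (conj_mem h.gT hr) h5, ← conj_mul (b := r),
      ← conj_mul (b := r), e1, h.cjE hr h4, h.cjE hr h5, mul_assoc, mul_assoc] at h6
    rw [left_eq_mul] at h6
    have := v.s1
    have := v.t1
    have := v.ts1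
    have h7 : y * (x * y) ≠ 1 := fun e => v.t1 (by rwa [v.comm.eq, ← mul_assoc, v.ss, one_mul] at e)
    have h8 : x * (x * y) ≠ 1 := fun e => v.s1 (by rwa [← mul_assoc, v.tt, one_mul] at e)
    rcases mem_z v.tt h1 with rfl | rfl <;> rcases mem_z v.tt h2 with rfl | rfl <;>
      rcases mem_z v.tt h3 with rfl | rfl <;> simp [h.tri.1, h.tri.2] at h6 <;> tauto
  refine h.zt (mem_inf.2 ⟨hr, mem_cent_iff_cent1.2 fun b hb => mem_cent1_comm.1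
    (mem_cent1_iff_conj.2 ?_)⟩)
  obtain ⟨a, ha, rfl⟩ := h.surj hb
  obtain ⟨c, h1, e1⟩ := hc _ (conj_mem h.gT ha)
  obtain ⟨d, h2, e2⟩ := hc a ha
  obtain rfl := key _ (conj_mem h.gT ha) c h1 d h2 e1 (by simpa [mul_assoc] using e2)
  rw [← conj_mul, ← conj_inv, e1, e2, mul_inv_rev, mul_assoc, ← mul_assoc a⁻¹,
    mem_cent.1 (h.TD (mul_mem (inv_mem ha) (conj_mem h.gT ha))) c
      (zpowers_le_of_mem V4.t_mem h1) |>.symm, inv_mul_cancel_left]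

theorem exists_M : ∃ M, V2 x y ≤ M ∧ M ≤ T ∧ M.relIndex T = 2 :=
  P4.exists_relIndex_two h.two (lt_of_le_of_ne h.mx.le fun e => h.ne e.ge)

theorem tvT {M : Subgroup G} (h1 : V2 x y ≤ M) (h2 : M ≤ T) (h3 : M.relIndex T = 2) {e s : G}
    (he : e ∈ V2 x y) (hs : s ∈ 𝐍(T)) : ∃ r ∈ T, ∀ a ∈ T,
      r * a * r⁻¹ = a * (ch M e a * (s * ch M e (s⁻¹ * a * s) * s⁻¹)⁻¹) := by
  obtain ⟨w, hw, h4⟩ := tv h.hom h1 h2 h3 h.mx.le_cent he (h.v.sq he) hs (h.mx.norm_le hs)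
  obtain ⟨r, hr, h5⟩ := h.act hw
  exact ⟨r, hr, fun a ha => (h5 a ha).trans (h4 a ha)⟩

theorem b1_aux {s : G} (hs : s ∈ 𝐍(T)) (hx : s * x * s⁻¹ = x) : s * y * s⁻¹ = y := by
  have v := h.v
  obtain ⟨M, h1, h2, h3⟩ := h.exists_M
  have key : ∀ e ∈ V2 x y, (∀ a ∈ T, ch M e a * (s * ch M e (s⁻¹ * a * s) * s⁻¹)⁻¹ ∈ zpowers x) →
      ∀ a ∈ T, ch M e a = s * ch M e (s⁻¹ * a * s) * s⁻¹ := fun e he h4 a ha => by
    obtain ⟨r, hr, h5⟩ := h.tvT h1 h2 h3 he hs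
    have h6 := h5 a ha
    rwa [mem_cent1_iff_conj.1 (cent_le_cent1 ha (h.mx.le_cent (h.b0 hr fun b hb =>
      ⟨_, h4 b hb, h5 b hb⟩))), left_eq_mul, mul_inv_eq_one] at h6
  have h4 := key x V4.t_mem fun a _ => mul_mem (ch_mem _ _ _) (inv_mem
    (conj_mem (mem_norm_zpowers (hx.symm ▸ mem_zpowers x)) (ch_mem _ _ _)))
  have h5 : ∀ a ∈ T, a ∈ M ↔ s⁻¹ * a * s ∈ M := fun a ha => by
    have h6 := h4 a ha
    refine ⟨fun e => by_contra fun e' => v.t1 ?_, fun e => by_contra fun e' => v.t1 ?_⟩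
    · rw [ch_pos e, ch_neg e', hx] at h6
      exact h6.symm
    · simpa [ch_pos e, ch_neg e'] using h6
  obtain ⟨a, ha, h6⟩ := not_forall₂.1 fun e : T ≤ M => by
    rw [relIndex_eq_one.2 e] at h3
    omega
  by_contra h7
  have h8 : s * y * s⁻¹ = x * y := by
    rcases v.mem_iff.1 (conj_mem (h.mx.norm_le hs) V4.s_mem) with e | e | e | e
    · exact absurd e (P4.conj_ne_one v.s1 s)
    · exact absurd (by simpa using hx.trans e.symm) v.ts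
    · exact absurd e h7
    · exact e
  have h9 := key y V4.s_mem (fun b hb => by
    by_cases e : b ∈ M
    · simp [ch_pos e, ch_pos ((h5 b hb).1 e)]
    · rw [ch_neg e, ch_neg (mt (h5 b hb).2 e), h8, mul_inv_rev, mul_inv_cancel_left]
      exact inv_mem (mem_zpowers x)) a ha
  rw [ch_neg h6, ch_neg (mt (h5 a ha).2 h6), h8] at h9
  exact v.ts_ne_s h9.symm

theorem b1 : IsSyl 2 T ⊤ := h.mx.syl_top fun s hs h2 => by
  have hn := zpowers_le_of_mem (h.mx.norm_le hs)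
  obtain ⟨z, hz, h1, z1, -⟩ := P4.exists_invol_center (isPGroup_sup h2 h.v.isPGroup hn)
    (N := V2 x y) ⟨le_sup_right, sup_le hn (le_norm_self _)⟩ fun e =>
      h.v.t1 (mem_bot.1 (e ▸ V4.t_mem))
  obtain ⟨w, h3, e⟩ := h.at_z hz z1
  have h4 := mem_cent1_comm.1 (cent_le_cent1 (mem_sup_left (mem_zpowers s)) h1)
  exact e ▸ P7.V4.le_cent_iff.2 ⟨h4, mem_cent1_iff_conj.2 (h3.b1_aux hs (mem_cent1_iff_conj.1 h4))⟩

theorem exists_r : ∃ r ∈ T, r ∉ V2 x y ∧ r * r = x ∧ ∀ a ∈ T, ∃ c ∈ V2 x y,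
    r * a * r⁻¹ = a * c := by
  have v := h.v
  obtain ⟨M, h1, h2, h3⟩ := h.exists_M
  obtain ⟨r, hr, h4⟩ := h.tvT h1 h2 h3 V4.t_mem h.gT
  have mem : ∀ a, ch M x a ∈ V2 x y := fun a => zpowers_le_of_mem V4.t_mem (ch_mem M x a)
  have h5 : ∀ a ∈ T, ∃ c ∈ V2 x y, r * a * r⁻¹ = a * c := fun a ha =>
    ⟨_, mul_mem (mem a) (inv_mem (conj_mem h.gE (mem _))), h4 a ha⟩
  have h6 : r ∉ V2 x y := fun e => by
    obtain ⟨a, ha, h6⟩ := not_forall₂.1 fun e : T ≤ M => by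
      rw [relIndex_eq_one.2 e] at h3
      omega
    have h7 := h4 a ha
    rw [mem_cent1_iff_conj.1 (cent_le_cent1 ha (h.mx.le_cent e)), left_eq_mul, mul_inv_eq_one,
      ch_neg h6] at h7
    rcases mem_z v.tt (ch_mem M x (g⁻¹ * a * g)) with e | e <;> rw [e] at h7
    · exact v.t1 (by simpa using h7)
    · exact v.ts (h7.trans h.tri.1)
  have h7 : r * r ∈ V2 x y := h.zt (mem_inf.2 ⟨mul_mem hr hr, mem_cent_iff_cent1.2 fun a ha =>
    mem_cent1_comm.1 (mem_cent1_iff_conj.2 (by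
      obtain ⟨c, hc, e⟩ := h5 a ha
      rw [show r * r * a * (r * r)⁻¹ = r * (r * a * r⁻¹) * r⁻¹ by group, e, ← conj_mul, e,
        h.cjE hr hc, mul_assoc, v.sq hc, mul_one]))⟩)
  obtain ⟨k, hk, e⟩ := h.tri.exists_conj v h7 fun e => h6 ((h.om r).2 ⟨h.TD hr, e⟩)
  have kT := inv_mem (zpowers_le_of_mem h.gT hk)
  have kE := inv_mem (zpowers_le_of_mem h.gE hk)
  refine ⟨_, conj_mem kT hr, mt (mem_normalizer_iff.1 kE r).2 h6, by rw [conj_mul, ← e]; group,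
    fun a ha => ?_⟩
  obtain ⟨c, hc, e⟩ := h5 _ (conj_mem (inv_mem kT) ha)
  refine ⟨_, conj_mem kE hc, ?_⟩
  calc _ = k⁻¹ * (r * (k⁻¹⁻¹ * a * k⁻¹⁻¹⁻¹) * r⁻¹) * k := by group
    _ = _ := by rw [e]; group

variable (ol : OL G)
include ol

theorem b2_aux {p : ℕ} (hp : p.Prime) (p2 : p ≠ 2) {Y : Subgroup G} (hY : IsPGroup p Y)
    (hn : T ≤ 𝐍(Y)) (hx : x ∈ 𝐂(Y)) : y ∈ 𝐂(Y) := by
  have v := h.v
  by_contra h0
  obtain ⟨r, hr, h1, rr, h2⟩ := h.exists_r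
  have yT := h.mx.le (V4.s_mem (t := x) (s := y))
  have key : ∀ r ∈ T, r ∈ 𝐂(Y) → (∀ a ∈ T, ∃ c ∈ V2 x y, r * a * r⁻¹ = a * c) → r ∈ V2 x y :=
    fun r hr h3 h4 => h.b0 hr fun a ha => by
    obtain ⟨c, hc, e⟩ := h4 a ha
    have h5 := mul_mem (conj_mem (H1.normalizer_le_normalizer_centralizer Y (hn (inv_mem ha))) h3)
      (inv_mem h3)
    rw [inv_inv, mul_assoc, mul_assoc, ← mul_assoc r, e, inv_mul_cancel_left] at h5
    refine ⟨c, ?_, e⟩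
    rcases v.mem_iff.1 hc with rfl | rfl | rfl | rfl
    · exact one_mem _
    · exact mem_zpowers _
    · exact absurd h5 h0
    · exact absurd ((mul_mem_cancel_left hx).1 h5) h0
  have h3 := (ol.f_pm hp p2 hY (hn yT) (v.ss ▸ one_mem _)).resolve_left h0
  rcases ol.f_pm hp p2 hY (hn hr) (rr ▸ hx) with e | e
  · exact h1 (key r hr e h2)
  refine h1 ((mul_mem_cancel_right V4.s_mem).1 (key _ (mul_mem hr yT) (mem_cent_iff_cent1.2
    fun b hb => mem_cent1_comm.1 (mem_cent1_iff_conj.2 ?_)) fun a ha => ?_))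
  · rw [show r * y * b * (r * y)⁻¹ = r * (y * b * y⁻¹) * r⁻¹ by group, h3 b hb, e _ (inv_mem hb),
      inv_inv]
  · rw [show r * y * a * (r * y)⁻¹ = r * (y * a * y⁻¹) * r⁻¹ by group,
      mem_cent1_iff_conj.1 (cent_le_cent1 ha (h.mx.le_cent V4.s_mem))]
    exact h2 a ha

theorem b2 : 𝐂[x] ≤ 𝐂(V2 x y) := fun k hk => by
  have v := h.v
  have TC := h.TD.trans (cent_le_cent1 (V4.t_mem (t := x) (s := y)))
  have yC : y ∈ 𝐂[x] := mem_cent1.2 v.comm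
  have hO := odd_core (G := G) 𝐂[x]
  have h1 : pPrimeCoreOf 2 𝐂[x] ≤ 𝐂[y] := le_of_forall_exists_isSyl_le fun p hp hd => by
    obtain ⟨Y, hY, hn⟩ := exists_inv_syl hO (TC.trans (pPrimeCoreOf_normal 2 _).2) h.two hp
    exact ⟨Y, hY, mem_cent_iff_cent1.1 (h.b2_aux ol hp (ne_two_of_dvd hO hd) hY.pgrp hn
      (mem_cent_iff_cent1.2 (hY.le.trans (core_le _))))⟩
  have h2 : ⁅y, k⁆ ∈ pPrimeCoreOf 2 𝐂[x] := by
    refine ⟨_, P1.zstar (t := (⟨y, yC⟩ : 𝐂[x])) (by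
      rw [← orderOf_coe]; exact P4.orderOf_two v.s1 v.ss) (fun n hn => Subtype.ext ?_) ⟨k, hk⟩, rfl⟩
    have h3 := mem_cent1_iff_conj.1 n.2
    change (n : G) * y * (n : G)⁻¹ = y
    rcases v.mem_iff.1 ((h.om _).2 ⟨P7.V4.le_cent_iff.2 ⟨conj_mem (le_norm_self _ n.2) yC,
      mem_cent1.2 (congrArg Subtype.val hn)⟩, P4.conj_sq v.ss n⟩) with e | e | e | e
    · exact absurd e (P4.conj_ne_one v.s1 _)
    · exact absurd (by simpa using h3.trans e.symm) v.ts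
    · exact e
    have h4 : Sw (n : G) x y := ⟨h3, e⟩
    have h5 := pow_relIndex_mem (H1.normalizer_le_normalizer_centralizer _) h4.mem_norm
    have h6 : (n : G) ^ 2 ∈ 𝐂(V2 x y) := P7.V4.le_cent_iff.2 ⟨pow_mem n.2 2,
      mem_cent1_iff_conj.2 (by
        nth_rewrite 2 [← h4.third v]
        rw [← e, pow_two]
        group)⟩
    obtain ⟨i, hi⟩ := odd_iff_not_dvd.2 fun e => (h.b1.of_le (h.TD.trans (cent_le_norm _))
      le_top).ndvd (e.trans (relIndex_dvd_of_le_left _ h.TD))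
    rw [hi, pow_succ, pow_mul, mul_mem_cancel_left (pow_mem h6 i)] at h5
    exact mem_cent1_iff_conj.1 (P7.V4.le_cent_iff.1 h5).2
  refine P7.V4.le_cent_iff.2 ⟨hk, mem_cent1.2 (commutatorElement_eq_one_iff_mul_comm.1
    (P5.eq_one_of_odd hO h2 ?_))⟩
  have h3 := mem_cent1.1 (h1 h2)
  rw [commutatorElement_def, P5.inv_eq_of_sq v.ss] at h3 ⊢
  calc _ = y * k * y * k⁻¹ * y * (k * y * k⁻¹) := by group
    _ = 1 := by
      rw [← h3, mul_assoc y k, mul_assoc y (k * y), ← mul_assoc y y, v.ss, one_mul, P4.conj_sq v.ss]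

theorem b3 : pPrimeCoreOf 2 𝐂(V2 x y) ≤ 𝐂(T) := le_of_forall_exists_isSyl_le fun p hp hd => by
  haveI := Fact.mk hp
  have hO := odd_core (G := G) 𝐂(V2 x y)
  have TO := h.TD.trans (pPrimeCoreOf_normal 2 _).2
  obtain ⟨Y, hY, hn⟩ := exists_inv_syl hO TO h.two hp
  have p2 := ne_two_of_dvd hO hd
  have h1 := hY.conj_of_mem_norm (norm_core _ (H1.normalizer_le_normalizer_centralizer _ h.gE))
  obtain ⟨c, hc, e⟩ := H1.invariant_sylow_conj TO (P4.coprime_of_odd h.two hO).symm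
    (Or.inl (P4.solvable_of_two h.two)) h1.le h1.pgrp h1.ndvd
    (by rw [norm_conj]; exact (conj_eq_of_mem_norm h.gT).ge.trans (conj_mono hn g))
    hY.le hY.pgrp hY.ndvd hn
  have h2 : ∀ a ∈ T, g * a * g⁻¹ ∈ 𝐂(Y) ↔ a ∈ 𝐂(Y) := fun a ha => by
    rw [← conj_mem_conj_iff (g := g) (x := a), ← cent_conj, ← e, cent_conj, mem_conj,
      mul_assoc c⁻¹, mem_cent.1 hc.2 _ (conj_mem h.gT ha), inv_mul_cancel_left]
  refine ⟨Y, hY, cent_comm.1 fun u hu => ?_⟩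
  induction hk : orderOf u using Nat.strong_induction_on generalizing u with
  | _ k ih =>
  by_cases u1 : u = 1
  · exact u1 ▸ one_mem _
  have h3 : u * u ∈ 𝐂(Y) := ih (orderOf (u * u)) (by
    have h3 := prime_dvd_card_of_isPGroup Nat.prime_two (h.two.to_le (zpowers_le_of_mem hu))
      (zpowers_ne_bot.2 u1)
    rw [Nat.card_zpowers] at h3
    rw [← hk, ← pow_two, orderOf_pow_of_dvd two_ne_zero h3]
    exact Nat.div_lt_self (orderOf_pos u) one_lt_two) _ (mul_mem hu hu) rfl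
  by_contra h0
  have h4 : ∀ a ∈ T, a ∉ 𝐂(Y) → a * a ∈ 𝐂(Y) → ∀ b ∈ Y, a * b * a⁻¹ = b⁻¹ := fun a ha a1 a2 =>
    (ol.f_pm hp p2 hY.pgrp (hn ha) a2).resolve_left a1
  have h5 := conj_mem h.gT hu
  have h6 := mt (h2 u hu).1 h0
  have h7 := (h2 _ (mul_mem hu hu)).2 h3
  rw [← conj_mul] at h7
  have h8 := (h2 _ (mul_mem h5 h5)).2 h7
  rw [← conj_mul] at h8
  refine h0 (mem_cent_iff_cent1.2 fun b hb => mem_cent1_comm.1 (mem_cent1_iff_conj.2 ?_))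
  nth_rewrite 1 [← inv_inv b]
  rw [← h4 _ h5 h6 h7 _ (inv_mem hb), ← h4 _ (conj_mem h.gT h5) (mt (h2 _ h5).1 h6) h8 b hb]
  exact h.prod' hu b

theorem norm_top : 𝐍(V2 x y) = ⊤ :=
  b4 h.hom ol h.b1 h.TD h.v.card (fun _ hx => h.v.sq hx) h.mx.cm
    (fun j hj jj => (h.om j).2 ⟨h.TD hj, jj⟩) (fun z hz z1 => by
      obtain ⟨w, h1, e⟩ := h.at_z hz z1
      exact e ▸ h1.b2 ol) (fun w hw ho => h.b3 ol (le_core h.npc (zpowers_le_of_mem hw)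
        (by rwa [Nat.card_zpowers]) (mem_zpowers w))) h.ne

end Bq

end Cfsg.Agent.Hm.BB
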