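/-
Hm, chapter B: assembly.
-/
import Cfsg.Agent.Hm.BB2

set_option autoImplicit false
set_option linter.unusedSectionVars false
set_option linter.style.haveILetI false

namespace Cfsg.Agent.Hm

open Subgroup Cfsg Cfsg.Agent Cfsg.Agent.FT
open Cfsg.Agent.P4 (odd_iff_not_dvd Max2 SelfCent)
open Cfsg.Agent.P5 (V4 Tri)
open Cfsg.Agent.P7 (V2)
open Cfsg.Agent.H6.Cyc
open scoped commutatorElement

universe u

variable {G : Type u} [Group G] [Finite G]

namespace BB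

theorem tri_of_sw (h : Hom G) {n a b : G} (v : V4 a b) (s : Sw n a b) : ∃ g, Tri g a b := by
  have w : V4 (a, b) (b, a) := ⟨by simp [v.t1], by simp [v.t1], by simp [v.ts],
    by simp [v.tt, v.ss], by simp [v.tt, v.ss], Prod.ext v.comm v.comm.symm⟩
  have := v.t1
  have := v.s1
  have := v.ts1
  have := v.swap.ts1
  obtain ⟨φ, hφ⟩ := P17.Hg.graph h (V2 (a, b) (b, a))
    (fun c hc => by rcases w.mem_iff.1 hc with e | e | e | e <;> simp_all [Prod.ext_iff, eq_comm])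
    (fun c hc => by rcases w.mem_iff.1 hc with e | e | e | e <;> simp_all [Prod.ext_iff, eq_comm])
  have h1 : φ a = b := hφ _ V4.t_mem
  have h2 : φ b = a := hφ _ V4.s_mem
  refine ⟨_, s.tri (ρ := φ n) ⟨?_, ?_⟩ v⟩
  · rw [← h1, ← map_inv, ← map_mul, ← map_mul, s.1]
  · nth_rewrite 1 [← h2]
    rw [← map_inv, ← map_mul, ← map_mul, s.2, map_mul, h1, h2]

theorem exists_tri (h : Hom G) {x y : G} (v : V4 x y) (hn : ¬ 𝐍(V2 x y) ≤ 𝐂(V2 x y)) :
    ∃ a b g, V4 a b ∧ Tri g a b ∧ V2 a b = V2 x y := by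
  obtain ⟨n, h1, h2⟩ := not_forall₂.1 hn
  have key : ∀ a b, V4 a b → V2 a b = V2 x y → n * a * n⁻¹ = a →
      ∃ a b g, V4 a b ∧ Tri g a b ∧ V2 a b = V2 x y := fun a b w e ha => by
    rw [← e] at h1 h2
    rcases w.mem_iff.1 (conj_mem h1 V4.s_mem) with e' | e' | e' | e'
    · exact absurd e' (P4.conj_ne_one w.s1 n)
    · exact absurd (by simpa using ha.trans e'.symm) w.ts
    · exact absurd (P7.V4.le_cent_iff.2 ⟨mem_cent1_iff_conj.2 ha, mem_cent1_iff_conj.2 e'⟩) h2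
    · obtain ⟨g, hg⟩ := tri_of_sw h w ⟨ha, e'⟩
      exact ⟨a, b, g, w, hg, e⟩
  have e1 := V2_rot x y
  rcases v.mem_iff.1 (conj_mem h1 V4.t_mem) with a | a | a | a
  · exact absurd a (P4.conj_ne_one v.t1 n)
  · exact key x y v rfl a
  all_goals rcases v.mem_iff.1 (conj_mem h1 V4.s_mem) with b | b | b | b
  · exact absurd b (P4.conj_ne_one v.s1 n)
  · exact key _ y v.rot.swap ((V2_comm _ _).trans e1) (by rw [← conj_mul, a, b, v.comm.eq])
  · exact key y x v.swap (V2_comm _ _) b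
  · exact ⟨x, y, n, v, ⟨a, b⟩, rfl⟩
  · exact absurd b (P4.conj_ne_one v.s1 n)
  · exact ⟨y, x, n, v.swap, ⟨b, a.trans v.comm⟩, V2_comm _ _⟩
  · exact key y x v.swap (V2_comm _ _) b
  · exact absurd (by simpa using a.trans b.symm) v.ts

theorem max2_of {S : Subgroup G} (hS : IsSyl 2 S ⊤) {x y : G} (v : V4 x y) (hx : x ∈ S)
    (hy : y ∈ S) (hc : S ⊓ 𝐂(V2 x y) ≤ V2 x y) : ∃ a t s, Max2 S a t s := by
  obtain ⟨R, a, t, s, m⟩ := SelfCent.exists_max2 (G := S) (t := ⟨x, hx⟩) (u := ⟨y, hy⟩)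
    ⟨fun e => v.t1 (congrArg Subtype.val e), fun e => v.s1 (congrArg Subtype.val e),
      fun e => v.ts (congrArg Subtype.val e), Subtype.ext v.tt, Subtype.ext v.ss,
      Subtype.ext v.comm, fun g a b => by
      simp only [Subtype.ext_iff]
      exact v.mem_iff.1 (hc (mem_inf.2 ⟨g.2, P7.V4.le_cent_iff.2
        ⟨mem_cent1.2 (congrArg Subtype.val a), mem_cent1.2 (congrArg Subtype.val b)⟩⟩))⟩
  have hm : ∀ g : S, g ∈ zpowers a ↔ (g : G) ∈ zpowers (a : G) := fun g =>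
    ⟨fun ⟨k, hk⟩ => ⟨k, congrArg Subtype.val hk⟩, fun ⟨k, hk⟩ => ⟨k, Subtype.ext hk⟩⟩
  have hR := m.syl.eq_of_le Nat.prime_two le_top le_rfl (hS.pgrp.to_subgroup ⊤)
  refine ⟨a, t, s, hS, a.2, (hm t).1 m.zx, fun e => m.z1 (Subtype.ext e),
    congrArg Subtype.val m.zz, s.2, mt (hm s).2 m.sx, congrArg Subtype.val m.ss, fun g hg =>
    (m.cover ⟨g, hg⟩ (hR ▸ mem_top _)).imp (hm _).1 (hm _).1, fun g hg e => ?_⟩
  exact congrArg Subtype.val (m.cs ⟨g, zpowers_le_of_mem a.2 hg⟩ ((hm _).2 hg) (Subtype.ext e))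

theorem card_four {E : Subgroup G} (h : IsPGroup 2 E) (h4 : 4 ≤ 𝐨(E)) (h8 : ¬ 8 ≤ 𝐨(E)) :
    𝐨(E) = 4 := by
  obtain ⟨k, hk⟩ := exists_card_eq_pow Nat.prime_two h
  rw [hk] at h4 h8 ⊢
  rcases k with _ | _ | _ | k
  · omega
  · omega
  · rfl
  · exact absurd (Nat.pow_le_pow_right two_pos (by omega : 3 ≤ k + 1 + 1 + 1)) h8

end BB

open BB

theorem bStmt : BStmt.{u} := fun G _ _ h ol hs na h8 => by
  obtain ⟨z, -, z1, zz⟩ := P4.exists_invol_of_even (H := (⊤ : Subgroup G))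
    (by rw [card_top]; exact (by norm_num : 2 ∣ 8).trans h8)
  obtain ⟨k, hk, hne⟩ : ∃ k, Commute z (k * z * k⁻¹) ∧ k * z * k⁻¹ ≠ z := by
    by_contra! h0
    have h2 := P1.zstar (P4.orderOf_two z1 zz) h0
    rcases (inferInstance : (pPrimeCore 2 G).Normal).eq_bot_or_eq_top with e | e
    · refine cent1_ne_top' na z1 (eq_top_iff.2 fun x _ => mem_cent1.2 ?_)
      have := h2 x
      rwa [e, mem_bot, commutatorElement_eq_one_iff_mul_comm] at this
    · have := L.coprime_card_pPrimeCore (G := G) 2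
      rw [e, card_top] at this
      exact absurd (this.coprime_dvd_left ((by norm_num : 2 ∣ 8).trans h8)) (by norm_num)
  have v : V4 z (k * z * k⁻¹) := ⟨z1, P4.conj_ne_one z1 k, hne.symm, zz, P4.conj_sq zz k, hk⟩
  obtain ⟨E, T, mx, hE⟩ := exists_mx_ge Nat.prime_two (F := V2 z (k * z * k⁻¹))
    (fun x hx => (pow_two x).trans (v.sq hx)) (isMulComm_iff_le_cent.1 (P7.V4.isMulComm v))
  have hn : ¬ 𝐍(E) ≤ 𝐂(E) := fun e => by
    have h1 := mx.syl_top fun x hx _ => e (mx.norm_le hx)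
    have h2 := h1.of_le (mx.syl.le.trans (cent_le_cent1 (hE V4.s_mem))) le_top
    have h3 : IsSyl 2 (T ^ᵍ k) 𝐂[k * z * k⁻¹] := cent1_conj z k ▸
      (h1.of_le (mx.syl.le.trans (cent_le_cent1 (hE V4.t_mem))) le_top).conj k
    obtain ⟨c, hc, h4⟩ := h2.exists_conj_eq Nat.prime_two h3
    rw [conj_conj, conj_eq_self_iff] at h4
    have h5 := mem_cent1_iff_conj.1 (cent_le_cent1 (hE V4.t_mem) (e (mx.norm_le h4)))
    rw [show c * k * z * (c * k)⁻¹ = c * (k * z * k⁻¹) * c⁻¹ by group,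
      mem_cent1_iff_conj.1 hc] at h5
    exact hne h5
  have om : Om E := fun j => ⟨fun hj => ⟨mx.cm hj, (pow_two j).symm.trans (mx.el j hj)⟩,
    fun hj => mx.om j hj.1 ((pow_two j).trans hj.2)⟩
  obtain rfl := H1.eq_of_le_of_card_le hE (by
    rw [v.card, card_four mx.pE (v.card ▸ Subgroup.card_le_of_le hE)
      fun e => hn (bigStmt G h E om e)])
  obtain ⟨x, y, g, w, tri, e⟩ := exists_tri h v hn
  rw [← e] at mx
  by_cases hT : T ≤ V2 x y
  · obtain ⟨S, hS, h1⟩ := exists_isSyl_ge Nat.prime_two mx.syl.pgrp le_top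
    obtain ⟨a, t, s, m⟩ := max2_of hS w (h1 (mx.le V4.t_mem)) (h1 (mx.le V4.s_mem))
      ((mx.syl.eq_of_le Nat.prime_two (le_inf h1 mx.syl.le) inf_le_right
        (hS.pgrp.to_le inf_le_left)).le.trans hT)
    refine ⟨S, a, t, s, m, fun e => ?_⟩
    rw [← card_top, ← H1.card_mul_relIndex hS.le] at h8
    have h4 := ((Nat.prime_two.coprime_iff_not_dvd.2 hS.ndvd).pow_left 3).dvd_of_dvd_mul_right h8
    have h5 := Nat.le_of_dvd two_pos (orderOf_dvd_of_pow_eq_one ((pow_two a).trans e))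
    have h6 := Nat.le_of_dvd Nat.card_pos h4
    rw [m.card] at h6
    omega
  obtain ⟨n, hn, h1⟩ := mx.frattini' (tri.mem_norm w)
  have t1 : Tri n x y := ⟨(h1 x V4.t_mem).trans tri.1, (h1 y V4.s_mem).trans tri.2⟩
  obtain ⟨a, ha, b, hb, h2, h3, rfl⟩ := split n
  have h4 : a ∈ 𝐂(V2 x y) := by
    refine zpowers_le_of_mem (g := a ^ 3) ?_ (mem_zpowers_pow
      (coprime_ord Nat.prime_two h2 (mem_zpowers a) (by norm_num)))
    obtain ⟨i, hi⟩ := mem_zpowers_iff.1 ha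
    rw [← hi, ← zpow_natCast, ← zpow_mul, mul_comm, zpow_mul, zpow_natCast]
    exact zpow_mem (tri_cube t1 w) i
  have h5 : ∀ c ∈ V2 x y, ∀ d ∈ V2 x y, a * b * c * (a * b)⁻¹ = d → b * c * b⁻¹ = d :=
    fun c _ d hd e => by
    rw [← mem_cent1_iff_conj.1 (cent_le_cent1 hd (inv_mem h4)), ← e]; group
  exact absurd (Bq.norm_top ⟨h, w, ⟨h5 _ V4.t_mem _ V4.s_mem t1.1, h5 _ V4.s_mem _
    (mul_mem V4.t_mem V4.s_mem) t1.2⟩, mx, zpowers_le_of_mem hn hb, h3, hT⟩ ol)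
    (norm_ne_top' na (fun e => w.t1 (mem_bot.1 (e ▸ V4.t_mem))) (P4.solvable_of_two w.isPGroup))

theorem bStmt' : BStmt'.{u} := fun G _ _ h hp h2 => by
  have hR := H2.isPGroup_pCoreOf 2 (⊤ : Subgroup G)
  obtain ⟨z, hz, hc, z1, zz⟩ := P4.exists_invol_center hR ⟨le_rfl, le_norm_self _⟩ h2
  have key : ∀ j : G, j * j = 1 → j ∈ pCoreOf 2 ⊤ ∧ j ∈ 𝐂(pCoreOf 2 (⊤ : Subgroup G)) :=
    fun j jj => by
    by_cases j1 : j = 1
    · exact j1 ▸ ⟨one_mem _, one_mem _⟩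
    obtain ⟨φ, rfl⟩ := P17.Hg.order h ((P4.orderOf_two z1 zz).trans (P4.orderOf_two j1 jj).symm)
    have hi : Function.Injective φ.toMonoidHom := φ.injective
    have e := pCoreOf_map hi Nat.prime_two ⊤
    rw [map_top_of_surjective _ φ.surjective] at e
    rw [e]
    refine ⟨mem_map_of_mem φ.toMonoidHom hz, zpowers_le.1 ?_⟩
    rw [← MulEquiv.coe_toMonoidHom, ← MonoidHom.map_zpowers, map_le_cent_iff hi, zpowers_le]
    exact hc
  have cm : ∀ a b : G, a * a = 1 → b * b = 1 → Commute a b := fun a b aa bb =>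
    mem_cent.1 (key b bb).2 a (key a aa).1
  let E : Subgroup G := ⟨⟨⟨{j | j * j = 1}, fun {a b} aa bb => by
    rw [Set.mem_ofPred_eq, (cm a b aa bb).symm.mul_mul_mul_comm, aa, bb, one_mul]⟩, mul_one 1⟩,
    fun {a} aa => by rw [Set.mem_ofPred_eq, ← mul_inv_rev, aa, inv_one]⟩
  have om : Om E := fun j => ⟨fun hj => ⟨mem_cent.2 fun a ha => cm a j ha hj, hj⟩, fun hj => hj.2⟩
  have hn : ⊤ ≤ 𝐍(E) := fun g _ => mem_norm_of_conj_le (by
    rintro _ ⟨a, ha, rfl⟩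
    exact P4.conj_sq ha g)
  refine ⟨z, z1, zz, fun j jj => by_contra fun h0 => ?_⟩
  push Not at h0
  have v : V4 j z := ⟨h0.1, z1, h0.2, jj, zz, cm j z jj zz⟩
  have h4 : 4 ≤ 𝐨(E) := v.card ▸ Subgroup.card_le_of_le (V4.le_iff.2 ⟨jj, zz⟩)
  have h5 : ⊤ ≤ 𝐂(E) := by
    by_cases h8 : 8 ≤ 𝐨(E)
    · exact hn.trans (bigStmt G h E om h8)
    · have := (four_act (card_four (Om.two om) h4 h8).dvd hn).2
      rwa [hp, hp] at this
  have h6 := solv_of_npc (lStmt G h E om h4)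
  rw [top_le_iff.1 h5] at h6
  exact (H1.commutator_lt_of_isSolvable h6 fun e => z1 (mem_bot.1 (e ▸ mem_top z))).ne hp

end Cfsg.Agent.Hm
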