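/-
Hm, chapter C: the dihedral case.
-/
import Cfsg.Agent.Hm.C1

set_option autoImplicit false
set_option linter.unusedSectionVars false
set_option linter.style.haveILetI false

namespace Cfsg.Agent.Hm

open Subgroup Cfsg Cfsg.Agent Cfsg.Agent.FT
open Cfsg.Agent.P4 (odd_iff_not_dvd Max2)
open Cfsg.Agent.P5 (V4)
open Cfsg.Agent.H2 (pPrimeCoreOf)
open Cfsg.Agent.H6.Cyc
open scoped commutatorElement

universe u

variable {G : Type u} [Group G] [Finite G]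

namespace Sm

variable {S : Subgroup G} {a t s : G} (h : Sm S a t s) (os : OS G) (hd : s * a * s = a⁻¹)
include h os hd

theorem a_cent {ψ : G ≃* G} (ha : ψ a = a) (hs : ψ s = s * a) :
    zpowers a ≤ 𝐂(pPrimeCoreOf 2 𝐂[t]) := by
  have hO := odd_core (G := G) 𝐂[t]
  refine cent_comm.1 (le_of_forall_exists_isSyl_le fun p hp hp' => ?_)
  haveI := Fact.mk hp
  obtain ⟨Y, hY, hn⟩ := exists_inv_syl hO h.norm_U h.syl.pgrp hp
  have p2 := ne_two_of_dvd hO hp'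
  refine ⟨Y, hY, cent_comm.1 (zpowers_le_of_mem ?_)⟩
  have hi : Function.Injective ψ.toMonoidHom := ψ.injective
  have cm : ∀ K : Subgroup G, 𝐨(K.map ψ.toMonoidHom) = 𝐨(K) := fun K => card_map_of_injective hi
  have h1 : S.map ψ.toMonoidHom = S := H1.eq_of_le_of_card_le (map_le_iff_le_comap.2 (h.S_le
    (show ψ a ∈ S from ha.symm ▸ h.xS) (show ψ s ∈ S from hs ▸ mul_mem h.sS h.xS))) (cm S).ge
  have ht : ψ t = t := by
    obtain ⟨k, hk⟩ := mem_zpowers_iff.1 h.zx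
    rw [← hk, map_zpow, ha]
  have h2 : Y.map ψ.toMonoidHom ≤ pPrimeCoreOf 2 𝐂[t] := by
    refine le_core (h.npc_H hd) ?_ (cm Y ▸ hO.of_dvd_nat (FT.card_dvd_of_le hY.le))
    rintro _ ⟨y, hy, rfl⟩
    rw [← ht]
    exact mem_cent1.2 (Commute.map (mem_cent1.1 (core_le _ (hY.le hy))) ψ)
  obtain ⟨c, hc, h3⟩ := H1.exists_centralizer_conj_le_sylow h.norm_U
    (P4.coprime_of_odd h.syl.pgrp hO).symm (Or.inl (P4.solvable_of_two h.syl.pgrp)) hY.le hY.pgrp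
    hY.ndvd hn h2 (hY.pgrp.map _) (h1.ge.trans ((map_le_norm_iff hi).2 hn))
  rw [h.odd_cent_S os hO, mem_bot] at hc
  have h4 : Y.map ψ.toMonoidHom = Y :=
    H1.eq_of_le_of_card_le (by rwa [hc, H1.map_conj_one] at h3) (cm Y).ge
  have h5 : s ∈ 𝐂(Y) ↔ s * a ∈ 𝐂(Y) := by
    rw [← zpowers_le, ← map_le_cent_iff hi, h4, MonoidHom.map_zpowers, zpowers_le, ← hs]
    rfl
  obtain ⟨b, hb, b1, ob⟩ := exists_prime_elt hp hY.pgrp (hY.ne_bot hp hp')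
  have key : ∀ g ∈ S, g * g ∈ 𝐂[b] → g ∈ 𝐂(Y) ∨ g * b * g⁻¹ = b⁻¹ := fun g hg gg =>
    (cent_or_inv (ob ▸ hp) (mem_norm_zpowers (os.sc' hp p2 hY.pgrp g (hn hg) b hb (ob ▸ hp)))
      gg).imp_left (os.cent_of_mem hp p2 hY.pgrp (hn hg) hb b1)
  have h6 : s ∈ 𝐂(Y) → a ∈ 𝐂(Y) := fun e => (mul_mem_cancel_left e).1 (h5.1 e)
  refine (key a h.xS (cent_le_cent1 (hY.le hb) (h.zl_S os hO h.norm_U (mem_zpowers _)))).elim id
    fun e => (key s h.sS (h.ss ▸ one_mem _)).elim h6 fun e' => h6 (h5.2 ?_)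
  refine os.cent_of_mem hp p2 hY.pgrp (hn (mul_mem h.sS h.xS)) hb b1 ?_
  rw [mem_cent1_iff_conj, show s * a * b * (s * a)⁻¹ = s * (a * b * a⁻¹) * s⁻¹ by group, e,
    ← conj_inv, e', inv_inv]

theorem bsw (hTU : zpowers a ≤ 𝐂(pPrimeCoreOf 2 𝐂[t])) :
    P3.BSW (pPrimeCoreOf 2 𝐂[t] ⊔ zpowers a) t s := by
  have hO := odd_core (G := G) 𝐂[t]
  have h2 := h.syl.pgrp.to_le h.m.X_le
  have hn := hTU.trans (cent_le_norm _)
  have hU := L.inverts_of_fpf h.ss (h.norm_U h.sS) fun u hu e => mem_bot.1 (h.odd_cent_S os hO ▸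
    mem_inf.2 ⟨hu, h.le_cent_S (cent_zpowers a ▸ cent_comm.1 hTU hu) (mem_cent1.2 e)⟩)
  have uq : ∀ x ∈ pPrimeCoreOf 2 𝐂[t] ⊔ zpowers a, x * x = 1 → x = 1 ∨ x = t := fun x hx xx => by
    obtain ⟨u, hu, y, hy, rfl⟩ := (mem_sup_of_norm hn).1 hx
    have h1 : Commute u y := mem_cent.1 (hTU hy) u hu
    rw [h1.symm.mul_mul_mul_comm] at xx
    have h3 : u * u ∈ pPrimeCoreOf 2 𝐂[t] ⊓ zpowers a :=
      mem_inf.2 ⟨mul_mem hu hu, eq_inv_of_mul_eq_one_left xx ▸ inv_mem (mul_mem hy hy)⟩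
    rw [H1.inf_eq_bot_of_coprime' (P4.coprime_of_odd h2 hO), mem_bot] at h3
    rw [h3, one_mul] at xx
    rw [P5.eq_one_of_odd hO hu h3, one_mul]
    exact h.m.uniq hy xx
  have iv : ∀ x ∈ pPrimeCoreOf 2 𝐂[t] ⊔ zpowers a, s * x * s = x⁻¹ := fun x hx => by
    obtain ⟨u, hu, y, hy, rfl⟩ := (mem_sup_of_norm hn).1 hx
    have h1 : Commute u y := mem_cent.1 (hTU hy) u hu
    rw [h1.mul_inv, ← hU u hu, ← h.m.inv_of hd y hy, mul_assoc (s * u) s, ← mul_assoc s (s * y),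
      ← mul_assoc s s, h.ss]
    group
  have cm : pPrimeCoreOf 2 𝐂[t] ⊔ zpowers a ≤ 𝐂(pPrimeCoreOf 2 𝐂[t] ⊔ zpowers a) :=
    fun x hx => mem_cent.2 fun y hy => L.commute_of_inverts h.ss iv hy hx
  have ct : ∀ g, Commute t g → g ∈ pPrimeCoreOf 2 𝐂[t] ⊔ zpowers a ∨
      s * g ∈ pPrimeCoreOf 2 𝐂[t] ⊔ zpowers a := fun g hg => by
    obtain ⟨y, hy, u, hu, rfl⟩ := ((h.npc_H hd).sdProd Nat.prime_two h.syl_H).mem_iff'.1
      (mem_cent1.2 hg)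
    exact (h.cover y hy).imp (fun e => mul_mem (mem_sup_right e) (mem_sup_left hu))
      fun e => mul_assoc s y u ▸ mul_mem (mem_sup_right e) (mem_sup_left hu)
  refine ⟨isMulComm_iff_le_cent.2 cm, mem_sup_right h.zx, h.z1, h.zz, uq,
    fun e => h.aa (h.cs a (mem_zpowers a)
    (mem_cent.1 (cm (mem_sup_right (mem_zpowers a))) s e)), h.ss, iv, ct, fun x hx xx g hg => ?_,
    fun u u1 uu => isConj_iff.2 (h.conj u1 uu)⟩
  obtain ⟨P, h1, cP⟩ := exists_le_card_prime (zpowers_ne_bot.2 fun e : x = 1 => xx (by simp [e]))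
  have h3 : g ∈ 𝐂(P) := cent_anti h1 (cent_zpowers x ▸ mem_cent1.2 hg)
  have h4 := h1.trans (zpowers_le_of_mem hx)
  refine (ct g (mem_cent1.1 ?_)).resolve_right fun e => xx ?_
  · by_cases p2 : 𝐨(P) = 2
    · obtain ⟨z, z1, zz, rfl⟩ := exists_invol_of_card p2
      rwa [cent_zpowers, (uq z (h4 (mem_zpowers z)) zz).resolve_left z1] at h3
    have h5 := cent_anti h4 (cm (mem_sup_right (mem_zpowers a)))
    refine h.cent_le os cP p2 (h.S_le (cent_le_norm P h5) (mem_norm_of_conj_le ?_)) h5 h3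
    rintro _ ⟨y, hy, rfl⟩
    have := iv y (h4 hy)
    nth_rewrite 2 [← h.m.s_inv] at this
    exact (this ▸ inv_mem hy : s * y * s⁻¹ ∈ P)
  · have h5 : Commute x (s * g) := mem_cent.1 (cm e) x hx
    have h6 : Commute x s := by simpa using h5.mul_right hg.inv_right
    have h7 := iv x hx
    rw [← h6.eq, mul_assoc, h.ss, mul_one] at h7
    exact mul_eq_one_iff_eq_inv.2 h7

end Sm

theorem cStmt : CStmt.{u} := fun _ _ _ os hs na _ _ t s hm aa hd _ ha hs' =>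
  have h : Sm _ _ t s := ⟨hm, hs, na, aa⟩
  ⟨_, t, s, h.bsw os hd (h.a_cent os hd ha hs')⟩

end Cfsg.Agent.Hm
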