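/-
Hm, chapter D: automorphisms of `SL₂(r)` and `PSL₂(r)`.
-/
import Cfsg.Agent.Hm.Defs
import Cfsg.Agent.Cj.Dick

set_option autoImplicit false
set_option linter.unusedSectionVars false

namespace Cfsg.Agent.Hm

open Subgroup Cfsg Cfsg.Agent Cfsg.Agent.FT Cfsg.Agent.H4.SL2
open Cfsg.Agent.P7 (uni dia PU sle sl_ext)
open Cfsg.Agent.H6.Cyc (Cv LS)
open scoped commutatorElement

universe u

section field

variable {F : Type*} [Field F]

/-- Lower unitriangular matrices. -/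
def low (c : F) : SL F := Agent.L.mkSL2 1 0 c 1 (by ring)

/-- Conjugation by `diag(c, 1)`. -/
def dg (c : Fˣ) : SL F →* SL F where
  toFun x := Agent.L.mkSL2 (x 0 0) (c * x 0 1) ((c : F)⁻¹ * x 1 0) (x 1 1) (by
    have := det_eq x
    have := c.ne_zero
    field_simp
    assumption)
  map_one' := by apply sl_ext <;> simp only [sle] <;> simp
  map_mul' x y := by
    have := c.ne_zero
    apply sl_ext <;> simp only [sle] <;> field_simp

theorem dle : (∀ c : F, low c 0 0 = 1) ∧ (∀ c : F, low c 0 1 = 0) ∧ (∀ c : F, low c 1 0 = c) ∧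
    (∀ c : F, low c 1 1 = 1) ∧ (∀ (c : Fˣ) (x : SL F), dg c x 0 0 = x 0 0) ∧
    (∀ (c : Fˣ) (x : SL F), dg c x 0 1 = c * x 0 1) ∧
    (∀ (c : Fˣ) (x : SL F), dg c x 1 0 = (c : F)⁻¹ * x 1 0) ∧
    ∀ (c : Fˣ) (x : SL F), dg c x 1 1 = x 1 1 :=
  ⟨fun _ => rfl, fun _ => rfl, fun _ => rfl, fun _ => rfl, fun _ _ => rfl, fun _ _ => rfl,
    fun _ _ => rfl, fun _ _ => rfl⟩

theorem low_add (a b : F) : low (a + b) = low a * low b := by
  apply sl_ext <;> simp only [sle, dle] <;> ring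

theorem dg_mul (a b : Fˣ) (x : SL F) : dg a (dg b x) = dg (a * b) x := by
  apply sl_ext <;> simp only [dle, Units.val_mul, mul_inv] <;> ring

theorem dg_sq (a : Fˣ) (x : SL F) : dg (a * a) x = dia a * x * (dia a)⁻¹ := by
  have := a.ne_zero
  apply sl_ext <;> simp only [sle, dle, Units.val_mul] <;> field_simp <;> ring

theorem dg_one (x : SL F) : dg 1 x = x := by
  apply sl_ext <;> simp [dle]

theorem tr_dg (c : Fˣ) (x : SL F) : tr (dg c x) = tr x := rfl

theorem dg_uni (c : Fˣ) (b : F) : dg c (uni b) = uni (c * b) := by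
  apply sl_ext <;> simp only [sle, dle, mul_one, mul_zero]

theorem dg_low (c : Fˣ) (b : F) : dg c (low b) = low ((c : F)⁻¹ * b) := by
  apply sl_ext <;> simp only [sle, dle, mul_one, mul_zero]

theorem hom_ext {H : Type*} [Group H] {f g : SL F →* H} (h1 : ∀ b, f (uni b) = g (uni b))
    (h2 : ∀ c, f (low c) = g (low c)) (x : SL F) : f x = g x := by
  have key : ∀ y : SL F, y 1 0 ≠ 0 → f y = g y := fun y hy => by
    have hd := det_eq y
    have : y = uni ((y 0 0 - 1) / y 1 0) * low (y 1 0) * uni ((y 1 1 - 1) / y 1 0) := by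
      apply sl_ext <;> simp only [sle, dle] <;> field_simp
      · ring
      · linear_combination -hd
      · ring
      · ring
    rw [this, map_mul, map_mul, map_mul, map_mul, h1, h1, h2]
  by_cases hx : x 1 0 = 0
  · have hd := det_eq x
    have := key (x * low 1) (by
      simp only [sle, dle, hx]
      rw [hx, mul_zero, sub_zero] at hd
      simpa using right_ne_zero_of_mul_eq_one hd)
    rwa [map_mul, map_mul, h2, mul_left_inj] at this
  · exact key x hx

theorem uni_nat (n : ℕ) : uni (n : F) = uni 1 ^ n := by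
  induction n with
  | zero => rw [Nat.cast_zero, P7.uni_zero, pow_zero]
  | succ n ih => rw [Nat.cast_succ, P7.uni_add, ih, pow_succ]

theorem low_nat (n : ℕ) : low (n : F) = low 1 ^ n := by
  induction n with
  | zero => rw [Nat.cast_zero, pow_zero]; apply sl_ext <;> simp only [sle, dle]
  | succ n ih => rw [Nat.cast_succ, low_add, ih, pow_succ]

theorem hom_ext' {r : ℕ} [Fact r.Prime] {H : Type*} [Group H] {f g : SL (ZMod r) →* H}
    (h1 : f (uni 1) = g (uni 1)) (h2 : f (low 1) = g (low 1)) (x : SL (ZMod r)) : f x = g x :=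
  hom_ext (fun b => by rw [← ZMod.natCast_zmod_val b, uni_nat, map_pow, map_pow, h1])
    (fun b => by rw [← ZMod.natCast_zmod_val b, low_nat, map_pow, map_pow, h2]) x

end field

variable {G : Type u} [Group G] [Finite G] {r : ℕ} [hr : Fact r.Prime] {π : SL (ZMod r) →* G}
  {L : Subgroup G} {d : ℕ}

theorem cv_card (h : Cv r π L d) : 2 * 𝐨(L) = d * (r * (r - 1) * (r + 1)) := by
  have h1 := h.card_map le_top
  rwa [← MonoidHom.range_eq_map, h.range, card_top, Agent.L.card_SL2, Nat.card_zmod] at h1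

theorem cv_syl (h : Cv r π L d) : IsSyl r (PU π) L := by
  refine ⟨h.PU_le, isPGroup_of_card_prime h.card_PU, fun e => ?_⟩
  have h1 := cv_card h
  have r5 := h.r5
  rw [← H1.card_mul_relIndex h.PU_le, h.card_PU] at h1
  have h2 : 2 * (PU π).relIndex L = d * ((r - 1) * (r + 1)) :=
    Nat.eq_of_mul_eq_mul_left hr.out.pos (by linarith)
  have h3 : r ∣ d * ((r - 1) * (r + 1)) := h2 ▸ e.mul_left 2
  rcases (hr.out.dvd_mul).1 h3 with h4 | h4
  · have := h.ker.imp And.left And.left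
    have := Nat.le_of_dvd (by omega) h4
    omega
  rcases (hr.out.dvd_mul).1 h4 with h4 | h4
  · have := Nat.le_of_dvd (by omega) h4
    omega
  · have := Nat.le_of_dvd one_pos ((Nat.dvd_add_right dvd_rfl).1 h4)
    omega

theorem cv_conj (h : Cv r π L d) {P : Subgroup G} (hP : P ≤ L) (cP : 𝐨(P) = r) :
    ∃ g ∈ L, PU π ^ᵍ g = P :=
  ((cv_syl h).of_card_eq hr.out hP (cP.trans h.card_PU.symm)).exists_conj_eq hr.out (cv_syl h)

theorem cv_unip (h : Cv r π L d) {x : G} (hx : x ∈ L) (h1 : x ^ r = 1) :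
    ∃ y b, x = π (y * uni b * y⁻¹) := by
  obtain ⟨g, hg, h2⟩ := (cv_syl h).exists_conj_le hr.out (Q := zpowers x) (IsPGroup.of_card_dvd_pow (n := 1)
    (by rw [Nat.card_zpowers, pow_one]; exact orderOf_dvd_of_pow_eq_one h1)) (zpowers_le_of_mem hx)
  obtain ⟨y, rfl⟩ := h.exists_eq hg
  obtain ⟨b, hb⟩ := P7.mem_PU.1 (h2 (conj_mem_conj (mem_zpowers x) _))
  exact ⟨y⁻¹, b, by rw [map_mul, map_mul, hb, inv_inv, map_inv]; group⟩

/-- Two coverings differ by an element of `GL₂`. -/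
theorem cv_cmp {ρ : SL (ZMod r) →* G} (h : Cv r π L d) (h' : Cv r ρ L d) :
    ∃ l c, ∀ x, ρ x = π (l * dg c x * l⁻¹) := by
  obtain ⟨y1, a, ha⟩ := cv_unip h (h'.mem (uni 1)) (by
    rw [← map_pow, ← uni_nat, ZMod.natCast_self, P7.uni_zero, map_one])
  obtain ⟨y2, b, hb⟩ := cv_unip h (h'.mem (low 1)) (by
    rw [← map_pow, ← low_nat, ZMod.natCast_self, ← Nat.cast_zero, low_nat, pow_zero, map_one])
  have a0 : a ≠ 0 := by
    rintro rfl
    exact h'.uni_ne one_ne_zero (by rw [ha, P7.uni_zero]; simp)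
  obtain ⟨y, rfl⟩ : ∃ y, y2 = y1 * y := ⟨y1⁻¹ * y2, by group⟩
  have nc : ρ (uni 1 * low 1 * (uni 1)⁻¹) ≠ ρ (low 1) := fun e => by
    have := (mem_center_iff'.1 (h'.eq_imp e)).1
    simp only [sle, dle] at this
    norm_num at this
  have y0 : y 1 0 ≠ 0 := fun e => nc (by
    rw [map_mul, map_mul, map_inv, ha, hb, show y1 * y * uni b * (y1 * y)⁻¹ =
      y1 * (y * uni b * y⁻¹) * y1⁻¹ by group, P7.conj_uni e, ← map_inv, ← map_mul, ← map_mul]
    congr 1
    rw [conj_mul, conj_inv, conj_mul, ← P7.uni_add, add_comm, P7.uni_add,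
      mul_inv_cancel_right])
  have b0 : b ≠ 0 := by
    rintro rfl
    refine nc ?_
    rw [map_mul, map_mul, hb, P7.uni_zero]
    simp
  have e1 : y * uni b * y⁻¹ = uni (y 0 0 / y 1 0) * low (-(y 1 0 ^ 2 * b)) *
      (uni (y 0 0 / y 1 0))⁻¹ := by
    have hd := det_eq y
    apply sl_ext <;> simp only [sle, dle] <;> field_simp
    · linear_combination (y 1 0) * hd
    · ring
    · ring
    · linear_combination (y 1 0) * hd
  have e2 : y1 * uni a * y1⁻¹ = y1 * uni (y 0 0 / y 1 0) * uni a * (y1 * uni (y 0 0 / y 1 0))⁻¹ := by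
    rw [mul_assoc y1 (uni _) (uni a), ← P7.uni_add, add_comm, P7.uni_add]; group
  have e3 : y1 * y * uni b * (y1 * y)⁻¹ = y1 * uni (y 0 0 / y 1 0) * low (-(y 1 0 ^ 2 * b)) *
      (y1 * uni (y 0 0 / y 1 0))⁻¹ := by
    rw [show y1 * y * uni b * (y1 * y)⁻¹ = y1 * (y * uni b * y⁻¹) * y1⁻¹ by group, e1]; group
  have c0 : -(y 1 0 ^ 2 * b) ≠ 0 := neg_ne_zero.2 (mul_ne_zero (pow_ne_zero 2 y0) b0)
  rw [e2] at ha
  rw [e3] at hb
  generalize y1 * uni (y 0 0 / y 1 0) = l at ha hb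
  generalize -(y 1 0 ^ 2 * b) = c at hb c0
  have h1 := h'.cent_mem (x := (uni 1 * (low 1)⁻¹ * uni 1) * (uni 1 * (low 1)⁻¹ * uni 1)) (by
    rw [mem_center_iff']; simp only [sle, dle]; norm_num)
  have h2 : π ((uni a * (low c)⁻¹ * uni a) * (uni a * (low c)⁻¹ * uni a)) ∈ 𝐂(L) := by
    have := (mem_normalizer_iff.1 (H1.normalizer_le_normalizer_centralizer L
      (le_norm_self L (inv_mem (h.mem l)))) _).1 h1
    simp only [map_mul, map_inv, ha, hb] at this ⊢
    convert this using 1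
    group
  have h3 := h.mem_norm_PU.1 (cent_le_norm _ (cent_anti h.PU_le h2))
  simp only [sle, dle] at h3
  have h4 : c * (2 * (1 - a * c)) = 0 := by linear_combination -h3
  have h5 : a * c = 1 := (sub_eq_zero.1 ((mul_eq_zero.1 ((mul_eq_zero.1 h4).resolve_left
    c0)).resolve_left h.two_ne)).symm
  refine ⟨l, Units.mk0 a a0, hom_ext' (g := π.comp ((MulAut.conj l).toMonoidHom.comp (dg _))) ?_ ?_⟩
  · rw [ha]
    simp [dg_uni]
  · rw [hb, (eq_inv_of_mul_eq_one_right h5 : c = a⁻¹)]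
    simp [dg_low]

theorem cv_map (h : Cv r π L d) {φ : G ≃* G} (hφ : L.map φ.toMonoidHom = L) :
    Cv r (φ.toMonoidHom.comp π) L d := by
  have : (φ.toMonoidHom.comp π).ker = π.ker := by ext x; simp [MonoidHom.mem_ker]
  exact ⟨by rw [MonoidHom.range_comp, h.range, hφ], this ▸ h.ker, h.r5⟩

theorem cv_aut (h : Cv r π L d) {φ : G ≃* G} (hφ : L.map φ.toMonoidHom = L) :
    ∃ l c, ∀ x, φ (π x) = π (l * dg c x * l⁻¹) := cv_cmp h (cv_map h hφ)

theorem cv_autP (h : Cv r π L d) : 𝐍(L) ⊓ 𝐂(PU π) ≤ PU π ⊔ 𝐂(L) := fun g hg => by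
  obtain ⟨l, c, e⟩ := cv_aut h (φ := MulAut.conj g) (conj_eq_of_mem_norm hg.1)
  have h1 := e (uni 1)
  rw [MulAut.conj_apply, ← mem_cent.1 hg.2 _ (P7.mem_PU.2 ⟨1, rfl⟩), mul_inv_cancel_right,
    dg_uni, mul_one] at h1
  have h2 := h.ent h1 rfl
  rw [P7.conj_uni_10] at h2
  have h3 : l 1 0 = 0 := by simpa using h2
  obtain ⟨b, a, rfl⟩ := P7.eq_uni_mul_dia h3
  rw [P7.conj_uni h3] at h1
  have h4 : a * a * c = 1 := by
    by_contra h0
    refine h.uni_ne (b := a * a * c - 1) (sub_ne_zero.2 fun e => h0 (Units.ext (by simpa using e))) ?_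
    have h5 : π (uni (a * a * c - 1)) * π (uni 1) = π (uni 1) := by
      rw [← map_mul, ← P7.uni_add, sub_add_cancel, h1]
      simp only [sle]
      congr 2; ring
    simpa using h5
  rw [show g = π (uni b) * ((π (uni b))⁻¹ * g) by group]
  refine mul_mem_sup (P7.mem_PU.2 ⟨b, rfl⟩) (mem_cent.2 fun x hx => ?_)
  obtain ⟨x, rfl⟩ := h.exists_eq hx
  have h5 := e x
  rw [MulAut.conj_apply, show uni b * dia a * dg c x * (uni b * dia a)⁻¹ =
    uni b * (dia a * dg c x * (dia a)⁻¹) * (uni b)⁻¹ by group, ← dg_sq, dg_mul, h4, dg_one,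
    map_mul, map_mul, map_inv] at h5
  calc π x * ((π (uni b))⁻¹ * g) = (π (uni b))⁻¹ * (π (uni b) * π x * (π (uni b))⁻¹) * g := by group
    _ = _ := by rw [← h5]; group

end Cfsg.Agent.Hm
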