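/-
Hm, chapter D: `pStmt` and `dStmt`.
-/
import Cfsg.Agent.Hm.D1

set_option autoImplicit false
set_option linter.unusedSectionVars false

namespace Cfsg.Agent.Hm

open Subgroup Cfsg Cfsg.Agent Cfsg.Agent.FT Cfsg.Agent.H4.SL2
open Cfsg.Agent.P7 (uni dia PU sle sl_ext)
open Cfsg.Agent.H6.Cyc (Cv LS)
open Cfsg.Agent.H6.Cyc.Cv (center_le)
open scoped commutatorElement

universe u

variable {G : Type u} [Group G] [Finite G] {r : ℕ} [hr : Fact r.Prime] {π : SL (ZMod r) →* G}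
  {L : Subgroup G} {d : ℕ}

/-- An automorphism normalizing `L` maps a semisimple element to a commuting element only if it
fixes or inverts it. -/
theorem cv_semi (h : Cv r π L d) {φ : G ≃* G} (hφ : L.map φ.toMonoidHom = L) {b : G} (hb : b ∈ L)
    (bb : b * b ≠ 1) (ho : ¬ r ∣ orderOf b) (hc : φ b ∈ 𝐂[b]) : φ b = b ∨ φ b = b⁻¹ := by
  obtain ⟨x, rfl⟩ := h.exists_eq hb
  obtain ⟨l, c, e⟩ := cv_aut h hφ
  rw [e] at hc ⊢
  obtain ⟨y, hy, e⟩ := (h.cent_eq bb).le ⟨h.mem _, hc⟩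
  have h6 := mul_mem hy (center_le x (h.eq_imp e))
  rw [mul_inv_cancel_left] at h6
  exact (Cj.eq_or_inv (h.not_center bb) h.two_ne (h.tr_ne bb ho) (mem_cent1.1 h6)
    (by rw [P4.tr_conj, tr_dg])).imp (congrArg π) fun e => by rw [e, map_inv]

theorem sq_or {F : Type*} [Field F] [Finite F] (a b : Fˣ) :
    (∃ c : Fˣ, a = c * c) ∨ (∃ c : Fˣ, b = c * c) ∨ ∃ c : Fˣ, a * b = c * c := by
  obtain ⟨g, hg⟩ := IsCyclic.exists_generator (α := Fˣ)
  obtain ⟨i, rfl⟩ := mem_zpowers_iff.1 (hg a)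
  obtain ⟨j, rfl⟩ := mem_zpowers_iff.1 (hg b)
  obtain ⟨i, rfl | rfl⟩ := Int.even_or_odd' i
  · exact Or.inl ⟨g ^ i, by rw [← zpow_add, two_mul]⟩
  obtain ⟨j, rfl | rfl⟩ := Int.even_or_odd' j
  · exact Or.inr (Or.inl ⟨g ^ j, by rw [← zpow_add, two_mul]⟩)
  · exact Or.inr (Or.inr ⟨g ^ (i + j + 1), by rw [← zpow_add, ← zpow_add]; congr 1; ring⟩)

/-- The outer automorphism group has order at most two. -/
theorem cv_out (h : Cv r π L d) {φ ψ : G ≃* G} (hφ : L.map φ.toMonoidHom = L)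
    (hψ : L.map ψ.toMonoidHom = L) : ∃ l ∈ L,
    (∀ x ∈ L, φ x = l * x * l⁻¹) ∨ (∀ x ∈ L, ψ x = l * x * l⁻¹) ∨
      (∀ x ∈ L, φ (ψ x) = l * x * l⁻¹) := by
  obtain ⟨l, a, e⟩ := cv_aut h hφ
  obtain ⟨m, b, e'⟩ := cv_aut h hψ
  have key : ∀ {f : G → G} {l : SL (ZMod r)} {c : (ZMod r)ˣ},
      (∀ x, f (π x) = π (l * dg (c * c) x * l⁻¹)) →
      ∀ x ∈ L, f x = π (l * dia c) * x * (π (l * dia c))⁻¹ := fun {f l c} e x hx => by
    obtain ⟨x, rfl⟩ := h.exists_eq hx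
    rw [e, dg_sq, ← map_inv, ← map_mul, ← map_mul]
    congr 1; group
  rcases sq_or a b with ⟨c, rfl⟩ | ⟨c, rfl⟩ | ⟨c, hc⟩
  · exact ⟨_, h.mem _, Or.inl (key e)⟩
  · exact ⟨_, h.mem _, Or.inr (Or.inl (key e'))⟩
  · refine ⟨_, h.mem _, Or.inr (Or.inr (key (f := fun x => φ (ψ x)) (l := l * dg a m) (c := c)
      fun x => ?_))⟩
    rw [e', e, map_mul (dg a), map_mul (dg a), map_inv, dg_mul, hc]
    congr 1; group

theorem cv_ls (h : Cv r π L d) : ∃ k l, LS L d r k l := by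
  have r5 := h.r5
  have ro := h.odd
  rw [Nat.card_zmod] at ro
  obtain ⟨k, l, eps, ev⟩ : ∃ k l, ((r = 2 * k + 1 ∧ l = k + 1) ∨ (r + 1 = 2 * k ∧ l + 1 = k)) ∧
      2 ∣ k := by
    by_cases e : r % 4 = 1
    · exact ⟨r / 2, r / 2 + 1, by omega, by omega⟩
    · exact ⟨r / 2 + 1, r / 2, by omega, by omega⟩
  have d12 : d = 1 ∨ d = 2 := h.ker.imp And.left And.left
  refine ⟨k, l, hr.out, r5, eps, ev, d12, ?_, fun e j hj jj => ?_, fun b hb bb ho => ?_,
    fun P hP cP => ?_⟩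
  · refine Nat.eq_of_mul_eq_mul_left two_pos ((cv_card h).trans ?_)
    rcases eps with ⟨e, rfl⟩ | ⟨e, rfl⟩
    · rw [show r - 1 = 2 * k by omega, show r + 1 = 2 * (k + 1) by omega]; ring
    · rw [show r - 1 = 2 * l by omega, e]; ring
  · obtain ⟨x, rfl⟩ := h.exists_eq hj
    obtain ⟨-, e'⟩ := h.ker.resolve_left fun a => by omega
    exact h.cent_mem (P7.mem_center_of_sq h.two_ne (mem_bot.1 (e' ▸ (map_mul π x x).trans jj)))
  · refine ⟨?_, ?_, ?_, fun g hg hc => cv_semi h (φ := MulAut.conj g) (conj_eq_of_mem hg) hb bb ho hc⟩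
    all_goals
      obtain ⟨x, rfl⟩ := h.exists_eq hb
      have h1 := h.not_center bb
      have h2 := h.tr_ne bb ho
      obtain ⟨h3, h4⟩ := P4.cent_semisimple h1 h2
    · rw [h.cent_eq bb]; exact isCyclic_of_surjective _ (π.subgroupMap_surjective _)
    · have h5 := h.card_map (center_le x)
      rw [Nat.card_zmod] at h4
      rw [h.cent_eq bb]
      rcases d12 with rfl | rfl <;> omega
    · obtain ⟨w, hw⟩ := exists_inverting h.odd h2
      refine ⟨π w, h.mem w, ?_, ?_⟩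
      · rw [← map_mul]; exact h.cent_mem (P7.sq_mem_center_of_inverts h.two_ne h1 hw).2
      · rw [h.cent_eq bb]
        rintro _ ⟨c, hc, rfl⟩
        rw [← map_inv, ← map_mul, ← map_mul, conj_eq_inv h1 hw hc, map_inv]
  · obtain ⟨g, hg, rfl⟩ := cv_conj h hP cP
    have h1 := h.card_centP
    have h2 := h.card_normP
    have h3 := cv_autP h
    nth_rewrite 1 [← H1.card_inf_mul_relIndex 𝐂(PU π), inf_left_comm,
      inf_eq_left.2 (cent_le_norm _), h1] at h2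
    rw [← conj_eq_of_mem hg, cent_conj, norm_conj, norm_conj, cent_conj, ← conj_inf, ← conj_inf,
      ← conj_inf, ← conj_sup, card_conj, relIndex_conj, conj_le_conj_iff]
    refine ⟨h1, ?_, h3⟩
    have h4 : 0 < d * r := by rcases d12 with rfl | rfl <;> omega
    have h5 : 2 * 𝐂(PU π).relIndex (L ⊓ 𝐍(PU π)) = r - 1 :=
      Nat.eq_of_mul_eq_mul_left h4 (by linarith)
    omega

/-- **Chapter D**, automorphisms. -/
theorem dStmt : DStmt.{u} := fun _ _ _ _ _ _ _ _ h =>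
  ⟨fun _ hφ _ hb bb ho hc => cv_semi h hφ hb bb ho hc, fun _ _ hφ hψ => cv_out h hφ hψ, cv_ls h⟩

/-- **Chapter D**, the field is prime. -/
theorem pStmt : PStmt.{u} := fun G _ _ h hs K t s b => by
  obtain ⟨F, _, _, hF, ⟨e⟩⟩ := b.exists_psl2
  have ho : Odd (Fintype.card F) := Nat.odd_iff.2 (by omega)
  obtain ⟨π, hπ⟩ := P7.exists_cov (L := ⊤) (topEquiv.trans e) (by rwa [Nat.card_eq_fintype_card])
  obtain ⟨p, hp⟩ := CharP.exists F
  obtain ⟨n, pp, hn⟩ := FiniteField.card F p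
  have p2 : p ≠ 2 := by
    rintro rfl
    rw [hn] at ho
    exact absurd (Nat.odd_pow_iff n.ne_zero |>.1 ho) (by norm_num)
  haveI := Fact.mk pp
  have h1 := hπ.eaP (p := p)
  have hu : π (uni 1) ∈ PU π := P7.mem_PU.2 ⟨1, rfl⟩
  have h2 : ∀ a : F, ∃ k : ℤ, (k : F) = a * a := fun a => by
    by_cases a0 : a = 0
    · exact ⟨0, by simp [a0]⟩
    obtain ⟨k, hk⟩ := mem_zpowers_iff.1 (h.sc' pp p2 (elemAb_isPGroup h1)
      (π (dia (Units.mk0 a a0))) (hπ.mem_norm_PU.2 rfl) _ hu (by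
        rwa [orderOf_eq_prime (h1.2 _ hu) (mt hπ.uni_eq_one.1 one_ne_zero)]))
    rw [← map_inv, ← map_mul, ← map_mul, P7.conj_uni rfl, ← map_zpow,
      show uni (1 : F) = P7.uniHom F (Multiplicative.ofAdd 1) from rfl, ← map_zpow,
      ← ofAdd_zsmul] at hk
    refine ⟨k, ?_⟩
    have := hπ.uni_inj (a₁ := k • (1 : F)) hk
    simp only [sle] at this
    simpa [pow_two] using this
  have h3 : Fintype.card F = p := by
    rw [← ZMod.card p]
    refine (Fintype.card_of_bijective (f := ZMod.castHom (dvd_refl p) F)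
      ⟨RingHom.injective _, fun x => ?_⟩).symm
    obtain ⟨i, hi⟩ := h2 ((x + 1) / 2)
    obtain ⟨j, hj⟩ := h2 ((x - 1) / 2)
    refine ⟨(i - j : ℤ), ?_⟩
    have := hπ.two_ne
    rw [map_intCast, Int.cast_sub, hi, hj]
    field_simp
    ring
  obtain ⟨f⟩ := P3.nonempty_PSL2_equiv_of_ringEquiv (ZMod.ringEquivOfPrime F pp h3).symm
  refine ⟨p, inferInstance, pp.five_le_of_ne_two_of_ne_three p2 fun p3 => ?_, ⟨e.trans f⟩⟩
  have h4 := P4.two_mul_card_of_equiv e ho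
  rw [h3, p3] at h4
  exact P4.card_ne_twelve hs (by omega)

end Cfsg.Agent.Hm
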