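/-
Hm, chapter E: semidihedral Sylow subgroups, basic lemmas.
-/
import Cfsg.Agent.Hm.C1
import Cfsg.Agent.P17.Defs

set_option autoImplicit false
set_option linter.unusedSectionVars false
set_option linter.style.haveILetI false

namespace Cfsg.Agent.Hm

open Subgroup Cfsg Cfsg.Agent Cfsg.Agent.FT
open Cfsg.Agent.P4 (odd_iff_not_dvd Max2)
open Cfsg.Agent.P5 (V4 Tri)
open Cfsg.Agent.P7 (V2)
open Cfsg.Agent.H2 (pPrimeCoreOf)
open Cfsg.Agent.H6.Cyc
open scoped commutatorElement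

universe u

variable {G : Type u} [Group G] [Finite G]

theorem tri_cube {w x y : G} (h : Tri w x y) (v : V4 x y) : w ^ 3 ∈ 𝐂(V2 x y) := by
  have e : ∀ z, w ^ 3 * z * (w ^ 3)⁻¹ = w * (w * (w * z * w⁻¹) * w⁻¹) * w⁻¹ := fun z => by
    simp only [pow_succ, pow_zero, one_mul, mul_inv_rev, mul_assoc]
  exact P7.V4.le_cent_iff.2 ⟨mem_cent1_iff_conj.2 (by rw [e, h.1, h.2, h.third v]),
    mem_cent1_iff_conj.2 (by rw [e, h.2, h.third v, h.1])⟩

/-- A homogeneous simple group with a semidihedral Sylow subgroup. -/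
structure SD (S : Subgroup G) (a t s : G) : Prop extends Sm S a t s where
  hom : P17.Hg G
  ol : OL G
  hd : s * a * s ≠ a⁻¹

namespace SD

variable {S : Subgroup G} {a t s : G} (h : SD S a t s)
include h

theorem sm : Sm S a t s := h.toSm

theorem exists_u : ∃ u ∈ zpowers a, u * u = t := by
  obtain ⟨k, hk⟩ := h.sm.t_sq
  exact ⟨a ^ k, zpow_mem (mem_zpowers a) k, by rw [← hk, ← Commute.mul_zpow rfl]⟩

theorem cent_out {x g : G} (hx : x ∈ S) (hT : x ∉ zpowers a) (hg : g ∈ S) (hc : Commute x g) :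
    g = 1 ∨ g = t ∨ g = x ∨ g = x⁻¹ ∨ g = t * x := by
  have key : ∀ y ∈ zpowers a, Commute x y → y = 1 ∨ y = t := fun y hy hc => by
    refine h.sm.m.uniq hy (h.cs y hy ?_)
    have := (St.cT ((h.cover x hx).resolve_left hT) hy).mul_left hc.inv_left
    rwa [mul_inv_cancel_right] at this
  by_cases h1 : g ∈ zpowers a
  · rcases key g h1 hc with e | e
    exacts [Or.inl e, Or.inr (Or.inl e)]
  · have h2 : g * x⁻¹ ∈ zpowers a := by
      rw [h.sm.m.mul_mem_iff hg (inv_mem hx), inv_mem_iff]; exact iff_of_false h1 hT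
    rcases key _ h2 (hc.mul_right (Commute.refl x).inv_right) with e | e
    · exact Or.inr (Or.inr (Or.inl (mul_inv_eq_one.1 e)))
    · exact Or.inr (Or.inr (Or.inr (Or.inr (mul_inv_eq_iff_eq_mul.1 e))))

theorem four_in {x y g : G} (v : V4 x y) (hx : x ∈ S) (hy : y ∈ S) (hg : g ∈ S)
    (c1 : Commute x g) (c2 : Commute y g) : g ∈ V2 x y := by
  wlog hT : x ∉ zpowers a generalizing x y
  · have h1 : y ∉ zpowers a := fun e => v.ts (((h.sm.m.uniq (not_not.1 hT) v.tt).resolve_left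
      v.t1).trans ((h.sm.m.uniq e v.ss).resolve_left v.s1).symm)
    exact V2_comm y x ▸ this v.swap hy hx c2 c1 h1
  have h1 : t ∈ V2 x y := by
    rcases h.cent_out hx hT hy v.comm with e | e | e | e | e
    · exact absurd e v.s1
    · exact e ▸ V4.s_mem
    · exact absurd e.symm v.ts
    · exact absurd (e.trans (P5.inv_eq_of_sq v.tt)).symm v.ts
    · have := mul_mem (V4.s_mem (t := x) (s := y)) (inv_mem V4.t_mem)
      rwa [e, mul_inv_cancel_right, ← e] at this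
  rcases h.cent_out hx hT hg c1 with e | e | e | e | e <;> rw [e]
  exacts [one_mem _, h1, V4.t_mem, inv_mem V4.t_mem, mul_mem h1 V4.t_mem]

/-- Four-groups are self-centralizing in `2`-subgroups. -/
theorem four {x y : G} (v : V4 x y) {R : Subgroup G} (hR : IsPGroup 2 R) (hc : R ≤ 𝐂(V2 x y)) :
    R ≤ V2 x y := fun g hg => by
  obtain ⟨k, -, h1⟩ := h.syl.exists_conj_le Nat.prime_two
    (isPGroup_sup hR v.isPGroup (hc.trans (cent_le_norm _))) le_top
  have h2 := P7.V4.le_cent_iff.1 (hc hg)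
  have h3 := h.four_in (P7.V4.cj v k) (h1 (conj_mem_conj (mem_sup_right V4.t_mem) k))
    (h1 (conj_mem_conj (mem_sup_right V4.s_mem) k)) (h1 (conj_mem_conj (mem_sup_left hg) k))
    (P5.commute_cj k (mem_cent1.1 h2.1)) (P5.commute_cj k (mem_cent1.1 h2.2))
  rwa [V2_conj, conj_mem_conj_iff] at h3

theorem npc_V {x y : G} (v : V4 x y) : HasNPC 2 𝐂(V2 x y) :=
  burnside_npc Nat.prime_two (isSyl_of_maximal Nat.prime_two (isMulComm_iff_le_cent.1
    (P7.V4.isMulComm v)) v.isPGroup fun _ h1 h2 h3 => le_antisymm (h.four v h3 h2) h1) inf_le_left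

theorem sw_u {u y : G} (hu : u ∈ zpowers a) (uu : u * u = t) (hy : y ∈ S) (hT : y ∉ zpowers a) :
    Sw u t y := by
  refine ⟨by rw [← uu]; group, ?_⟩
  have h1 := St.cT hu ((h.cover y hy).resolve_left hT)
  have h2 := h.sm.inv_u hu uu
  have h3 : t⁻¹ = t := P5.inv_eq_of_sq h.zz
  calc u * y * u⁻¹ = s * (s * u * s) * (s * y * u⁻¹) := by
        simp only [← mul_assoc, h.ss, one_mul]; rw [mul_assoc u s s, h.ss, mul_one]
    _ = s * (u * u)⁻¹ * (s * y) := by rw [h2, ← h1.inv_left.eq]; group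
    _ = t * y := by rw [uu, h3, ← h.sm.v4.comm.eq, mul_assoc, ← mul_assoc s, h.ss, one_mul]

theorem s_sq : s * (a * a) * s = (a * a)⁻¹ := by
  rw [show s * (a * a) * s = s * a * s * (s * a * s) by
    rw [mul_assoc (s * a) s, ← mul_assoc s (s * a), ← mul_assoc s s, h.ss]; group,
    h.sm.m.cases.resolve_left h.hd, (h.sm.ct h.xS).inv_right.mul_mul_mul_comm, h.zz]
  group

theorem sq_of_out {j : G} (hj : s * j ∈ zpowers (a * a)) : j * j = 1 := by
  have h1 := h.sm.m.inv_of h.s_sq _ hj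
  rw [← mul_assoc, h.ss, one_mul, mul_inv_rev, h.sm.m.s_inv, mul_left_inj] at h1
  exact mul_eq_one_iff_eq_inv.2 h1

theorem a4 : a * a * (a * a) ≠ 1 := fun e => h.hd (h.sm.inv_u (mem_zpowers a)
  ((h.sm.m.uniq (mul_mem (mem_zpowers a) (mem_zpowers a)) e).resolve_left h.aa))

theorem sq_t {j : G} (hj : a * (s * j) ∈ zpowers (a * a)) : j * j = t := by
  have h1 := h.sm.m.inv_of h.s_sq _ hj
  have h2 := St.cT (mem_zpowers a) (zpowers_le_of_mem (mul_mem (mem_zpowers a) (mem_zpowers a)) hj)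
  have h3 := h.sm.m.cases.resolve_left h.hd
  obtain ⟨y, rfl⟩ : ∃ y, j = s * (a⁻¹ * y) := ⟨a * (s * j), by simp [← mul_assoc, h.ss]⟩
  rw [← mul_assoc s s, h.ss, one_mul, mul_inv_cancel_left] at h1 h2
  calc _ = (s * a * s)⁻¹ * (s * y * s) * (a⁻¹ * y) := by
        simp only [mul_inv_rev, h.sm.m.s_inv, mul_assoc]; rw [← mul_assoc s s, h.ss, one_mul]
    _ = t := by
      rw [h1, h3, h2.inv_left.eq, mul_inv_rev, P5.inv_eq_of_sq h.zz]; group

theorem exists_u' : ∃ u ∈ zpowers (a * a), u * u = t := by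
  obtain ⟨k, hk⟩ := h.sm.m.z_mem_zpowers (mul_mem h.xS h.xS) h.a4
  exact ⟨(a * a) ^ k, zpow_mem (mem_zpowers _) k, by rw [← hk, ← Commute.mul_zpow rfl]⟩

theorem cj (g : G) : SD (S ^ᵍ g) (g * a * g⁻¹) (g * t * g⁻¹) (g * s * g⁻¹) where
  syl := h.syl.conj_of_mem_norm (by rw [norm_top]; trivial)
  xS := conj_mem_conj h.xS g
  zx := zpowers_conj a g ▸ conj_mem_conj h.zx g
  z1 := P4.conj_ne_one h.z1 g
  zz := P4.conj_sq h.zz g
  sS := conj_mem_conj h.sS g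
  sx := by rw [zpowers_conj, conj_mem_conj_iff]; exact h.sx
  ss := P4.conj_sq h.ss g
  cover := by
    rintro _ ⟨x, hx, rfl⟩
    refine (h.cover x hx).imp (fun e => ?_) fun e => ?_ <;> rw [zpowers_conj]
    · exact conj_mem_conj e g
    · exact (congrArg (· ∈ _) conj_mul).mpr (conj_mem_conj e g)
  cs := by
    rw [zpowers_conj]
    rintro _ ⟨x, hx, rfl⟩ e
    exact P4.conj_sq (h.cs x hx (by simpa [mul_assoc] using P5.commute_cj g⁻¹ e)) g
  simple := h.simple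
  na := h.na
  aa := by rw [conj_mul, Ne, conj_eq_one_iff]; exact h.aa
  hom := h.hom
  ol := h.ol
  hd := fun e => h.hd (by rwa [conj_mul, conj_mul, conj_inv, mul_left_inj, mul_right_inj] at e)

theorem at_inv {j : G} (j1 : j ≠ 1) (jj : j * j = 1) :
    ∃ (S : Subgroup G) (a s : G), SD S a j s := by
  obtain ⟨g, rfl⟩ := h.sm.conj j1 jj
  exact ⟨_, _, _, h.cj g⟩

theorem into_S {x : G} (hx : x ∈ 𝐂[t]) (h2 : IsPGroup 2 (zpowers x)) :
    ∃ c ∈ 𝐂[t], c * x * c⁻¹ ∈ S :=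
  (h.sm.syl_H.exists_conj_le Nat.prime_two h2 (zpowers_le_of_mem hx)).imp fun c e =>
    ⟨e.1, e.2 (conj_mem_conj (mem_zpowers x) c)⟩

theorem root {x : G} (hx : x ∈ 𝐂[t]) (h2 : IsPGroup 2 (zpowers x)) (xx : x * x ≠ 1) :
    ∃ y ∈ zpowers x, y * y = t := by
  obtain ⟨c, hc, h1⟩ := h.into_S hx h2
  obtain ⟨k, hk⟩ := h.sm.m.z_mem_zpowers h1 (by rwa [conj_mul, Ne, conj_eq_one_iff])
  refine ⟨x ^ k, zpow_mem (mem_zpowers x) k, ?_⟩
  rw [← mem_cent1_iff_conj.1 hc] at hk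
  simpa [conj_mul, ← Commute.mul_zpow (rfl : Commute x x)] using hk

/-- All ordered pairs of commuting involutions are conjugate. -/
theorem pair {x y : G} (v : V4 x y) : ∃ g, g * t * g⁻¹ = x ∧ g * s * g⁻¹ = y := by
  obtain ⟨k, rfl⟩ := h.sm.conj v.t1 v.tt
  obtain ⟨y, rfl⟩ : ∃ y', y = k * y' * k⁻¹ := ⟨k⁻¹ * y * k, by group⟩
  have v' : V4 t y := by simpa [mul_assoc] using P7.V4.cj v k⁻¹
  obtain ⟨c, hc, h2⟩ := h.into_S (mem_cent1.2 v'.comm) (P4.isPGroup_zpowers_of_sq v'.ss)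
  have h3 := mem_cent1_iff_conj.1 hc
  have v2 : V4 t (c * y * c⁻¹) := h3 ▸ P7.V4.cj v' c
  have h4 : c * y * c⁻¹ ∉ zpowers a := fun e => v2.ts ((h.sm.m.uniq e v2.ss).resolve_left v2.s1).symm
  obtain ⟨g, hg, e⟩ : ∃ g ∈ 𝐂[t], g * s * g⁻¹ = c * y * c⁻¹ := by
    generalize c * y * c⁻¹ = y at v2 h2 h4
    obtain ⟨n, hn⟩ := (mem_sq_or a ((h.cover y h2).resolve_left h4)).resolve_right
      fun e => h.z1 ((h.sq_t e).symm.trans v2.ss)
    have h5 : a ^ (-n) * s * (a ^ (-n))⁻¹ = t ^ (-n) * y := by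
      have h6 := conj_zpow (a := s) (b := a) (i := -n)
      rw [h.sm.m.s_inv, h.sm.m.cases.resolve_left h.hd, (h.sm.ct h.xS).symm.inv_left.mul_zpow] at h6
      calc _ = s * (s * a ^ (-n) * s) * (a ^ (-n))⁻¹ := by simp only [← mul_assoc, h.ss, one_mul]
        _ = s * (t ^ (-n) * (a * a) ^ n) := by
          rw [← h6, ((h.sm.ct h.xS).symm.inv_left.zpow_zpow _ _).eq, Commute.mul_zpow rfl]; group
        _ = _ := by
          rw [show (a * a) ^ n = s * y from hn, ← mul_assoc, ← (h.sm.v4.comm.zpow_left _).eq,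
            mul_assoc, ← mul_assoc s, h.ss, one_mul]
    have h6 := h.sm.m.le_cent (zpow_mem h.xS (-n))
    rcases Cj.eq_or_of_mem_zpowers h.zz (zpow_mem (mem_zpowers t) (-n)) with e | e <;>
      rw [e] at h5
    · exact ⟨_, h6, h5.trans (one_mul y)⟩
    · obtain ⟨u, hu, uu⟩ := h.exists_u
      refine ⟨u * _, mul_mem (h.sm.m.le_cent (h.sm.m.X_le hu)) h6, ?_⟩
      rw [← (h.sw_u hu uu h2 h4).third v2, ← h5]; group
  refine ⟨k * (c⁻¹ * g), ?_, ?_⟩
  · rw [← mem_cent1_iff_conj.1 (mul_mem (inv_mem hc) hg)]; nth_rewrite 1 [mem_cent1_iff_conj.1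
      (mul_mem (inv_mem hc) hg)]; group
  · rw [show y = c⁻¹ * (c * y * c⁻¹) * c by group, ← e]; group

/-- An involution swapping `s` and `t s`, inverting a `3`-element acting on `V`. -/
theorem exists_v : ∃ v σ : G, v * v = 1 ∧ Sw v t s ∧ Tri σ t s ∧ (∃ k, orderOf σ = 3 ^ k) ∧
    v * σ * v⁻¹ = σ⁻¹ := by
  obtain ⟨u, hu, uu⟩ := h.exists_u
  have v := h.sm.v4
  have h1 : Sw (s * u) t s := (h.sw_u hu uu h.sS h.sx).cent_mul
    (isMulComm_iff_le_cent.1 (P7.V4.isMulComm v) V4.s_mem)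
  have h2 : s * u * (s * u) = 1 := by rw [← mul_assoc, h.sm.inv_u hu uu, inv_mul_cancel]
  obtain ⟨g, e1, e2⟩ := h.pair v.swap
  have h3 := h1.cj g
  have h4 := P4.conj_sq h2 g
  rw [e1, e2] at h3
  generalize g * (s * u) * g⁻¹ = r at h3 h4
  generalize s * u = w at h1 h2
  have h5 := h1.tri h3 v
  have h6 : w * ⁅r, w⁆ * w = ⁅r, w⁆⁻¹ := by
    rw [commutatorElement_inv, commutatorElement_def, commutatorElement_def, ← mul_assoc,
      ← mul_assoc, ← mul_assoc, inv_mul_cancel_right, P5.inv_eq_of_sq h2]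
  obtain ⟨σ, β, hσ, hβ, e, -, oσ, oβ⟩ := H8.exists_pPart_pPrimePart Nat.prime_three ⁅r, w⁆
  have h7 : β ∈ 𝐂(V2 t s) := by
    obtain ⟨k, rfl⟩ := hβ
    refine zpowers_le_of_mem ?_ (mem_zpowers_pow oβ.symm)
    rw [← zpow_natCast, ← zpow_mul, mul_comm, zpow_mul, zpow_natCast]
    exact zpow_mem (tri_cube h5 v) k
  obtain ⟨h8, h9⟩ := P7.V4.le_cent_iff.1 h7
  rw [mem_cent1_iff_conj] at h8 h9
  refine ⟨w, σ, h2, h1, ⟨?_, ?_⟩, oσ, ?_⟩
  · rw [← h5.1, e, ← h8]; nth_rewrite 2 [h8]; group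
  · rw [← h5.2, e, ← h9]; nth_rewrite 2 [h9]; group
  · obtain ⟨k, rfl⟩ := hσ
    nth_rewrite 3 [← P5.inv_eq_of_sq h2] at h6
    simp only
    rw [← conj_zpow, h6, inv_zpow]

end SD

end Cfsg.Agent.Hm
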