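/-
Hm, chapter E: extension lemmas and the case `C(t) / O(C(t)) ≅ GL₂(3)`.
-/
import Cfsg.Agent.Hm.E1

set_option autoImplicit false
set_option linter.unusedSectionVars false
set_option linter.style.haveILetI false

namespace Cfsg.Agent.Hm

open Subgroup Cfsg Cfsg.Agent Cfsg.Agent.FT
open Cfsg.Agent.P4 (odd_iff_not_dvd Max2)
open Cfsg.Agent.P5 (V4 Tri)
open Cfsg.Agent.P7 (V2)
open Cfsg.Agent.P17 (Hg)
open Cfsg.Agent.H2 (pPrimeCoreOf)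
open Cfsg.Agent.H6.Cyc
open scoped commutatorElement

universe u

variable {G : Type u} [Group G] [Finite G]

theorem OL.cent_or_inv (h : OL G) {p : ℕ} (hp : p.Prime) (p2 : p ≠ 2) {Y : Subgroup G}
    (hY : IsPGroup p Y) {x : G} (hx : x ∈ 𝐍(Y)) (xx : x * x ∈ 𝐂(Y)) :
    x ∈ 𝐂(Y) ∨ ∀ y ∈ Y, x * y * x⁻¹ = y⁻¹ := or_iff_not_imp_left.2 fun h0 y hy => by
  by_contra h1
  have h2 := conj_mem hx hy
  refine h0 (h.free hp p2 hY x hx _ (mul_mem hy h2) (fun e => h1 (eq_inv_of_mul_eq_one_right e)) ?_)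
  have c1 := mem_cent.1 (isMulComm_iff_le_cent.1 (h.ab hp p2 hY) hy) _ h2
  calc x * (y * (x * y * x⁻¹)) = x * y * x⁻¹ * (x * x * y) * x⁻¹ := by group
    _ = x * y * x⁻¹ * y * x := by rw [← mem_cent.1 xx y hy]; group
    _ = _ := by rw [c1]

theorem Ex.exists_nc {Y T : Subgroup G} (h : Ex Y) (hT : IsSyl 2 T 𝐍(Y)) :
    ∃ x ∈ T, ∃ y ∈ T, ⁅x, y⁆ ∉ 𝐂(Y) := by
  by_contra! h0
  have h1 : 𝐍(Y) ≤ 𝐂(Y) ⊔ T := le_of_forall_exists_isSyl_le fun p hp _ => by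
    by_cases p2 : p = 2
    · subst p2; exact ⟨T, hT, le_sup_right⟩
    obtain ⟨P, hP⟩ := exists_isSyl hp 𝐍(Y)
    exact ⟨P, hP, fun g hg => mem_sup_left (zpowers_le_of_mem (h.four g (hP.le hg))
      (mem_zpowers_pow (coprime_ord hp hP.pgrp hg (((Nat.coprime_primes Nat.prime_two hp).2
        (Ne.symm p2)).pow_left 2))))⟩
  have hn := H1.normalizer_le_normalizer_centralizer Y
  have key : ∀ U ≤ 𝐍(Y), ⁅U, T⁆ ≤ 𝐂(Y) → ⁅U, 𝐍(Y)⁆ ≤ 𝐂(Y) := fun U hU e =>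
    (le_centMod_iff.1 (h1.trans (sup_le (le_centMod_iff.2 ⟨le_norm_self _,
      comm_le_right_iff.2 (hU.trans hn)⟩) (le_centMod_iff.2 ⟨hT.le.trans hn, e⟩)))).2
  exact h.na (key _ le_rfl (commutator_comm T _ ▸ key T hT.le (commutator_le.2 h0)))

theorem cop_rel {A B : Subgroup G} (h : 𝐨(A).Coprime 𝐨(B)) {b u : G} (hb : b ∈ A) (hu : u ∈ B) :
    b * u = 1 ↔ b = 1 ∧ u = 1 := by
  refine ⟨fun e => ?_, fun e => by rw [e.1, e.2, mul_one]⟩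
  have h1 : u = 1 := mem_bot.1 (inf_eq_bot_of_coprime h ▸ mem_inf.2
    ⟨eq_inv_of_mul_eq_one_right e ▸ inv_mem hb, hu⟩)
  exact ⟨by rwa [h1, mul_one] at e, h1⟩

/-- Extending the identity of `U` by `b ↦ b'`. -/
theorem ext_cent (h : Hg G) {U : Subgroup G} {b b' : G} (hb : b ∈ 𝐂(U)) (hb' : b' ∈ 𝐂(U))
    (e : orderOf b = orderOf b') (hc : (orderOf b).Coprime 𝐨(U)) :
    ∃ φ : G ≃* G, (∀ u ∈ U, φ u = u) ∧ φ b = b' :=
  h.cyc_ext (ψ := id) (cent_le_norm U hb) (fun _ _ _ _ => rfl) (fun u hu => by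
    rw [id, id, ← mem_cent.1 hb u hu, ← mem_cent.1 hb' u hu]; group) fun k u hu => by
    rw [cop_rel (A := zpowers b) (by rwa [Nat.card_zpowers]) (zpow_mem (mem_zpowers b) k) hu,
      id, cop_rel (A := zpowers b') (by rwa [Nat.card_zpowers, ← e]) (zpow_mem (mem_zpowers b') k) hu,
      ← orderOf_dvd_iff_zpow_eq_one, ← orderOf_dvd_iff_zpow_eq_one, e]

theorem fix_order (h : Hg G) {t x y : G} (tt : t * t = 1) (hx : x ∈ 𝐂[t]) (hy : y ∈ 𝐂[t])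
    (e : orderOf x = orderOf y) (ho : Odd (orderOf x)) : ∃ φ : G ≃* G, φ t = t ∧ φ x = y :=
  (ext_cent h (U := zpowers t) (by rwa [cent_zpowers]) (by rwa [cent_zpowers]) e
    (P4.coprime_of_odd (P4.isPGroup_zpowers_of_sq tt) ho)).imp fun _ e =>
      ⟨e.1 t (mem_zpowers t), e.2⟩

theorem s3_ext (h : Hg G) {σ ρ v u : G} (e : orderOf σ = orderOf ρ) (ho : Odd (orderOf σ))
    (v1 : v ≠ 1) (vv : v * v = 1) (u1 : u ≠ 1) (uu : u * u = 1) (hv : v * σ * v⁻¹ = σ⁻¹)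
    (hu : u * ρ * u⁻¹ = ρ⁻¹) : ∃ φ : G ≃* G, φ σ = ρ ∧ φ v = u := by
  obtain ⟨ψ, rfl⟩ := h.order e
  obtain ⟨φ, h1, h2⟩ := h.cyc_ext (U := zpowers σ) (ψ := ψ) (b := v) (b' := u)
    (mem_norm_zpowers (hv ▸ inv_mem (mem_zpowers σ))) (fun _ _ _ _ => map_mul _ _ _) (by
      rintro _ ⟨k, rfl⟩
      simp only [← conj_zpow, hv, hu, map_zpow, map_inv]) (by
      rintro k _ ⟨j, rfl⟩
      have c : ∀ {w x : G}, w * w = 1 → Odd (orderOf x) → 𝐨(zpowers w).Coprime 𝐨(zpowers x) :=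
        fun ww ho => (P4.coprime_of_odd (P4.isPGroup_zpowers_of_sq ww)
          (by rwa [Nat.card_zpowers])).symm
      simp only [map_zpow]
      rw [cop_rel (c vv ho) (zpow_mem (mem_zpowers v) k) (zpow_mem (mem_zpowers _) j),
        cop_rel (c uu (e ▸ ho)) (zpow_mem (mem_zpowers u) k) (zpow_mem (mem_zpowers _) j)]
      simp only [← orderOf_dvd_iff_zpow_eq_one, e, P4.orderOf_two v1 vv, P4.orderOf_two u1 uu])
  exact ⟨φ, h1 σ (mem_zpowers σ), h2⟩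

/-- If the subgroup of order `p` of `⟨y⟩` centralizes `X`, so does an element of the order of `y`. -/
theorem split (h : Hg G) (ol : OL G) {p m : ℕ} (hp : p.Prime) (p2 : p ≠ 2) {X : Subgroup G}
    (hX : ¬ p ∣ 𝐨(X)) {y : G} (hy : y ∈ 𝐍(X)) (oy : orderOf y = p ^ (m + 1))
    (hc : y ^ p ^ m ∈ 𝐂(X)) : ∃ e ∈ 𝐂(X), orderOf e = p ^ (m + 1) := by
  haveI := Fact.mk hp
  have oc : orderOf (y ^ p ^ m) = p := by
    rw [orderOf_pow_of_dvd (pow_pos hp.pos m).ne' (oy ▸ pow_dvd_pow p m.le_succ), oy, pow_succ',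
      Nat.mul_div_cancel _ (pow_pos hp.pos m)]
  obtain ⟨γ, h1, h2⟩ := ext_cent h hc (inv_mem hc) (orderOf_inv _).symm
    (oc.symm ▸ hp.coprime_iff_not_dvd.2 hX)
  have h3 : y⁻¹ * γ y ∈ 𝐂(X) := mem_cent.2 fun x hx => by
    have h4 := h1 _ (conj_mem hy hx)
    rw [map_mul, map_mul, map_inv, h1 x hx] at h4
    calc _ = y⁻¹ * (y * x * y⁻¹) * γ y := by group
      _ = _ := by rw [← h4]; group
  have hn := H1.normalizer_le_normalizer_centralizer X hy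
  have yc : y ∈ 𝐂[y ^ p ^ m] := mem_cent1.2 (Commute.pow_self y _)
  have hp' : ∀ z : G, orderOf z = p ^ (m + 1) → IsPGroup p (zpowers z) := fun z e =>
    IsPGroup.of_card (by rw [Nat.card_zpowers, e])
  obtain ⟨P, hP, yP⟩ := exists_isSyl_ge hp (hp' y oy) (M := (𝐂(X) ⊔ zpowers y) ⊓ 𝐂[y ^ p ^ m])
    (zpowers_le_of_mem ⟨mem_sup_right (mem_zpowers y), yc⟩)
  obtain ⟨k, hk, h4⟩ := hP.exists_conj_le hp (hp' (γ y) ((γ.orderOf_eq y).trans oy))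
    (zpowers_le_of_mem ⟨(mul_mem_cancel_left (inv_mem (mem_sup_right (mem_zpowers y)))).1
      (mem_sup_left h3), mem_cent1.2 (by
        have := Commute.map (mem_cent1.1 yc) γ
        rw [h2] at this
        exact Commute.inv_left_iff.1 this)⟩)
  have h5 := h4 (conj_mem_conj (mem_zpowers _) k)
  have h6 : Commute y (k * γ y * k⁻¹) := mem_cent.1 (isMulComm_iff_le_cent.1
    (ol.ab hp p2 hP.pgrp) h5) y (yP (mem_zpowers y))
  have h7 : (y⁻¹ * (k * γ y * k⁻¹)) ^ p ^ m = (y ^ p ^ m * y ^ p ^ m)⁻¹ := by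
    rw [h6.inv_left.mul_pow, conj_pow, ← map_pow, h2, ← conj_inv, mem_cent1_iff_conj.1 hk.2,
      inv_pow, mul_inv_rev]
  refine ⟨y⁻¹ * (k * γ y * k⁻¹), ?_, orderOf_eq_prime_pow (fun e => ?_) ?_⟩
  · obtain ⟨c, hc, _, ⟨i, rfl⟩, rfl⟩ := (mem_sup_of_norm (zpowers_le_of_mem hn)).1 hk.1
    have := mul_mem (mul_mem (conj_mem (inv_mem hn) hc) (conj_mem (zpow_mem hn i) h3)) (inv_mem hc)
    convert this using 1
    group
  · rw [h7, inv_eq_one, ← pow_two, ← orderOf_dvd_iff_pow_eq_one, oc] at e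
    exact p2 ((Nat.prime_dvd_prime_iff_eq hp Nat.prime_two).1 e)
  · rw [pow_succ, pow_mul, h7, inv_pow, ← pow_two, ← pow_mul, mul_comm, pow_mul]
    nth_rewrite 2 [← oc]
    simp

theorem rel_core {t x : G} (t1 : t ≠ 1) (tt : t * t = 1) (h : IsSyl 2 (zpowers t) 𝐂[x]) :
    (pPrimeCoreOf 2 𝐂[x]).relIndex 𝐂[x] = 2 := by
  rw [((npc_cyc h inferInstance).sdProd Nat.prime_two h).relIndex_left, Nat.card_zpowers,
    P4.orderOf_two t1 tt]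

theorem norm_cent1 {x v : G} (h : v * x * v⁻¹ = x⁻¹) : v ∈ 𝐍(𝐂[x]) :=
  cent_zpowers x ▸ H1.normalizer_le_normalizer_centralizer _
    (mem_norm_zpowers (h ▸ inv_mem (mem_zpowers x)))

/-- An inverting involution may be chosen in `C(t)`. -/
theorem lemInv {t x v : G} (t1 : t ≠ 1) (tt : t * t = 1) (h : IsSyl 2 (zpowers t) 𝐂[x])
    (vv : v * v = 1) (hv : v * x * v⁻¹ = x⁻¹) :
    ∃ z ∈ 𝐂[t], z * z = 1 ∧ z * x * z⁻¹ = x⁻¹ := by
  have h1 := h.le (mem_zpowers t)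
  have h2 := conj_mem (norm_cent1 hv) h1
  obtain ⟨m, hm⟩ := odd_ord (odd_core _) ((mul2 (rel_core t1 tt h) h1 h2).2 (iff_of_false
    (fun e => t1 (P5.eq_one_of_odd (odd_core _) e tt))
    fun e => P4.conj_ne_one t1 v (P5.eq_one_of_odd (odd_core _) e (P4.conj_sq tt v))))
  have h3 := mul_mem h1 h2
  rw [P5.inv_eq_of_sq vv, show t * (v * t * v) = (t * v) ^ 2 by simp only [pow_two, mul_assoc]]
    at hm h3
  have h4 : (t * v) ^ (2 * m + 1) * (t * v) ^ (2 * m + 1) = 1 := by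
    rw [← pow_two, ← pow_mul, mul_comm, pow_mul, ← hm, pow_orderOf_eq_one]
  refine ⟨_, mem_cent1_comm.1 (mem_cent1_iff_conj.2 ?_), h4, ?_⟩
  · rw [← conj_pow, ← P5.inv_eq_of_sq h4, ← inv_pow, mul_inv_rev, P5.inv_eq_of_sq vv,
      P5.inv_eq_of_sq tt, ← mul_assoc, tt, one_mul]
  · have h5 := mem_cent1_iff_conj.1 (mul_mem (pow_mem h3 m) h1)
    rw [← inv_inj, conj_inv] at h5
    rw [pow_succ, pow_mul, ← h5, ← hv]; group

omit [Finite G] in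
theorem cj2 (a b x : G) : a * b * x * (a * b)⁻¹ = a * (b * x * b⁻¹) * a⁻¹ := by group

omit [Finite G] in
theorem tri_div {a b x y : G} (h : Tri a x y) (h' : Tri b x y) : a⁻¹ * b ∈ 𝐂(V2 x y) :=
  P7.V4.le_cent_iff.2 ⟨mem_cent1_iff_conj.2 (by rw [cj2, h'.1, ← h.1]; group),
    mem_cent1_iff_conj.2 (by rw [cj2, h'.2, ← h.2]; group)⟩

omit [Finite G] in
theorem v4_map {x y : G} (v : V4 x y) (φ : G ≃* G) : V4 (φ x) (φ y) :=
  v.map φ.toMonoidHom (φ.map_ne_one_iff.2 v.t1) (φ.map_ne_one_iff.2 v.s1) (φ.map_ne_one_iff.2 v.ts1)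

theorem three_cases {x y : G} (x3 : orderOf x = 3) (hy : y ∈ zpowers x) (y1 : y ≠ 1) :
    y = x ∨ y = x⁻¹ := by
  classical
  obtain ⟨k, hk, rfl⟩ := Finset.mem_image.1 (mem_zpowers_iff_mem_range_orderOf.1 hy)
  rw [x3, Finset.mem_range] at hk
  interval_cases k
  · simp at y1
  · simp
  · exact Or.inr (eq_inv_of_mul_eq_one_left (by rw [← pow_succ]; exact (x3 ▸ pow_orderOf_eq_one x :)))

omit [Finite G] in
theorem ne_one_of_inv {x w : G} (ho : Odd (orderOf x)) (x1 : orderOf x ≠ 1)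
    (h : w * x * w⁻¹ = x⁻¹) : w ∉ 𝐂[x] := fun e => by
  rw [mem_cent1_iff_conj.1 e, eq_inv_iff_mul_eq_one, ← pow_two, ← orderOf_dvd_iff_pow_eq_one] at h
  exact x1 (Nat.eq_one_of_dvd_coprimes (Nat.coprime_two_right.2 ho) dvd_rfl h)

namespace SD

variable {S : Subgroup G} {a t s : G} (h : SD S a t s)
include h

theorem syl_t {x : G} (hx : x ∈ 𝐂[t]) (h1 : ∀ y ∈ 𝐂[x], y * y ≠ t)
    (h2 : ∀ j ∈ 𝐂[x], j ∈ 𝐂[t] → j * j = 1 → j = 1 ∨ j = t) : IsSyl 2 (zpowers t) 𝐂[x] :=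
  IsSyl.of_norm Nat.prime_two (isSyl_of_maximal Nat.prime_two (le_inf (zpowers_le_of_mem
    (mem_cent1_comm.1 hx)) (le_norm_self _)) (P4.isPGroup_zpowers_of_sq h.zz) fun Q e1 e2 e3 =>
    le_antisymm (fun g hg => by
      have h3 := norm_invol h.z1 h.zz (e2 hg).2
      by_cases gg : g * g = 1
      · rcases h2 g (e2 hg).1 h3 gg with rfl | rfl
        exacts [one_mem _, mem_zpowers _]
      · obtain ⟨y, hy, yy⟩ := h.root h3 (e3.to_le (zpowers_le_of_mem hg)) gg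
        exact absurd yy (h1 y (zpowers_le_of_mem (e2 hg).1 hy))) e1)

theorem odd_NC {x y ρ : G} (v : V4 x y) (tri : Tri ρ x y) :
    Odd 𝐨((𝐍(V2 x y) ⊓ 𝐂[ρ] : Subgroup G)) := by
  by_contra h0
  obtain ⟨j, ⟨h1, h2⟩, j1, jj⟩ := P4.exists_invol_of_even (not_not.1 (mt odd_iff_not_dvd.2 h0))
  have key : ∀ c ∈ 𝐂[ρ], ∀ z ∈ V2 x y, z ≠ 1 → c ∈ 𝐂[z] → c ∈ 𝐂[x] := fun c hc z hz z1 e => by
    obtain ⟨g, hg, rfl⟩ := tri.exists_conj v hz z1
    have h3 := mem_cent1.1 (cent1_le_cent1_of_mem_zpowers hg hc)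
    rw [cent1_conj, mem_conj, mul_assoc, ← h3, inv_mul_cancel_left] at e
    exact e
  have h3 : j ∈ 𝐂[x] := by
    have h4 := conj_mem h1 (V4.t_mem (t := x) (s := y))
    by_cases e : x * (j * x * j⁻¹) = 1
    · exact mem_cent1_iff_conj.2 ((eq_inv_of_mul_eq_one_right e).trans (P5.inv_eq_of_sq v.tt))
    refine key j h2 _ (mul_mem V4.t_mem h4) e (mem_cent1_iff_conj.2 ?_)
    rw [mem_cent.1 (isMulComm_iff_le_cent.1 (P7.V4.isMulComm v) h4) x V4.t_mem, ← conj_mul,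
      ← mem_cent.1 (isMulComm_iff_le_cent.1 (P7.V4.isMulComm v) h4) x V4.t_mem,
      P5.inv_eq_of_sq jj]
    simp only [← mul_assoc, jj, one_mul]
    rw [mul_assoc x j j, jj, mul_one]
  have h4 : j ∈ V2 x y := h.four v (P4.isPGroup_zpowers_of_sq jj) (zpowers_le_of_mem
    (P7.V4.le_cent_iff.2 ⟨h3, by
      rw [← tri.1, cent1_conj, mem_conj, mul_assoc, ← mem_cent1.1 h2, inv_mul_cancel_left]
      exact h3⟩)) (mem_zpowers j)
  exact tri.not_commute v (mem_cent1.1 (key ρ (mem_cent1.2 rfl) j h4 j1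
    (mem_cent1_comm.1 h2))).symm

/-- The `S₃` argument. -/
theorem s3 {ρ : G} (oρ : orderOf ρ = 3) (hρ : IsSyl 2 (zpowers t) 𝐂[ρ]) : False := by
  have n3 : ∀ x y : G, V4 x y → ∀ b ∈ 𝐂(V2 x y), orderOf b ≠ 3 := fun x y v b hb e => by
    obtain ⟨φ, rfl⟩ := h.hom.order (e.trans oρ.symm)
    obtain ⟨h1, h2⟩ := P7.V4.le_cent_iff.1 hb
    have v' := v4_map v φ
    have := hρ.card_dvd Nat.prime_two v'.isPGroup (V4.le_iff.2
      ⟨mem_cent1.2 (Commute.map (mem_cent1.1 h1) φ).symm,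
        mem_cent1.2 (Commute.map (mem_cent1.1 h2) φ).symm⟩)
    rw [v'.card, Nat.card_zpowers, P4.orderOf_two h.z1 h.zz] at this
    norm_num at this
  obtain ⟨v, σ, vv, sw, tri, ⟨k, oσ⟩, hv⟩ := h.exists_v
  have v4 := h.sm.v4
  have σ3 : orderOf σ = 3 := by
    refine orderOf_eq_prime ?_ fun e => v4.ts (by simpa [e] using tri.1)
    by_contra h0
    obtain ⟨b, hb, -, ob⟩ := exists_prime_elt Nat.prime_three ((IsPGroup.of_card
      ((Nat.card_zpowers σ).trans oσ)).to_le (zpowers_le_of_mem (pow_mem (mem_zpowers σ) 3)))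
      (zpowers_ne_bot.2 h0)
    exact n3 t s v4 b (zpowers_le_of_mem (tri_cube tri v4) hb) ob
  have v1 : v ≠ 1 := fun e => v4.t1 (by simpa [e] using sw.2.symm)
  have e0 := σ3.trans oρ.symm
  obtain ⟨φ, h0⟩ := h.hom.order e0
  obtain ⟨u, hu, uu, hi⟩ := lemInv h.z1 h.zz hρ (v := φ v) (by rw [← map_mul, vv, map_one])
    (by rw [← h0, ← map_inv, ← map_mul, ← map_mul, hv, map_inv])
  have hi' : t * u * ρ * (t * u)⁻¹ = ρ⁻¹ := by
    rw [cj2, hi, ← conj_inv, mem_cent1_iff_conj.1 (hρ.le (mem_zpowers t))]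
  have ne1 : ∀ w, w * ρ * w⁻¹ = ρ⁻¹ → w ≠ 1 := fun w e e' =>
    ne_one_of_inv (oρ ▸ by decide) (oρ ▸ by decide) e (e' ▸ one_mem _)
  have ct : Commute t u := mem_cent1.1 hu
  obtain ⟨φ1, a1, b1⟩ := s3_ext h.hom e0 (σ3 ▸ by decide) v1 vv (ne1 u hi) uu hv hi
  obtain ⟨φ2, a2, b2⟩ := s3_ext h.hom e0 (σ3 ▸ by decide) v1 vv (ne1 _ hi')
    (by rw [ct.symm.mul_mul_mul_comm, h.zz, uu, one_mul]) hv hi'
  have wm : ∀ ψ : G ≃* G, Sw (ψ v) (ψ t) (ψ s) := fun ψ =>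
    ⟨by simpa using congrArg ψ sw.1, by simpa using congrArg ψ sw.2⟩
  have v' := v4_map v4 φ2
  obtain ⟨g1, e1, f1⟩ := h.pair (v4_map v4 φ1)
  obtain ⟨g2, e2, f2⟩ := h.pair v'
  have T1 : Tri _ _ _ := P7.Tri.cj (show Tri (φ1 σ) (φ1 t) (φ1 s) from tri.map φ1.toMonoidHom)
    (g2 * g1⁻¹)
  have T2 : Tri (φ2 σ) (φ2 t) (φ2 s) := tri.map φ2.toMonoidHom
  have W1 := ((wm φ1).cj (g2 * g1⁻¹)).mem_norm
  have W2 := (wm φ2).mem_norm
  have e3 : ∀ z, g2 * g1⁻¹ * (g1 * z * g1⁻¹) * (g2 * g1⁻¹)⁻¹ = g2 * z * g2⁻¹ := fun z => by group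
  rw [← e1, ← f1, e3, e3, e2, f2] at T1 W1
  rw [a1] at T1; rw [a2] at T2; rw [b1] at W1; rw [b2] at W2
  generalize φ2 t = x, φ2 s = y, g2 * g1⁻¹ = g at T1 T2 W1 W2 v'
  have hn := T2.mem_norm v'
  have c3 : ¬ 3 ∣ 𝐨(𝐂(V2 x y)) := fun e => by
    obtain ⟨b, hb, ob⟩ := exists_mem_orderOf_eq_prime Nat.prime_three e
    exact n3 x y v' b hb ob
  have p3 : ∀ z : G, orderOf z = 3 → IsPGroup 3 (zpowers z) := fun z e =>
    isPGroup_of_card_prime ((Nat.card_zpowers z).trans e)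
  have sd : SdProd 𝐂(V2 x y) (zpowers ρ) (𝐂(V2 x y) ⊔ zpowers ρ) := ⟨rfl, zpowers_le_of_mem
    (H1.normalizer_le_normalizer_centralizer _ hn), inf_eq_bot_of_coprime (by
      rw [Nat.card_zpowers, oρ]; exact (Nat.prime_three.coprime_iff_not_dvd.2 c3).symm)⟩
  obtain ⟨k, hk, h1⟩ := IsSyl.exists_conj_le Nat.prime_three ⟨le_sup_right, p3 ρ oρ,
    sd.relIndex_right ▸ c3⟩ (p3 _ ((ord_conj ρ g).trans oρ)) (zpowers_le_of_mem
      ((mul_mem_cancel_left (inv_mem (mem_sup_right (mem_zpowers ρ)))).1 (mem_sup_left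
        (tri_div T2 T1))))
  have h2 := conj_mem (le_norm_self _ (sup_le (cent_le_norm _) (zpowers_le_of_mem hn) hk)) W1
  obtain ⟨c, hc, h3⟩ : ∃ c ∈ 𝐂[ρ], c * u * c⁻¹ = k * (g * u * g⁻¹) * k⁻¹ := by
    rcases three_cases oρ (h1 (conj_mem_conj (mem_zpowers _) k)) (P4.conj_ne_one (P4.conj_ne_one
      (fun e => by simp [e] at oρ) g) k) with e | e
    · exact ⟨k * g, mem_cent1_iff_conj.2 ((cj2 k g ρ).trans e), by group⟩
    · refine ⟨k * g * u, mem_cent1_iff_conj.2 ?_, by group⟩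
      rw [cj2, hi, ← conj_inv, cj2, inv_eq_iff_eq_inv]; exact e
  have sd2 := (npc_cyc hρ inferInstance).sdProd Nat.prime_two hρ
  obtain ⟨o, ho, τ, hτ, rfl⟩ := (mem_sup_of_norm sd2.norm).1 (sd2.sup.ge hc)
  have h4 : o * τ * u * (o * τ)⁻¹ = o * u * o⁻¹ := by
    rw [mul_assoc o, mem_cent1.1 (cent1_le_cent1_of_mem_zpowers hτ hu)]; group
  rw [← h3, h4] at h2
  have h5 : u * (o * u * o⁻¹) ∈ pPrimeCoreOf 2 𝐂[ρ] := by
    have := mul_mem (conj_mem (norm_core _ (norm_cent1 hi)) ho) (inv_mem ho)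
    rwa [P5.inv_eq_of_sq uu, mul_assoc, mul_assoc, ← mul_assoc o] at this
  refine h.z1 (P5.eq_one_of_odd (odd_core _) ((mul_mem_cancel_right h5).1 (le_core
    (npc_cyc hρ inferInstance) inf_le_right (h.odd_NC v' T2) ⟨?_, mul_mem (hρ.le (mem_zpowers t))
      (core_le _ h5)⟩)) h.zz)
  exact mul_assoc t u _ ▸ mul_mem W2 h2

end SD

end Cfsg.Agent.Hm
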