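/-
Hm, chapter E: the case `C(t) / O(C(t)) ≅ SL₂(5).2`, final contradiction.
-/
import Cfsg.Agent.Hm.E2

set_option autoImplicit false
set_option linter.unusedSectionVars false
set_option linter.style.haveILetI false

namespace Cfsg.Agent.Hm

open Subgroup Cfsg Cfsg.Agent Cfsg.Agent.FT
open Cfsg.Agent.P4 (odd_iff_not_dvd Max2)
open Cfsg.Agent.P5 (V4 Tri)
open Cfsg.Agent.P7 (V2)
open Cfsg.Agent.H6.Cyc
open scoped commutatorElement

universe u

variable {G : Type u} [Group G] [Finite G]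

namespace E5

omit [Finite G] in
/-- A consequence of Moore's presentation of `A₅`. -/
theorem moore {x t j : G} (x3 : x ^ 3 = 1) (tt : t * t = 1) (jj : j * j = 1)
    (tx : (t * x) ^ 3 = 1) (tj : (t * j) ^ 3 = 1) (xj : j * x * j⁻¹ = x⁻¹) :
    (t * x * j) ^ 5 = 1 := by
  have ti := P5.inv_eq_of_sq tt
  have ji := P5.inv_eq_of_sq jj
  have h6 : x * x = x⁻¹ := eq_inv_of_mul_eq_one_left (by rw [← x3]; simp [pow_succ])
  have h1 : t * x * t = x⁻¹ * t * x⁻¹ := by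
    nth_rewrite 3 [← ti]
    calc _ = (t * x) ^ 3 * (x⁻¹ * t⁻¹ * x⁻¹) := by simp [pow_succ, mul_assoc]
      _ = _ := by rw [tx, one_mul]
  have h2 : t * x⁻¹ * t = x * t * x := by
    have := congrArg (·⁻¹) h1
    simpa [mul_assoc, ti] using this
  have h3 : t * j * t = j * t * j := by
    calc _ = (t * j) ^ 3 * (j⁻¹ * t⁻¹ * j⁻¹) := by simp [pow_succ, mul_assoc]
      _ = _ := by rw [tj, one_mul, ti, ji]
  have h5 : x⁻¹ * j = j * x := by rw [← xj]; group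
  have h4 : x * j = j * x⁻¹ := by
    have := congrArg (·⁻¹) h5
    simp only [mul_inv_rev, inv_inv, ji] at this
    calc x * j = x * j * (x * j) * (x * j)⁻¹ := by group
      _ = x * (j * x) * j * (x * j)⁻¹ := by group
      _ = _ := by rw [this, mul_inv_cancel_left, jj]; simp [ji]
  have w2 : t * x * j * (t * x * j) = x⁻¹ * t * j * x * t * x⁻¹ := by
    calc _ = t * x * j * t * (x * j) := by group
      _ = t * x * (j * t * j) * x⁻¹ := by rw [h4]; group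
      _ = t * x * t * j * t * x⁻¹ := by rw [← h3]; group
      _ = x⁻¹ * t * (x⁻¹ * j) * t * x⁻¹ := by rw [h1]; group
      _ = _ := by rw [h5]; group
  have w3 : x⁻¹ * t * j * x * t * x⁻¹ * (t * x * j) = x * t * x⁻¹ * j * t * x := by
    calc _ = x⁻¹ * t * j * x * (t * x⁻¹ * t) * x * j := by group
      _ = x⁻¹ * t * j * (x * x) * t * (x * x) * j := by rw [h2]; simp only [mul_assoc]
      _ = x⁻¹ * t * j * (x⁻¹ * t * x⁻¹) * j := by rw [h6]; simp only [mul_assoc]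
      _ = x⁻¹ * (t * j * t) * x * t * j := by rw [← h1]; simp only [mul_assoc]
      _ = x⁻¹ * j * t * (j * x) * t * j := by rw [h3]; simp only [mul_assoc]
      _ = x⁻¹ * j * t * x⁻¹ * (j * t * j) := by rw [← h5]; simp only [mul_assoc]
      _ = x⁻¹ * j * (t * x⁻¹ * t) * j * t := by rw [← h3]; simp only [mul_assoc]
      _ = j * (x * x) * t * (x * j) * t := by rw [h2, h5]; simp only [mul_assoc]
      _ = x * (j * t * j) * x⁻¹ * t := by rw [h6, ← h4]; nth_rewrite 2 [h4]; simp only [mul_assoc]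
      _ = x * t * j * (t * x⁻¹ * t) := by rw [← h3]; simp only [mul_assoc]
      _ = x * t * (j * x) * t * x := by rw [h2]; simp only [mul_assoc]
      _ = _ := by rw [← h5]; simp only [mul_assoc]
  calc _ = t * x * j * (t * x * j) * (t * x * j) * (t * x * j * (t * x * j)) := by
        simp only [pow_succ, pow_zero, one_mul, mul_assoc]
    _ = x * t * x⁻¹ * j * (t * t) * j * x * t * x⁻¹ := by rw [w2, w3]; group
    _ = x * t * x⁻¹ * (j * j) * x * t * x⁻¹ := by rw [tt]; group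
    _ = x * (t * t) * x⁻¹ := by rw [jj]; group
    _ = 1 := by rw [tt]; group

omit [Finite G] in
theorem tri_pow {w x y : G} (h : Tri w x y) (v : V4 x y) (w3 : w ^ 3 = 1) : (x * w) ^ 3 = 1 := by
  calc _ = x * (w * x * w⁻¹) * (w * (w * x * w⁻¹) * w⁻¹) * w ^ 3 := by simp [pow_succ, mul_assoc]
    _ = 1 := by rw [h.1, h.2, w3, mul_one, v.sq (mul_mem V4.t_mem V4.s_mem)]

theorem gen9 {P : Subgroup G} (hP : 𝐨(P) = 9) {ρ y : G} (h1 : ρ ∈ P) (o : orderOf ρ = 3)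
    (h2 : y ∈ P) (hy : y ∉ zpowers ρ) : zpowers ρ ⊔ zpowers y = P := by
  have h3 : zpowers ρ ⊔ zpowers y ≤ P := sup_le (zpowers_le_of_mem h1) (zpowers_le_of_mem h2)
  refine H1.eq_of_le_of_card_le h3 ?_
  have h4 := H1.card_lt_of_lt (lt_of_le_of_ne (le_sup_left : zpowers ρ ≤ zpowers ρ ⊔ zpowers y)
    fun e => hy (e ▸ mem_sup_right (mem_zpowers y)))
  have h5 := FT.card_dvd_of_le h3
  rw [Nat.card_zpowers, o] at h4
  rw [hP] at h5 ⊢
  have h6 := Nat.le_of_dvd (by norm_num) h5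
  generalize 𝐨((zpowers ρ ⊔ zpowers y : Subgroup G)) = n at h4 h5 h6
  interval_cases n <;> omega

end E5

open E5

theorem SD.final {S : Subgroup G} {a t s : G} (h : SD S a t s)
    (I1 : ∃ ρ ∈ 𝐂(V2 t s), orderOf ρ = 3 ∧
      ∀ b ∈ 𝐂(V2 t s), IsPGroup 3 (zpowers b) → b ∈ zpowers ρ)
    (I2 : ∀ z : G, z ≠ 1 → z * z = 1 → ∀ P ≤ 𝐂[z], IsPGroup 3 P → 𝐨(P) ≤ 3)
    (I3 : ∀ z j q r : G, z ≠ 1 → z * z = 1 → j ∈ 𝐂[z] → j ≠ 1 → j ≠ z → j * j = 1 → q * q = z →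
      r * r = z → r * q * r⁻¹ = q⁻¹ → j * q * j * q⁻¹ = 1 ∨ j * q * j * q⁻¹ = z ∨
        ((j * q * j * q⁻¹) * (j * q * j * q⁻¹) = z ∧ j * q * j * q⁻¹ ∈ zpowers q ⊔ zpowers r) ∨
        (j * q * j * q⁻¹ * z) ^ 3 = 1)
    (I4 : ∀ j x : G, j * j = 1 → orderOf x = 5 → j * x * j⁻¹ ≠ x⁻¹) : False := by
  obtain ⟨ρ, ρC, oρ, hρ⟩ := I1
  obtain ⟨z, σ, zz, sw, tri, ⟨k, oσ⟩, hz⟩ := h.exists_v
  have v4 := h.sm.v4
  have tt := h.zz
  have ti := P5.inv_eq_of_sq tt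
  have p3 : ∀ y : G, orderOf y = 3 → IsPGroup 3 (zpowers y) := fun y e =>
    isPGroup_of_card_prime ((Nat.card_zpowers y).trans e)
  have ni : ∀ {w y : G}, orderOf y = 3 → w * y * w⁻¹ = y⁻¹ → w ∉ 𝐂[y] := fun e =>
    ne_one_of_inv (e ▸ by decide) (e ▸ by decide)
  have NV : 𝐍(V2 t s) ≤ 𝐍(zpowers ρ) := fun g hg => mem_norm_zpowers (hρ _ (conj_mem
    (H1.normalizer_le_normalizer_centralizer _ hg) ρC) (p3 _ ((ord_conj ρ g).trans oρ)))
  have σN := tri.mem_norm v4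
  have σC : σ ∉ 𝐂(V2 t s) := fun e =>
    tri.not_commute v4 (mem_cent1.1 (P7.V4.le_cent_iff.1 e).1).symm
  have σ3 : orderOf σ = 3 := by
    rcases k with _ | _ | m
    · exact absurd (orderOf_eq_one_iff.1 oσ ▸ one_mem _) σC
    · exact oσ
    obtain ⟨e, he, oe⟩ := split h.hom h.ol Nat.prime_three (by norm_num) (X := V2 t s)
      (by rw [v4.card]; norm_num) σN oσ (by
        rw [pow_succ', pow_mul]; exact pow_mem (tri_cube tri v4) _)
    have h1 := orderOf_dvd_card_of_mem (hρ e he (IsPGroup.of_card ((Nat.card_zpowers e).trans oe)))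
    rw [oe, Nat.card_zpowers, oρ, pow_succ, pow_succ] at h1
    have := Nat.le_of_dvd three_pos h1
    have := Nat.one_le_pow m 3 three_pos
    omega
  have σρ : σ ∉ zpowers ρ := fun e => σC (zpowers_le_of_mem ρC e)
  obtain ⟨P, hP, h1⟩ := exists_isSyl_ge Nat.prime_three (isPGroup_sup (p3 σ σ3) (p3 ρ oρ)
    (zpowers_le_of_mem (NV σN))) le_top
  have σP := h1 (mem_sup_left (mem_zpowers σ))
  have ρP := h1 (mem_sup_right (mem_zpowers ρ))
  have ab := isMulComm_iff_le_cent.1 (h.ol.ab Nat.prime_three (by norm_num) hP.pgrp)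
  have ex : Ex P := (h.ol.sc Nat.prime_three (by norm_num) hP.pgrp).resolve_left fun sc => by
    obtain ⟨φ, hφ⟩ := h.hom.order (oρ.trans σ3.symm)
    obtain ⟨g, e1, e2⟩ := h.pair (v4_map v4 φ)
    obtain ⟨c1, c2⟩ := P7.V4.le_cent_iff.1 ρC
    have oy := (ord_conj σ g⁻¹).trans σ3
    have h2 : g⁻¹ * σ * g⁻¹⁻¹ ∈ zpowers ρ := hρ _ (P7.V4.le_cent_iff.2 ⟨by
      rw [inv_inv, ← mem_conj, ← cent1_conj, e1, ← hφ]
      exact mem_cent1.2 (Commute.map (mem_cent1.1 c1) φ), by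
      rw [inv_inv, ← mem_conj, ← cent1_conj, e2, ← hφ]
      exact mem_cent1.2 (Commute.map (mem_cent1.1 c2) φ)⟩) (p3 _ oy)
    have h3 := zpowers_le_of_mem ρP h2
    have h4 : P ^ᵍ g ≤ 𝐂[σ] := by
      have := conj_mono (mem_cent_iff_cent1.1 (ab h3)) g
      rwa [← cent1_conj, show g * (g⁻¹ * σ * g⁻¹⁻¹) * g⁻¹ = σ by group] at this
    obtain ⟨c, hc, h5⟩ := (hP.of_le (mem_cent_iff_cent1.1 (ab σP)) le_top).exists_conj_le
      Nat.prime_three (hP.pgrp.map _) h4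
    rw [conj_conj] at h5
    have h6 := sc _ (mem_norm_of_conj_le h5) _ h3 (oy ▸ Nat.prime_three)
    rw [show c * g * (g⁻¹ * σ * g⁻¹⁻¹) * (c * g)⁻¹ = c * σ * c⁻¹ by group,
      mem_cent1_iff_conj.1 hc] at h6
    exact σρ (zpowers_le_of_mem h2 h6)
  have gen := gen9 ex.card ρP oρ σP σρ
  have PV : P ≤ 𝐍(V2 t s) := gen ▸ sup_le (zpowers_le_of_mem (cent_le_norm _ ρC))
    (zpowers_le_of_mem σN)
  have nrm : ∀ {g y : G}, y ∈ P → y ∉ zpowers ρ → g ∈ 𝐍(zpowers ρ) → g * y * g⁻¹ ∈ zpowers y →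
      g ∈ 𝐍(P) := fun hy h2 h3 h4 => gen9 ex.card ρP oρ hy h2 ▸ zpowers_le.1
    (H1.le_normalizer_sup (zpowers_le_of_mem h3) (zpowers_le_of_mem (mem_norm_zpowers h4)))
  have zP := nrm σP σρ (NV sw.mem_norm) (hz ▸ inv_mem (mem_zpowers σ))
  have odd : ∀ j ∈ 𝐂(P), j * j = 1 → j = 1 := fun j hj jj => by
    by_contra j1
    have := I2 j j1 jj P (mem_cent_iff_cent1.1 hj) hP.pgrp
    rw [ex.card] at this
    omega
  have iv : ∀ j ∈ 𝐍(P), j ≠ 1 → j * j = 1 → ∀ y ∈ P, j * y * j⁻¹ = y⁻¹ := fun j hj j1 jj =>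
    (h.ol.cent_or_inv Nat.prime_three (by norm_num) hP.pgrp hj (jj ▸ one_mem _)).resolve_left
      fun e => j1 (odd j e jj)
  have z1 : z ≠ 1 := fun e => ni σ3 hz (e ▸ one_mem _)
  have zi := iv z zP z1 zz
  obtain ⟨T, hT, zT⟩ := exists_isSyl_ge Nat.prime_two (P4.isPGroup_zpowers_of_sq zz)
    (zpowers_le_of_mem zP)
  replace zT := zT (mem_zpowers z)
  have TC : ∀ g ∈ T, g ∈ 𝐂(P) → g = 1 := fun g hg hc => by
    by_contra g1
    obtain ⟨j, hj, j1, jj⟩ := P4.exists_invol (hT.pgrp.to_le (zpowers_le_of_mem hg))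
      (zpowers_ne_bot.2 g1)
    exact j1 (odd j (zpowers_le_of_mem hc hj) jj)
  have uq : ∀ j ∈ T, j ≠ 1 → j * j = 1 → j = z := fun j hj j1 jj => by
    refine (inv_mul_eq_one.1 (TC _ (mul_mem (inv_mem zT) hj) (mem_cent.2 fun y hy => ?_))).symm
    calc y * (z⁻¹ * j) = z⁻¹ * (z * y * z⁻¹) * j := by group
      _ = _ := by rw [zi y hy, ← iv j (hT.le hj) j1 jj y hy]; group
  have Tz : ∀ g ∈ T, g * z * g⁻¹ = z := fun g hg => uq _ (mul_mem (mul_mem hg zT) (inv_mem hg))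
    (P4.conj_ne_one z1 g) (P4.conj_sq zz g)
  have sq : ∀ g ∈ T, ∀ b ∈ T, g * b ≠ b * g → g * g = z := fun g hg b hb ne => by
    have h2 := TC _ (pow_mem hg 4) (ex.four g (hT.le hg))
    refine uq _ (mul_mem hg hg) (fun gg => ne ?_) (by rw [← h2]; simp [pow_succ, mul_assoc])
    by_cases g1 : g = 1
    · simp [g1]
    · rw [uq g hg g1 gg]; nth_rewrite 1 [← Tz b hb]; group
  obtain ⟨q, hq, r, hr, nc⟩ := ex.exists_nc hT
  replace nc : q * r ≠ r * q := fun e =>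
    nc (commutatorElement_eq_one_iff_mul_comm.2 e ▸ one_mem _)
  have qq := sq q hq r hr nc
  have rr := sq r hr q hq nc.symm
  have qr := sq _ (mul_mem hq hr) r hr fun e => nc (by
    rw [← mul_assoc] at e; exact mul_right_cancel e)
  have rq : r * q * r⁻¹ = q⁻¹ := by
    calc r * q * r⁻¹ = q⁻¹ * (q * r * (q * r)) * (r * r)⁻¹ := by group
      _ = _ := by rw [qr, rr]; group
  have tρ : t ∈ 𝐂[ρ] := mem_cent1_comm.1 (P7.V4.le_cent_iff.1 ρC).1
  have out : ∀ w ∈ T, w * w = z → w * ρ * w⁻¹ ∉ zpowers ρ := fun w hw ww e => by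
    refine ni oρ (zi ρ ρP) (mem_cent1_iff_conj.2 ?_)
    rw [← ww, cj2]
    rcases three_cases oρ e (P4.conj_ne_one (fun e => by simp [e] at oρ) w) with e | e
    · rw [e, e]
    · rw [e, ← conj_inv, e, inv_inv]
  have cw : ∀ w : G, w * t * w⁻¹ * (w * ρ * w⁻¹) * (w * t * w⁻¹)⁻¹ = w * ρ * w⁻¹ := fun w => by
    nth_rewrite 2 [← mem_cent1_iff_conj.1 tρ]; group
  have key : ∀ w ∈ T, w * w = z → w * t * w⁻¹ ≠ t ∧ w * t * w⁻¹ ≠ t * z := fun w hw ww => by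
    have h2 := conj_mem (hT.le hw) ρP
    have h3 : t * (w * ρ * w⁻¹) * t⁻¹ ∉ zpowers (w * ρ * w⁻¹) := fun e =>
      h.z1 (odd t (h.ol.free Nat.prime_three (by norm_num) hP.pgrp t (nrm h2 (out w hw ww)
        (cent_le_norm _ (cent_zpowers ρ ▸ tρ)) e) ρ ρP (fun e => by simp [e] at oρ)
          (mem_cent1.1 tρ).symm) tt)
    have h4 := cw w
    refine ⟨fun e => h3 ?_, fun e => h3 ?_⟩ <;> rw [e] at h4
    · rw [h4]; exact mem_zpowers _
    · rw [cj2, zi _ h2] at h4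
      generalize w * ρ * w⁻¹ = x at h4
      rw [← conj_inv, inv_eq_iff_eq_inv] at h4
      rw [h4]; exact inv_mem (mem_zpowers _)
  have tz : t ∈ 𝐂[z] := mem_cent1_comm.1 (mem_cent1_iff_conj.2 sw.1)
  have ctz : z * t = t * z := mem_cent1.1 tz
  rcases I3 z t q r z1 zz tz h.z1 (fun e => v4.t1 (by
    have := sw.2
    rw [← e, v4.comm.eq, mul_inv_cancel_right] at this
    simpa using this)) tt qq rr rq with e | e | ⟨e, hw⟩ | e
  · refine (key q hq qq).1 ?_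
    calc q * t * q⁻¹ = t⁻¹ * (t * q * t * q⁻¹) := by group
      _ = t := by rw [e, mul_one, ti]
  · refine (key q hq qq).2 ?_
    rw [← e, ← mul_assoc, ← mul_assoc, ← mul_assoc, tt, one_mul]
  · refine (key _ (sup_le (zpowers_le_of_mem hq) (zpowers_le_of_mem hr) hw) e).2 ?_
    rw [← ctz, ← e]
    simp only [mul_inv_rev, inv_inv, ti, mul_assoc]
  have xP := conj_mem (hT.le hq) ρP
  have ox := (ord_conj ρ q).trans oρ
  have x3 : (q * ρ * q⁻¹) ^ 3 = 1 := ox ▸ pow_orderOf_eq_one _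
  have xV : q * ρ * q⁻¹ ∉ 𝐂(V2 t s) := fun e => out q hq qq (hρ _ e (p3 _ ox))
  have jz : q * t * q⁻¹ ∈ 𝐂[z] := mul_mem (mul_mem (mem_cent1_iff_conj.2 (Tz q hq)) tz)
    (inv_mem (mem_cent1_iff_conj.2 (Tz q hq)))
  have jj : q * t * q⁻¹ * z * (q * t * q⁻¹ * z) = 1 := by
    rw [(show Commute z _ from mem_cent1.1 jz).mul_mul_mul_comm, zz, mul_one, P4.conj_sq tt]
  have jx : q * t * q⁻¹ * z * (q * ρ * q⁻¹) * (q * t * q⁻¹ * z)⁻¹ = (q * ρ * q⁻¹)⁻¹ := by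
    rw [cj2, zi _ xP, ← @conj_inv _ _ (q * ρ * q⁻¹), cw]
  have jz' := mul_mem jz (self_mem_cent1 z)
  replace e : (t * (q * t * q⁻¹ * z)) ^ 3 = 1 := by simpa only [mul_assoc] using e
  generalize q * t * q⁻¹ * z = j at jj jx e jz'
  generalize q * ρ * q⁻¹ = x at xP ox x3 xV jx
  have tx : (t * x) ^ 3 = 1 := by
    obtain ⟨c, hc, y, hy, rfl⟩ := (mem_sup_of_norm (zpowers_le_of_mem (NV σN))).1 (gen.ge xP)
    have h2 := zpowers_le_of_mem ρC hc
    obtain ⟨c1, c2⟩ := P7.V4.le_cent_iff.1 h2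
    rw [mem_cent1_iff_conj] at c1 c2
    rcases three_cases σ3 hy (fun e => xV (by simpa [e] using h2)) with rfl | rfl
    · have c3 : c * (t * s) * c⁻¹ = t * s := by rw [← conj_mul, c1, c2]
      exact tri_pow ⟨by rw [cj2, tri.1, c2], by rw [cj2, tri.2, c3]⟩ v4 x3
    · have h3 : Tri (c * σ⁻¹)⁻¹ t s := ⟨by
        rw [mul_inv_rev, inv_inv, cj2, ← tri.1]; nth_rewrite 1 [← c1]; group, by
        rw [mul_inv_rev, inv_inv, cj2, ← tri.2]; nth_rewrite 1 [← c2]; group⟩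
      have h4 := tri_pow h3 v4 (by rw [inv_pow, x3, inv_one])
      generalize c * σ⁻¹ = x at h4
      calc (t * x) ^ 3 = t * ((t⁻¹⁻¹ * x⁻¹) ^ 3)⁻¹ * t⁻¹ := by
            rw [ti, ti]; simp [pow_succ, mul_assoc, ti, tt]
        _ = 1 := by rw [inv_inv, h4]; group
  haveI := Fact.mk Nat.prime_five
  refine I4 t _ tt (orderOf_eq_prime (moore x3 tt jj tx e jx) fun e1 => ni ox (zi x xP) ?_) ?_
  · rw [mem_cent1_comm, show x = t⁻¹ * (t * x * j) * j⁻¹ by group, e1, mul_one]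
    exact mul_mem (inv_mem tz) (inv_mem jz')
  · rw [← mul_assoc, ← mul_assoc, tt, one_mul, mul_inv_rev, mul_inv_rev, ← jx]
    simp [mul_assoc, P5.inv_eq_of_sq jj, ← mul_assoc j j, jj]

end Cfsg.Agent.Hm
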