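/-
Hm, chapter E: the subgroup generated by the square roots of an involution.
-/
import Cfsg.Agent.Hm.E2

set_option autoImplicit false
set_option linter.unusedSectionVars false
set_option linter.style.haveILetI false

namespace Cfsg.Agent.Hm

open Subgroup Cfsg Cfsg.Agent Cfsg.Agent.FT
open Cfsg.Agent.P4 (odd_iff_not_dvd Max2)
open Cfsg.Agent.P5 (V4 Tri)
open Cfsg.Agent.P7 (V2)
open Cfsg.Agent.P17 (Hg)
open Cfsg.Agent.H2 (pPrimeCoreOf)
open Cfsg.Agent.H6.Cyc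
open scoped commutatorElement

universe u

variable {G : Type u} [Group G] [Finite G]

/-- The subgroup generated by the square roots of `t`. -/
def Lz (t : G) : Subgroup G := Subgroup.closure {x | x * x = t}

theorem mem_Lz {t x : G} (h : x * x = t) : x ∈ Lz t := subset_closure h

theorem Lz_le {t : G} {K : Subgroup G} (h : ∀ x, x * x = t → x ∈ K) : Lz t ≤ K :=
  (closure_le K).2 h

theorem sq_cent {t x : G} (h : x * x = t) : x ∈ 𝐂[t] :=
  mem_cent1.2 (h ▸ (mul_assoc x x x))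

theorem Lz_H (t : G) : Lz t ≤ 𝐂[t] := Lz_le fun _ => sq_cent

theorem Lz_aut {t : G} (φ : G ≃* G) (h : φ t = t) {x : G} (hx : x ∈ Lz t) : φ x ∈ Lz t :=
  Lz_le (K := (Lz t).comap φ.toMonoidHom) (fun y e => mem_Lz ((map_mul φ y y).symm.trans
    (e ▸ h))) hx

theorem Lz_map {t : G} (φ : G ≃* G) (h : φ t = t) : (Lz t).map φ.toMonoidHom = Lz t :=
  eq_of_le_of_card_ge (by rintro _ ⟨x, hx, rfl⟩; exact Lz_aut φ h hx) (card_map_inj φ.injective _).ge

theorem H_norm_Lz (t : G) : 𝐂[t] ≤ 𝐍(Lz t) := fun g hg =>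
  conj_eq_self_iff.1 (Lz_map (MulAut.conj g) (mem_cent1_iff_conj.1 hg))

theorem Lz_normal (t : G) : Lz t ⊲ 𝐂[t] := ⟨Lz_H t, H_norm_Lz t⟩

theorem t_cent_Lz (t : G) : t ∈ 𝐂(Lz t) := mem_cent_iff_cent1.2 (Lz_H t)

theorem cent_aut {K : Subgroup G} {φ : G ≃* G} (h : K.map φ.toMonoidHom = K) {x : G}
    (hx : x ∈ 𝐂(K)) : φ x ∈ 𝐂(K) :=
  h ▸ (map_le_cent_iff φ.injective).2 (zpowers_le_of_mem hx) (mem_map_of_mem _ (mem_zpowers x))

namespace SD

variable {S : Subgroup G} {a t s : G} (h : SD S a t s)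
include h

theorem rt {x y : G} (hx : x * x = t) (hy : y * y = t) : ∃ φ : G ≃* G, φ t = t ∧ φ x = y := by
  obtain ⟨φ, e⟩ := h.hom.order ((order_four hx h.z1 h.zz).trans (order_four hy h.z1 h.zz).symm)
  exact ⟨φ, by rw [← hx, map_mul, e, hy, hx], e⟩

theorem L_le {K : Subgroup G} (hK : ∀ φ : G ≃* G, φ t = t → ∀ x ∈ K, φ x ∈ K) {x : G} (hx : x ∈ K)
    (xx : x * x = t) : Lz t ≤ K := Lz_le fun _ e => by
  obtain ⟨φ, h1, rfl⟩ := h.rt xx e
  exact hK φ h1 x hx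

theorem A2 : zpowers (a * a) ≤ zpowers a :=
  zpowers_le_of_mem (mul_mem (mem_zpowers a) (mem_zpowers a))

theorem L_der : Lz t ≤ ⁅(𝐂[t] : Subgroup G), (𝐂[t] : Subgroup G)⁆ := by
  obtain ⟨u, hu, uu⟩ := h.exists_u'
  refine h.L_le (fun φ e x hx => ?_)
    (commutator_mono h.sm.m.le_cent h.sm.m.le_cent (h.sm.sq_der hu)) uu
  have h1 : (𝐂[t]).map φ.toMonoidHom ≤ 𝐂[t] := by
    rintro _ ⟨y, hy, rfl⟩
    exact mem_cent1.2 (e ▸ Commute.map (mem_cent1.1 hy) φ)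
  exact commutator_mono h1 h1 ((map_commutator _ _ _).le (mem_map_of_mem φ.toMonoidHom hx))

theorem ww : a * s * (a * s) = t := by
  rw [mul_assoc, ← mul_assoc s, h.sm.m.cases.resolve_left h.hd, mul_inv_cancel_left]

theorem w_out : a * s ∉ zpowers a := by rw [mul_mem_cancel_left (mem_zpowers a)]; exact h.sx

theorem cover_Q {K : Subgroup G} (h1 : a * a ∈ K) (h2 : a * s ∈ K) {g : G} (hg : g ∈ S) :
    s * g ∈ K ∨ g ∈ K := by
  have h3 := zpowers_le_of_mem h1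
  rcases h.cover g hg with e | e <;> rcases mem_sq_or a e with e' | e'
  · exact Or.inr (h3 e')
  · refine Or.inl ?_
    have := mul_mem (inv_mem h2) (h3 e')
    rwa [mul_inv_rev, h.sm.m.s_inv, mul_assoc, inv_mul_cancel_left] at this
  · exact Or.inl (h3 e')
  · exact Or.inr ((mul_mem_cancel_left h2).1 (mul_assoc a s g ▸ h3 e'))

/-- Thompson transfer in `C(t)`. -/
theorem exists_M {j : G} (hj : j ∈ 𝐂[t]) (j1 : j ≠ 1) (jt : j ≠ t) (jj : j * j = 1) :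
    ∃ M : Subgroup G, M.relIndex 𝐂[t] = 2 ∧ j ∉ M ∧ Lz t ≤ M := by
  have hn : zpowers (a * s) ≤ 𝐍(zpowers (a * a)) := zpowers_le_of_mem
    (norm_le_norm_of_le_cyclic inferInstance h.A2 (h.sm.norm_T (le_norm_self _
      (mul_mem h.xS h.sS))))
  have key : ∀ g ∈ zpowers (a * a) ⊔ zpowers (a * s), g * g = 1 → g = 1 ∨ g = t := fun g hg gg => by
    obtain ⟨y, hy, b, hb, rfl⟩ := (mem_sup_of_norm' hn).1 hg
    have h1 : zpowers (a * s * (a * s)) ≤ zpowers (a * a) := zpowers_le_of_mem (h.ww ▸ h.sm.t_sq)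
    rcases mem_sq_or _ hy with e | e
    · exact h.sm.m.uniq (h.A2 (mul_mem (h1 e) hb)) gg
    · exact absurd ((h.sq_t (by simpa only [mul_assoc] using mul_mem (h1 e) hb)).symm.trans gg) h.z1
  have h1 : zpowers (a * a) ⊔ zpowers (a * s) ≤ S :=
    sup_le (h.A2.trans h.sm.m.X_le) (zpowers_le_of_mem (mul_mem h.xS h.sS))
  have h2 : (zpowers (a * a) ⊔ zpowers (a * s)).relIndex S = 2 :=
    relIndex_eq_two_iff_exists_notMem_and'.2 ⟨s, h.sS, fun e => (key s e h.ss).elim h.sm.v4.s1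
      h.sm.v4.ts.symm, fun g hg => h.cover_Q (mem_sup_left (mem_zpowers _))
        (mem_sup_right (mem_zpowers _)) hg⟩
  obtain ⟨N, -, hN, h3⟩ := H8.exists_normal_index_two_of_not_conj
    ((zpowers (a * a) ⊔ zpowers (a * s)).subgroupOf 𝐂[t]) (odd_iff_not_dvd.2 h.sm.syl_H.ndvd)
    (by rw [← h2]; exact (relIndex_mul_relIndex _ _ _ h1 h.sm.m.le_cent).symm) (t := ⟨j, hj⟩)
    (Subtype.ext ((pow_two j).trans jj)) fun g e => by
      rcases key _ e (P4.conj_sq jj g) with e | e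
      · exact P4.conj_ne_one j1 _ e
      · exact jt (by simpa using e.trans (mem_cent1_iff_conj.1 g.2).symm)
  have h4 : (N.map (𝐂[t]).subtype).relIndex 𝐂[t] = 2 := by
    rw [relIndex, subgroupOf, comap_map_eq_self_of_injective (subtype_injective _), hN]
  refine ⟨_, h4, ?_, h.L_der.trans (der_le_of_two h4.dvd)⟩
  rintro ⟨x, hx, e⟩
  exact h3 ((Subtype.ext e : x = ⟨j, hj⟩) ▸ hx)

theorem uniq_L {j : G} (hj : j ∈ Lz t) (jj : j * j = 1) : j = 1 ∨ j = t := by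
  by_contra! h0
  obtain ⟨M, -, h1, h2⟩ := h.exists_M (Lz_H t hj) h0.1 h0.2 jj
  exact h1 (h2 hj)

theorem tL : t ∈ Lz t := by
  have := mul_mem (mem_Lz h.ww) (mem_Lz h.ww)
  rwa [h.ww] at this

theorem aaL : a * a ∈ Lz t := by
  have h1 : s * a * (s * a) = t := h.sq_t (by
    rw [← mul_assoc s, h.ss, one_mul]; exact mem_zpowers _)
  have := mul_mem (mem_Lz h.ww) (mem_Lz h1)
  rwa [mul_assoc, ← mul_assoc s, h.ss, one_mul] at this

theorem sL : s ∉ Lz t := fun e => (h.uniq_L e h.ss).elim h.sm.v4.s1 h.sm.v4.ts.symm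

theorem rel_L : (Lz t).relIndex S = 2 := relIndex_eq_two_iff_exists_notMem_and'.2
  ⟨s, h.sS, h.sL, fun _ hg => h.cover_Q h.aaL (mem_Lz h.ww) hg⟩

theorem odd_of_notMem {A : Subgroup G} (hA : A ≤ Lz t) (ht : t ∉ A) : Odd 𝐨(A) := by
  by_contra h0
  obtain ⟨j, hj, j1, jj⟩ := P4.exists_invol_of_even (not_not.1 (mt odd_iff_not_dvd.2 h0))
  exact ht ((h.uniq_L (hA hj) jj).resolve_left j1 ▸ hj)

theorem hom_L : Hg (Lz t) := P17.hg_of_inv fun A hA f hf hL => by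
  obtain ⟨φ, h1⟩ := h.hom.ext f hf
  by_cases ht : t ∈ A
  · have h2 := hL ⟨t, ht⟩
    rw [← h1] at h2
    exact ⟨φ, fun _ => Lz_aut φ ((h.uniq_L h2 (by rw [← map_mul, h.zz, map_one])).resolve_left
      (φ.map_ne_one_iff.2 h.z1)), h1⟩
  have ho := h.odd_of_notMem hA ht
  have c := P4.isPGroup_zpowers_of_sq h.zz
  obtain ⟨ψ, h2, h3⟩ := h.hom.cyc_ext (U := A) (ψ := φ) (b := t) (b' := t)
    (cent_le_norm _ (cent_anti hA (t_cent_Lz t))) (fun _ _ _ _ => map_mul _ _ _) (fun u hu => by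
      rw [mem_cent1_iff_conj.1 (mem_cent1_comm.1 (Lz_H t (hA hu))), mem_cent1_iff_conj.1
        (mem_cent1_comm.1 (Lz_H t (h1 ⟨u, hu⟩ ▸ hL _)))]) fun k u hu => by
      rw [cop_rel (P4.coprime_of_odd c ho).symm (zpow_mem (mem_zpowers t) k) hu,
        cop_rel (B := A.map φ.toMonoidHom) (u := φ u) (P4.coprime_of_odd c (by
          rwa [card_map_inj φ.injective])).symm (zpow_mem (mem_zpowers t) k) ⟨u, hu, rfl⟩,
        φ.map_eq_one_iff]
  exact ⟨ψ, fun _ => Lz_aut ψ h3, fun x => (h2 x x.2).trans (h1 x)⟩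

theorem not_cent_u {u y : G} (hu : u ∈ zpowers a) (uu : u * u = t) (hy : y ∈ S)
    (hT : y ∉ zpowers a) : y ∉ 𝐂[u] := fun e => h.z1 (by
  have h1 := (h.sw_u hu uu hy hT).2
  rw [mem_cent1_iff_conj.1 (mem_cent1_comm.1 e)] at h1
  exact right_eq_mul.1 h1)

theorem core_L {p : ℕ} (hp : p.Prime) (p2 : p ≠ 2) : pCoreOf p (Lz t) = ⊥ := by
  by_contra h0
  have hY := H2.isPGroup_pCoreOf p (Lz t)
  have hn := (pCoreOf_normal p (Lz t)).2
  have h1 : ∀ x, x * x = t → x ∈ 𝐂(pCoreOf p (Lz t)) ∨ ∀ y ∈ pCoreOf p (Lz t),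
      x * y * x⁻¹ = y⁻¹ := fun x e => h.ol.cent_or_inv hp p2 hY (hn (mem_Lz e))
    (by rw [e]; exact cent_anti (pCoreOf_normal p _).1 (t_cent_Lz t))
  have h2 : Lz t ≤ 𝐂(pCoreOf p (Lz t)) := by
    by_contra h3
    have h4 : ∀ x, x * x = t → x ∉ 𝐂(pCoreOf p (Lz t)) := fun x e e' => h3 (h.L_le
      (fun φ e _ => cent_aut (by rw [← pCoreOf_map φ.injective hp, Lz_map φ e])) e' e)
    obtain ⟨u, hu, uu⟩ := h.exists_u'
    have h5 : a * s * u * (a * s * u) = t := h.sq_t (by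
      rw [← mul_assoc, ← mul_assoc, h.ww]; exact mul_mem h.sm.t_sq hu)
    refine h4 u uu (mem_cent.2 fun y hy => ?_)
    have h6 := (h1 _ h5).resolve_left (h4 _ h5) y hy
    rw [cj2, ← (h1 _ h.ww).resolve_left (h4 _ h.ww) y hy, mul_left_inj, mul_right_inj] at h6
    exact (mul_inv_eq_iff_eq_mul.1 h6).symm
  obtain ⟨y, hy, y1, oy⟩ := exists_prime_elt hp hY h0
  obtain ⟨P, hP, h3⟩ := exists_isSyl_ge hp hY (pCoreOf_normal p _).1
  have h4 := burnside_npc hp hP fun g hg => h.ol.cent_of_mem hp p2 hP.pgrp hg.2 (h3 hy) y1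
    (cent_le_cent1 hy (h2 hg.1))
  refine not_dvd_card_pPrimeCoreOf hp (Lz t) (oy.symm.dvd.trans <| orderOf_dvd_card_of_mem (Lz_le (fun x e =>
    h4.le_pPrimeCoreOf hp (zpowers_le_of_mem (mem_Lz e)) (fun e' => ?_) (mem_zpowers x))
      ((pCoreOf_normal p _).1 hy)))
  rw [Nat.card_zpowers, order_four e h.z1 h.zz] at e'
  exact p2 ((Nat.prime_dvd_prime_iff_eq hp Nat.prime_two).1 (hp.dvd_of_dvd_pow (n := 2) e'))

end SD

end Cfsg.Agent.Hm
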