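/-
Hm, chapter E: the solvable case.
-/
import Cfsg.Agent.Hm.E3

set_option autoImplicit false
set_option linter.unusedSectionVars false
set_option linter.style.haveILetI false

namespace Cfsg.Agent.Hm

open Subgroup Cfsg Cfsg.Agent Cfsg.Agent.FT
open Cfsg.Agent.P4 (odd_iff_not_dvd Max2)
open Cfsg.Agent.P5 (V4 Tri)
open Cfsg.Agent.P7 (V2)
open Cfsg.Agent.P17 (Hg)
open Cfsg.Agent.H2 (pPrimeCoreOf)
open Cfsg.Agent.H6.Cyc
open scoped commutatorElement

universe u

variable {G : Type u} [Group G] [Finite G]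

namespace SD

variable {S : Subgroup G} {a t s : G} (h : SD S a t s)
include h

theorem root_L {K : Subgroup G} (hK : K ≤ Lz t) (h2 : IsPGroup 2 K) (h0 : ¬ K ≤ zpowers t) :
    ∃ y ∈ K, y * y = t := by
  obtain ⟨g, hg, h1⟩ := not_forall₂.1 h0
  obtain ⟨y, hy, yy⟩ := h.root (Lz_H t (hK hg)) (h2.to_le (zpowers_le_of_mem hg)) fun e => by
    rcases h.uniq_L (hK hg) e with rfl | rfl
    exacts [h1 (one_mem _), h1 (mem_zpowers _)]
  exact ⟨y, zpowers_le_of_mem hg hy, yy⟩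

theorem two_L (hs : Group.IsSolvable (Lz t)) : IsPGroup 2 (Lz t) := by
  have h1 : IsPGroup 2 (fittingOf (Lz t)) := P4.isPGroup_of_forall_odd fun x hx ho => by
    by_contra h0
    obtain ⟨p, hp, hd⟩ := Nat.exists_prime_and_dvd (mt orderOf_eq_one_iff.1 h0)
    exact not_dvd_card_fittingOf hp (h.core_L hp (ne_two_of_dvd ho hd))
      (hd.trans (orderOf_dvd_card_of_mem hx))
  refine h1.to_le ?_
  by_cases h2 : fittingOf (Lz t) ≤ zpowers t
  · exact (le_inf le_rfl ((cent_zpowers t ▸ Lz_H t).trans (cent_anti h2))).trans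
      (cent_fittingOf_le hs)
  obtain ⟨y, hy, yy⟩ := h.root_L (fittingOf_normal _).1 h1 h2
  exact h.L_le (fun φ e x hx => by
    rw [← Lz_map φ e, fittingOf_map φ.injective]; exact mem_map_of_mem _ hx) hy yy

theorem solv (hs : Group.IsSolvable (Lz t)) : False := by
  have L2 := h.two_L hs
  have LS := h.sm.syl_H.le_of_le_norm Nat.prime_two L2 (Lz_H t)
    (h.sm.m.le_cent.trans (H_norm_Lz t))
  have uu : a * a * (a * a) = t := by
    obtain ⟨u, hu, uu⟩ := h.exists_u'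
    obtain ⟨φ, e1, e2⟩ := h.rt uu h.ww
    obtain ⟨k, rfl⟩ := hu
    rcases h.sm.sq_out (LS (Lz_aut φ e1 h.aaL)) (fun e => h.w_out
      (e2 ▸ map_zpow φ _ k ▸ zpow_mem e k)) with e | e <;> rw [← map_mul] at e
    · exact absurd (φ.map_eq_one_iff.1 e) h.a4
    · exact φ.injective (e.trans e1.symm)
  have o4 := order_four uu h.z1 h.zz
  have L8 : 𝐨(Lz t) = 8 := by
    have h1 := H1.card_mul_relIndex LS
    rw [h.rel_L, h.sm.m.card, orderOf_eq_prime_pow (p := 2) (n := 2) (x := a) (by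
      simpa only [pow_succ, pow_zero, one_mul, mul_assoc, Nat.reduceMul] using h.a4) (by
      rw [show 2 ^ (2 + 1) = 2 * 4 by norm_num, pow_mul, pow_two, ← o4, pow_orderOf_eq_one])] at h1
    omega
  have uT : a * a ∈ zpowers a := h.A2 (mem_zpowers _)
  have SN : S ≤ 𝐍(zpowers (a * a)) := ((le_norm_self S).trans h.sm.norm_T).trans
    (norm_le_norm_of_le_cyclic inferInstance h.A2)
  have i3 : (𝐍(zpowers (a * a)) : Subgroup G).relIndex 𝐂[t] = 3 := by
    have h1 : (𝐂[a * a] : Subgroup G).relIndex 𝐂[t] ≤ 8 := by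
      rw [← card_class]
      refine (Set.ncard_le_ncard (t := Lz t) (classSupp_subset (Set.singleton_subset_iff.2 h.aaL)
        (H_norm_Lz t))).trans ?_
      rw [← Nat.card_coe_set_eq]
      exact L8.le
    rw [← relIndex_mul_relIndex _ _ _ (St.KN _) ((norm_le_norm_of_le_cyclic inferInstance
      (zpowers_le_of_mem h.sm.t_sq)).trans (norm_invol h.z1 h.zz)),
      ((Nat.dvd_prime Nat.prime_two).1 (rel_u o4)).resolve_left fun e =>
        h.not_cent_u uT uu h.sS h.sx (relIndex_eq_one.1 e (SN h.sS))] at h1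
    have h2 : ¬ 2 ∣ (𝐍(zpowers (a * a)) : Subgroup G).relIndex 𝐂[t] := fun e =>
      h.sm.syl_H.ndvd (e.trans (relIndex_dvd_of_le_left _ SN))
    have h3 : (𝐍(zpowers (a * a)) : Subgroup G).relIndex 𝐂[t] ≠ 1 := fun e =>
      h.not_cent_u uT uu (mul_mem h.xS h.sS) h.w_out (cent_zpowers (a * a) ▸ der_le_cent_of_cyclic
        inferInstance (relIndex_eq_one.1 e) (h.L_der (mem_Lz h.ww)))
    omega
  obtain ⟨P, hP⟩ := exists_isSyl Nat.prime_three 𝐂[t]
  obtain ⟨y, hy, y1⟩ := not_forall₂.1 fun e : P ≤ 𝐍(zpowers (a * a)) =>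
    hP.ndvd (i3 ▸ relIndex_dvd_of_le_left _ e)
  have y2 : y ∉ 𝐂(Lz t) := fun e => y1 (St.KN _ (cent_le_cent1 h.aaL e))
  obtain ⟨k, oy⟩ := exists_card_eq_pow Nat.prime_three (hP.pgrp.to_le (zpowers_le_of_mem hy))
  rw [Nat.card_zpowers] at oy
  obtain ⟨m, rfl⟩ := Nat.exists_eq_succ_of_ne_zero fun e : k = 0 =>
    y1 (by rw [e, pow_zero, orderOf_eq_one_iff] at oy; exact oy ▸ one_mem _)
  have c1 : y ^ 3 ^ m ∉ 𝐂(Lz t) := fun e => by
    obtain ⟨b, hb, ob⟩ := split h.hom h.ol Nat.prime_three (by norm_num) (L8 ▸ by norm_num)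
      (H_norm_Lz t (hP.le hy)) oy e
    obtain ⟨φ, e1, rfl⟩ := fix_order h.hom h.zz (cent_le_cent1 h.tL hb) (hP.le hy)
      (ob.trans oy.symm) (ob ▸ Odd.pow (by decide))
    exact y2 (cent_aut (Lz_map φ e1) hb)
  have c3 : orderOf (y ^ 3 ^ m) = 3 := by
    rw [orderOf_pow_of_dvd (by positivity) (oy ▸ pow_dvd_pow 3 m.le_succ), oy, pow_succ',
      Nat.mul_div_cancel _ (by positivity)]
  have cH := pow_mem (hP.le hy) (3 ^ m)
  generalize y ^ 3 ^ m = c at c1 c3 cH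
  have ho : ∀ g, Odd 𝐨(zpowers (g * c * g⁻¹)) := fun g => by
    rw [Nat.card_zpowers, ord_conj, c3]; decide
  refine h.s3 c3 (h.syl_t cH (fun x hx xx => c1 ?_) fun j hj hj' jj => ?_)
  · have h1 := zpowers_le_of_mem (H_norm_Lz t cH)
    have h2 := zpowers_le_of_mem (mem_cent1_comm.1 hx)
    refine H1.le_centralizer_of_commutator_le h1 (P4.coprime_of_odd L2 (by simpa using ho 1))
      (comm_le_of_two ?_ h1 (h2.trans (St.KN x))) (cent_zpowers x ▸ h2) (mem_zpowers c)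
    rw [← H1.card_mul_relIndex (zpowers_le_of_mem (mem_Lz xx)), Nat.card_zpowers,
      order_four xx h.z1 h.zz] at L8
    exact ⟨1, by omega⟩
  by_contra! h0
  obtain ⟨g, hg, h1⟩ := h.into_S hj' (P4.isPGroup_zpowers_of_sq jj)
  have h2 : g * j * g⁻¹ ∉ Lz t := fun e => (h.uniq_L ((mem_normalizer_iff.1 (H_norm_Lz t hg) j).2 e)
    jj).elim h0.1 h0.2
  have h3 : g * c * g⁻¹ ∈ 𝐍(S) := mem_norm_of_conj_le (conj_le_iff.2 fun x hx => by
    have h4 := H_norm_Lz t (mul_mem (mul_mem hg cH) (inv_mem hg))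
    rw [mem_conj, inv_inv]
    by_cases e : x ∈ Lz t
    · exact LS (conj_mem h4 e)
    have h5 := LS (conj_mem h4 ((mul2 h.rel_L h1 hx).2 (iff_of_false h2 e)))
    rwa [← conj_mul, mem_cent1_iff_conj.1 (mem_cent1.2 (P5.commute_cj g (mem_cent1.1 hj).symm)),
      mul_mem_cancel_left h1] at h5)
  exact c1 ((mem_normalizer_iff.1 (H1.normalizer_le_normalizer_centralizer _ (H_norm_Lz t hg)) c).2
    (cent_anti LS (h.sm.norm_S (ho g) (zpowers_le_of_mem h3) (mem_zpowers _))))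

end SD

end Cfsg.Agent.Hm
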