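/-
Hm, chapter F, part 2: quasisimple homogeneous groups.
-/
import Cfsg.Agent.Hm.F1
import Cfsg.Agent.Hm.D2

set_option autoImplicit false
set_option linter.unusedSectionVars false
set_option linter.style.haveILetI false

namespace Cfsg.Agent.Hm

open Subgroup Cfsg Cfsg.Agent Cfsg.Agent.FT Cfsg.Agent.H4.SL2
open Cfsg.Agent.P4 (Max2)
open Cfsg.Agent.H6.Cyc (conj_mem Cv LS)
open scoped commutatorElement

universe u

variable {G : Type u} [Group G] [Finite G]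

theorem Hom.f_mem (h : Hom G) {N : Subgroup G} (hN : N.Characteristic) {x y : G} (hx : x ∈ N)
    (e : orderOf x = orderOf y) : y ∈ N := by
  obtain ⟨φ, rfl⟩ := P17.Hg.order h e
  exact characteristic_iff_le_comap.1 hN φ hx

omit [Finite G] in
theorem f_exists_sq {C : Subgroup G} (k : ℕ) : ∀ {g : G}, g ^ 2 ^ k ∈ C → g ∉ C →
    ∃ w ∈ zpowers g, w ∉ C ∧ w * w ∈ C := by
  induction k with
  | zero => exact fun h1 h2 => absurd (by simpa using h1) h2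
  | succ k ih =>
    intro g h1 h2
    by_cases h3 : g * g ∈ C
    · exact ⟨g, mem_zpowers g, h2, h3⟩
    obtain ⟨w, hw, e⟩ := ih (by rwa [← sq, ← pow_mul, ← pow_succ']) h3
    exact ⟨w, zpowers_le_of_mem (mul_mem (mem_zpowers g) (mem_zpowers g)) hw, e⟩

omit [Finite G] in
theorem f_exists_sq' {C T : Subgroup G} (hT : IsPGroup 2 T) (h : ¬ T ≤ C) :
    ∃ w ∈ T, w ∉ C ∧ w * w ∈ C := by
  obtain ⟨g, hg, h1⟩ := not_forall₂.1 h
  obtain ⟨k, hk⟩ := hT ⟨g, hg⟩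
  obtain ⟨w, hw, e⟩ := f_exists_sq k (g := g)
    (by rw [show g ^ 2 ^ k = 1 from congrArg Subtype.val hk]; exact one_mem C) h1
  exact ⟨w, zpowers_le_of_mem hg hw, e⟩

theorem f_cv (hC : CStmt.{u}) (os : OS G) [hs : IsSimpleGroup G] (na : ¬ IsMulCommutative G)
    (h : 8 ∣ Nat.card G → ∃ (S : Subgroup G) (a t s : G) (ψ : G ≃* G), Max2 S a t s ∧ a * a ≠ 1 ∧
      s * a * s = a⁻¹ ∧ ψ a = a ∧ ψ s = s * a) :
    (∃ (K : Subgroup G) (t s : G), P3.BSW K t s) ∧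
      ∃ (r : ℕ) (_ : Fact r.Prime), 5 ≤ r ∧ Nonempty (G ≃* P4.PSL (ZMod r)) := by
  have b : ∃ (K : Subgroup G) (t s : G), P3.BSW K t s := by
    by_cases h8 : 8 ∣ Nat.card G
    · obtain ⟨S, a, t, s, ψ, m, a2, hd, h1, h2⟩ := h h8
      exact hC G os hs na S a t s m a2 hd ψ h1 h2
    · exact P5.gw4 na h8
  obtain ⟨K, t, s, b'⟩ := id b
  exact ⟨b, pStmt G os (H6.Cyc.not_solv na) K t s b'⟩

theorem odd_zmod {r : ℕ} [hr : Fact r.Prime] (r5 : 5 ≤ r) : Odd (Nat.card (ZMod r)) := by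
  rw [Nat.card_zmod]; exact hr.out.odd_of_ne_two (by omega)

theorem cv_simple (hA : AStmt.{u}) (hB : BStmt.{u}) (hC : CStmt.{u}) (hE : EStmt.{u}) (h : Hom G)
    [hs : IsSimpleGroup G] (na : ¬ IsMulCommutative G) :
    ∃ (r : ℕ) (_ : Fact r.Prime) (π : SL (ZMod r) →* G), Cv r π ⊤ 1 := by
  have ol := hA G h
  have key : 8 ∣ Nat.card G → ∃ (S : Subgroup G) (a t s : G), Max2 S a t s ∧ a * a ≠ 1 ∧
      s * a * s = a⁻¹ := fun h8 => by
    obtain ⟨S, a, t, s, m, a2⟩ := hB G h ol hs na h8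
    exact ⟨S, a, t, s, m, a2, by_contra (hE G h ol hs na S a t s m a2)⟩
  have aq : AQ G := by
    by_cases h8 : 8 ∣ Nat.card G
    · obtain ⟨S, a, t, s, m, -, hd⟩ := key h8
      refine aq_of m.syl (a := a) fun g hg => (m.cover g hg).imp_right fun e => ?_
      have : g * g = 1 := by
        calc g * g = (s * s)⁻¹ * (s * (s * g) * s) * s⁻¹ * g := by group
          _ = 1 := by rw [m.inv_of hd _ e, m.ss, m.s_inv]; simp [m.s_inv, mul_assoc, ← mul_assoc s s, m.ss]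
      exact this ▸ one_mem _
    · exact fun R hR x hx y hy => Or.inl (mem_cent.1 (isMulComm_iff_le_cent.1
        (H5.isMulComm_of_not_eight_dvd h8 hR) hy) x hx)
  obtain ⟨-, r, hr, r5, ⟨e⟩⟩ := f_cv hC (ol.f_os aq) na fun h8 => by
    obtain ⟨S, a, t, s, m, a2, hd⟩ := key h8
    obtain ⟨ψ, h1⟩ := f_swap h m.sx (by rwa [m.s_inv]) (m.ss ▸ one_mem _)
    exact ⟨S, a, t, s, ψ, m, a2, hd, h1⟩
  obtain ⟨π, hπ⟩ := P7.exists_cov (L := ⊤) (topEquiv.trans e) (odd_zmod r5)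
  exact ⟨r, hr, π, hπ.range, Or.inl ⟨rfl, hπ.ker⟩, r5⟩

theorem OL.f_center (ol : OL G) [Group.IsPerfect G] : IsPGroup 2 (center G) :=
  P4.isPGroup_of_forall_odd fun x hx ho => by
    by_contra h1
    obtain ⟨p, hp, hd⟩ := Nat.exists_prime_and_dvd (mt orderOf_eq_one_iff.1 h1)
    obtain ⟨y, hy, h2⟩ := exists_mem_orderOf_eq_prime hp (H := zpowers x)
      (by rwa [Nat.card_zpowers])
    haveI := Fact.mk hp
    obtain ⟨P, hP⟩ := (isPGroup_of_card_prime (X := zpowers y)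
      (by rw [Nat.card_zpowers, h2])).exists_le_sylow
    haveI := ol.ab hp (fun e => P4.odd_iff_not_dvd.1 ho (e ▸ hd)) P.isPGroup'
    rw [H6.Cyc.eq_one_of_transfer P (hP (mem_zpowers y)) Group.IsPerfect.mem_commutator
      fun n _ => (mem_center_iff.1 (zpowers_le_of_mem hx hy) n).symm, orderOf_one] at h2
    exact hp.one_lt.ne h2

theorem f_perf (hB : BStmt'.{u}) (h : Hom G) [pf : Group.IsPerfect G]
    (h2 : pCoreOf 2 (⊤ : Subgroup G) ≠ ⊥) : ∃ (S : Subgroup G) (x y z : G), Qt S x y z ∧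
      pCoreOf 2 (⊤ : Subgroup G) ≤ zpowers z := by
  obtain ⟨z, z1, zz, hz⟩ := hB G h pf.commutator_eq_top h2
  haveI : Nontrivial G := ⟨z, 1, z1⟩
  obtain ⟨S, x, y, q⟩ := exists_qt (Group.IsPerfect.not_isSolvable G) z1 zz hz
  refine ⟨S, x, y, z, q, by_contra fun h0 => ?_⟩
  obtain ⟨w, hw, w1, ww⟩ := f_exists_sq' (H2.isPGroup_pCoreOf 2 ⊤) h0
  have h3 : w * w = z := (Cj.eq_or_of_mem_zpowers zz ww).resolve_left fun e => by
    rcases hz w e with rfl | rfl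
    exacts [w1 (one_mem _), w1 (mem_zpowers _)]
  have hc : (pCoreOf 2 (⊤ : Subgroup G)).Characteristic :=
    H2.pCoreOf_top (G := G) 2 ▸ L.pCore_characteristic Nat.prime_two
  have h4 : ∀ g ∈ S, g ∉ zpowers x → g ∈ pCoreOf 2 ⊤ := fun g hg e =>
    h.f_mem hc hw ((q.ord h3).trans (q.ord (q.sq hg e)).symm)
  have h5 : S ≤ pCoreOf 2 ⊤ := fun g hg => by
    by_cases e : g ∈ zpowers x
    · exact (mul_mem_cancel_left (h4 y q.yS q.yx)).1
        (h4 _ (mul_mem q.yS hg) (mt (mul_mem_cancel_right e).1 q.yx))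
    · exact h4 g hg e
  refine Group.IsPerfect.not_isSolvable G (L.isSolvable_of_normal_of_quotient (pCoreOf 2 ⊤)
    (P4.solvable_of_two (H2.isPGroup_pCoreOf 2 ⊤)) (feit_thompson _ ?_))
  rw [P4.odd_iff_not_dvd, ← index_eq_card]
  exact fun e => q.syl.ndvd (relIndex_top_right S ▸ e.trans (index_dvd_of_le h5))

theorem cv_two (hA : AStmt.{u}) (hB : BStmt'.{u}) (hC : CStmt.{u}) (h : Hom G)
    (hq : IsQuasisimple G) (ns : ¬ IsSimpleGroup G) :
    ∃ (r : ℕ) (_ : Fact r.Prime) (π : SL (ZMod r) →* G), Cv r π ⊤ 2 := by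
  have ol := hA G h
  haveI := hq.1
  haveI := hq.2
  have h1 : center G ≤ pCoreOf 2 ⊤ :=
    le_pCoreOf ⟨le_top, normal_iff_top_le.1 inferInstance⟩ ol.f_center
  obtain ⟨S, x, y, z, q, h2⟩ := f_perf hB h fun e =>
    ns (H2.isSimpleGroup_of_isQuasisimple hq (le_bot_iff.1 (e ▸ h1)))
  have d : Cj.DC (QuotientGroup.mk' (center G)) z :=
    ⟨QuotientGroup.mk'_surjective _, q.z1, q.zz, (QuotientGroup.eq_one_iff z).2 q.cen, fun g hg =>
      Cj.eq_or_of_mem_zpowers q.zz (h2 (h1 ((QuotientGroup.eq_one_iff g).1 hg))), q.uniq⟩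
  obtain ⟨⟨K, t, s, b⟩, r, hr, r5, ⟨e⟩⟩ := f_cv hC (OS.f_quot d (ol.f_os q.aq))
    (Group.IsPerfect.not_isMulCommutative _) fun h8 => by
      obtain ⟨a2, hd, t, m⟩ := q.max2 d h8
      obtain ⟨ψ, e1, e2⟩ := f_swap h q.yx q.inv (q.yy ▸ q.zx')
      refine ⟨_, _, t, _, QuotientGroup.congr _ _ ψ (characteristic_iff_map_eq.1 inferInstance ψ),
        m, a2, hd, ?_, ?_⟩
      · exact congrArg (QuotientGroup.mk' (center G)) e1
      · exact congrArg (QuotientGroup.mk' (center G)) e2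
  obtain ⟨w, d2⟩ := H6.Cyc.exists_DC_SL2 (two_ne_zero_of_odd (Nat.odd_iff.1 (odd_zmod r5)))
  obtain ⟨f⟩ := H6.Cyc.dc_equiv d (d2.comp e.symm) b
  exact ⟨r, hr, f.symm.toMonoidHom, MonoidHom.range_eq_top.2 f.symm.surjective,
    Or.inr ⟨rfl, (MonoidHom.ker_eq_bot_iff _).2 f.symm.injective⟩, r5⟩

variable {r : ℕ} [hr : Fact r.Prime] {π : SL (ZMod r) →* G} {L : Subgroup G} {d k l : ℕ}

theorem f_pow (h : Hom G) (hL : L.Characteristic) (cv : Cv r π L d) {c : G} (hc : c ∈ L)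
    (cc : c * c ≠ 1) (ho : ¬ r ∣ orderOf c) {n : ℕ} (hn : (orderOf c).Coprime n) :
    c ^ n = c ∨ c ^ n = c⁻¹ := by
  obtain ⟨φ, e⟩ := P17.Hg.order h hn.orderOf_pow.symm
  exact e ▸ cv_semi cv (characteristic_iff_map_eq.1 hL φ) hc cc ho
    (e ▸ pow_mem (self_mem_cent1 c) n)

theorem f_gen (ls : LS L d r k l) {b : G} (hb : b ∈ L) (bb : b * b ≠ 1) (ho : ¬ r ∣ orderOf b) :
    ∃ c ∈ L, orderOf c = 𝐨((L ⊓ 𝐂[b] : Subgroup G)) := by
  obtain ⟨c, e⟩ := isCyclic_iff_zpowers.1 (ls.cent b hb bb ho).1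
  exact ⟨c, (e.le (mem_zpowers c)).1, by rw [← e, Nat.card_zpowers]⟩

theorem f_cen (ls : LS L d r k l) {g : G} (hg : g ∈ L) (hc : g ∈ 𝐂(L)) : orderOf g ∣ d := by
  obtain ⟨p, hp, hd⟩ := Nat.exists_prime_and_dvd (show l ≠ 1 by have := ls.three_le; omega)
  obtain ⟨b, hb, ob⟩ := exists_mem_orderOf_eq_prime hp (hd.trans ls.l_dvd)
  obtain ⟨P, hP, cP⟩ := exists_le_card_eq_prime ls.rp ls.r_dvd
  have h1 := Nat.dvd_gcd ((ls.unip P hP cP).1 ▸ orderOf_dvd_card_of_mem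
    (mem_inf.2 ⟨hg, cent_anti hP hc⟩)) (ls.cent_l hb (fun e => hp.one_lt.ne (by
      rw [← ob, e, orderOf_one])) (ob ▸ hd) ▸ orderOf_dvd_card_of_mem
        (mem_inf.2 ⟨hg, cent_le_cent1 hb hc⟩))
  rwa [Nat.gcd_mul_left, ls.cop_rl, mul_one] at h1

theorem f_inv (ls : LS L d r k 3) : ∃ b ∈ L, ∃ i ∈ L, orderOf b = 3 ∧ i * b * i⁻¹ = b⁻¹ ∧
    orderOf i = 2 * d ∧ i ∉ 𝐂(L) := by
  obtain ⟨b, hb, ob⟩ := exists_mem_orderOf_eq_prime Nat.prime_three ls.l_dvd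
  have bb := ls.sq_ne (fun e => by rw [e, orderOf_one] at ob; omega) ob.dvd
  obtain ⟨-, -, ⟨i, hi, ii, h3⟩, -⟩ := ls.cent b hb bb (ls.not_r (ob.dvd.mul_left _))
  replace h3 := h3 b ⟨hb, self_mem_cent1 b⟩
  have i1 : i ∉ 𝐂(L) := fun e => bb (by
    rw [← mem_cent.1 e b hb, mul_inv_cancel_right] at h3
    exact mul_eq_one_iff_eq_inv.2 h3)
  have h4 := orderOf_dvd_iff_pow_eq_one.1 (f_cen ls (mul_mem hi hi) ii)
  refine ⟨b, hb, i, hi, ob, h3, ?_, i1⟩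
  rcases ls.d12 with rfl | rfl
  · exact P4.orderOf_two (fun e => i1 (e ▸ one_mem _)) (by rwa [pow_one] at h4)
  · haveI := Fact.mk Nat.prime_two
    refine orderOf_eq_prime_pow (p := 2) (n := 1) (fun e => i1 (ls.uniq rfl i hi ?_)) ?_
    · rwa [pow_one, pow_two] at e
    · rwa [← pow_two, ← pow_mul] at h4

theorem f_num (h : Hom G) (hL : L.Characteristic) (cv : Cv r π L d) (ls : LS L d r k l) :
    l = 3 ∧ (r = 5 ∨ (d = 1 ∧ r = 7)) := by
  have l3 : l = 3 := by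
    have h3 := ls.three_le
    obtain ⟨p, hp, hd⟩ := Nat.exists_prime_and_dvd (show l ≠ 1 by omega)
    obtain ⟨b, hb, ob⟩ := exists_mem_orderOf_eq_prime hp (hd.trans ls.l_dvd)
    have b1 : b ≠ 1 := fun e => hp.one_lt.ne (by rw [← ob, e, orderOf_one])
    obtain ⟨c, hc, oc⟩ := f_gen ls hb (ls.sq_ne b1 (ob ▸ hd)) (ls.not_r ((ob ▸ hd).mul_left _))
    rw [ls.cent_l hb b1 (ob ▸ hd)] at oc
    have d0 : d ≠ 0 := by rcases ls.d12 with e | e <;> omega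
    have o2 : orderOf (c ^ d) = l := by
      rw [orderOf_pow_of_dvd d0 (oc ▸ dvd_mul_right _ _), oc, Nat.mul_div_cancel_left _ (Nat.pos_of_ne_zero d0)]
    have c1 : c ^ d ≠ 1 := fun e => by rw [e, orderOf_one] at o2; omega
    rcases f_pow h hL cv (pow_mem hc d) (ls.sq_ne c1 o2.dvd) (ls.not_r (o2.dvd.mul_left _)) (n := 2)
      (o2 ▸ Nat.coprime_two_right.2 ls.odd_l) with e | e
    · exact absurd (by simpa [sq] using e) c1
    · exact Nat.le_antisymm (Nat.le_of_dvd three_pos (o2 ▸ orderOf_dvd_of_pow_eq_one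
        (by rw [pow_succ, e, inv_mul_cancel]))) h3
  refine ⟨l3, ?_⟩
  have he := ls.eps
  by_contra h0
  obtain ⟨rfl, rfl, rfl, rfl⟩ : l = 3 ∧ d = 2 ∧ r = 7 ∧ k = 4 := by
    have := ls.d12; omega
  obtain ⟨-, -, b, hb, -, -, ob, -⟩ := f_inv ls
  have bb : b * b ≠ 1 := fun e =>
    absurd (ob ▸ orderOf_dvd_of_pow_eq_one ((pow_two b).trans e)) (by norm_num)
  obtain ⟨c, hc, oc⟩ := f_gen ls hb bb (by rw [ob]; norm_num)
  rw [ls.cent_k hb bb (by rw [ob]; norm_num)] at oc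
  have k : ∀ n, c ^ n = 1 → 2 * 4 ∣ n := fun n e => oc ▸ orderOf_dvd_of_pow_eq_one e
  rcases f_pow h hL cv hc (fun e => absurd (k 2 ((pow_two c).trans e)) (by norm_num))
    (by rw [oc]; norm_num) (n := 3) (by rw [oc]; norm_num) with e | e
  · exact absurd (k 2 (by simpa [pow_succ] using e)) (by norm_num)
  · exact absurd (k 4 (by rw [pow_succ, e, inv_mul_cancel])) (by norm_num)

theorem s3923 (hA : AStmt.{u}) (hB : BStmt.{u}) (hB' : BStmt'.{u}) (hC : CStmt.{u})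
    (hE : EStmt.{u}) (h : Hom G) (hq : IsQuasisimple G) :
    (¬ IsSimpleGroup G → ∃ (F : Type) (_ : Field F) (_ : Fintype F), Fintype.card F = 5 ∧
      Nonempty (G ≃* Matrix.SpecialLinearGroup (Fin 2) F)) ∧
    (IsSimpleGroup G → ∃ (F : Type) (_ : Field F) (_ : Fintype F),
      (Fintype.card F = 5 ∨ Fintype.card F = 7) ∧
      Nonempty (G ≃* Matrix.ProjectiveSpecialLinearGroup (Fin 2) F)) := by
  refine ⟨fun ns => ?_, fun hs => ?_⟩
  · obtain ⟨r, hr, π, cv⟩ := cv_two hA hB' hC h hq ns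
    obtain ⟨k, l, ls⟩ := cv_ls cv
    refine ⟨ZMod r, inferInstance, inferInstance, (ZMod.card r).trans (by
      have := f_num h inferInstance cv ls; omega), ⟨(MulEquiv.ofBijective π ⟨?_,
        MonoidHom.range_eq_top.1 cv.range⟩).symm⟩⟩
    exact (MonoidHom.ker_eq_bot_iff π).1 (cv.ker.resolve_left (by simp)).2
  · haveI := hq.1
    obtain ⟨r, hr, π, cv⟩ := cv_simple hA hB hC hE h (Group.IsPerfect.not_isMulCommutative G)
    obtain ⟨k, l, ls⟩ := cv_ls cv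
    refine ⟨ZMod r, inferInstance, inferInstance, by
      have := f_num h inferInstance cv ls
      rw [ZMod.card r]; omega, ⟨(QuotientGroup.quotientKerEquivOfSurjective π
        (MonoidHom.range_eq_top.1 cv.range)).symm.trans (QuotientGroup.quotientMulEquivOfEq ?_)⟩⟩
    exact (cv.ker.resolve_right (by simp)).2

end Cfsg.Agent.Hm
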