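/-
Hm, chapter F, part 3: the decomposition of a homogeneous group.
-/
import Cfsg.Agent.Hm.F2
import Cfsg.Agent.Hm.C1

set_option autoImplicit false
set_option linter.unusedSectionVars false
set_option linter.style.haveILetI false

namespace Cfsg.Agent.Hm

open Subgroup Cfsg Cfsg.Agent Cfsg.Agent.FT Cfsg.Agent.H4.SL2
open Cfsg.Agent.H6.Cyc (conj_mem Cv LS)
open Cfsg.Agent.H2 (pPrimeCoreOf CompIn SnIn)
open scoped commutatorElement

universe u

variable {G : Type u} [Group G] [Finite G]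

theorem f_comp_sq {L : Subgroup G} (hL : CompIn ⊤ L) :
    ∃ x ∈ L, x ∉ 𝐂(L) ∧ x * x ∈ pCoreOf 2 (⊤ : Subgroup G) := by
  obtain ⟨T, hT⟩ := exists_isSyl Nat.prime_two L
  obtain ⟨x, hx, x1, xx⟩ := f_exists_sq' (C := 𝐂(L)) hT.pgrp fun e =>
    H2.QS.not_isSolvable hL.2 (H6.Cyc.solv_of_npc (H6.Cyc.npc_frob hT fun X hX g hg _ =>
      cent_comm.1 (hX.trans e) hg.1))
  exact ⟨x, hT.le hx, x1, H2.le_pCoreOf_of_le_fittingOf (hT.pgrp.to_le inf_le_left)
    ((inf_le_inf_right 𝐂(L) hT.le).trans hL.inf_centralizer_le_fittingOf) ⟨mul_mem hx hx, xx⟩⟩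

theorem f_layer (hA : AStmt.{u}) (hB : BStmt'.{u}) (h : Hom G) [pf : Group.IsPerfect G]
    [Nontrivial G] : IsQuasisimple (layer G) := by
  have ol := hA G h
  have h1 : (⊤ : Subgroup G) ≤ 𝐂(fittingOf (⊤ : Subgroup G)) := by
    rw [cent_comm, H2.fittingOf_eq_iSup_pCoreOf]
    refine iSup_le fun ⟨p, hp⟩ => ?_
    change pCoreOf p ⊤ ≤ _
    by_cases p2 : p = 2
    · subst p2
      by_cases e : pCoreOf 2 (⊤ : Subgroup G) = ⊥
      · exact e ▸ bot_le
      obtain ⟨S, x, y, z, q, h2⟩ := f_perf hB h e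
      exact h2.trans (zpowers_le_of_mem (mem_cent.2 fun g _ => mem_center_iff.1 q.cen g))
    have hY := H2.isPGroup_pCoreOf p (⊤ : Subgroup G)
    have hN := (pCoreOf_normal p (⊤ : Subgroup G)).2
    rw [cent_comm]
    rcases ol.sc hp p2 hY with sc | ex
    · exact (pf.commutator_eq_top.ge.trans (commutator_mono hN hN)).trans
        (ol.der_cent hp p2 hY sc)
    · haveI : (pCoreOf p (⊤ : Subgroup G)).Normal := normal_iff_top_le.2 hN
      by_contra h0
      haveI := QuotientGroup.nontrivial_iff.2 (mt eq_top_iff.1 h0)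
      refine Group.IsPerfect.not_isSolvable (G ⧸ 𝐂(pCoreOf p (⊤ : Subgroup G)))
        (H1.isSolvable_of_isPGroup (p := 2) fun g => ⟨2, ?_⟩)
      obtain ⟨g, rfl⟩ := QuotientGroup.mk'_surjective _ g
      rw [← map_pow]
      exact (QuotientGroup.eq_one_iff _).2 (ex.four g (hN trivial))
  obtain ⟨L, hL, -⟩ := H2.exists_compIn_le_of_le_centralizer (SnIn.of_normal le_rfl
    (le_norm_self _)) h1 fun e => Group.IsPerfect.not_isNilpotent (⊤ : Subgroup G)
      (isNilpotent_of_le e (H2.isNilpotent_fittingOf ⊤))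
  have h2 : ∀ K, CompIn ⊤ K → K = L := fun K hK => by_contra fun ne => by
    obtain ⟨x, hx, x1, xx⟩ := f_comp_sq hL
    obtain ⟨y, hy, y1, yy⟩ := f_comp_sq hK
    have c1 := hK.le_centralizer_of_ne hL ne
    have k : x * y ∉ 𝐂(L) := fun e => x1 ((mul_mem_cancel_right (c1 hy)).1 e)
    have e0 : x * y * (x * y) = x * x * (y * y) :=
      (show Commute y x from (mem_cent.1 (c1 hy) x hx).symm).mul_mul_mul_comm x y
    by_cases e : pCoreOf 2 (⊤ : Subgroup G) = ⊥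
    · rw [e, mem_bot] at xx yy
      obtain ⟨φ, e1⟩ := P17.Hg.order h ((P4.orderOf_two (ne_of_mem_of_not_mem (one_mem _) x1).symm xx).trans
        (P4.orderOf_two (ne_of_mem_of_not_mem (one_mem _) k).symm (by rw [e0, xx, yy, mul_one])).symm)
      have h3 := H2.compIn_top_iff.2 (H2.isComponent_map_equiv φ (H2.compIn_top_iff.1 hL))
      have h4 : x * y ∈ L.map (φ : G →* G) := ⟨x, hx, e1⟩
      by_cases e2 : L.map (φ : G →* G) = L
      · exact y1 (cent_comm.1 c1 ((mul_mem_cancel_left hx).1 (e2 ▸ h4)))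
      · exact k (h3.le_centralizer_of_ne hL e2 h4)
    · obtain ⟨S, a, b, z, q, h2⟩ := f_perf hB h e
      have k1 : ∀ {M : Subgroup G} {w : G}, w ∉ 𝐂(M) → w * w ≠ 1 := fun {M w} hw ww => by
        rcases q.uniq w ww with rfl | rfl
        exacts [hw (one_mem _), hw (mem_cent.2 fun g _ => mem_center_iff.1 q.cen g)]
      exact k1 k (by rw [e0, (Cj.eq_or_of_mem_zpowers q.zz (h2 xx)).resolve_left (k1 x1),
        (Cj.eq_or_of_mem_zpowers q.zz (h2 yy)).resolve_left (k1 y1), q.zz])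
  rw [← H2.layerOf_top, le_antisymm ((H2.layerOf_eq_sSup ⊤).trans_le
    (sSup_le fun K hK => (h2 K hK).le)) hL.le_layerOf]
  exact hL.2

theorem f_char (hA : AStmt.{u}) (hB : BStmt'.{u}) (h : Hom G) (ns : ¬ Group.IsSolvable G) :
    ∃ L : Subgroup G, L.Characteristic ∧ IsQuasisimple L := by
  obtain ⟨n, hn⟩ : ∃ n, ∀ m, 𝐨(derivedSeries G n) ≤ 𝐨(derivedSeries G m) :=
    ⟨_, fun m => Function.argmin_le (fun n => 𝐨(derivedSeries G n)) m⟩
  haveI : Group.IsPerfect (derivedSeries G n) := isPerfect_iff.2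
    (eq_of_le_of_card_ge (der_le _) (hn (n + 1)))
  haveI : Nontrivial (derivedSeries G n) := (nontrivial_iff_ne_bot _).2 fun e => ns ⟨n, e⟩
  exact ⟨(layer _).map (derivedSeries G n).subtype, inferInstance, H2.QS.map_of_injective
    (subtype_injective _) (f_layer hA hB (P17.Hg.char h _))⟩

theorem f_cvL (hA : AStmt.{u}) (hB : BStmt.{u}) (hB' : BStmt'.{u}) (hC : CStmt.{u})
    (hE : EStmt.{u}) {L : Subgroup G} (h : Hom L) (hq : IsQuasisimple L) :
    ∃ (r : ℕ) (_ : Fact r.Prime) (π : SL (ZMod r) →* G) (d : ℕ), Cv r π L d := by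
  obtain ⟨r, hr, π, d, cv⟩ : ∃ (r : ℕ) (_ : Fact r.Prime) (π : SL (ZMod r) →* L) (d : ℕ),
      Cv r π ⊤ d := by
    by_cases hs : IsSimpleGroup L
    · obtain ⟨r, hr, π, cv⟩ := cv_simple hA hB hC hE h (H2.QS.not_isMulCommutative hq)
      exact ⟨r, hr, π, 1, cv⟩
    · obtain ⟨r, hr, π, cv⟩ := cv_two hA hB' hC h hq hs
      exact ⟨r, hr, π, 2, cv⟩
  refine ⟨r, hr, L.subtype.comp π, d, ?_, ?_, cv.r5⟩
  · rw [MonoidHom.range_comp, cv.range, ← MonoidHom.range_eq_map, range_subtype]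
  · rw [MonoidHom.ker_comp_of_injective _ _ L.subtype_injective]; exact cv.ker

section split

variable {r : ℕ} [hr : Fact r.Prime] {π : SL (ZMod r) →* G} {L : Subgroup G} {d k : ℕ}
  (h : Hom G) (hL : L.Characteristic) (cv : Cv r π L d) (ls : LS L d r k 3)
include h hL cv ls

theorem f_two {w : G} (hw : orderOf (w * w) ∣ d) : w ∈ L := by
  obtain ⟨-, -, i, hi, -, -, oi, -⟩ := f_inv ls
  have h1 : orderOf w ∣ orderOf i := orderOf_dvd_of_pow_eq_one (by
    rw [oi, pow_mul, pow_two, orderOf_dvd_iff_pow_eq_one.1 hw])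
  exact h.f_mem hL (pow_mem hi _) (orderOf_pow_orderOf_div (orderOf_pos i).ne' h1)

theorem f_odd {p : ℕ} (hp : p.Prime) (p2 : p ≠ 2) (h1 : p ∣ 𝐨(𝐂(L))) : ¬ p ∣ 𝐨(L) := fun h2 => by
  obtain ⟨a, ha, oa⟩ := exists_mem_orderOf_eq_prime hp h1
  obtain ⟨b, hb, ob⟩ := exists_mem_orderOf_eq_prime hp h2
  have := f_cen ls hb (h.f_mem inferInstance ha (oa.trans ob.symm))
  exact p2 ((Nat.prime_dvd_prime_iff_eq hp Nat.prime_two).1
    (ob ▸ this.trans (by rcases ls.d12 with rfl | rfl <;> norm_num)))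

theorem f_cent : 𝐂(L) ≤ pPrimeCoreOf 2 𝐂(L) ⊔ L := by
  obtain ⟨T, hT⟩ := exists_isSyl Nat.prime_two 𝐂(L)
  have h1 : T ≤ L := by_contra fun e => by
    obtain ⟨w, hw, w1, ww⟩ := f_exists_sq' hT.pgrp e
    exact w1 (f_two h hL cv ls (f_cen ls ww (hT.le (mul_mem hw hw))))
  exact ((H6.Cyc.npc_frob hT fun X hX g hg _ => cent_anti (hX.trans h1) hg.1).sdProd
    Nat.prime_two hT).sup.ge.trans (sup_le_sup_left h1 _)

theorem f_top : pPrimeCoreOf 2 𝐂(L) ⊔ L = ⊤ := by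
  set M := pPrimeCoreOf 2 𝐂(L) ⊔ L with hM
  have nL : ∀ K : Subgroup G, K ≤ 𝐍(L) := fun K => le_top.trans (normal_iff_top_le.1 inferInstance)
  have cj : ∀ g : G, L.map (MulAut.conj g).toMonoidHom = L := fun g =>
    characteristic_iff_map_eq.1 hL _
  have k0 : ∀ g : G, ∀ l ∈ L, (∀ x ∈ L, g * x * g⁻¹ = l * x * l⁻¹) → g ∈ M := fun g l hl e => by
    rw [← mul_mem_cancel_left (inv_mem (mem_sup_right hl : l ∈ M))]
    refine f_cent h hL cv ls (mem_cent.2 fun x hx => ?_)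
    calc x * (l⁻¹ * g) = l⁻¹ * (l * x * l⁻¹) * g := by group
      _ = _ := by rw [← e x hx]; group
  have k1 : ∀ g : G, g * g ∈ M := fun g => by
    obtain ⟨l, hl, e | e | e⟩ := cv_out cv (cj g) (cj g)
    · exact mul_mem (k0 g l hl e) (k0 g l hl e)
    · exact mul_mem (k0 g l hl e) (k0 g l hl e)
    · exact k0 _ l hl fun x hx => (e x hx) ▸ by simp [mul_assoc]
  obtain ⟨b, hb, i, hi, ob, iv, -, -⟩ := f_inv ls
  have b1 : b ≠ 1 := fun e => by rw [e, orderOf_one] at ob; omega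
  have k2 : 𝐂[b] ≤ M := le_of_forall_isSyl_le fun p hp R hR w hw => by
    by_cases p2 : p = 2
    · subst p2
      have h2 := H6.Cyc.relIndex_dvd_of_norm (zpowers_le_of_mem (k1 w)) (nL M)
      rw [hM, sup_comm, relIndex_sup_of_norm (nL _)] at h2
      have h3 := hR.pgrp.to_le (zpowers_le_of_mem (mul_mem hw hw))
      have h4 : w * w ∈ L := relIndex_eq_one.1 (Nat.eq_one_of_dvd_coprimes
        (P4.coprime_of_odd h3 (H6.Cyc.odd_core _)) (h2.trans (relIndex_dvd_card' _ _))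
        (relIndex_dvd_card' _ _)) (mem_zpowers _)
      refine mem_sup_right (f_two h hL cv ls (Nat.Coprime.dvd_of_dvd_mul_right (n := 3) ?_ ?_))
      · exact (H6.Cyc.coprime_ord Nat.prime_two hR.pgrp (mul_mem hw hw) (by norm_num)).symm
      · exact ls.cent_l hb b1 ob.dvd ▸ orderOf_dvd_card_of_mem
          (mem_inf.2 ⟨h4, hR.le (mul_mem hw hw)⟩)
    · exact zpowers_le_of_mem (pow_two w ▸ k1 w) (H6.Cyc.mem_zpowers_pow (H6.Cyc.coprime_ord hp
        hR.pgrp hw ((Nat.coprime_primes Nat.prime_two hp).2 (Ne.symm p2))))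
  have cb : 𝐨(zpowers b) = 3 := by rw [Nat.card_zpowers, ob]
  have hS : IsSyl 3 (zpowers b) L := ⟨zpowers_le_of_mem hb, isPGroup_of_card_prime cb, fun e => by
    have h1 := H1.card_mul_relIndex (zpowers_le_of_mem hb)
    rw [cb, ls.card, mul_comm, Nat.mul_left_inj three_ne_zero] at h1
    exact Nat.prime_three.one_lt.ne' (Nat.eq_one_of_dvd_coprimes ((((by norm_num : Nat.Coprime 2 3
      ).mul_left ls.cop_dl).mul_left ls.cop_rl).mul_left ls.cop_kl) (h1 ▸ e) dvd_rfl)⟩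
  refine top_le_iff.1 ((hS.frattini Nat.prime_three ⟨le_top, nL _⟩).ge.trans
    (sup_le le_sup_right fun g hg => ?_))
  rcases cv_semi cv (cj g) hb (ls.sq_ne b1 ob.dvd) (ls.not_r (ob.dvd.mul_left _))
    (zpowers_le_of_mem (self_mem_cent1 b) (conj_mem hg.2 (mem_zpowers b))) with e | e
  · exact k2 (mem_cent1_iff_conj.2 e)
  · rw [← mul_mem_cancel_left (inv_mem (mem_sup_right hi : i ∈ M))]
    refine k2 (mem_cent1_iff_conj.2 ?_)
    calc _ = i⁻¹ * (g * b * g⁻¹) * i := by group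
      _ = b := by rw [show g * b * g⁻¹ = b⁻¹ from e, ← iv]; group

end split

theorem s3924 (hA : AStmt.{u}) (hB : BStmt.{u}) (hB' : BStmt'.{u}) (hC : CStmt.{u})
    (hE : EStmt.{u}) (h : Hom G) :
    ∃ H K : Subgroup G, H.Normal ∧ K.Normal ∧ H ⊓ K = ⊥ ∧ H ⊔ K = ⊤ ∧
      (Nat.card H).Coprime (Nat.card K) ∧ Group.IsSolvable H ∧ (K = ⊥ ∨ IsQuasisimple K) ∧
      Hom H ∧ Hom K := by
  by_cases hs : Group.IsSolvable G
  · exact ⟨⊤, ⊥, inferInstance, inferInstance, inf_bot_eq _, sup_bot_eq _, by simp,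
      inferInstance, Or.inl rfl, P17.Hg.char h _, P17.Hg.char h _⟩
  obtain ⟨L, hL, hq⟩ := f_char hA hB' h hs
  obtain ⟨r, hr, π, d, cv⟩ := f_cvL hA hB hB' hC hE (P17.Hg.char h L) hq
  obtain ⟨k, l, ls⟩ := cv_ls cv
  obtain rfl := (f_num h hL cv ls).1
  haveI := Agent.L.pPrimeCore_characteristic (G := 𝐂(L)) Nat.prime_two
  haveI : (pPrimeCoreOf 2 𝐂(L)).Characteristic :=
    characteristic_of_characteristic_of_characteristic
  have hc : 𝐨(pPrimeCoreOf 2 𝐂(L)).Coprime 𝐨(L) := Nat.coprime_of_dvd fun p hp hd =>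
    f_odd h hL cv ls hp (ne_two_of_dvd (H6.Cyc.odd_core _) hd)
      (hd.trans (FT.card_dvd_of_le (H6.Cyc.core_le _)))
  exact ⟨_, L, inferInstance, inferInstance, H1.inf_eq_bot_of_coprime' hc, f_top h hL cv ls, hc,
    P4.solvable_of_odd (H6.Cyc.odd_core _), Or.inr hq, P17.Hg.char h _, P17.Hg.char h _⟩

end Cfsg.Agent.Hm
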