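/-
Hm, chapter E: the nonsolvable case, local facts.
-/
import Cfsg.Agent.Hm.E4
import Cfsg.Agent.Hm.F3

set_option autoImplicit false
set_option linter.unusedSectionVars false
set_option linter.style.haveILetI false

namespace Cfsg.Agent.Hm

open Subgroup Cfsg Cfsg.Agent Cfsg.Agent.FT
open Cfsg.Agent.P4 (odd_iff_not_dvd Max2)
open Cfsg.Agent.P5 (V4 Tri)
open Cfsg.Agent.P7 (V2)
open Cfsg.Agent.P17 (Hg)
open Cfsg.Agent.H2 (pPrimeCoreOf)
open Cfsg.Agent.H6.Cyc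
open scoped commutatorElement

universe u

variable {G : Type u} [Group G] [Finite G]

namespace SD

variable {S : Subgroup G} {a t s : G} (h : SD S a t s)
include h

theorem exists_ls (hA : AStmt.{u}) (hB : BStmt'.{u}) (hC : CStmt.{u}) : LS (Lz t) 2 5 2 3 ∧
    ∀ g ∈ 𝐂[t], ∃ l ∈ Lz t, l⁻¹ * g ∈ 𝐂(Lz t) ∨ l⁻¹ * (g * g) ∈ 𝐂(Lz t) := by
  obtain ⟨K, hK, hq⟩ := f_char hA hB h.hom_L h.solv
  replace hq := H2.QS.map_of_injective (Lz t).subtype_injective hq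
  obtain ⟨R, hR⟩ := exists_isSyl Nat.prime_two (K.map (Lz t).subtype)
  obtain ⟨y, hy, yy⟩ := h.root_L (hR.le.trans (map_subtype_le K)) hR.pgrp fun e =>
    H2.QS.not_isSolvable hq (solv_of_npc (npc_cyc hR (isCyclic_of_le e inferInstance)))
  obtain ⟨y, hy', rfl⟩ := hR.le hy
  rw [le_antisymm (map_subtype_le K) (Lz_le fun x e => ⟨⟨x, mem_Lz e⟩, Hom.f_mem h.hom_L hK hy' (by
    rw [← orderOf_coe, ← orderOf_coe, order_four e h.z1 h.zz]; exact order_four yy h.z1 h.zz),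
      rfl⟩)] at hq
  obtain ⟨r, hr, π, cv⟩ := cv_two hA hB hC h.hom_L hq fun e => cent1_ne_top'
    (H2.QS.not_isMulCommutative hq) (x := ⟨t, h.tL⟩) (fun e => h.z1 (congrArg Subtype.val e))
    (eq_top_iff.2 fun g _ => mem_cent1.2 (Subtype.ext (mem_cent1.1 (Lz_H t g.2))))
  obtain ⟨-, -, k, l, ls⟩ := dStmt _ r π ⊤ 2 cv
  obtain rfl : r = 5 := by have := (f_num h.hom_L inferInstance cv ls).2; omega
  obtain ⟨-, h1, k, l, ls⟩ := dStmt G 5 ((Lz t).subtype.comp π) (Lz t) 2 ⟨by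
    rw [MonoidHom.range_comp, cv.range, ← MonoidHom.range_eq_map, range_subtype], by
    rw [MonoidHom.ker_comp_of_injective _ _ (Lz t).subtype_injective]; exact cv.ker, cv.r5⟩
  obtain ⟨rfl, rfl⟩ : k = 2 ∧ l = 3 := by have := ls.eps; have := ls.ev; omega
  refine ⟨ls, fun g hg => ?_⟩
  have h2 := Lz_map (MulAut.conj g) (mem_cent1_iff_conj.1 hg)
  obtain ⟨l, hl, h3⟩ := h1 _ _ h2 h2
  have key : ∀ c : G, (∀ x ∈ Lz t, c * x * c⁻¹ = l * x * l⁻¹) → l⁻¹ * c ∈ 𝐂(Lz t) := fun c e =>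
    mem_cent_iff_cent1.2 fun x hx => mem_cent1_comm.1 (mem_cent1_iff_conj.2 (by
      rw [cj2, e x hx]; group))
  exact ⟨l, hl, h3.elim (fun e => Or.inl (key g e)) fun e => e.imp (key g)
    fun e => key _ fun x hx => (cj2 g g x).trans (e x hx)⟩

theorem not_CL {j : G} (hj : j ∈ 𝐂(Lz t)) (jj : j * j = 1) : j = 1 ∨ j = t := by
  by_contra! h0
  have v : V4 t j := ⟨h.z1, h0.1, h0.2.symm, h.zz, jj, mem_cent1.1 (cent_le_cent1 h.tL hj)⟩
  exact h.z1 (h.ww.symm.trans (v.sq (h.four v (h.syl.pgrp.to_le (zpowers_le_of_mem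
    (mul_mem h.xS h.sS))) (zpowers_le_of_mem (P7.V4.le_cent_iff.2 ⟨sq_cent h.ww,
      mem_cent_iff_cent1.1 hj (mem_Lz h.ww)⟩)) (mem_zpowers _))))

variable (ls : LS (Lz t) 2 5 2 3)
include ls

theorem out_LC {j : G} (hj : j ∈ 𝐂[t]) (j1 : j ≠ 1) (jt : j ≠ t) (jj : j * j = 1) :
    j ∉ Lz t ⊔ 𝐂(Lz t) := fun e => by
  obtain ⟨M, hM, h1, h2⟩ := h.exists_M hj j1 jt jj
  refine h1 (sup_le h2 (le_of_forall_isSyl_le fun p hp P hP g hg => ?_) e)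
  have h3 := cent_le_cent1 h.tL (hP.le hg)
  by_cases p2 : p = 2
  · subst p2
    by_cases gg : g * g = 1
    · rcases h.not_CL (hP.le hg) gg with rfl | rfl
      exacts [one_mem _, h2 h.tL]
    · obtain ⟨y, hy, yy⟩ := h.root h3 (hP.pgrp.to_le (zpowers_le_of_mem hg)) gg
      haveI := Fact.mk ls.rp
      exact absurd (order_four yy h.z1 h.zz ▸ f_cen ls (mem_Lz yy)
        (zpowers_le_of_mem (hP.le hg) hy)) (by norm_num)
  · exact mem_of_sq_odd ((mul2 hM h3 h3).2 Iff.rfl) (Nat.coprime_two_left.1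
      (coprime_ord hp hP.pgrp hg ((Nat.coprime_primes Nat.prime_two hp).2 (Ne.symm p2))))

theorem not_five {j x : G} (hj : j ∈ 𝐂[t]) (j1 : j ≠ 1) (jt : j ≠ t) (jj : j * j = 1)
    (hx : x ∈ Lz t) (ox : orderOf x = 5) {i : G} (hi : i ∈ Lz t) : j * i ∉ 𝐂[x] := fun e =>
  h.out_LC ls hj j1 jt jj ((mul_mem_cancel_right (mem_sup_left hi)).1 (sup_le_sup_right
    (zpowers_le_of_mem hx) _ ((ls.unip _ (zpowers_le_of_mem hx) ((Nat.card_zpowers x).trans ox)).2.2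
      ⟨H_norm_Lz t (mul_mem hj (Lz_H t hi)), by rwa [cent_zpowers]⟩)))

theorem I4 (j x : G) (jj : j * j = 1) (ox : orderOf x = 5) : j * x * j⁻¹ ≠ x⁻¹ := fun e => by
  obtain ⟨y, hy, oy⟩ := exists_mem_orderOf_eq_prime ls.rp ls.r_dvd
  obtain ⟨φ, rfl⟩ := h.hom.order (ox.trans oy.symm)
  obtain ⟨h1, h2, -⟩ := ls.unip _ (zpowers_le_of_mem hy) ((Nat.card_zpowers _).trans oy)
  rw [cent_zpowers] at h1 h2
  obtain ⟨z, hz, zz, h3⟩ := lemInv h.z1 h.zz (h.syl_t (Lz_H t hy) (fun y hy yy => absurd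
    (order_four yy h.z1 h.zz ▸ h1 ▸ orderOf_dvd_card_of_mem (mem_inf.2 ⟨mem_Lz yy, hy⟩))
    (by norm_num)) fun j hj hj' jj => by
      by_contra! h0
      exact h.not_five ls hj' h0.1 h0.2 jj hy oy (one_mem _) (by rwa [mul_one])) (v := φ j)
    (by rw [← map_mul, jj, map_one]) (by rw [← map_inv, ← map_mul, ← map_mul, e, map_inv])
  have h4 := ne_one_of_inv (oy ▸ by decide) (oy ▸ by decide) h3
  have h5 : (𝐂[φ x] : Subgroup G).relIndex (Lz t ⊓ 𝐍(zpowers (φ x))) = 2 := by omega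
  obtain ⟨i, hi, h6⟩ := not_forall₂.1 fun e => by
    rw [relIndex_eq_one.2 e] at h5; exact absurd h5 (by norm_num)
  refine h.not_five ls hz (fun e => h4 (e ▸ one_mem _)) (fun e => h4 (e ▸ mem_cent1_comm.1
    (Lz_H t hy))) zz hy oy hi.1 (mem_cent1_iff_conj.2 ?_)
  rw [cj2, (H6.Cyc.cent_or_inv (oy ▸ ls.rp) hi.2 ((mul2 h5 hi hi).2 Iff.rfl)).resolve_left h6,
    ← conj_inv, h3, inv_inv]

theorem I3 {j q r : G} (hj : j ∈ 𝐂[t]) (j1 : j ≠ 1) (jt : j ≠ t) (jj : j * j = 1) (qq : q * q = t)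
    (rr : r * r = t) (hr : r * q * r⁻¹ = q⁻¹) : j * q * j * q⁻¹ = 1 ∨ j * q * j * q⁻¹ = t ∨
      ((j * q * j * q⁻¹) * (j * q * j * q⁻¹) = t ∧ j * q * j * q⁻¹ ∈ zpowers q ⊔ zpowers r) ∨
      (j * q * j * q⁻¹ * t) ^ 3 = 1 := by
  have h0 := conj_mem (H_norm_Lz t hj) (mem_Lz qq)
  have ji := P5.inv_eq_of_sq jj
  rw [ji] at h0
  have h1 := mul_mem h0 (inv_mem (mem_Lz qq))
  have h2 : j * (j * q * j * q⁻¹) * j = (j * q * j * q⁻¹)⁻¹ := by
    simp only [mul_inv_rev, ji, ← mul_assoc, jj, one_mul, inv_inv]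
  by_cases ww : j * q * j * q⁻¹ * (j * q * j * q⁻¹) = 1
  · exact (h.uniq_L h1 ww).imp_right Or.inl
  refine Or.inr (Or.inr ?_)
  obtain ⟨-, h3, -⟩ := ls.cent _ h1 ww fun e => by
    obtain ⟨x, hx, ox⟩ := exists_mem_orderOf_eq_prime ls.rp (e.trans (Nat.card_zpowers _).symm.dvd)
    obtain ⟨k, rfl⟩ := hx
    refine h.I4 ls j _ jj ox ?_
    rw [← conj_zpow, ji, h2, inv_zpow]
  have h4 := P5.pow_card_of_mem (mem_inf.2 ⟨h1, self_mem_cent1 _⟩)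
  have ct : Commute (j * q * j * q⁻¹) t := (mem_cent1.1 (Lz_H t h1)).symm
  have t3 : t ^ 3 = t := by rw [pow_succ, pow_two, h.zz, one_mul]
  rcases h3 with e | e <;> rw [e] at h4
  · refine Or.inr ?_
    rcases h.uniq_L (pow_mem h1 3) (by rwa [← pow_add]) with e' | e'
    · obtain ⟨M, hM, h5, h6⟩ := h.exists_M hj j1 jt jj
      have h7 := mul_mem hj (sq_cent qq)
      have h8 : (j * q) ^ 3 ∈ M := h6 (mem_Lz (by
        rw [← pow_two, ← pow_mul, mul_comm, pow_mul, show (j * q) ^ 2 = j * q * j * q⁻¹ * t by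
          rw [← qq, pow_two]; group, ct.mul_pow, e', t3, one_mul]))
      rw [pow_succ, pow_two, mul_mem_cancel_left ((mul2 hM h7 h7).2 Iff.rfl),
        mul_mem_cancel_right (h6 (mem_Lz qq))] at h8
      exact absurd h8 h5
    · rw [ct.mul_pow, e', t3, h.zz]
  · have h5 := (h.uniq_L (mul_mem h1 h1) (by
      rwa [← pow_two, ← pow_two, ← pow_mul])).resolve_left ww
    refine Or.inl ⟨h5, mul_mem ((mul_mem_cancel_left (inv_mem (mem_sup_right (mem_zpowers r)))).1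
      (mem_sup_left ?_)) (inv_mem (mem_sup_left (mem_zpowers q)))⟩
    have o4 := order_four qq h.z1 h.zz
    rw [eq_of_le_of_card_ge (zpowers_le_of_mem (mem_inf.2 ⟨mem_Lz qq, self_mem_cent1 q⟩)) (by
      rw [ls.cent_k (mem_Lz qq) (qq ▸ h.z1) o4.dvd, Nat.card_zpowers, o4])]
    refine mem_inf.2 ⟨mul_mem (inv_mem (mem_Lz rr)) h0, mem_cent1_iff_conj.2 ?_⟩
    have h6 : j * q * j * (j * q * j) = t := by
      rw [← mem_cent1_iff_conj.1 hj, ← qq, ji]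
      simp only [← mul_assoc]; rw [mul_assoc (j * q) j j, jj, mul_one]
    rw [← h6] at h5
    generalize j * q * j = y at h5 ⊢
    have h7 : y * q * y⁻¹ = q⁻¹ := by
      calc _ = y⁻¹ * (y * y) * q * y⁻¹ := by group
        _ = _ := by rw [← h5]; group
    rw [cj2, h7, ← hr]; group

variable (hn : ∀ g ∈ 𝐂[t], ∃ l ∈ Lz t, l⁻¹ * g ∈ 𝐂(Lz t) ∨ l⁻¹ * (g * g) ∈ 𝐂(Lz t))
include hn

theorem three_L {g : G} (hg : g ∈ 𝐂[t]) (h3 : IsPGroup 3 (zpowers g)) : g ∈ Lz t := by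
  have h1 : ¬ 3 ∣ 𝐨(𝐂(Lz t)) := fun e => by
    obtain ⟨y, hy, oy⟩ := exists_mem_orderOf_eq_prime Nat.prime_three e
    haveI := Fact.mk ls.rp
    obtain ⟨b, hb, i, hi, ob, h2, -⟩ := f_inv ls
    have h4 : zpowers y ≤ 𝐂(zpowers b) := zpowers_le_of_mem (cent_anti (zpowers_le_of_mem hb) hy)
    have h5 := mem_cent1_comm.1 (cent_le_cent1 hi hy)
    refine ne_one_of_inv (ob ▸ by decide) (ob ▸ by decide) h2 (cent_le_cent1
      (mem_sup_right (mem_zpowers b)) (h.ol.cent_of_mem Nat.prime_three (by norm_num) (isPGroup_sup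
        (isPGroup_of_card_prime ((Nat.card_zpowers y).trans oy)) (isPGroup_of_card_prime
          ((Nat.card_zpowers b).trans ob)) (h4.trans (cent_le_norm _))) ?_
      (mem_sup_left (mem_zpowers y)) (fun e => by simp [e] at oy) h5))
    exact zpowers_le.1 (H1.le_normalizer_sup (zpowers_le_of_mem (St.KN y h5))
      (zpowers_le_of_mem (mem_norm_zpowers (h2 ▸ inv_mem (mem_zpowers b)))))
  obtain ⟨k, hk⟩ := exists_card_eq_pow Nat.prime_three h3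
  have key : ∀ c ∈ zpowers g, ∀ l ∈ Lz t, l⁻¹ * c ∈ 𝐂(Lz t) → c ∈ Lz t := fun c hc l hl e => by
    refine (mul_mem_cancel_left (inv_mem hl)).1 (zpowers_le_of_mem ?_ (mem_zpowers_pow
      (((Nat.prime_three.coprime_iff_not_dvd.2 h1).coprime_dvd_right
        (orderOf_dvd_card_of_mem e)).pow_left k)))
    have h2 := P5.pow_card_of_mem hc
    rw [hk, ← mul_inv_cancel_left l c, (show Commute l _ from mem_cent.1 e l hl).mul_pow] at h2
    exact eq_inv_of_mul_eq_one_right h2 ▸ inv_mem (pow_mem hl _)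
  obtain ⟨l, hl, e | e⟩ := hn g hg
  · exact key g (mem_zpowers g) l hl e
  · exact mem_of_sq_odd (key _ (mul_mem (mem_zpowers g) (mem_zpowers g)) l hl e)
      (Nat.card_zpowers g ▸ hk ▸ Odd.pow (by decide))

theorem I2 (P : Subgroup G) (hP : P ≤ 𝐂[t]) (h3 : IsPGroup 3 P) : 𝐨(P) ≤ 3 := by
  obtain ⟨k, hk⟩ := exists_card_eq_pow Nat.prime_three h3
  have h1 := FT.card_dvd_of_le fun g hg => h.three_L ls hn (hP hg) (h3.to_le (zpowers_le_of_mem hg))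
  rw [ls.card, hk] at h1
  rcases k with _ | _ | k
  · omega
  · omega
  · exact absurd ((pow_dvd_pow 3 (by omega : 2 ≤ k + 1 + 1)).trans h1) (by norm_num)

theorem I1 : ∃ ρ ∈ 𝐂(V2 t s), orderOf ρ = 3 ∧
    ∀ b ∈ 𝐂(V2 t s), IsPGroup 3 (zpowers b) → b ∈ zpowers ρ := by
  obtain ⟨b, hb, ob⟩ := exists_mem_orderOf_eq_prime Nat.prime_three ls.l_dvd
  obtain ⟨j, hj, hj', jj, j1, jt⟩ : ∃ j ∈ 𝐂[b], j ∈ 𝐂[t] ∧ j * j = 1 ∧ j ≠ 1 ∧ j ≠ t := by
    by_contra! h0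
    exact h.s3 ob (h.syl_t (Lz_H t hb) (fun y hy yy => absurd (order_four yy h.z1 h.zz ▸
      ls.cent_l hb (fun e => by simp [e] at ob) ob.dvd ▸ orderOf_dvd_card_of_mem
        (mem_inf.2 ⟨mem_Lz yy, hy⟩)) (by norm_num)) fun j h1 h2 jj =>
          or_iff_not_imp_left.2 (h0 j h1 h2 jj))
  obtain ⟨g, e1, e2⟩ := h.pair ⟨h.z1, j1, jt.symm, h.zz, jj, mem_cent1.1 hj'⟩
  have h1 : g⁻¹ * b * g ∈ 𝐂(V2 t s) := by
    rw [← mem_conj, ← cent_conj, ← V2_conj, e1, e2]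
    exact P7.V4.le_cent_iff.2 ⟨Lz_H t hb, mem_cent1_comm.1 hj⟩
  have o3 : orderOf (g⁻¹ * b * g) = 3 := by simpa [ob] using ord_conj b g⁻¹
  have key : ∀ y ∈ 𝐂(V2 t s), IsPGroup 3 (zpowers y) → y ∈ pPrimeCoreOf 2 𝐂(V2 t s) ⊓ Lz t :=
    fun y hy h3 => ⟨le_core (h.npc_V h.sm.v4) (zpowers_le_of_mem hy) (by
      obtain ⟨k, hk⟩ := exists_card_eq_pow Nat.prime_three h3
      exact hk ▸ Odd.pow (by decide)) (mem_zpowers y),
      h.three_L ls hn (P7.V4.le_cent_iff.1 hy).1 h3⟩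
  refine ⟨_, h1, o3, fun y hy h3 => ?_⟩
  rw [eq_of_le_of_card_ge (zpowers_le_of_mem (key _ h1 (isPGroup_of_card_prime
    ((Nat.card_zpowers _).trans o3)))) ?_]
  · exact key y hy h3
  have h2 := (odd_core (G := G) 𝐂(V2 t s)).of_dvd_nat (FT.card_dvd_of_le (inf_le_left (b := Lz t)))
  have h4 := ls.card ▸ FT.card_dvd_of_le (inf_le_right (a := pPrimeCoreOf 2 𝐂(V2 t s)) (b := Lz t))
  have h5 : ¬ 5 ∣ 𝐨((pPrimeCoreOf 2 𝐂(V2 t s) ⊓ Lz t : Subgroup G)) := fun e => by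
    obtain ⟨x, hx, ox⟩ := exists_mem_orderOf_eq_prime ls.rp e
    exact h.not_five ls (h.sm.m.le_cent h.sS) h.sm.v4.s1 h.sm.v4.ts.symm h.ss hx.2 ox (one_mem _)
      (by rw [mul_one]; exact mem_cent1_comm.1 (P7.V4.le_cent_iff.1 (core_le _ hx.1)).2)
  rw [Nat.card_zpowers, o3]
  exact Nat.le_of_dvd three_pos ((((Nat.coprime_two_right.2 h2).pow_right 3).mul_right
    (ls.rp.coprime_iff_not_dvd.2 h5).symm).dvd_of_dvd_mul_left h4)

end SD

end Cfsg.Agent.Hm
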