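/-
Hm, chapter E: semidihedral Sylow subgroups do not occur.
-/
import Cfsg.Agent.Hm.E5
import Cfsg.Agent.Hm.E6

set_option autoImplicit false

namespace Cfsg.Agent.Hm

universe u

theorem eStmt (hA : AStmt.{u}) (hB : BStmt'.{u}) (hC : CStmt.{u}) : EStmt.{u} :=
  fun _ _ _ hom ol hs na _ _ _ _ m aa hd => by
  have h : SD _ _ _ _ := ⟨⟨m, hs, na, aa⟩, hom, ol, hd⟩
  obtain ⟨ls, hn⟩ := h.exists_ls hA hB hC
  refine h.final (h.I1 ls hn) (fun z z1 zz => ?_) (fun z j q r z1 zz => ?_) (h.I4 ls)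
  · obtain ⟨_, _, _, h'⟩ := h.at_inv z1 zz
    obtain ⟨ls', hn'⟩ := h'.exists_ls hA hB hC
    exact h'.I2 ls' hn'
  · obtain ⟨_, _, _, h'⟩ := h.at_inv z1 zz
    exact h'.I3 (h'.exists_ls hA hB hC).1

end Cfsg.Agent.Hm
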